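import Cfsg.Statements.S0013
import Cfsg.Agent.Solv.Nilpotent

set_option autoImplicit false
set_option linter.style.haveILetI false
open Cfsg

namespace Cfsg.Agent.S0013

/-- In a finite p-group the Frattini subgroup is the smallest normal subgroup with elementary abelian quotient: it lies below any normal subgroup containing all commutators and all p-th powers. -/
theorem result {G : Type*} [Group G] [Finite G] (p : ℕ) [Fact p.Prime]
    (hG : IsPGroup p G) (N : Subgroup G) [N.Normal] (hcomm : commutator G ≤ N) (hpow : ∀ x : G, x ^ p ∈ N) :
    frattini G ≤ N := by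
  have hc : ∀ u v : G ⧸ N, u * v = v * u := by
    intro u v
    induction u using QuotientGroup.induction_on with
    | H u =>
    induction v using QuotientGroup.induction_on with
    | H v =>
    rw [← QuotientGroup.mk_mul, ← QuotientGroup.mk_mul, QuotientGroup.eq]
    have := hcomm (Subgroup.commutator_mem_commutator (Subgroup.mem_top v⁻¹) (Subgroup.mem_top u⁻¹))
    simpa [commutatorElement_def, mul_assoc] using this
  letI : CommGroup (G ⧸ N) := { (inferInstance : Group (G ⧸ N)) with mul_comm := hc }
  have hbot : frattini (G ⧸ N) = ⊥ := Solv.frattini_eq_bot_of_elementary (p := p) fun u => by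
    induction u using QuotientGroup.induction_on with
    | H u => rw [← QuotientGroup.mk_pow, QuotientGroup.eq_one_iff]; exact hpow u
  intro x hx
  have h : QuotientGroup.mk' N x ∈ frattini (G ⧸ N) :=
    frattini_le_comap_frattini_of_surjective (QuotientGroup.mk'_surjective N) hx
  rw [hbot, Subgroup.mem_bot] at h
  exact (QuotientGroup.eq_one_iff x).mp h

end Cfsg.Agent.S0013
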