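import Cfsg.Statements.S0868
import Cfsg.Agent.Char.Irr
import Cfsg.Agent.Char.Induced
import Cfsg.Agent.Char.Brauer
import Mathlib

set_option autoImplicit false
open scoped ComplexConjugate
open Cfsg
set_option maxHeartbeats 1000000
open scoped ComplexConjugate

namespace Cfsg.Agent.S0868

theorem coset_avg {G : Type*} [Group G] [Finite G] (N : Subgroup G) [N.Normal] [Fintype N] (ξ : Cfsg.IrrCharacter G) :
    (∀ g : G, (Nat.card N : ℂ)⁻¹ * ∑ n : N, (ξ : G → ℂ) ((n : G) * g) = (ξ : G → ℂ) g) ∨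
      ∀ g : G, (Nat.card N : ℂ)⁻¹ * ∑ n : N, (ξ : G → ℂ) ((n : G) * g) = 0 := by
  classical
  obtain ⟨d, ρ, hρ, he⟩ := ξ.2
  haveI := hρ
  have hN : (Nat.card N : ℂ) ≠ 0 := by exact_mod_cast Nat.card_pos.ne'
  set E : Module.End ℂ (Fin d → ℂ) := (Nat.card N : ℂ)⁻¹ • ∑ n : N, ρ (n : G) with hE
  have hEn : ∀ m : N, ρ (m : G) * E = E := fun m => by
    rw [hE, mul_smul_comm, Finset.mul_sum]
    congr 1
    simp only [← map_mul]
    exact Equiv.sum_comp (Equiv.mulLeft m) (fun n : N => ρ (n : G))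
  have hcomm : ∀ g : G, E * ρ g = ρ g * E := fun g => by
    rw [hE, mul_smul_comm, smul_mul_assoc, Finset.mul_sum, Finset.sum_mul]
    congr 1
    simp only [← map_mul]
    refine Fintype.sum_equiv (Cfsg.Agent.Char.conjEquiv N g⁻¹).toEquiv _ _ fun n => ?_
    congr 1
    show (n : G) * g = g * (g⁻¹ * n * g⁻¹⁻¹)
    group
  obtain ⟨c, hc⟩ := Cfsg.Agent.Char.exists_smul_id_of_commute ρ E hcomm
  have hEE : E * E = E := by
    conv_lhs => arg 1; rw [hE]
    rw [smul_mul_assoc, Finset.sum_mul, Finset.sum_congr rfl (fun n _ => hEn n), Finset.sum_const, Finset.card_univ,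
      ← Nat.cast_smul_eq_nsmul ℂ, smul_smul, ← Nat.card_eq_fintype_card, inv_mul_cancel₀ hN, one_smul]
  have hcc : c * c = c := by
    rw [hc, smul_mul_smul_comm] at hEE
    have h := congrArg (LinearMap.trace ℂ (Fin d → ℂ)) hEE
    rw [show (LinearMap.id : Module.End ℂ (Fin d → ℂ)) * LinearMap.id = LinearMap.id from rfl,
      map_smul, map_smul, LinearMap.trace_id, Module.finrank_fin_fun, smul_eq_mul, smul_eq_mul] at h
    refine mul_right_cancel₀ ?_ h
    have := Cfsg.Agent.Char.finrank_pos_of_isIrreducible ρ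
    rw [Module.finrank_fin_fun] at this
    exact_mod_cast this.ne'
  have key : ∀ g : G, (Nat.card N : ℂ)⁻¹ * ∑ n : N, (ξ : G → ℂ) ((n : G) * g) = c * (ξ : G → ℂ) g := by
    intro g
    rw [← he]
    show _ * ∑ n : N, LinearMap.trace ℂ _ (ρ ((n : G) * g)) = c * LinearMap.trace ℂ _ (ρ g)
    rw [← map_sum, ← smul_eq_mul, ← map_smul]
    simp only [map_mul]
    rw [← Finset.sum_mul, ← smul_mul_assoc, ← hE, hc, smul_mul_assoc, map_smul, smul_eq_mul]
    rfl
  rcases eq_or_ne c 0 with h0 | h0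
  · exact Or.inr fun g => by rw [key, h0, zero_mul]
  · exact Or.inl fun g => by rw [key, (mul_eq_left₀ h0).1 hcc, one_mul]

/-- The averaged product expanded over the characters that are constant on cosets. -/
theorem avg_expand {G : Type*} [Group G] [Fintype G] (N : Subgroup G) [N.Normal] [Fintype N] (χ ψ : G → ℂ)
    (hχ : Cfsg.IsCharacter G χ) (hψ : Cfsg.IsIrrCharacter G ψ) (hχi : Cfsg.IsIrrCharacter G χ) :
    ∃ (S : Finset (Cfsg.IrrCharacter G)) (c : Cfsg.IrrCharacter G → ℕ),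
      (∀ ξ ∈ S, ∀ (n : N) (g : G), (ξ : G → ℂ) ((n : G) * g) = (ξ : G → ℂ) g) ∧
      (∀ ξ : Cfsg.IrrCharacter G, Cfsg.classInner (fun g => ψ g * conj (χ g)) (ξ : G → ℂ) = (c ξ : ℂ)) ∧
      (fun g => (Nat.card N : ℂ)⁻¹ * ∑ n : N, ψ ((n : G) * g) * conj (χ ((n : G) * g)))
        = ∑ ξ ∈ S, (c ξ : ℂ) • (ξ : G → ℂ) := by
  classical
  have hf : Cfsg.IsCharacter G (fun g => ψ g * conj (χ g)) :=
    Cfsg.Agent.Char.isCharacter_mul (Cfsg.Agent.Char.isCharacter_of_isIrrCharacter hψ)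
      (Cfsg.Agent.Char.isCharacter_of_isIrrCharacter (Cfsg.Agent.Char.isIrrCharacter_conj hχi))
  choose c hc using fun ξ : Cfsg.IrrCharacter G => Cfsg.Agent.Char.exists_nat_classInner hf ξ
  set S := Finset.univ.filter fun ξ : Cfsg.IrrCharacter G =>
    ∀ g : G, (Nat.card N : ℂ)⁻¹ * ∑ n : N, (ξ : G → ℂ) ((n : G) * g) = (ξ : G → ℂ) g with hS
  refine ⟨S, c, fun ξ hξ m g => ?_, hc, ?_⟩
  · have h := (Finset.mem_filter.1 hξ).2
    rw [← h, ← h g]
    congr 1
    refine Fintype.sum_equiv (Equiv.mulRight m) _ _ fun n => ?_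
    simp [mul_assoc]
  · funext g
    have hexp := Cfsg.Agent.Char.classFunction_expand (Cfsg.Agent.Char.isClassFunction_of_isCharacter hf)
    have e : ∀ n : N, ψ ((n : G) * g) * conj (χ ((n : G) * g)) =
        ∑ ξ : Cfsg.IrrCharacter G, (c ξ : ℂ) * (ξ : G → ℂ) ((n : G) * g) := fun n => by
      have h := congrFun hexp ((n : G) * g)
      simp only [Finset.sum_apply, Pi.smul_apply, smul_eq_mul, hc] at h
      exact h
    simp only [e, Finset.sum_apply, Pi.smul_apply, smul_eq_mul]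
    rw [Finset.sum_comm, Finset.mul_sum, ← Finset.sum_filter_add_sum_filter_not Finset.univ
      (fun ξ : Cfsg.IrrCharacter G => ∀ g : G, (Nat.card N : ℂ)⁻¹ * ∑ n : N, (ξ : G → ℂ) ((n : G) * g) = (ξ : G → ℂ) g)]
    rw [Finset.sum_eq_zero (s := Finset.univ.filter fun ξ : Cfsg.IrrCharacter G => ¬ ∀ g : G,
      (Nat.card N : ℂ)⁻¹ * ∑ n : N, (ξ : G → ℂ) ((n : G) * g) = (ξ : G → ℂ) g) (fun ξ hξ => ?_), add_zero]
    · refine Finset.sum_congr rfl fun ξ hξ => ?_
      rw [← Finset.mul_sum, mul_left_comm, (Finset.mem_filter.1 hξ).2 g]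
    · rw [← Finset.mul_sum, mul_left_comm,
        ((coset_avg N ξ).resolve_left (Finset.mem_filter.1 hξ).2) g, mul_zero]

/-- Let N be a normal subgroup of the finite group G, χ an irreducible character of G whose restriction ϑ to N is irreducible, and ψ an irreducible character of G. Define η on G by η g = (1 / order of N) * Σ over n in N of ψ (n * g) * conj (χ (n * g)). Then: if the restriction of ψ to N has nonzero inner product with ϑ, η is an irreducible character of G; if that inner product is zero, η vanishes identically; and if ψ = χ then η is identically 1. -/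
theorem result {G : Type*} [Group G] [Fintype G] (N : Subgroup G) [N.Normal] [Fintype N] (χ : G → ℂ) (hχ : Cfsg.IsIrrCharacter G χ) (hχN : Cfsg.IsIrrCharacter N (fun n : N => χ n)) (ψ : G → ℂ) (hψ : Cfsg.IsIrrCharacter G ψ) (η : G → ℂ) (hη : η = fun g => (Nat.card N : ℂ)⁻¹ * ∑ n : N, ψ ((n : G) * g) * conj (χ ((n : G) * g))) : (Cfsg.classInner (fun n : N => ψ n) (fun n : N => χ n) ≠ 0 → Cfsg.IsIrrCharacter G η) ∧ (Cfsg.classInner (fun n : N => ψ n) (fun n : N => χ n) = 0 → η = 0) ∧ (ψ = χ → η = fun _ => 1) := by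
  classical
  subst hη
  let X : Cfsg.IrrCharacter G := ⟨χ, hχ⟩
  let Ψ : Cfsg.IrrCharacter G := ⟨ψ, hψ⟩
  have hNc : (Nat.card N : ℂ) ≠ 0 := by exact_mod_cast Nat.card_pos.ne'
  have hone : ∀ φ : G → ℂ, (fun g => (Nat.card N : ℂ)⁻¹ * ∑ n : N, φ ((n : G) * g) * conj (χ ((n : G) * g))) 1
      = Cfsg.classInner (fun n : N => φ n) (fun n : N => χ n) := fun φ => by
    simp only [mul_one, Cfsg.classInner]
  -- the case ψ = χ
  have hself : ∀ g : G, (Nat.card N : ℂ)⁻¹ * ∑ n : N, χ ((n : G) * g) * conj (χ ((n : G) * g)) = 1 := by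
    obtain ⟨S, c, -, hc, he⟩ := avg_expand N χ χ (Cfsg.Agent.Char.isCharacter_of_isIrrCharacter hχ) hχ hχ
    choose d hd0 hd using fun ξ : Cfsg.IrrCharacter G => Cfsg.Agent.Char.irr_apply_one ξ
    have h1 := (hone χ).symm.trans (congrFun he 1)
    rw [ Cfsg.Agent.Char.classInner_irr_self (⟨_, hχN⟩ : Cfsg.IrrCharacter N)] at h1
    simp only [Finset.sum_apply, Pi.smul_apply, smul_eq_mul, hd] at h1
    have h1' : 1 = ∑ ξ ∈ S, c ξ * d ξ := by exact_mod_cast h1
    have htriv : c (Cfsg.Agent.Char.oneIrr G) = 1 := by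
      have h := hc (Cfsg.Agent.Char.oneIrr G)
      have h2 := Cfsg.Agent.Char.classInner_irr_self X
      simp only [Cfsg.classInner] at h h2
      rw [Finset.sum_congr rfl (fun g _ => show χ g * conj (χ g) * conj ((Cfsg.Agent.Char.oneIrr G : G → ℂ) g)
        = χ g * conj (χ g) from by rw [show (Cfsg.Agent.Char.oneIrr G : G → ℂ) g = 1 from rfl, map_one, mul_one])] at h
      rw [show (X : G → ℂ) = χ from rfl] at h2
      rw [h2] at h
      exact_mod_cast h.symm
    have hmem : Cfsg.Agent.Char.oneIrr G ∈ S → ∀ g : G, (Nat.card N : ℂ)⁻¹ * ∑ n : N, χ ((n : G) * g) * conj (χ ((n : G) * g)) = 1 := by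
      intro hm g
      have hz : ∀ ξ ∈ S.erase (Cfsg.Agent.Char.oneIrr G), c ξ = 0 := by
        rw [← Finset.add_sum_erase _ _ hm, htriv, one_mul] at h1'
        have := hd0 (Cfsg.Agent.Char.oneIrr G)
        have hsum0 : ∑ x ∈ S.erase (Cfsg.Agent.Char.oneIrr G), c x * d x = 0 := by omega
        intro ξ hξ
        exact (mul_eq_zero.1 (Finset.sum_eq_zero_iff.1 hsum0 ξ hξ)).resolve_right (hd0 ξ).ne'
      have h := congrFun he g
      rw [h, ← Finset.add_sum_erase _ _ hm, Finset.sum_eq_zero (fun ξ hξ => by rw [hz ξ hξ, Nat.cast_zero, zero_smul]),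
        add_zero, htriv, Nat.cast_one, one_smul]
      rfl
    by_cases hm : Cfsg.Agent.Char.oneIrr G ∈ S
    · exact hmem hm
    exfalso
    obtain ⟨ξ, hξS, hξ⟩ := Finset.exists_ne_zero_of_sum_ne_zero (show ∑ ξ ∈ S, c ξ * d ξ ≠ 0 by omega)
    have hsum := he
    -- averaging the trivial constituent gives a contradiction
    have h2 := congrArg (fun f : G → ℂ => Cfsg.classInner f (Cfsg.Agent.Char.oneIrr G : G → ℂ)) he
    rw [Cfsg.Agent.Char.classInner_sum_left, Finset.sum_eq_zero (fun ξ hξ => by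
      rw [Cfsg.Agent.Char.classInner_smul_left, Cfsg.Agent.Char.classInner_irr_of_ne (ψ := Cfsg.Agent.Char.oneIrr G) (show ξ ≠ Cfsg.Agent.Char.oneIrr G from fun e => hm (e ▸ hξ)), mul_zero])] at h2
    refine absurd h2 ?_
    have h3 := hc (Cfsg.Agent.Char.oneIrr G)
    rw [htriv] at h3
    simp only [Cfsg.classInner, show ∀ g, (Cfsg.Agent.Char.oneIrr G : G → ℂ) g = 1 from fun g => rfl, map_one, mul_one] at h3 ⊢
    have hsh : ∀ n : N, ∑ g : G, χ ((n : G) * g) * conj (χ ((n : G) * g)) = ∑ g : G, χ g * conj (χ g) :=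
      fun n => Fintype.sum_equiv (Equiv.mulLeft (n : G)) _ _ (fun g => rfl)
    rw [← Finset.mul_sum, Finset.sum_comm]
    simp only [hsh]
    rw [Finset.sum_const, Finset.card_univ, nsmul_eq_mul, ← Nat.card_eq_fintype_card (α := N), inv_mul_cancel_left₀ hNc, h3, Nat.cast_one]
    exact one_ne_zero
  obtain ⟨S, c, hS, hc, he⟩ := avg_expand N χ ψ (Cfsg.Agent.Char.isCharacter_of_isIrrCharacter hχ) hψ hχ
  -- products of χ with characters constant on cosets are orthonormal
  have horth : ∀ ξ ∈ S, ∀ ξ' ∈ S, Cfsg.classInner (fun g => χ g * (ξ : G → ℂ) g) (fun g => χ g * (ξ' : G → ℂ) g)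
      = Cfsg.classInner (ξ : G → ℂ) (ξ' : G → ℂ) := by
    intro ξ hξ ξ' hξ'
    simp only [Cfsg.classInner]
    congr 1
    set F : G → ℂ := fun g => (ξ : G → ℂ) g * conj ((ξ' : G → ℂ) g) with hF
    have hA : ∀ n : N, ∑ g : G, χ ((n : G) * g) * conj (χ ((n : G) * g)) * F g = ∑ g : G, χ g * conj (χ g) * F g := by
      intro n
      refine Fintype.sum_equiv (Equiv.mulLeft (n : G)) _ _ fun g => ?_
      simp only [hF, Equiv.coe_mulLeft, hS ξ hξ n g, hS ξ' hξ' n g]
    have hB : (Nat.card N : ℂ) * ∑ g : G, χ g * conj (χ g) * F g = (Nat.card N : ℂ) * ∑ g : G, F g := by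
      calc (Nat.card N : ℂ) * ∑ g : G, χ g * conj (χ g) * F g
          = ∑ n : N, ∑ g : G, χ ((n : G) * g) * conj (χ ((n : G) * g)) * F g := by
            simp only [hA, Finset.sum_const, Finset.card_univ, nsmul_eq_mul, Nat.card_eq_fintype_card]
        _ = ∑ g : G, ((Nat.card N : ℂ) * F g) := by
            rw [Finset.sum_comm]
            refine Finset.sum_congr rfl fun g _ => ?_
            rw [← Finset.sum_mul]
            congr 1
            have h := hself g
            rwa [inv_mul_eq_one₀ hNc, eq_comm] at h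
        _ = _ := by rw [← Finset.mul_sum]
    have hC := mul_left_cancel₀ hNc hB
    rw [← hC]
    refine Finset.sum_congr rfl fun g _ => ?_
    simp only [hF, map_mul]
    ring
  have hpair : ∀ ξ ∈ S, c ξ ≠ 0 → (c ξ = 1 ∧ ψ = fun g => χ g * (ξ : G → ℂ) g) := by
    intro ξ hξ hne
    have hirr : Cfsg.IsIrrCharacter G (fun g => χ g * (ξ : G → ℂ) g) :=
      Cfsg.Agent.Char.isIrrCharacter_of_inner_self
        (Cfsg.Agent.Char.isCharacter_mul (Cfsg.Agent.Char.isCharacter_of_isIrrCharacter hχ)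
          (Cfsg.Agent.Char.isCharacter_of_isIrrCharacter ξ.2))
        (by rw [horth ξ hξ ξ hξ]; exact Cfsg.Agent.Char.classInner_irr_self ξ)
    have hcx : (c ξ : ℂ) = Cfsg.classInner (Ψ : G → ℂ) (fun g => χ g * (ξ : G → ℂ) g) := by
      rw [← hc ξ]
      simp only [Cfsg.classInner]
      congr 1
      exact Finset.sum_congr rfl fun g _ => by rw [map_mul]; show _ = ψ g * _; ring
    by_cases heq : Ψ = ⟨_, hirr⟩
    · refine ⟨?_, congrArg Subtype.val heq⟩
      rw [show (fun g => χ g * (ξ : G → ℂ) g) = (Ψ : G → ℂ) from (congrArg Subtype.val heq).symm,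
        Cfsg.Agent.Char.classInner_irr_self] at hcx
      exact_mod_cast hcx
    · rw [show Cfsg.classInner (Ψ : G → ℂ) (fun g => χ g * (ξ : G → ℂ) g) = 0 from
        Cfsg.Agent.Char.classInner_irr_of_ne (ψ := ⟨_, hirr⟩) heq] at hcx
      exact absurd (by exact_mod_cast hcx) hne
  refine ⟨fun hne => ?_, fun h0 => ?_, fun h => ?_⟩
  · obtain ⟨ξ, hξ, hcξ⟩ : ∃ ξ ∈ S, c ξ ≠ 0 := by
      by_contra hall
      push Not at hall
      apply hne
      rw [← hone ψ, he, Finset.sum_eq_zero (fun ξ hξ => by rw [hall ξ hξ, Nat.cast_zero, zero_smul])]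
      rfl
    rw [he, Finset.sum_eq_single ξ (fun ξ' hξ' hne' => ?_) (fun h => absurd hξ h), (hpair ξ hξ hcξ).1, Nat.cast_one, one_smul]
    · exact ξ.2
    · by_cases h0 : c ξ' = 0
      · rw [h0, Nat.cast_zero, zero_smul]
      exfalso
      have h := horth ξ' hξ' ξ hξ
      rw [← (hpair ξ' hξ' h0).2, ← (hpair ξ hξ hcξ).2, Cfsg.Agent.Char.classInner_irr_of_ne hne'] at h
      rw [show Cfsg.classInner ψ ψ = 1 from Cfsg.Agent.Char.classInner_irr_self Ψ] at h
      exact one_ne_zero h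
  · rw [he]
    choose d hd0 hd using fun ξ : Cfsg.IrrCharacter G => Cfsg.Agent.Char.irr_apply_one ξ
    have h1 := (hone ψ).symm.trans (congrFun he 1)
    rw [h0] at h1
    simp only [Finset.sum_apply, Pi.smul_apply, smul_eq_mul, hd] at h1
    have h1' : 0 = ∑ ξ ∈ S, c ξ * d ξ := by exact_mod_cast h1
    exact Finset.sum_eq_zero fun ξ hξ => by
      rw [(mul_eq_zero.1 (Finset.sum_eq_zero_iff.1 h1'.symm ξ hξ)).resolve_right (hd0 ξ).ne', Nat.cast_zero, zero_smul]
  · subst h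
    exact funext hself

end Cfsg.Agent.S0868
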