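import Cfsg.Statements.S1313
import Cfsg.Agent.Layer.Basic
import Mathlib.GroupTheory.Perm.Finite

set_option autoImplicit false
open Cfsg

namespace Cfsg.Agent.S1313

/-- For a finite group H, |H| ≤ |F*(H)|!. -/
theorem result {H : Type*} [Group H] [Finite H] : Nat.card H ≤ Nat.factorial (Nat.card ↥(Cfsg.generalizedFittingSubgroup H)) := by
  classical
  set F := Cfsg.generalizedFittingSubgroup H with hF
  haveI : F.Normal := inferInstance
  let φ : H →* MulAut ↥F := MulAut.conjNormal
  let ψ : MulAut ↥F →* Equiv.Perm {a : ↥F // a ≠ 1} :=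
    { toFun := fun e => Equiv.Perm.subtypePerm (p := fun a : ↥F => a ≠ 1) e.toEquiv (fun a => by simp)
      map_one' := by ext a; simp
      map_mul' := fun e f => by ext a; simp }
  have hψ : Function.Injective ψ := by
    intro e f h
    apply MulEquiv.ext
    intro a
    by_cases ha : a = 1
    · subst ha; simp
    · exact congrArg Subtype.val (Equiv.congr_fun h ⟨a, ha⟩)
  have hker : (ψ.comp φ).ker ≤ F := by
    intro h hh
    apply Layer.centralizer_generalizedFitting_le
    refine Subgroup.mem_centralizer_iff.mpr fun a ha => ?_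
    have h1 : φ h = 1 := hψ (by rw [map_one]; exact hh)
    have h2 := congrArg Subtype.val (MulEquiv.congr_fun h1 ⟨a, ha⟩)
    simp only [φ, MulAut.conjNormal_apply, MulAut.one_apply] at h2
    calc a * h = h * a * h⁻¹ * h := by rw [h2]
      _ = h * a := by group
  have h1 : Nat.card H = Nat.card ↥(ψ.comp φ).ker * Nat.card ↥(ψ.comp φ).range := by
    rw [← Subgroup.index_ker, mul_comm, Subgroup.index_mul_card]
  have h2 : Nat.card ↥(ψ.comp φ).range ≤ Nat.factorial (Nat.card ↥F - 1) := by
    refine (Subgroup.card_le_card_group _).trans (le_of_eq ?_)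
    haveI : Fintype ↥F := Fintype.ofFinite _
    rw [Nat.card_perm, Nat.card_eq_fintype_card, Fintype.card_subtype_compl, Fintype.card_subtype_eq,
      Nat.card_eq_fintype_card]
  rw [h1, ← Nat.mul_factorial_pred (Nat.card_pos (α := ↥F)).ne']
  exact Nat.mul_le_mul (Subgroup.card_le_of_le hker) h2

end Cfsg.Agent.S1313
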