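import Cfsg.Statements.S1892
import Cfsg.Agent.PSolv.Basic
import Cfsg.Agent.Coprime.Signalizer

set_option autoImplicit false
open Cfsg

namespace Cfsg.Agent.S1892


open scoped commutatorElement

/-- Let S be a finite p-solvable group with no nontrivial normal subgroup of order prime to p, A a p-subgroup of S, and Q a nontrivial A-invariant subgroup of order prime to p with [A, Q] = Q. Then the commutator [O_p(S), A, Q] is nontrivial. -/
theorem result {S : Type*} [Group S] [Finite S] {p : ℕ} [Fact p.Prime]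
    (hS : Cfsg.IsPSolvable p S) (hred : Cfsg.pPrimeCore p S = ⊥)
    (A Q : Subgroup S) (hA : IsPGroup p A) (hQ : ¬ p ∣ Nat.card Q) (hQ1 : Q ≠ ⊥)
    (hinv : ∀ a ∈ A, ∀ x ∈ Q, a * x * a⁻¹ ∈ Q) (hAQ : ⁅A, Q⁆ = Q) :
    ⁅⁅Cfsg.pCore p S, A⁆, Q⁆ ≠ ⊥ := by
  intro hbot
  set P := Cfsg.pCore p S with hP
  haveI : P.Normal := (Solv.pCore_mem p).1
  set W := ⁅P, A⁆ with hW
  have hPp : IsPGroup p P := (Solv.pCore_mem p).2
  have hWP : W ≤ P := Subgroup.commutator_le_left P A
  have hQW : Q ≤ Subgroup.centralizer (W : Set S) :=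
    Subgroup.le_centralizer_iff.mp (Subgroup.commutator_eq_bot_iff_le_centralizer.mp hbot)
  have hAQn : A ≤ Subgroup.normalizer (Q : Set S) := Signalizer.mem_normalizer_of_forall_conj hinv
  set H := Subgroup.normalizer (W : Set S) with hH
  have hPH : P ≤ H := Subgroup.normalizer_commutator_ge_left P A
  have hAH : A ≤ H := Subgroup.normalizer_commutator_ge_right P A
  have hQH : Q ≤ H := hQW.trans (Subgroup.centralizer_le_normalizer _)
  haveI : (W.subgroupOf H).Normal := (Subgroup.normal_subgroupOf_iff_le_normalizer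
    Subgroup.le_normalizer).mpr le_rfl
  let π := QuotientGroup.mk' (W.subgroupOf H)
  set Pb := (P.subgroupOf H).map π with hPb
  set K := Subgroup.centralizer (Pb : Set (↥H ⧸ W.subgroupOf H)) with hK
  haveI : Pb.Normal := Subgroup.Normal.map inferInstance _ (QuotientGroup.mk'_surjective _)
  haveI : K.Normal := inferInstance
  have hAK : (A.subgroupOf H).map π ≤ K := by
    rintro _ ⟨a, ha, rfl⟩
    refine Subgroup.mem_centralizer_iff.mpr ?_
    rintro _ ⟨u, hu, rfl⟩
    rw [← commutatorElement_eq_one_iff_mul_comm, ← map_commutatorElement]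
    refine (QuotientGroup.eq_one_iff _).mpr ?_
    exact Subgroup.commutator_mem_commutator hu ha
  have hQK : (Q.subgroupOf H).map π ≤ K := by
    have h1 : (⁅A, Q⁆.subgroupOf H) = ⁅A.subgroupOf H, Q.subgroupOf H⁆ := by
      apply Subgroup.map_injective H.subtype_injective
      rw [Subgroup.map_commutator, Subgroup.map_subgroupOf_eq_of_le hAH, Subgroup.map_subgroupOf_eq_of_le hQH,
        Subgroup.map_subgroupOf_eq_of_le (hAQ.le.trans hQH)]
    rw [← hAQ, h1, Subgroup.map_commutator]
    exact (Subgroup.commutator_mono hAK le_rfl).trans (Subgroup.commutator_le_left K _)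
  have hQP : Q ≤ Subgroup.centralizer (P : Set S) := by
    intro x hx
    refine Subgroup.mem_centralizer_iff.mpr fun u hu => ?_
    have hc := Subgroup.mem_centralizer_iff.mp (hQK (Subgroup.mem_map_of_mem π (show (⟨x, hQH hx⟩ : H) ∈ Q.subgroupOf H from hx)))
      _ (Subgroup.mem_map_of_mem π (show (⟨u, hPH hu⟩ : H) ∈ P.subgroupOf H from hu))
    rw [← map_mul, ← map_mul] at hc
    have hm : ((⟨u, hPH hu⟩ * ⟨x, hQH hx⟩ : H)⁻¹ * (⟨x, hQH hx⟩ * ⟨u, hPH hu⟩) : H) ∈ W.subgroupOf H :=
      QuotientGroup.eq.mp hc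
    set w : S := (u * x)⁻¹ * (x * u) with hw
    have hwW : w ∈ W := hm
    have hwx : x * w = w * x := (Subgroup.mem_centralizer_iff.mp (hQW hx) w hwW).symm
    have hpow : ∀ n : ℕ, x ^ n * u = u * x ^ n * w ^ n := by
      intro n
      induction n with
      | zero => simp
      | succ n ih =>
        have hcn : Commute x (w ^ n) := (show Commute x w from hwx).pow_right n
        calc x ^ (n + 1) * u = x * (x ^ n * u) := by rw [pow_succ', mul_assoc]
          _ = x * (u * x ^ n * w ^ n) := by rw [ih]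
          _ = (u * x * w) * x ^ n * w ^ n := by rw [hw]; group
          _ = u * x * (w * x ^ n) * w ^ n := by group
          _ = u * x * (x ^ n * w) * w ^ n := by rw [((show Commute x w from hwx).pow_left n).eq]
          _ = u * (x * x ^ n) * (w * w ^ n) := by group
          _ = u * x ^ (n + 1) * w ^ (n + 1) := by rw [← pow_succ', ← pow_succ']
    have h := hpow (orderOf x)
    rw [pow_orderOf_eq_one, one_mul, mul_one] at h
    have hw1 : w ^ orderOf x = 1 := left_eq_mul.mp h
    have hwo : (orderOf w).Coprime p :=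
      (PSolv.coprime_orderOf_of_mem hQ hx).coprime_dvd_left (orderOf_dvd_of_pow_eq_one hw1)
    have := PSolv.eq_one_of_coprime_mem hPp hwo (hWP hwW)
    rw [hw, inv_mul_eq_one] at this
    exact this
  have hQle : Q ≤ P := hQP.trans (PSolv.selfCentralizingCore_of_pSolvable hS hred)
  exact hQ1 ((Subgroup.eq_bot_iff_forall _).mpr fun x hx => PSolv.eq_one_of_mem hPp hQ (hQle hx) hx)

end Cfsg.Agent.S1892
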