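import Cfsg.Statements.S1894
import Mathlib.GroupTheory.Nilpotent
import Mathlib.GroupTheory.Sylow
import Mathlib.Tactic.Group

set_option autoImplicit false
open Cfsg
open scoped commutatorElement

namespace Cfsg.Agent.S1894

/-- A nontrivial normal subgroup of a finite `p`-group contains a central element other than `1`. -/
theorem exists_ne_one_mem_center {Q : Type*} [Group Q] [Finite Q] {p : ℕ} [hp : Fact p.Prime] (hQ : IsPGroup p Q)
    (N : Subgroup Q) [hN : N.Normal] (hne : N ≠ ⊥) : ∃ q ∈ N, q ∈ Subgroup.center Q ∧ q ≠ 1 := by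
  haveI := hQ.isNilpotent
  haveI : Nontrivial N := (Subgroup.nontrivial_iff_ne_bot N).mpr hne
  letI : MulAction Q N :=
    { smul := fun g n => ⟨g * n * g⁻¹, hN.conj_mem n n.2 g⟩
      one_smul := fun n => Subtype.ext (by change (1 : Q) * n * (1 : Q)⁻¹ = n; group)
      mul_smul := fun a b n => Subtype.ext (by
        change a * b * n * (a * b)⁻¹ = a * (b * n * b⁻¹) * a⁻¹; group) }
  have hd : p ∣ Nat.card N :=
    ((hQ.to_subgroup N).card_eq_or_dvd).resolve_left (Finite.one_lt_card).ne'
  have h1 : (1 : N) ∈ MulAction.fixedPoints Q N := fun g => Subtype.ext (by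
    change g * (1 : Q) * g⁻¹ = 1; group)
  obtain ⟨b, hb, hne⟩ := hQ.exists_fixed_point_of_prime_dvd_card_of_fixed_point N hd h1
  refine ⟨b, b.2, Subgroup.mem_center_iff.mpr fun g => ?_, fun h => hne (Subtype.ext h.symm)⟩
  have h2 : g * b * g⁻¹ = b := congrArg Subtype.val (hb g)
  exact mul_inv_eq_iff_eq_mul.mp h2

/-- Let P be a finite p-group, A a normal subgroup of P and B an abelian subgroup of A that is normal in P. Then some subgroup C of A containing B is normal in P and is self-centralizing and normal in A (C ∈ SCN(A)). -/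
theorem result {P : Type*} [Group P] [Finite P] {p : ℕ} [Fact p.Prime] (hP : IsPGroup p P)
    (A : Subgroup P) [A.Normal] (B : Subgroup P) [B.Normal] (hBA : B ≤ A) (hB : IsMulCommutative B) :
    ∃ C : Subgroup P, C.Normal ∧ B ≤ C ∧ Cfsg.IsSCN A C := by
  obtain ⟨C, ⟨hCn, hCA, hCc, hBC⟩, hmax⟩ :=
    (Set.toFinite {C : Subgroup P | C.Normal ∧ C ≤ A ∧ IsMulCommutative C ∧ B ≤ C}).exists_maximal
      ⟨B, inferInstance, hBA, hB, le_rfl⟩
  haveI := hCn
  refine ⟨C, hCn, hBC, hCA, ?_, ?_⟩
  · rw [Subgroup.normalizer_eq_top_iff.mpr hCn]; exact le_top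
  · by_contra hne
    have hCD : C ≤ A ⊓ Subgroup.centralizer (C : Set P) := by
      refine le_inf hCA ?_
      haveI := hCc
      exact Subgroup.le_centralizer C
    set D := A ⊓ Subgroup.centralizer (C : Set P)
    haveI : D.Normal := inferInstance
    -- a central element of `P/C` inside `D/C`
    haveI := hP.to_quotient C
    have hDne : D.map (QuotientGroup.mk' C) ≠ ⊥ := fun h => by
      rw [Subgroup.map_eq_bot_iff, QuotientGroup.ker_mk'] at h
      exact hne (le_antisymm h hCD)
    haveI : (D.map (QuotientGroup.mk' C)).Normal :=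
      Subgroup.Normal.map inferInstance _ (QuotientGroup.mk'_surjective _)
    obtain ⟨q, hqD, hqZ, hq1⟩ := exists_ne_one_mem_center (hP.to_quotient C) _ hDne
    obtain ⟨d, hdD, rfl⟩ := hqD
    have hdC : d ∉ C := fun h => hq1 ((QuotientGroup.eq_one_iff d).mpr h)
    let C' := C ⊔ Subgroup.zpowers d
    have hC'n : C'.Normal := by
      refine ⟨fun x hx g => ?_⟩
      have key : C' ≤ C'.comap (MulAut.conj g).toMonoidHom := by
        refine sup_le (fun c hc => (le_sup_left : C ≤ C') (hCn.conj_mem c hc g)) (Subgroup.zpowers_le.mpr ?_)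
        change g * d * g⁻¹ ∈ C'
        have h1 : g * d * g⁻¹ * d⁻¹ ∈ C := by
          rw [← QuotientGroup.eq_one_iff]
          have h2 := Subgroup.mem_center_iff.mp hqZ (g : P ⧸ C)
          simp only [QuotientGroup.mk'_apply] at h2
          calc ((g * d * g⁻¹ * d⁻¹ : P) : P ⧸ C) = (g : P ⧸ C) * d * (g : P ⧸ C)⁻¹ * (d : P ⧸ C)⁻¹ := rfl
            _ = 1 := by rw [h2]; group
        have h3 := Subgroup.mul_mem_sup h1 (Subgroup.mem_zpowers d)
        simpa using h3
      exact key hx
    have hC'D : C' ≤ D := sup_le hCD (Subgroup.zpowers_le.mpr hdD)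
    have hC'c : IsMulCommutative C' := by
      have hz : Subgroup.zpowers d ≤ Subgroup.centralizer (C : Set P) := Subgroup.zpowers_le.mpr hdD.2
      rw [← Subgroup.le_centralizer_iff_isMulCommutative]
      refine sup_le ?_ ?_ <;> rw [Subgroup.le_centralizer_iff] <;> refine sup_le ?_ ?_
      · haveI := hCc; exact Subgroup.le_centralizer C
      · exact hz
      · exact Subgroup.le_centralizer_iff.mp hz
      · haveI : IsMulCommutative (Subgroup.zpowers d) := inferInstance
        exact Subgroup.le_centralizer _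
    exact hdC (hmax ⟨hC'n, hC'D.trans inf_le_left, hC'c, hBC.trans le_sup_left⟩ le_sup_left
      ((le_sup_right : Subgroup.zpowers d ≤ C') (Subgroup.mem_zpowers d)))

end Cfsg.Agent.S1894
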