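import Cfsg.Statements.S1899
import Mathlib.GroupTheory.PGroup
import Mathlib.Algebra.BigOperators.Group.Finset.Basic
import Mathlib.Tactic.Group

set_option autoImplicit false
open Cfsg

namespace Cfsg.Agent.S1899

/-- Let a dihedral group of order 2n, n odd and n > 1, act on a finite abelian 2-group A through automorphisms d and t with d^n = 1, t² = 1 and t d t⁻¹ = d⁻¹, and suppose that d fixes only the identity. Then A is the internal direct product of C_A(t) and its image under d. -/
theorem result {A : Type*} [CommGroup A] [Finite A] (hA : IsPGroup 2 A)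
    {n : ℕ} (hn : Odd n) (hn1 : 1 < n) (d t : MulAut A) (hd : d ^ n = 1) (ht : t ^ 2 = 1) (hdt : t * d * t⁻¹ = d⁻¹)
    (hfix : ∀ a : A, d a = a → a = 1) :
    (MulEquiv.toMonoidHom t).eqLocus (MonoidHom.id A) ⊓ ((MulEquiv.toMonoidHom t).eqLocus (MonoidHom.id A)).map d.toMonoidHom = ⊥ ∧
      (MulEquiv.toMonoidHom t).eqLocus (MonoidHom.id A) ⊔ ((MulEquiv.toMonoidHom t).eqLocus (MonoidHom.id A)).map d.toMonoidHom = ⊤ := by
  have hd' : ∀ k : ℕ, ∀ a : A, (d ^ k) (d a) = (d ^ (k + 1)) a := fun k a => by
    rw [pow_succ, MulAut.mul_apply]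
  have htd : ∀ a : A, t (d a) = d⁻¹ (t a) := by
    intro a
    have h := DFunLike.congr_fun hdt (t a)
    have htt : t⁻¹ (t a) = a := MulAut.inv_apply_self _ _ _
    rw [MulAut.mul_apply, MulAut.mul_apply, htt] at h
    exact h
  have ht2 : ∀ a : A, t (t a) = a := fun a => by
    rw [← MulAut.mul_apply, ← pow_two, ht, MulAut.one_apply]
  obtain ⟨m, hm⟩ := hn
  have hsq : ∀ c : A, d (d c) = c → d c = c := by
    intro c hc
    have h : ∀ k : ℕ, (d ^ (2 * k)) c = c := by
      intro k
      induction k with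
      | zero => rfl
      | succ k ih => rw [Nat.mul_succ, pow_add, MulAut.mul_apply, pow_two, MulAut.mul_apply, hc, ih]
    have h2 := h (m + 1)
    have e : 2 * (m + 1) = n + 1 := by omega
    rwa [e, pow_succ, hd, one_mul] at h2
  constructor
  · rw [Subgroup.eq_bot_iff_forall]
    rintro a ⟨ha, c, hc, hca⟩
    have ha' : t a = a := ha
    have hc' : t c = c := hc
    have hca' : d c = a := hca
    rw [← hca', htd, hc'] at ha'
    have h1 : d c = c := hsq c (by
      conv_rhs => rw [← MulAut.apply_inv_self _ d c]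
      rw [ha'])
    rw [← hca', h1]
    exact hfix c h1
  · set C := (MulEquiv.toMonoidHom t).eqLocus (MonoidHom.id A) with hC
    set W := C ⊔ C.map d.toMonoidHom
    have hCW : ∀ c ∈ C, c ∈ W := fun c hc => (le_sup_left : C ≤ W) hc
    have hDW : ∀ c ∈ C, d c ∈ W := fun c hc => (le_sup_right : C.map d.toMonoidHom ≤ W) ⟨c, hc, rfl⟩
    have hWinv : W ≤ W.comap d.toMonoidHom := by
      refine sup_le (fun c hc => hDW c hc) ?_
      rintro _ ⟨c, hc, rfl⟩
      change d (d c) ∈ W
      have hc' : t c = c := hc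
      have he : d c * d⁻¹ c ∈ C := by
        change t (d c * d⁻¹ c) = d c * d⁻¹ c
        have h1 : t (d⁻¹ c) = d (t c) := by
          apply t.injective
          rw [ht2, htd, ht2]
        rw [map_mul, htd, hc', h1, hc', mul_comm]
      have h2 : d (d c) = d (d c * d⁻¹ c) / c := by
        rw [map_mul, MulAut.apply_inv_self, mul_div_cancel_right]
      rw [h2]
      exact div_mem (hDW _ he) (hCW c hc)
    have hWpow : ∀ k : ℕ, ∀ w ∈ W, (d ^ k) w ∈ W := by
      intro k
      induction k with
      | zero => exact fun w hw => hw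
      | succ k ih =>
        intro w hw
        rw [pow_succ', MulAut.mul_apply]
        exact hWinv (ih w hw)
    rw [eq_top_iff]
    intro a _
    have hmove : ∀ j : ℕ, ∀ b : A, (d ^ j) (t b) = t ((d⁻¹ ^ j) b) := by
      intro j
      induction j with
      | zero => exact fun b => rfl
      | succ j ih =>
        intro b
        rw [pow_succ', MulAut.mul_apply, ih, pow_succ', MulAut.mul_apply]
        apply t.injective
        rw [ht2, htd, ht2]
    have hprod : (∏ j ∈ Finset.range n, (d ^ (2 * j)) (t a)) = 1 := by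
      refine hfix _ (hsq _ ?_)
      rw [← MulAut.mul_apply, ← pow_two, map_prod]
      have e : ∀ j, (d ^ 2) ((d ^ (2 * j)) (t a)) = (d ^ (2 * (j + 1))) (t a) := fun j => by
        rw [← MulAut.mul_apply, ← pow_add, Nat.mul_succ, Nat.add_comm]
      simp only [e]
      obtain ⟨k, rfl⟩ : ∃ k, n = k + 1 := ⟨n - 1, by omega⟩
      rw [Finset.prod_range_succ, Finset.prod_range_succ' (fun j => (d ^ (2 * j)) (t a))]
      congr 1
      rw [pow_mul', hd, one_pow]
      rfl
    have hmem : a ^ n ∈ W := by
      have hin : (∏ j ∈ Finset.range n, (d ^ j) ((d⁻¹ ^ j) a * t ((d⁻¹ ^ j) a))) ∈ W := by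
        refine Subgroup.prod_mem _ fun j _ => hWpow j _ (hCW _ ?_)
        change t _ = _
        rw [map_mul, ht2, mul_comm]
        rfl
      have e : ∀ j, (d ^ j) ((d⁻¹ ^ j) a * t ((d⁻¹ ^ j) a)) = a * (d ^ (2 * j)) (t a) := fun j => by
        rw [map_mul, ← hmove j a, ← MulAut.mul_apply, ← MulAut.mul_apply, inv_pow, mul_inv_cancel,
          MulAut.one_apply, ← pow_add, two_mul]
      simp only [e, Finset.prod_mul_distrib, hprod, mul_one, Finset.prod_const, Finset.card_range] at hin
      exact hin
    obtain ⟨k, hk⟩ := IsPGroup.iff_orderOf.mp hA a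
    have hcop : n.Coprime (orderOf a) := by
      rw [hk]
      exact Nat.Coprime.pow_right k (Nat.coprime_two_right.mpr ⟨m, hm⟩)
    obtain ⟨q, hq⟩ := exists_pow_eq_self_of_coprime hcop
    exact hq ▸ pow_mem hmem q

end Cfsg.Agent.S1899
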