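import Cfsg.Statements.S1900
import Cfsg.Agent.Coprime.Signalizer
import Mathlib.Tactic.Group

set_option autoImplicit false
open Cfsg

namespace Cfsg.Agent.S1900


open scoped commutatorElement

theorem step {S : Type*} [Group S] [Finite S] {q : ℕ} [Fact q.Prime] (P K M X C C' : Subgroup S) [K.Normal]
    (hMP : M ≤ P) (hKM : K ≤ M) (hM : ⁅M, P⁆ ≤ K) (hqP : ¬ q ∣ Nat.card P) (hX : IsPGroup q X)
    (hC : C ≤ P) (hC' : C' ≤ P) (hCX : ∀ c ∈ C, ∀ x ∈ X, c * x = x * c)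
    (hXC' : X ≤ Subgroup.normalizer (C' : Set S)) (hfree : C' ⊓ Subgroup.centralizer (X : Set S) = ⊥)
    (hXM : X ≤ Subgroup.normalizer (M : Set S))
    (hdec : M ≤ (M ⊓ C) ⊔ (M ⊓ C')) (hmem : ∀ c ∈ C, ∀ c' ∈ C', ⁅c, c'⁆ ∈ M) :
    ∀ c ∈ C, ∀ c' ∈ C', ⁅c, c'⁆ ∈ (M ⊓ C') ⊔ K := by
  let π := QuotientGroup.mk' K
  have hcomm : ∀ m ∈ M, ∀ g ∈ P, π m * π g = π g * π m := by
    intro m hm g hg
    have h : π ⁅m, g⁆ = 1 := (QuotientGroup.eq_one_iff _).mpr (hM (Subgroup.commutator_mem_commutator hm hg))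
    rwa [map_commutatorElement, commutatorElement_eq_one_iff_mul_comm] at h
  set Y := (M ⊓ C') ⊔ K with hY
  have hYM : Y ≤ M := sup_le inf_le_left hKM
  have hYπ : ∀ z, z ∈ Y ↔ π z ∈ Y.map π := by
    intro z
    refine ⟨Subgroup.mem_map_of_mem _, fun h => ?_⟩
    obtain ⟨y, hy, hyz⟩ := h
    have : y⁻¹ * z ∈ K := QuotientGroup.eq.mp hyz
    have := Y.mul_mem hy (Subgroup.mem_sup_right this : y⁻¹ * z ∈ Y)
    simpa [mul_assoc] using this
  -- commutators of `M` with `X` lie in `Y`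
  have hMX : ∀ x ∈ X, ∀ m ∈ M, ⁅m, x⁆ ∈ Y := by
    intro x hx
    let U : Subgroup S :=
      { carrier := {m | m ∈ M ∧ π ⁅m, x⁆ ∈ Y.map π}
        one_mem' := ⟨M.one_mem, by simp [(Y.map π).one_mem]⟩
        mul_mem' := fun {a b} ha hb => by
          refine ⟨M.mul_mem ha.1 hb.1, ?_⟩
          have e : ⁅a * b, x⁆ = a * ⁅b, x⁆ * a⁻¹ * ⁅a, x⁆ := by simp [commutatorElement_def]; group
          have hbM : ⁅b, x⁆ ∈ M := hYM ((hYπ _).mpr hb.2)
          rw [e, map_mul, map_mul, map_mul, ← hcomm _ hbM a (hMP ha.1), mul_assoc (π ⁅b, x⁆),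
            ← map_mul π a a⁻¹, mul_inv_cancel, map_one, mul_one]
          exact (Y.map π).mul_mem hb.2 ha.2
        inv_mem' := fun {a} ha => by
          refine ⟨M.inv_mem ha.1, ?_⟩
          have e : ⁅a⁻¹, x⁆ = a⁻¹ * ⁅a, x⁆⁻¹ * a := by simp [commutatorElement_def]; group
          have haM : ⁅a, x⁆⁻¹ ∈ M := M.inv_mem (hYM ((hYπ _).mpr ha.2))
          rw [e, map_mul, map_mul, ← hcomm _ haM a⁻¹ (hMP (M.inv_mem ha.1)), mul_assoc,
            ← map_mul π a⁻¹ a, inv_mul_cancel, map_one, mul_one, map_inv]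
          exact (Y.map π).inv_mem ha.2 }
    have hle : M ≤ U := hdec.trans (sup_le (fun m hm => ⟨hm.1, by
        rw [commutatorElement_eq_one_iff_mul_comm.mpr (hCX m hm.2 x hx), map_one]
        exact (Y.map π).one_mem⟩) (fun m hm => ⟨hm.1, Subgroup.mem_map_of_mem _ (Subgroup.mem_sup_left
          ⟨M.mul_mem hm.1 ((hXM hx _).mp (M.inv_mem hm.1)) |> fun h => by
              simpa [commutatorElement_def, mul_assoc] using h,
            C'.mul_mem hm.2 ((hXC' hx _).mp (C'.inv_mem hm.2)) |> fun h => by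
              simpa [commutatorElement_def, mul_assoc] using h⟩)⟩))
    exact fun m hm => (hYπ _).mpr (hle hm).2
  intro c hc
  let U : Subgroup S :=
    { carrier := {a | a ∈ C' ∧ π ⁅c, a⁆ ∈ Y.map π}
      one_mem' := ⟨C'.one_mem, by simp [(Y.map π).one_mem]⟩
      mul_mem' := fun {a b} ha hb => by
        refine ⟨C'.mul_mem ha.1 hb.1, ?_⟩
        have e : ⁅c, a * b⁆ = ⁅c, a⁆ * (a * ⁅c, b⁆ * a⁻¹) := by simp [commutatorElement_def]; group
        rw [e, map_mul, map_mul, map_mul, ← hcomm _ (hmem c hc b hb.1) a (hC' ha.1), mul_assoc (π ⁅c, b⁆),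
          ← map_mul π a a⁻¹, mul_inv_cancel, map_one, mul_one]
        exact (Y.map π).mul_mem ha.2 hb.2
      inv_mem' := fun {a} ha => by
        refine ⟨C'.inv_mem ha.1, ?_⟩
        have e : ⁅c, a⁻¹⁆ = a⁻¹ * ⁅c, a⁆⁻¹ * a := by simp [commutatorElement_def]; group
        rw [e, map_mul, map_mul, ← hcomm _ (M.inv_mem (hmem c hc a ha.1)) a⁻¹ (hC' (C'.inv_mem ha.1)), mul_assoc,
          ← map_mul π a⁻¹ a, inv_mul_cancel, map_one, mul_one, map_inv]
        exact (Y.map π).inv_mem ha.2 }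
  have hgen : ⁅C', X⁆ ≤ U := by
    rw [Subgroup.commutator_le]
    intro c' hc' x hx
    refine ⟨?_, ?_⟩
    · have h := C'.mul_mem hc' ((hXC' hx _).mp (C'.inv_mem hc'))
      simpa [commutatorElement_def, mul_assoc] using h
    · have hm := hmem c hc c' hc'
      have hcx := hCX c hc x hx
      have e : ⁅c, ⁅c', x⁆⁆ = ⁅c, c'⁆ * (c' * (x * (c'⁻¹ * ⁅c, c'⁆⁻¹ * c') * x⁻¹) * c'⁻¹) := by
        have e1 : x * c⁻¹ = c⁻¹ * x := by
          calc x * c⁻¹ = c⁻¹ * (c * x) * c⁻¹ := by group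
            _ = c⁻¹ * (x * c) * c⁻¹ := by rw [hcx]
            _ = c⁻¹ * x := by group
        have e2 : ⁅c, c' * (x * c'⁻¹ * x⁻¹)⁆ = ⁅c, c'⁆ * (c' * ⁅c, x * c'⁻¹ * x⁻¹⁆ * c'⁻¹) := by
          simp [commutatorElement_def]; group
        have e3 : ⁅c, x * c'⁻¹ * x⁻¹⁆ = x * ⁅c, c'⁻¹⁆ * x⁻¹ := by
          have : x * c * x⁻¹ = c := by rw [← hcx]; group
          conv_lhs => rw [← this]
          exact (conjugate_commutatorElement c c'⁻¹ x).symm
        have e4 : ⁅c', x⁆ = c' * (x * c'⁻¹ * x⁻¹) := by simp [commutatorElement_def]; group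
        have e5 : ⁅c, c'⁻¹⁆ = c'⁻¹ * ⁅c, c'⁆⁻¹ * c' := by simp [commutatorElement_def]; group
        rw [e4, e2, e3, e5]
      have hxm : x * ⁅c, c'⁆⁻¹ * x⁻¹ ∈ M := (hXM hx _).mp (M.inv_mem hm)
      have e6 : π ⁅c, ⁅c', x⁆⁆ = π ⁅⁅c, c'⁆, x⁆ := by
        have h1 : π (c'⁻¹ * ⁅c, c'⁆⁻¹ * c') = π (⁅c, c'⁆⁻¹) := by
          rw [map_mul, map_mul, ← hcomm _ (M.inv_mem hm) c'⁻¹ (hC' (C'.inv_mem hc')), mul_assoc,
            ← map_mul π c'⁻¹ c', inv_mul_cancel, map_one, mul_one]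
        have h2 : π (c' * (x * (c'⁻¹ * ⁅c, c'⁆⁻¹ * c') * x⁻¹) * c'⁻¹) = π (x * ⁅c, c'⁆⁻¹ * x⁻¹) := by
          have h3 : π (x * (c'⁻¹ * ⁅c, c'⁆⁻¹ * c') * x⁻¹) = π (x * ⁅c, c'⁆⁻¹ * x⁻¹) := by
            rw [map_mul, map_mul, h1, ← map_mul, ← map_mul]
          rw [map_mul, map_mul, h3, ← hcomm _ hxm c' (hC' hc'), mul_assoc, ← map_mul π c' c'⁻¹,
            mul_inv_cancel, map_one, mul_one]
        rw [e, map_mul, h2, ← map_mul]
        congr 1
        simp [commutatorElement_def]; group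
      show π ⁅c, ⁅c', x⁆⁆ ∈ Y.map π
      rw [e6]
      exact Subgroup.mem_map_of_mem _ (hMX x hx _ hm)
  intro c' hc'
  obtain ⟨n, hn, d, hd, hnd⟩ := CoprimeAct.exists_mul_mem_commutator_centralizer hX
    (fun h => hqP (h.trans (Subgroup.card_dvd_of_le hC'))) hXC' hc'
  rw [hfree, Subgroup.mem_bot] at hd
  rw [hd, mul_one] at hnd
  exact (hYπ _).mpr (hgen (hnd ▸ hn)).2


/-- Let S = PQ be a finite group with P a normal Sylow p-subgroup and Q elementary abelian of order q², q a prime different from p. If exactly two subgroups X₁, X₂ of order q in Q have a nontrivial centralizer in P, then P is the internal direct product of C_P(X₁) and C_P(X₂): they commute elementwise, meet trivially and generate P. -/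
theorem result {S : Type*} [Group S] [Finite S] {p q : ℕ} [Fact p.Prime] [Fact q.Prime] (hpq : p ≠ q)
    (P : Sylow p S) [(P : Subgroup S).Normal] (Q : Subgroup S) (hQ : Cfsg.IsElementaryAbelian q Q) (hQc : Nat.card Q = q ^ 2)
    (hS : (P : Subgroup S) ⊔ Q = ⊤)
    (X₁ X₂ : Subgroup S) (h₁ : X₁ ≤ Q) (h₂ : X₂ ≤ Q) (h₁₂ : X₁ ≠ X₂) (hc₁ : Nat.card X₁ = q) (hc₂ : Nat.card X₂ = q)
    (hf₁ : (P : Subgroup S) ⊓ Subgroup.centralizer (X₁ : Set S) ≠ ⊥)
    (hf₂ : (P : Subgroup S) ⊓ Subgroup.centralizer (X₂ : Set S) ≠ ⊥)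
    (honly : ∀ X : Subgroup S, X ≤ Q → Nat.card X = q →
      (P : Subgroup S) ⊓ Subgroup.centralizer (X : Set S) ≠ ⊥ → X = X₁ ∨ X = X₂) :
    ⁅(P : Subgroup S) ⊓ Subgroup.centralizer (X₁ : Set S), (P : Subgroup S) ⊓ Subgroup.centralizer (X₂ : Set S)⁆ = ⊥ ∧
      ((P : Subgroup S) ⊓ Subgroup.centralizer (X₁ : Set S)) ⊓ ((P : Subgroup S) ⊓ Subgroup.centralizer (X₂ : Set S)) = ⊥ ∧
      ((P : Subgroup S) ⊓ Subgroup.centralizer (X₁ : Set S)) ⊔ ((P : Subgroup S) ⊓ Subgroup.centralizer (X₂ : Set S)) = P := by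
  classical
  set PS := (P : Subgroup S) with hPS
  haveI hPn : PS.Normal := inferInstance
  have hq : q.Prime := Fact.out
  have hp : p.Prime := Fact.out
  have hqP : ¬ q ∣ Nat.card PS := by
    obtain ⟨n, hn⟩ := IsPGroup.iff_card.mp P.isPGroup'
    rw [hn]
    exact fun h => hpq ((Nat.prime_dvd_prime_iff_eq hq hp).mp (hq.dvd_of_dvd_pow h)).symm
  have hQn : ∀ M : Subgroup S, M.Normal → Q ≤ Subgroup.normalizer (M : Set S) := fun M hM => by
    haveI := hM; rw [Subgroup.normalizer_eq_top_iff.mpr inferInstance]; exact le_top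
  have hQp : IsPGroup q Q := Signalizer.isPGroup_of_isElementaryAbelian hQ
  have hXgen : ∀ X : Subgroup S, Nat.card X = q → ∀ b ∈ X, b ≠ 1 → Subgroup.zpowers b = X := fun X hX b hb hb1 => by
    refine Subgroup.eq_of_le_of_card_ge (Subgroup.zpowers_le.mpr hb) ?_
    have h1 := orderOf_dvd_natCard (⟨b, hb⟩ : X)
    rw [Subgroup.orderOf_mk, hX, Nat.dvd_prime hq] at h1
    rw [Nat.card_zpowers, hX]
    rcases h1 with h | h
    · exact absurd (orderOf_eq_one_iff.mp h) hb1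
    · exact h.ge
  -- nothing is centralized by all of `Q`
  have hPQ : PS ⊓ Subgroup.centralizer (Q : Set S) = ⊥ := by
    by_contra hne
    have hcard : ∀ X : Subgroup S, X ≤ Q → PS ⊓ Subgroup.centralizer (X : Set S) ≠ ⊥ := fun X hX h =>
      hne (le_bot_iff.mp ((inf_le_inf_left _ (Subgroup.centralizer_le hX)).trans h.le))
    obtain ⟨b₁, hb₁, hb₁1⟩ := X₁.bot_or_exists_ne_one.resolve_left (fun h => by
      rw [h, Subgroup.card_bot] at hc₁; exact hq.ne_one hc₁.symm)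
    obtain ⟨b₂, hb₂, hb₂1⟩ := X₂.bot_or_exists_ne_one.resolve_left (fun h => by
      rw [h, Subgroup.card_bot] at hc₂; exact hq.ne_one hc₂.symm)
    have hb : b₁ * b₂ ∈ Q := Q.mul_mem (h₁ hb₁) (h₂ hb₂)
    have hne1 : b₁ * b₂ ≠ 1 := fun h => by
      apply h₁₂
      have hmem : b₂ ∈ X₁ := (inv_eq_of_mul_eq_one_right h) ▸ X₁.inv_mem hb₁
      rw [← hXgen X₁ hc₁ b₂ hmem hb₂1, hXgen X₂ hc₂ b₂ hb₂ hb₂1]
    have hord : Nat.card (Subgroup.zpowers (b₁ * b₂)) = q := by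
      rw [Nat.card_zpowers]; exact orderOf_eq_prime (hQ.2 _ hb) hne1
    rcases honly _ (Subgroup.zpowers_le.mpr hb) hord (hcard _ (Subgroup.zpowers_le.mpr hb)) with h | h
    · apply h₁₂
      have hm : b₂ ∈ X₁ := by
        have h' : b₁ * b₂ ∈ X₁ := h ▸ Subgroup.mem_zpowers _
        simpa using X₁.mul_mem (X₁.inv_mem hb₁) h'
      rw [← hXgen X₁ hc₁ b₂ hm hb₂1, hXgen X₂ hc₂ b₂ hb₂ hb₂1]
    · apply h₁₂
      have hm : b₁ ∈ X₂ := by
        have h' : b₁ * b₂ ∈ X₂ := h ▸ Subgroup.mem_zpowers _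
        simpa using X₂.mul_mem h' (X₂.inv_mem hb₂)
      rw [← hXgen X₁ hc₁ b₁ hb₁ hb₁1, hXgen X₂ hc₂ b₁ hm hb₁1]
  set C₁ := PS ⊓ Subgroup.centralizer (X₁ : Set S) with hC₁
  set C₂ := PS ⊓ Subgroup.centralizer (X₂ : Set S) with hC₂
  have hsupX : X₁ ⊔ X₂ = Q := by
    have hle : X₁ ⊔ X₂ ≤ Q := sup_le h₁ h₂
    refine Subgroup.eq_of_le_of_card_ge hle ?_
    obtain ⟨m, hm, hme⟩ := (Nat.dvd_prime_pow hq).mp (hQc ▸ Subgroup.card_dvd_of_le hle)
    rw [hme, hQc]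
    refine Nat.pow_le_pow_right hq.pos ?_
    by_contra hlt
    apply h₁₂
    have hcle : Nat.card ↥(X₁ ⊔ X₂) ≤ q := hme ▸ (Nat.pow_le_pow_right hq.pos (by omega : m ≤ 1)).trans (pow_one q).le
    have e1 : X₁ = X₁ ⊔ X₂ := Subgroup.eq_of_le_of_card_ge le_sup_left (hcle.trans hc₁.ge)
    have e2 : X₂ = X₁ ⊔ X₂ := Subgroup.eq_of_le_of_card_ge le_sup_right (hcle.trans hc₂.ge)
    exact e1.trans e2.symm
  have hboth : ∀ Z : Subgroup S, Z ≤ C₁ → Z ≤ C₂ → Z = ⊥ := by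
    intro Z hZ1 hZ2
    rw [← le_bot_iff, ← hPQ]
    refine le_inf (hZ1.trans inf_le_left) ?_
    intro z hz
    refine Subgroup.mem_centralizer_iff.mpr fun a ha => ?_
    have hle : Q ≤ Subgroup.centralizer ({z} : Set S) := by
      rw [← hsupX]
      exact sup_le (fun a ha => Subgroup.mem_centralizer_iff.mpr fun w hw => by
          rw [Set.mem_singleton_iff.mp hw]; exact (Subgroup.mem_centralizer_iff.mp (hZ1 hz).2 a ha).symm)
        (fun a ha => Subgroup.mem_centralizer_iff.mpr fun w hw => by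
          rw [Set.mem_singleton_iff.mp hw]; exact (Subgroup.mem_centralizer_iff.mp (hZ2 hz).2 a ha).symm)
    exact (Subgroup.mem_centralizer_iff.mp (hle ha) z rfl).symm
  have hdec : ∀ M : Subgroup S, M.Normal → M ≤ PS → M ≤ (M ⊓ C₁) ⊔ (M ⊓ C₂) := by
    intro M hM hMP
    conv_lhs => rw [CoprimeAct.le_iSup_inf_centralizer hQ.1 hQ.2
      (fun h => hqP (h.trans (Subgroup.card_dvd_of_le hMP))) (hQn M hM)]
    refine iSup_le fun B => ?_
    by_cases hb : M ⊓ Subgroup.centralizer ((B : Subgroup S) : Set S) = ⊥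
    · rw [hb]; exact bot_le
    have hBlow : q ≤ Nat.card (B : Subgroup S) := by
      have := Signalizer.pow_le_card_of_relIndex_le (p := q) (k := 1) B.2.1 (by rw [hQc]) B.2.2
      rwa [pow_one] at this
    obtain ⟨m, hm, hme⟩ := (Nat.dvd_prime_pow hq).mp (hQc ▸ Subgroup.card_dvd_of_le B.2.1)
    interval_cases m
    · rw [hme, pow_zero] at hBlow; exact absurd hBlow (not_le.mpr hq.one_lt)
    · rw [pow_one] at hme
      rcases honly B B.2.1 hme (fun h => hb (le_bot_iff.mp ((inf_le_inf_right _ hMP).trans h.le))) with h | h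
      · refine le_trans ?_ le_sup_left
        rw [h]; exact le_inf inf_le_left (inf_le_inf_right _ hMP)
      · refine le_trans ?_ le_sup_right
        rw [h]; exact le_inf inf_le_left (inf_le_inf_right _ hMP)
    · exfalso
      apply hb
      have : (B : Subgroup S) = Q := Subgroup.eq_of_le_of_card_ge B.2.1 (by rw [hme, hQc])
      rw [this]
      exact le_bot_iff.mp ((inf_le_inf_right _ hMP).trans hPQ.le)
  have hfree₁ : C₂ ⊓ Subgroup.centralizer (X₁ : Set S) = ⊥ :=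
    hboth _ (le_inf (inf_le_left.trans inf_le_left) inf_le_right) inf_le_left
  have hfree₂ : C₁ ⊓ Subgroup.centralizer (X₂ : Set S) = ⊥ :=
    hboth _ inf_le_left (le_inf (inf_le_left.trans inf_le_left) inf_le_right)
  have hn₁ : Q ≤ Subgroup.normalizer (C₁ : Set S) :=
    CoprimeAct.le_normalizer_centralizer hQ.1 (hQn PS hPn) h₁
  have hn₂ : Q ≤ Subgroup.normalizer (C₂ : Set S) :=
    CoprimeAct.le_normalizer_centralizer hQ.1 (hQn PS hPn) h₂
  have hnorm' : ∀ n, (Subgroup.lowerCentralSeries PS n).Normal := by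
    intro n
    induction n with
    | zero => exact hPn
    | succ n ih => haveI := ih; rw [Subgroup.lowerCentralSeries_succ]; infer_instance
  have hchain : ∀ n, ∀ c ∈ C₁, ∀ c' ∈ C₂, ⁅c, c'⁆ ∈ Subgroup.lowerCentralSeries PS n := by
    intro n
    induction n with
    | zero =>
      intro c hc c' hc'
      exact PS.commutator_le_self (Subgroup.commutator_mem_commutator hc.1 hc'.1)
    | succ n ih =>
      set M := Subgroup.lowerCentralSeries PS n with hM
      set K := Subgroup.lowerCentralSeries PS (n + 1) with hK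
      haveI hMn : M.Normal := hnorm' n
      haveI hKn : K.Normal := hnorm' (n + 1)
      have hMP : M ≤ PS := Subgroup.lowerCentralSeries_antitone (S := PS) (Nat.zero_le n)
      have hKM : K ≤ M := Subgroup.lowerCentralSeries_antitone (S := PS) (Nat.le_succ n)
      have hcomm : ⁅M, PS⁆ ≤ K := le_rfl
      intro c hc c' hc'
      have s1 := step PS K M X₁ C₁ C₂ hMP hKM hcomm hqP (hQp.to_le h₁) inf_le_left inf_le_left
        (fun a ha x hx => (Subgroup.mem_centralizer_iff.mp ha.2 x hx).symm) (h₁.trans hn₂) hfree₁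
        (h₁.trans (hQn M hMn)) (hdec M hMn hMP) ih c hc c' hc'
      have s2 := step PS K M X₂ C₂ C₁ hMP hKM hcomm hqP (hQp.to_le h₂) inf_le_left inf_le_left
        (fun a ha x hx => (Subgroup.mem_centralizer_iff.mp ha.2 x hx).symm) (h₂.trans hn₁) hfree₂
        (h₂.trans (hQn M hMn)) ((hdec M hMn hMP).trans (sup_comm _ _).le)
        (fun a ha b hb => by rw [← commutatorElement_inv]; exact M.inv_mem (ih b hb a ha)) c' hc' c hc
      rw [← commutatorElement_inv] at s2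
      replace s2 := inv_mem_iff.mp s2
      have e1 : ⁅c, c'⁆ ∈ (((M ⊓ C₂) ⊔ K : Subgroup S) : Set S) := s1
      rw [Subgroup.mul_normal, Set.mem_mul] at e1
      obtain ⟨a, ha, k, hk, hak⟩ := e1
      have e2 : ⁅c, c'⁆ ∈ (((M ⊓ C₁) ⊔ K : Subgroup S) : Set S) := s2
      rw [Subgroup.mul_normal, Set.mem_mul] at e2
      obtain ⟨b, hb, k', hk', hbk⟩ := e2
      have hbeq : b = ⁅c, c'⁆ * k'⁻¹ := by rw [← hbk]; group
      suffices haK : a ∈ K by rw [← hak]; exact K.mul_mem haK hk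
      have hab : a⁻¹ * b ∈ K := by
        rw [hbeq, ← hak, show a⁻¹ * (a * k * k'⁻¹) = k * k'⁻¹ by group]
        exact K.mul_mem hk (K.inv_mem hk')
      have hx : ∀ x ∈ X₁, a⁻¹ * (x * a * x⁻¹) ∈ K ⊓ C₂ := by
        intro x hx
        refine ⟨?_, C₂.mul_mem (C₂.inv_mem ha.2) ((hn₂ (h₁ hx) a).mp ha.2)⟩
        have hxb : x * b = b * x := Subgroup.mem_centralizer_iff.mp hb.2.2 x hx
        have e : a⁻¹ * (x * a * x⁻¹) = (a⁻¹ * b) * (x * (a⁻¹ * b)⁻¹ * x⁻¹) := by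
          calc a⁻¹ * (x * a * x⁻¹) = a⁻¹ * b * (b⁻¹ * x) * (a * x⁻¹) := by group
            _ = a⁻¹ * b * (b⁻¹ * (x * b) * b⁻¹) * (a * x⁻¹) := by group
            _ = a⁻¹ * b * (b⁻¹ * (b * x) * b⁻¹) * (a * x⁻¹) := by rw [hxb]
            _ = (a⁻¹ * b) * (x * (a⁻¹ * b)⁻¹ * x⁻¹) := by group
        rw [e]
        exact K.mul_mem hab (hKn.conj_mem _ (K.inv_mem hab) x)
      have hnorm : X₁ ≤ Subgroup.normalizer ((K ⊓ C₂ : Subgroup S) : Set S) := by
        intro x hx u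
        simp only [SetLike.mem_coe, Subgroup.mem_inf]
        exact and_congr (hQn K hKn (h₁ hx) u) (hn₂ (h₁ hx) u)
      obtain ⟨k0, hk0, hfix⟩ := CoprimeAct.exists_fixed_in_coset (hQp.to_le h₁)
        (fun h => hqP (h.trans (Subgroup.card_dvd_of_le ((inf_le_left : K ⊓ C₂ ≤ K).trans (hKM.trans hMP))))) hnorm a hx
      have : a * k0 ∈ (⊥ : Subgroup S) := hfree₁ ▸ ⟨C₂.mul_mem ha.2 hk0.2, hfix⟩
      rw [Subgroup.mem_bot, ← eq_inv_iff_mul_eq_one] at this
      rw [this]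
      exact K.inv_mem hk0.1
  refine ⟨?_, hboth _ inf_le_left inf_le_right, le_antisymm (sup_le inf_le_left inf_le_left) ?_⟩
  · rw [← le_bot_iff, Subgroup.commutator_le]
    intro c hc c' hc'
    haveI := P.isPGroup'.isNilpotent
    obtain ⟨n, hn⟩ := Subgroup.nilpotent_iff_lowerCentralSeries.mp (inferInstance : Group.IsNilpotent PS)
    have := hchain n c hc c' hc'
    rwa [← Subgroup.top_subtype_lowerCentralSeries, hn, Subgroup.map_bot] at this
  · exact (hdec PS hPn le_rfl).trans (sup_le_sup inf_le_right inf_le_right)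

end Cfsg.Agent.S1900
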