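import Cfsg.Statements.S1901
import Cfsg.Agent.PSolv.Basic

set_option autoImplicit false
open Cfsg

namespace Cfsg.Agent.S1901


open scoped commutatorElement

universe u

theorem centralizes {p : ℕ} [Fact p.Prime] : ∀ (n : ℕ) (G : Type u) [Group G] [Finite G], Nat.card G = n →
    Cfsg.IsPSolvable p G → ∀ (Q : Subgroup G), ¬ p ∣ Nat.card Q → ∀ P : Sylow p G,
      Q ≤ Subgroup.normalizer ((P : Subgroup G) : Set G) → ∀ a ∈ Subgroup.normalizer (Q : Set G),
        (∃ k, orderOf a = p ^ k) → a ∈ Subgroup.centralizer (Q : Set G) := by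
  intro n
  induction n using Nat.strong_induction_on with
  | _ n ih =>
  intro G _ _ hn hG Q hQ P hQP a ha hap
  obtain ⟨k, hk⟩ := hap
  refine Subgroup.mem_centralizer_iff.mpr fun x hx => ?_
  by_cases htriv : Subsingleton G
  · exact Subsingleton.elim _ _
  rw [not_subsingleton_iff_nontrivial] at htriv
  -- a nontrivial normal subgroup which is a `p`-group or a `p'`-group
  obtain ⟨N, hNn, hN1, hNa⟩ : ∃ N : Subgroup G, N.Normal ∧ N ≠ ⊥ ∧
      ∀ y ∈ Q, y ∈ N → a * y = y * a := by
    by_cases hp' : Cfsg.pPrimeCore p G = ⊥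
    · refine ⟨Cfsg.pCore p G, (Solv.pCore_mem p).1, ?_, ?_⟩
      · intro h0
        have h := PSolv.selfCentralizingCore_of_pSolvable hG hp'
        rw [PSolv.SelfCentralizingCore, h0] at h
        have h2 : Subgroup.centralizer (((⊥ : Subgroup G)) : Set G) = ⊤ := by
          rw [eq_top_iff]; intro z _; exact Subgroup.mem_centralizer_iff.mpr (by simp)
        rw [h2, top_le_iff] at h
        exact bot_ne_top h
      · intro y hy hyN
        rw [PSolv.eq_one_of_mem (Solv.pCore_mem p).2 hQ hyN hy]; simp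
    · refine ⟨Cfsg.pPrimeCore p G, inferInstance, hp', ?_⟩
      intro y hy hyN
      set Q0 := Q ⊓ Cfsg.pPrimeCore p G
      have hQ0P : (P : Subgroup G) ≤ Subgroup.centralizer (Q0 : Set G) := by
        intro u hu
        refine Subgroup.mem_centralizer_iff.mpr fun z hz => ?_
        rw [← commutatorElement_eq_one_iff_mul_comm]
        refine PSolv.eq_one_of_mem P.isPGroup' (PSolv.not_dvd_pPrimeCore (G := G)) ?_ ?_
        · rw [commutatorElement_def]
          exact (P : Subgroup G).mul_mem ((Subgroup.mem_normalizer_iff.mp (hQP hz.1) u).mp hu) ((P : Subgroup G).inv_mem hu)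
        · rw [commutatorElement_def, mul_assoc, mul_assoc]
          refine (Cfsg.pPrimeCore p G).mul_mem hz.2 ?_
          rw [← mul_assoc]
          exact (inferInstance : (Cfsg.pPrimeCore p G).Normal).conj_mem _ (Subgroup.inv_mem _ hz.2) u
      have ha0 : a ∈ Subgroup.normalizer (Q0 : Set G) := by
        intro z
        simp only [SetLike.mem_coe, Q0, Subgroup.mem_inf]
        exact and_congr (ha z) (Subgroup.mem_normalizer_iff.mp
          (by rw [Subgroup.normalizer_eq_top_iff.mpr inferInstance]; trivial) z)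
      set C := Subgroup.centralizer (Q0 : Set G)
      set M := Subgroup.normalizer (Q0 : Set G)
      have hCM : C ≤ M := Subgroup.centralizer_le_normalizer _
      haveI : (C.subgroupOf M).Normal := inferInstance
      have hidx : ¬ p ∣ (C.subgroupOf M).index := by
        intro h
        refine P.not_dvd_index (h.trans ?_)
        exact (Subgroup.relIndex_dvd_of_le_left M hQ0P).trans
          (Dvd.intro _ (Subgroup.relIndex_mul_index (hQ0P.trans hCM)))
      have h1 : orderOf (QuotientGroup.mk' (C.subgroupOf M) ⟨a, ha0⟩) ∣ p ^ k := by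
        refine (orderOf_map_dvd _ _).trans ?_
        rw [Subgroup.orderOf_mk, hk]
      have h2 := (orderOf_dvd_natCard (QuotientGroup.mk' (C.subgroupOf M) ⟨a, ha0⟩))
      have h3 := Nat.eq_one_of_dvd_coprimes ((PSolv.coprime_of_not_dvd hidx).pow_right k) h2 h1
      have h4 : a ∈ C := (QuotientGroup.eq_one_iff (N := C.subgroupOf M) ⟨a, ha0⟩).mp (orderOf_eq_one_iff.mp h3)
      exact (Subgroup.mem_centralizer_iff.mp h4 y ⟨hy, hyN⟩).symm
  haveI := hNn
  have hlt : Nat.card (G ⧸ N) < n := by
    rw [← hn, Subgroup.card_eq_card_quotient_mul_card_subgroup N]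
    exact lt_mul_of_one_lt_right Nat.card_pos ((Subgroup.one_lt_card_iff_ne_bot N).mpr hN1)
  let π := QuotientGroup.mk' N
  have hπ : Function.Surjective π := QuotientGroup.mk'_surjective N
  obtain ⟨k', -, hk'⟩ := (Nat.dvd_prime_pow (Fact.out : p.Prime)).mp (hk ▸ orderOf_map_dvd π a)
  have hrec := ih _ hlt (G ⧸ N) rfl (PSolv.isPSolvable_of_surjective hπ hG) (Q.map π)
    (fun h => hQ (h.trans (Subgroup.card_map_dvd Q π))) (P.mapSurjective hπ)
    (by rw [Sylow.coe_mapSurjective]; exact (Subgroup.map_mono hQP).trans (Subgroup.le_normalizer_map π))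
    (π a) (Subgroup.le_normalizer_map π (Subgroup.mem_map_of_mem π ha)) ⟨k', hk'⟩
  have hc : π (x * a) = π (a * x) := by
    rw [map_mul, map_mul]
    exact Subgroup.mem_centralizer_iff.mp hrec (π x) (Subgroup.mem_map_of_mem π hx)
  set w := x⁻¹ * (a * x * a⁻¹) with hw
  have hwQ : w ∈ Q := Q.mul_mem (Q.inv_mem hx) ((Subgroup.mem_normalizer_iff.mp ha x).mp hx)
  have hwN : w ∈ N := by
    refine (QuotientGroup.eq_one_iff w).mp ?_
    show π w = 1
    rw [hw, map_mul, map_mul π (a * x), ← hc, map_mul, map_inv, map_inv]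
    group
  have haw : Commute a w := hNa w hwQ hwN
  have hax : a * x = x * w * a := by rw [hw]; group
  have hpow : ∀ m : ℕ, a ^ m * x = x * w ^ m * a ^ m := by
    intro m
    induction m with
    | zero => simp
    | succ m ihm =>
      calc a ^ (m + 1) * x = a * (a ^ m * x) := by rw [pow_succ', mul_assoc]
        _ = (a * x) * w ^ m * a ^ m := by rw [ihm]; group
        _ = x * w * (a * w ^ m) * a ^ m := by rw [hax]; group
        _ = x * w * (w ^ m * a) * a ^ m := by rw [(haw.pow_right m).eq]
        _ = x * (w * w ^ m) * (a * a ^ m) := by group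
        _ = x * w ^ (m + 1) * a ^ (m + 1) := by rw [← pow_succ', ← pow_succ']
  have h := hpow (orderOf a)
  rw [pow_orderOf_eq_one, one_mul, mul_one] at h
  have hw1 : w ^ orderOf a = 1 := left_eq_mul.mp h
  rw [hk] at hw1
  have hwone : w = 1 := orderOf_eq_one_iff.mp (Nat.eq_one_of_dvd_coprimes
    ((PSolv.coprime_orderOf_of_mem hQ hwQ).pow_right k) dvd_rfl (orderOf_dvd_of_pow_eq_one hw1))
  rw [hax, hwone, mul_one]


/-- Let G be a finite p-solvable group and Q a subgroup of order prime to p such that p divides the index of C_G(Q) in N_G(Q). Then Q normalizes no Sylow p-subgroup of G. -/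
theorem result {G : Type*} [Group G] [Finite G] {p : ℕ} [Fact p.Prime]
    (hG : Cfsg.IsPSolvable p G) (Q : Subgroup G) (hQ : ¬ p ∣ Nat.card Q)
    (hA : p ∣ (Subgroup.centralizer (Q : Set G)).relIndex (Subgroup.normalizer (Q : Set G)))
    (P : Sylow p G) : ¬ Q ≤ Subgroup.normalizer ((P : Subgroup G) : Set G) := by
  intro hQP
  set C := Subgroup.centralizer (Q : Set G)
  set M := Subgroup.normalizer (Q : Set G)
  haveI : (C.subgroupOf M).Normal := inferInstance
  obtain ⟨R⟩ : Nonempty (Sylow p ↥M) := inferInstance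
  refine R.not_dvd_index (hA.trans (Subgroup.index_dvd_of_le ?_))
  intro r hr
  obtain ⟨k, hk⟩ := (IsPGroup.iff_orderOf.mp R.isPGroup') ⟨r, hr⟩
  rw [Subgroup.orderOf_mk] at hk
  exact centralizes _ G rfl hG Q hQ P hQP (r : G) r.2 ⟨k, by rw [Subgroup.orderOf_coe, hk]⟩

end Cfsg.Agent.S1901
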