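import Cfsg.Statements.S1907
import Cfsg.Agent.Coprime.Basic
import Cfsg.Agent.Solv.Cores

set_option autoImplicit false
open Cfsg

namespace Cfsg.Agent.S1907

/-- Let P be a Sylow p-subgroup of a finite group G, H = P ∩ O_{p',p}(G), N = N_G(H) and D = O_{p'}(G). (a) If y is an element of p-power order of N and d ∈ D with d⁻¹ y d ∈ N, then d = d₁ d₂ with d₁ ∈ C_D(y) and d₂ ∈ C_D(H). (b) Two elements of P that are conjugate in G are conjugate in N. -/
theorem result {G : Type*} [Group G] [Finite G] {p : ℕ} [Fact p.Prime] (P : Sylow p G) :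
    (∀ y ∈ Subgroup.normalizer (((P : Subgroup G) ⊓ Cfsg.pPrimePCore p G : Subgroup G) : Set G), (∃ k : ℕ, orderOf y = p ^ k) →
      ∀ d ∈ Cfsg.pPrimeCore p G, d⁻¹ * y * d ∈ Subgroup.normalizer (((P : Subgroup G) ⊓ Cfsg.pPrimePCore p G : Subgroup G) : Set G) →
        ∃ d₁ ∈ Cfsg.pPrimeCore p G ⊓ Subgroup.centralizer ({y} : Set G),
          ∃ d₂ ∈ Cfsg.pPrimeCore p G ⊓ Subgroup.centralizer (((P : Subgroup G) ⊓ Cfsg.pPrimePCore p G : Subgroup G) : Set G), d = d₁ * d₂) ∧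
    ∀ x y : G, x ∈ (P : Subgroup G) → y ∈ (P : Subgroup G) → IsConj x y →
      ∃ n ∈ Subgroup.normalizer (((P : Subgroup G) ⊓ Cfsg.pPrimePCore p G : Subgroup G) : Set G), n * x * n⁻¹ = y := by
  set O := Cfsg.pPrimeCore p G
  set Q : Subgroup G := (P : Subgroup G) ⊓ Cfsg.pPrimePCore p G with hQ
  have hOcop : (Nat.card O).Coprime p := (Solv.pPrimeCore_mem p).2
  have hOn : O.Normal := (Solv.pPrimeCore_mem p).1
  haveI := hOn
  have hO : ¬ p ∣ Nat.card O := (Fact.out : p.Prime).coprime_iff_not_dvd.mp hOcop.symm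
  have hQP : IsPGroup p Q := P.2.to_inf_left
  have hQO : Q ⊓ O = ⊥ := by
    rw [Subgroup.eq_bot_iff_forall]
    rintro x ⟨hxQ, hxO⟩
    obtain ⟨k, hk⟩ := hQP ⟨x, hxQ⟩
    have hk' : x ^ p ^ k = 1 := congrArg Subtype.val hk
    have h1 : orderOf x ∣ Nat.card O := Subgroup.orderOf_dvd_natCard O hxO
    rw [← orderOf_eq_one_iff]
    exact Nat.eq_one_of_dvd_coprimes (Nat.Coprime.pow_right k hOcop) h1 (orderOf_dvd_of_pow_eq_one hk')
  have hsplit : ∀ y ∈ Subgroup.normalizer (Q : Set G), (∃ k : ℕ, orderOf y = p ^ k) → ∀ d ∈ O,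
      d⁻¹ * y * d ∈ Subgroup.normalizer (Q : Set G) →
      ∃ d₁ ∈ O ⊓ Subgroup.centralizer ({y} : Set G), ∃ d₂ ∈ O ⊓ Subgroup.centralizer (Q : Set G), d = d₁ * d₂ := by
    intro y hy ⟨k, hk⟩ d hd hyd
    let C := O ⊓ Subgroup.centralizer (Q : Set G)
    have hNO : ∀ e ∈ O, e ∈ Subgroup.normalizer (Q : Set G) → e ∈ Subgroup.centralizer (Q : Set G) := by
      intro e he hen
      rw [Subgroup.mem_centralizer_iff]
      intro q hq
      have hmem : q * e * q⁻¹ * e⁻¹ ∈ Q ⊓ O := by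
        constructor
        · have := mul_mem hq ((hen q⁻¹).mp (inv_mem hq))
          have e1 : q * (e * q⁻¹ * e⁻¹) = q * e * q⁻¹ * e⁻¹ := by group
          rwa [e1] at this
        · exact O.mul_mem (hOn.conj_mem e he q) (O.inv_mem he)
      rw [hQO, Subgroup.mem_bot] at hmem
      calc q * e = (q * e * q⁻¹ * e⁻¹) * e * q := by group
        _ = e * q := by rw [hmem, one_mul]
    have hyC : Subgroup.zpowers y ≤ Subgroup.normalizer (C : Set G) := by
      rw [Subgroup.zpowers_le]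
      refine SylowFusion.mem_normalizer_of_conj_mem fun c hc => ⟨hOn.conj_mem c hc.1 y, ?_⟩
      refine hNO _ (hOn.conj_mem c hc.1 y) ?_
      exact mul_mem (mul_mem hy (Subgroup.centralizer_le_normalizer _ hc.2)) (inv_mem hy)
    have hCdvd : ¬ p ∣ Nat.card C := fun h => hO (h.trans (Subgroup.card_dvd_of_le inf_le_left))
    have hyp : IsPGroup p (Subgroup.zpowers y) :=
      IsPGroup.of_card (n := k) (by rw [Nat.card_zpowers, hk])
    let S : Subgroup G := Subgroup.normalizer (Q : Set G)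
    have hcos : ∀ a ∈ Subgroup.zpowers y, d⁻¹ * (a * d * a⁻¹) ∈ C := by
      intro a ha
      have haS : a ∈ S := Subgroup.zpowers_le.mpr hy ha
      have hda : d⁻¹ * a * d ∈ S := by
        obtain ⟨n, rfl⟩ := Subgroup.mem_zpowers_iff.mp ha
        have e1 : d⁻¹ * y ^ n * d = (d⁻¹ * y * d⁻¹⁻¹) ^ n := by rw [conj_zpow, inv_inv]
        rw [e1, inv_inv]
        exact zpow_mem hyd n
      have h1 : d⁻¹ * (a * d * a⁻¹) ∈ O := mul_mem (inv_mem hd) (hOn.conj_mem d hd a)
      refine ⟨h1, hNO _ h1 ?_⟩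
      have h2 := mul_mem hda (inv_mem haS)
      have e2 : d⁻¹ * a * d * a⁻¹ = d⁻¹ * (a * d * a⁻¹) := by group
      exact e2 ▸ h2
    obtain ⟨c, hc, hdc⟩ := CoprimeAct.exists_fixed_in_coset hyp hCdvd hyC d hcos
    refine ⟨d * c, ⟨mul_mem hd hc.1, ?_⟩, c⁻¹, inv_mem hc, by group⟩
    exact Subgroup.mem_centralizer_singleton_iff.mpr
      (Subgroup.mem_centralizer_iff.mp hdc y (Subgroup.mem_zpowers y)).symm
  refine ⟨hsplit, fun x y hx hy hxy => ?_⟩
  obtain ⟨g, hg⟩ := isConj_iff.mp hxy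
  haveI : (Cfsg.pPrimePCore p G).Normal := by
    haveI : (Cfsg.pCore p (G ⧸ Cfsg.pPrimeCore p G)).Normal := inferInstance
    exact Subgroup.Normal.comap this _
  have hPN : (P : Subgroup G) ≤ Subgroup.normalizer (Q : Set G) := by
    intro s hs
    refine SylowFusion.mem_normalizer_of_conj_mem fun q hq => ⟨(P : Subgroup G).mul_mem ((P : Subgroup G).mul_mem hs hq.1) ((P : Subgroup G).inv_mem hs), ?_⟩
    exact (inferInstance : (Cfsg.pPrimePCore p G).Normal).conj_mem q hq.2 s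
  have hfr : ∀ u : G, ∃ d ∈ O, ∃ n ∈ Subgroup.normalizer (Q : Set G), u = d * n := by
    intro u
    set R := Cfsg.pPrimePCore p G
    have hQs : (P : Subgroup G) ⊓ R = Q := rfl
    -- `Q` is a Sylow subgroup of `R`
    obtain ⟨S, hS⟩ := (P.2.to_inf_left (K := R)).comap_subtype (K := R) |>.exists_le_sylow
    obtain ⟨T, hST⟩ := (S.2.map R.subtype).exists_le_sylow
    obtain ⟨w, hw⟩ := MulAction.exists_smul_eq G T P
    have hSQ : (S : Subgroup R).map R.subtype = Q := by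
      refine le_antisymm ?_ ?_
      · have h1 : ((S : Subgroup R).map R.subtype).map (MulAut.conj w).toMonoidHom ≤ Q := by
          rintro _ ⟨s, hs, rfl⟩
          refine ⟨?_, ?_⟩
          · rw [← hw]
            exact Subgroup.smul_mem_pointwise_smul s (MulAut.conj w) _ (hST hs)
          · obtain ⟨s', -, rfl⟩ := hs
            exact (inferInstance : R.Normal).conj_mem _ s'.2 w
        have h2 : Q ≤ (S : Subgroup R).map R.subtype := fun q hq => ⟨⟨q, hq.2⟩, hS hq, rfl⟩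
        have h3 : Nat.card ((S : Subgroup R).map R.subtype) ≤ Nat.card Q := by
          rw [← Subgroup.card_map_of_injective (f := (MulAut.conj w).toMonoidHom) (MulAut.conj w).injective]
          exact Subgroup.card_le_of_le h1
        exact (Subgroup.eq_of_le_of_card_ge h2 h3).ge
      · exact fun q hq => ⟨⟨q, hq.2⟩, hS hq, rfl⟩
    have hu := Sylow.normalizer_sup_eq_top S
    rw [hSQ] at hu
    have hmem : u ∈ Subgroup.normalizer (Q : Set G) ⊔ R := hu ▸ Subgroup.mem_top u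
    obtain ⟨n, hn, r, hr, rfl⟩ := Subgroup.mem_sup_of_normal_right.mp hmem
    have hdec : ∀ r ∈ R, ∃ d ∈ O, ∃ q ∈ Q, r = d * q := by
      intro r hr
      have hlt : R ≤ Q ⊔ O := by
        refine CoprimeAct.le_of_sylow_le fun l hl => ?_
        haveI := Fact.mk hl
        obtain ⟨L⟩ := (inferInstance : Nonempty (Sylow l R))
        by_cases hlp : l = p
        · subst hlp
          exact ⟨S, hSQ.le.trans le_sup_left⟩
        · refine ⟨L, le_trans (fun x hx => ?_) le_sup_right⟩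
          obtain ⟨x, hxL, rfl⟩ := hx
          obtain ⟨i, hi⟩ := L.2 ⟨x, hxL⟩
          have hi' : (x : G) ^ l ^ i = 1 := congrArg (fun z : R => (z : G)) (congrArg Subtype.val hi :)
          have hbar : ((x : G) : G ⧸ O) ∈ Cfsg.pCore p (G ⧸ O) := x.2
          obtain ⟨j, hj⟩ := (Solv.pCore_mem p (G := G ⧸ O)).2 ⟨_, hbar⟩
          have hj' : ((x : G) : G ⧸ O) ^ p ^ j = 1 := congrArg Subtype.val hj
          have hi'' : ((x : G) : G ⧸ O) ^ l ^ i = 1 := by rw [← QuotientGroup.mk_pow, hi']; rfl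
          rw [Subgroup.coe_subtype, ← QuotientGroup.eq_one_iff, ← orderOf_eq_one_iff]
          exact Nat.eq_one_of_dvd_coprimes (Nat.Coprime.pow i j ((Nat.coprime_primes hl Fact.out).mpr hlp))
            (orderOf_dvd_of_pow_eq_one hi'') (orderOf_dvd_of_pow_eq_one hj')
      obtain ⟨q, hq, d, hd, rfl⟩ := Subgroup.mem_sup_of_normal_right.mp (hlt hr)
      exact ⟨q * d * q⁻¹, hOn.conj_mem d hd q, q, hq, by group⟩
    obtain ⟨d, hd, q, hq, rfl⟩ := hdec r hr
    exact ⟨n * d * n⁻¹, hOn.conj_mem d hd n, n * q, mul_mem hn (Subgroup.le_normalizer hq), by group⟩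
  obtain ⟨d, hd, n, hn, hgdn⟩ := hfr g
  have hy' : d⁻¹ * y * d ∈ Subgroup.normalizer (Q : Set G) := by
    have e : d⁻¹ * y * d = n * x * n⁻¹ := by rw [← hg, hgdn]; group
    rw [e]; exact mul_mem (mul_mem hn (hPN hx)) (inv_mem hn)
  obtain ⟨d₁, hd1, d₂, hd2, hdd⟩ := hsplit y (hPN hy)
    (by obtain ⟨k, hk⟩ := IsPGroup.iff_orderOf.mp P.2 ⟨y, hy⟩; exact ⟨k, by simpa using hk⟩) d hd hy'
  refine ⟨d₂ * n, mul_mem (Subgroup.centralizer_le_normalizer _ hd2.2) hn, ?_⟩
  have hc := Subgroup.mem_centralizer_singleton_iff.mp hd1.2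
  calc d₂ * n * x * (d₂ * n)⁻¹ = d₁⁻¹ * (g * x * g⁻¹) * d₁ := by rw [hgdn, hdd]; group
    _ = d₁⁻¹ * (y * d₁) := by rw [hg]; group
    _ = y := by rw [← hc]; group

end Cfsg.Agent.S1907
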