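import Cfsg.Statements.S1939
import Cfsg.Agent.Coprime.SylowFusion

set_option autoImplicit false
open Cfsg

namespace Cfsg.Agent.S1939

/-- Let S be a Sylow p-subgroup of the finite group G and a an element of S that is the only G-conjugate of a lying in S. Then every power of a has the same property: for every n, the only G-conjugate of a^n lying in S is a^n. -/
theorem result {G : Type*} [Group G] [Finite G] {p : ℕ} [Fact p.Prime] (S : Sylow p G) (a : G)
    (haS : a ∈ (S : Subgroup G)) (hwc : ∀ g : G, g * a * g⁻¹ ∈ (S : Subgroup G) → g * a * g⁻¹ = a) (n : ℕ) :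
    ∀ g : G, g * a ^ n * g⁻¹ ∈ (S : Subgroup G) → g * a ^ n * g⁻¹ = a ^ n := by
  intro g hb
  have haC : ∀ s ∈ (S : Subgroup G), s * a = a * s := fun s hs => by
    have := hwc s (mul_mem (mul_mem hs haS) (inv_mem hs))
    calc s * a = s * a * s⁻¹ * s := by group
      _ = a * s := by rw [this]
  set b := g * a ^ n * g⁻¹ with hbdef
  have hK1 : Subgroup.zpowers a ≤ Subgroup.centralizer {b} := by
    rw [Subgroup.zpowers_le, Subgroup.mem_centralizer_singleton_iff]
    exact (haC b hb).symm
  have hK2 : Subgroup.zpowers (g * a * g⁻¹) ≤ Subgroup.centralizer {b} := by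
    rw [Subgroup.zpowers_le, Subgroup.mem_centralizer_singleton_iff, hbdef, ← conj_pow]
    exact ((Commute.refl (g * a * g⁻¹)).pow_right n).eq
  have hQ : IsPGroup p (Subgroup.zpowers (g * a * g⁻¹)) := by
    have h0 := (SylowFusion.isPGroup_zpowers_of_mem S.2 haS).map (MulAut.conj g).toMonoidHom
    rwa [MonoidHom.map_zpowers] at h0
  obtain ⟨k, hk, R, -, hRp, haR, hconj⟩ := SylowFusion.exists_conj_pgroup_sup hK1
    (SylowFusion.isPGroup_zpowers_of_mem S.2 haS) hK2 hQ
  obtain ⟨S', hS'⟩ := hRp.exists_le_sylow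
  obtain ⟨h, hh⟩ := MulAction.exists_smul_eq G S' S
  have hmem : ∀ x ∈ R, h * x * h⁻¹ ∈ (S : Subgroup G) := fun x hx => by
    rw [← hh]
    exact Subgroup.smul_mem_pointwise_smul x (MulAut.conj h) _ (hS' hx)
  have e1 : h * a * h⁻¹ = a := hwc h (hmem a (haR (Subgroup.mem_zpowers a)))
  have e2 : h * (k * (g * a * g⁻¹) * k⁻¹) * h⁻¹ = a := by
    have hin := hmem _ (hconj _ (Subgroup.mem_zpowers (g * a * g⁻¹)))
    have e : h * (k * (g * a * g⁻¹) * k⁻¹) * h⁻¹ = (h * k * g) * a * (h * k * g)⁻¹ := by group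
    rw [e] at hin ⊢
    exact hwc _ hin
  have e3 : k * (g * a * g⁻¹) * k⁻¹ = a := by
    have := e2.trans e1.symm
    simpa using this
  have e4 : k * b * k⁻¹ = a ^ n := by rw [hbdef, ← conj_pow, ← conj_pow, e3]
  have hkb : k * b = b * k := Subgroup.mem_centralizer_singleton_iff.mp hk
  rw [← e4, hkb]; group

end Cfsg.Agent.S1939
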