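import Cfsg.Statements.S1940

set_option autoImplicit false
open Cfsg

namespace Cfsg.Agent.S1940

/-- Let the finite group L act by automorphisms on the finite abelian group M, and let N be an L-invariant subgroup of M such that M/N is a p-group on which L acts trivially (every l • m lies in the coset mN). If every element of M is a product of an element of N and an element fixed by a Sylow p-subgroup T of L, then every element of M is a product of an element of N and an element fixed by all of L. -/
theorem result {L : Type*} [Group L] [Finite L] {M : Type*} [CommGroup M] [Finite M] [MulDistribMulAction L M]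
    {p : ℕ} [Fact p.Prime] (N : Subgroup M) (hN : ∀ (l : L) (m : M), m ∈ N → l • m ∈ N)
    (hquot : IsPGroup p (M ⧸ N)) (htriv : ∀ (l : L) (m : M), (l • m) * m⁻¹ ∈ N) (T : Sylow p L)
    (hT : ∀ m : M, ∃ n ∈ N, ∃ c : M, (∀ t ∈ (T : Subgroup L), t • c = c) ∧ m = n * c) :
    ∀ m : M, ∃ n ∈ N, ∃ c : M, (∀ l : L, l • c = c) ∧ m = n * c := by
  classical
  intro m
  obtain ⟨n₀, hn₀, c₀, hc₀, rfl⟩ := hT m
  letI : MulAction L (L ⧸ (T : Subgroup L)) := inferInstance
  haveI : Fintype (L ⧸ (T : Subgroup L)) := Fintype.ofFinite _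
  let f : L ⧸ (T : Subgroup L) → M := Quotient.lift (fun l => l • c₀) (by
    intro a b hab
    have h : a⁻¹ * b ∈ (T : Subgroup L) := QuotientGroup.leftRel_apply.mp hab
    change a • c₀ = b • c₀
    conv_lhs => rw [← hc₀ _ h]
    rw [← mul_smul, mul_inv_cancel_left])
  have hfl : ∀ (l : L) q, l • f q = f (l • q) := by
    intro l q
    induction q using QuotientGroup.induction_on with
    | H a => exact (mul_smul l a c₀).symm
  let d : M := ∏ q, f q
  have hd : ∀ l : L, l • d = d := by
    intro l
    have h1 : l • d = ∏ q, l • f q := map_prod (MulDistribMulAction.toMonoidHom M l) f Finset.univ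
    rw [h1]
    simp only [hfl]
    exact Equiv.prod_comp (MulAction.toPerm l) f
  let π := QuotientGroup.mk' N
  have hπ : ∀ q, π (f q) = π c₀ := by
    intro q
    induction q using QuotientGroup.induction_on with
    | H a =>
      refine (QuotientGroup.eq.mpr ?_).symm
      change c₀⁻¹ * (a • c₀) ∈ N
      rw [mul_comm]; exact htriv a c₀
  have hdπ : π d = π c₀ ^ Fintype.card (L ⧸ (T : Subgroup L)) := by
    rw [map_prod, Finset.prod_congr rfl fun q _ => hπ q, Finset.prod_const, Finset.card_univ]
  have hcop : (orderOf (π c₀)).Coprime (Fintype.card (L ⧸ (T : Subgroup L))) := by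
    obtain ⟨k, hk⟩ := IsPGroup.iff_orderOf.mp hquot (π c₀)
    rw [hk]
    refine Nat.Coprime.pow_left k ((Fact.out : p.Prime).coprime_iff_not_dvd.mpr ?_)
    rw [← Nat.card_eq_fintype_card, ← Subgroup.index_eq_card]
    exact T.not_dvd_index
  obtain ⟨k, hk⟩ := exists_pow_eq_self_of_coprime (x := π c₀) (n := Fintype.card (L ⧸ (T : Subgroup L))) hcop.symm
  refine ⟨n₀ * c₀ * (d ^ k)⁻¹, ?_, d ^ k, fun l => by rw [smul_pow', hd], by group⟩
  have h1 : π (n₀ * c₀ * (d ^ k)⁻¹) = 1 := by
    rw [map_mul, map_mul, map_inv, map_pow, hdπ, hk, (show π n₀ = 1 from (QuotientGroup.eq_one_iff n₀).mpr hn₀)]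
    group
  exact (QuotientGroup.eq_one_iff _).mp h1

end Cfsg.Agent.S1940
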