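import Cfsg.Statements.S1941
import Mathlib.Algebra.BigOperators.Group.Finset.Basic
import Mathlib.GroupTheory.GroupAction.Quotient
import Cfsg.Agent.Layer.Decomp
import Cfsg.Agent.Layer.CharP
import Cfsg.Agent.Solv.Fitting

set_option autoImplicit false
open Cfsg
open scoped commutatorElement Pointwise

namespace Cfsg.Agent.S1941

/-- Let G be a finite group with no nontrivial normal subgroup of order prime to p, T a Sylow p-subgroup of G and E(G) the layer of G (the subgroup generated by its components). An automorphism of G of p-power order that fixes T and E(G) elementwise is inner. -/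
theorem result {G : Type*} [Group G] [Finite G] {p : ℕ} [Fact p.Prime] (hcore : Cfsg.pPrimeCore p G = ⊥)
    (T : Sylow p G) (α : MulAut G) (hα : ∃ j : ℕ, orderOf α = p ^ j) (hfixT : ∀ x ∈ (T : Subgroup G), α x = x)
    (hfixE : ∀ x ∈ Cfsg.layer G, α x = x) : ∃ g : G, ∀ x : G, α x = g * x * g⁻¹ := by
  classical
  have hp : p.Prime := Fact.out
  set F := Cfsg.generalizedFittingSubgroup G with hF
  haveI hFn : F.Normal := by
    haveI : (Cfsg.fittingSubgroup G).Normal := inferInstance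
    haveI : (Cfsg.layer G).Normal := inferInstance
    rw [hF]
    exact Subgroup.sup_normal _ _
  have hfit : Cfsg.fittingSubgroup G = Cfsg.pCore p G := Solv.fitting_eq_pCore hcore
  have hfixF : ∀ u ∈ F, α u = u := by
    intro u hu
    refine ((sup_le (fun y hy => ?_) (fun y hy => ?_) : F ≤ MonoidHom.eqLocus α.toMonoidHom (MonoidHom.id G)) hu)
    · exact hfixE y hy
    · rw [hfit] at hy; exact hfixT y (Solv.pCore_le_sylow T hy)
  set A := Subgroup.centralizer (F : Set G) with hA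
  haveI : A.Normal := inferInstance
  have hAp : A ≤ Cfsg.pCore p G := hfit ▸ Layer.centralizer_generalizedFitting_le_fitting
  have hAF : A ≤ F := Layer.centralizer_generalizedFitting_le
  have hAab : ∀ u ∈ A, ∀ v ∈ A, u * v = v * u := fun u hu v hv => (Subgroup.mem_centralizer_iff.mp hv u (hAF hu))
  haveI : IsMulCommutative ↥A := ⟨⟨fun u v => Subtype.ext (hAab u u.2 v v.2)⟩⟩
  have hfA : ∀ x : G, α x * x⁻¹ ∈ A := by
    intro x
    rw [Subgroup.mem_centralizer_iff]
    intro u hu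
    have hw : x⁻¹ * u * x ∈ F := by simpa using hFn.conj_mem u hu x⁻¹
    have h1 : α x⁻¹ * u * α x = x⁻¹ * u * x := by
      have := hfixF _ hw
      rwa [map_mul, map_mul, hfixF u hu] at this
    rw [map_inv] at h1
    calc u * (α x * x⁻¹) = α x * ((α x)⁻¹ * u * α x) * x⁻¹ := by group
      _ = α x * x⁻¹ * u := by rw [h1]; group
  have hfmul : ∀ x y : G, α (x * y) * (x * y)⁻¹ = (α x * x⁻¹) * (x * (α y * y⁻¹) * x⁻¹) := by
    intro x y
    rw [map_mul]
    group
  haveI : Fintype (G ⧸ (T : Subgroup G)) := Fintype.ofFinite _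
  let f : G ⧸ (T : Subgroup G) → ↥A := Quotient.lift (fun x : G => (⟨α x * x⁻¹, hfA x⟩ : ↥A)) (by
    intro x y hxy
    have hxy' : x⁻¹ * y ∈ (T : Subgroup G) := QuotientGroup.leftRel_apply.mp hxy
    refine Subtype.ext ?_
    show α x * x⁻¹ = α y * y⁻¹
    have e : α (x⁻¹ * y) = x⁻¹ * y := hfixT _ hxy'
    conv_rhs => rw [show y = x * (x⁻¹ * y) by group, map_mul, e]
    group)
  open scoped IsMulCommutative in
  have key : ∃ c : G, ∀ x : G, (α x * x⁻¹) ^ Nat.card (G ⧸ (T : Subgroup G)) * (x * c * x⁻¹) = c ∧ c ∈ A := by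
    refine ⟨(∏ q, f q : ↥A), fun x => ⟨?_, Subtype.coe_prop _⟩⟩
    let φ : ↥A →* ↥A :=
      { toFun := fun z => ⟨x * z * x⁻¹, Subgroup.Normal.conj_mem inferInstance _ z.2 x⟩
        map_one' := Subtype.ext (by simp)
        map_mul' := fun z w => Subtype.ext (by
          show x * ((z : G) * w) * x⁻¹ = x * z * x⁻¹ * (x * w * x⁻¹)
          group) }
    have h1 : (⟨α x * x⁻¹, hfA x⟩ : ↥A) ^ Nat.card (G ⧸ (T : Subgroup G)) * φ (∏ q, f q) = ∏ q, f q := by
      rw [map_prod, Nat.card_eq_fintype_card, ← Finset.card_univ, ← Finset.prod_const, ← Finset.prod_mul_distrib]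
      refine Fintype.prod_equiv (MulAction.toPerm x) _ _ fun q => ?_
      induction q using Quotient.inductionOn with
      | _ y => exact Subtype.ext (hfmul x y).symm
    exact congrArg Subtype.val h1
  obtain ⟨c, hc⟩ := key
  obtain ⟨k, hk⟩ := ((Solv.pCore_mem (G := G) p).2.to_le hAp).exists_card_eq
  have hn : (Nat.card (G ⧸ (T : Subgroup G))).Coprime (Nat.card ↥A) := by
    rw [hk]
    refine Nat.Coprime.pow_right k ((hp.coprime_iff_not_dvd.mpr ?_).symm)
    rw [← Subgroup.index_eq_card]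
    exact T.not_dvd_index
  obtain ⟨m, hm⟩ := exists_pow_eq_self_of_coprime (x := c) (hn.coprime_dvd_right (by
    have := orderOf_dvd_natCard (⟨c, (hc 1).2⟩ : ↥A)
    rwa [Subgroup.orderOf_mk] at this))
  -- `c = (c ^ n) ^ m`, so the cocycle is a coboundary
  refine ⟨c ^ m, fun x => ?_⟩
  obtain ⟨hx, hcA⟩ := hc x
  have hxcA : x * c * x⁻¹ ∈ A := Subgroup.Normal.conj_mem inferInstance _ hcA x
  have h2 : α x * x⁻¹ = c ^ m * (x * c ^ m * x⁻¹)⁻¹ := by
    set n := Nat.card (G ⧸ (T : Subgroup G)) with hn'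
    have hord : (n).Coprime (orderOf (α x * x⁻¹)) := hn.coprime_dvd_right (by
      have := orderOf_dvd_natCard (⟨_, hfA x⟩ : ↥A)
      rwa [Subgroup.orderOf_mk] at this)
    have hz : c ^ m * (x * c ^ m * x⁻¹)⁻¹ ∈ A :=
      A.mul_mem (A.pow_mem hcA m) (A.inv_mem (Subgroup.Normal.conj_mem inferInstance _ (A.pow_mem hcA m) x))
    obtain ⟨d, hd⟩ := exists_pow_eq_self_of_coprime (hn.coprime_dvd_right
      (show orderOf ((α x * x⁻¹)⁻¹ * (c ^ m * (x * c ^ m * x⁻¹)⁻¹)) ∣ Nat.card ↥A by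
        have := orderOf_dvd_natCard (⟨_, A.mul_mem (A.inv_mem (hfA x)) hz⟩ : ↥A)
        rwa [Subgroup.orderOf_mk] at this))
    have hcn : (c ^ m) ^ n = c := by rw [← pow_mul, mul_comm, pow_mul]; exact hm
    have e : ((α x * x⁻¹)⁻¹ * (c ^ m * (x * c ^ m * x⁻¹)⁻¹)) ^ n = 1 := by
      have c1 : Commute (α x * x⁻¹)⁻¹ (c ^ m * (x * c ^ m * x⁻¹)⁻¹) := hAab _ (A.inv_mem (hfA x)) _ hz
      have c2 : Commute (c ^ m) (x * c ^ m * x⁻¹)⁻¹ :=
        hAab _ (A.pow_mem hcA m) _ (A.inv_mem (Subgroup.Normal.conj_mem inferInstance _ (A.pow_mem hcA m) x))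
      rw [c1.mul_pow, c2.mul_pow, inv_pow, inv_pow, conj_pow, hcn]
      have h3 : (α x * x⁻¹) ^ n = c * (x * c * x⁻¹)⁻¹ := eq_mul_inv_of_mul_eq hx
      rw [h3]
      exact inv_mul_cancel _
    rw [e, one_pow] at hd
    exact inv_mul_eq_one.mp hd.symm
  calc α x = α x * x⁻¹ * x := by group
    _ = c ^ m * x * (c ^ m)⁻¹ := by rw [h2]; group

end Cfsg.Agent.S1941
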