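import Cfsg.Statements.S1944
import Mathlib.Algebra.BigOperators.Group.Finset.Basic
import Mathlib.GroupTheory.GroupAction.Quotient
import Cfsg.Agent.PSolv.Basic
import Cfsg.Agent.Layer.PElement

set_option autoImplicit false
open Cfsg
open scoped commutatorElement Pointwise

namespace Cfsg.Agent.S1944

/-- Let S be a Sylow p-subgroup of the finite group G and suppose that the centre Z(S) lies in O_{p',p}(G). The elements of S each of which is its only G-conjugate in S form a subgroup W of Z(S); W is then a direct factor of Z(S): there is a subgroup K of Z(S) with W ∩ K = 1 and WK = Z(S). -/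
theorem result {G : Type*} [Group G] [Finite G] {p : ℕ} [Fact p.Prime] (S : Sylow p G)
    (hZ : ((S : Subgroup G) ⊓ Subgroup.centralizer ((S : Subgroup G) : Set G)) ≤ Cfsg.pPrimePCore p G) :
    ∃ W K : Subgroup G, (∀ x : G, x ∈ W ↔ (x ∈ (S : Subgroup G) ∧ ∀ g : G, g * x * g⁻¹ ∈ (S : Subgroup G) → g * x * g⁻¹ = x)) ∧
      K ≤ ((S : Subgroup G) ⊓ Subgroup.centralizer ((S : Subgroup G) : Set G)) ∧ W ⊓ K = ⊥ ∧ W ⊔ K = ((S : Subgroup G) ⊓ Subgroup.centralizer ((S : Subgroup G) : Set G)) := by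
  classical
  have hp : p.Prime := Fact.out
  set O := Cfsg.pPrimeCore p G with hO
  haveI hOn : O.Normal := (Solv.pPrimeCore_mem p).1
  set M := Cfsg.pPrimePCore p G with hM
  haveI hMn : M.Normal := by
    haveI := (Solv.pCore_mem (G := G ⧸ O) p).1
    exact Subgroup.Normal.comap inferInstance _
  set Z := (S : Subgroup G) ⊓ Subgroup.centralizer ((S : Subgroup G) : Set G) with hZdef
  have hS : IsPGroup p ↥(S : Subgroup G) := S.isPGroup'
  have hi : ¬ p ∣ ((S : Subgroup G).subgroupOf M).index := fun hd =>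
    S.not_dvd_index (hd.trans (Layer.relIndex_dvd_index_normal _ M))
  let P : Sylow p ↥M := (hS.comap_subtype (K := M)).toSylow hi
  set R := (P : Subgroup ↥M).map M.subtype with hR
  have hRS : R ≤ (S : Subgroup G) := by rintro _ ⟨x, hx, rfl⟩; exact hx
  set N := Subgroup.normalizer (R : Set G) with hN
  have hfr : N ⊔ M = ⊤ := Sylow.normalizer_sup_eq_top P
  have hMO : M ≤ R ⊔ O := by
    intro m hm
    have h1 : QuotientGroup.mk' O m ∈ R.map (QuotientGroup.mk' O) := by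
      show QuotientGroup.mk' (Cfsg.pPrimeCore p G) m ∈ ((P : Subgroup ↥M).map M.subtype).map (QuotientGroup.mk' (Cfsg.pPrimeCore p G))
      rw [PSolv.sylow_pPrimePCore_map P]; exact hm
    obtain ⟨t, ht, he⟩ := h1
    rw [show m = t * (t⁻¹ * m) by group]
    exact Subgroup.mul_mem_sup ht (QuotientGroup.eq.mp he)
  have hgen : ∀ g : G, ∃ o ∈ O, ∃ n ∈ N, g = n * o := by
    intro g
    have h1 : g ∈ N ⊔ O := (sup_le le_sup_left (hMO.trans (sup_le_sup_right Subgroup.le_normalizer O)) : N ⊔ M ≤ N ⊔ O) (hfr ▸ Subgroup.mem_top g)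
    obtain ⟨n, hn, o, ho, rfl⟩ := Subgroup.mem_sup_of_normal_right.mp h1
    exact ⟨o, ho, n, hn, rfl⟩
  have hSN : (S : Subgroup G) ≤ N := by
    intro s hs
    rw [hN, Subgroup.mem_normalizer_iff]
    intro x
    constructor
    · intro hx
      exact ⟨⟨s * x * s⁻¹, hMn.conj_mem x (Subgroup.map_subtype_le _ hx) s⟩, (S : Subgroup G).mul_mem ((S : Subgroup G).mul_mem hs (hRS hx)) ((S : Subgroup G).inv_mem hs), rfl⟩
    · intro hx
      have hxM : x ∈ M := by simpa [mul_assoc] using hMn.conj_mem _ (Subgroup.map_subtype_le _ hx) s⁻¹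
      have hxS : x ∈ (S : Subgroup G) := by
        have := (S : Subgroup G).mul_mem ((S : Subgroup G).mul_mem ((S : Subgroup G).inv_mem hs) (hRS hx)) hs
        simpa [mul_assoc] using this
      exact ⟨⟨x, hxM⟩, hxS, rfl⟩
  have hZR : ∀ z ∈ Z, z ∈ R := fun z hz => ⟨⟨z, hZ hz⟩, hz.1, rfl⟩
  set Wf := Z ⊓ Subgroup.centralizer (N : Set G) with hWf
  have hWmem : ∀ x : G, x ∈ Wf ↔ (x ∈ (S : Subgroup G) ∧ ∀ g : G, g * x * g⁻¹ ∈ (S : Subgroup G) → g * x * g⁻¹ = x) := by
    intro x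
    constructor
    · rintro ⟨hxZ, hxN⟩
      refine ⟨hxZ.1, fun g hg => ?_⟩
      obtain ⟨o, ho, n, hn, rfl⟩ := hgen g
      have hnc : n * x = x * n := Subgroup.mem_centralizer_iff.mp hxN n hn
      have h1 : (n * o) * x * (n * o)⁻¹ * x⁻¹ = 1 := by
        refine PSolv.eq_one_of_mem hS PSolv.not_dvd_pPrimeCore (Subgroup.mul_mem _ hg (Subgroup.inv_mem _ hxZ.1)) ?_
        have e : (n * o) * x * (n * o)⁻¹ * x⁻¹ = n * (o * (x * o⁻¹ * x⁻¹)) * n⁻¹ := by
          have : x = n * x * n⁻¹ := by rw [hnc, mul_inv_cancel_right]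
          conv_lhs => arg 2; rw [this]
          group
        rw [e]
        exact hOn.conj_mem _ (O.mul_mem ho (hOn.conj_mem _ (O.inv_mem ho) x)) n
      exact mul_inv_eq_one.mp h1
    · rintro ⟨hxS, hfix⟩
      have hxZ : x ∈ Z := by
        refine ⟨hxS, Subgroup.mem_centralizer_iff.mpr fun s hs => ?_⟩
        have := hfix s ((S : Subgroup G).mul_mem ((S : Subgroup G).mul_mem hs hxS) ((S : Subgroup G).inv_mem hs))
        exact mul_inv_eq_iff_eq_mul.mp this
      refine ⟨hxZ, Subgroup.mem_centralizer_iff.mpr fun n hn => ?_⟩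
      exact mul_inv_eq_iff_eq_mul.mp (hfix n (hRS ((Subgroup.mem_normalizer_iff.mp hn x).mp (hZR x hxZ))))
  -- the averaging map
  set Zr := R ⊓ Subgroup.centralizer (R : Set G) with hZr
  haveI : IsMulCommutative ↥Zr := ⟨⟨fun u v => Subtype.ext ((Subgroup.mem_centralizer_iff.mp v.2.2 u u.2.1))⟩⟩
  set S' := (S : Subgroup G).subgroupOf N with hS'
  haveI : Fintype (↥N ⧸ S') := Fintype.ofFinite _
  have hconjZr : ∀ n ∈ N, ∀ z ∈ Zr, n * z * n⁻¹ ∈ Zr := by
    intro n hn z hz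
    refine ⟨(Subgroup.mem_normalizer_iff.mp hn z).mp hz.1, Subgroup.mem_centralizer_iff.mpr fun r hr => ?_⟩
    have hr' : n⁻¹ * r * n ∈ R := by
      have := (Subgroup.mem_normalizer_iff.mp (N.inv_mem hn) r).mp hr
      rwa [inv_inv] at this
    calc r * (n * z * n⁻¹) = n * ((n⁻¹ * r * n) * z) * n⁻¹ := by group
      _ = n * z * n⁻¹ * r := by rw [Subgroup.mem_centralizer_iff.mp hz.2 _ hr']; group
  have hZZr : ∀ z ∈ Z, z ∈ Zr := fun z hz => ⟨hZR z hz, Subgroup.centralizer_le hRS hz.2⟩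
  let f : ↥Z → ↥N ⧸ S' → ↥Zr := fun z => Quotient.lift (fun n : ↥N => (⟨_, hconjZr n n.2 z (hZZr z z.2)⟩ : ↥Zr)) (by
    intro a b hab
    have hab2 : a⁻¹ * b ∈ S' := QuotientGroup.leftRel_apply.mp hab
    have hab' : (a : G)⁻¹ * b ∈ (S : Subgroup G) := hab2
    refine Subtype.ext ?_
    show (a : G) * z * (a : G)⁻¹ = (b : G) * z * (b : G)⁻¹
    have h3 : (a : G)⁻¹ * b * z = z * ((a : G)⁻¹ * b) := Subgroup.mem_centralizer_iff.mp z.2.2 _ hab'
    calc (a : G) * z * (a : G)⁻¹ = (a : G) * (z * ((a : G)⁻¹ * b)) * (b : G)⁻¹ := by group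
      _ = (a : G) * ((a : G)⁻¹ * b * z) * (b : G)⁻¹ := by rw [h3]
      _ = (b : G) * z * (b : G)⁻¹ := by group)
  open scoped IsMulCommutative in
  have key : ∃ φ : ↥Z →* G, ∀ z : ↥Z, φ z ∈ Wf ∧ ((z : G) ∈ Wf → φ z = (z : G) ^ Nat.card (↥N ⧸ S')) := by
    let φ₀ : ↥Z →* ↥Zr :=
      { toFun := fun z => ∏ q, f z q
        map_one' := Finset.prod_eq_one fun q _ => by
          induction q using Quotient.inductionOn with
          | _ a => exact Subtype.ext (by show (a : G) * 1 * (a : G)⁻¹ = 1; group)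
        map_mul' := fun y z => by
          rw [← Finset.prod_mul_distrib]
          refine Finset.prod_congr rfl fun q _ => ?_
          induction q using Quotient.inductionOn with
          | _ a => exact Subtype.ext (by show (a : G) * ((y : G) * z) * (a : G)⁻¹ = (a : G) * y * (a : G)⁻¹ * ((a : G) * z * (a : G)⁻¹); group) }
    refine ⟨Zr.subtype.comp φ₀, fun z => ⟨?_, fun hz => ?_⟩⟩
    · have hN' : ∀ n : ↥N, (n : G) * (φ₀ z : G) * (n : G)⁻¹ = (φ₀ z : G) := by
        intro n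
        let ψ : ↥Zr →* ↥Zr :=
          { toFun := fun w => ⟨_, hconjZr n n.2 w w.2⟩
            map_one' := Subtype.ext (by simp)
            map_mul' := fun v w => Subtype.ext (by
              show (n : G) * ((v : G) * w) * (n : G)⁻¹ = n * v * (n : G)⁻¹ * (n * w * (n : G)⁻¹)
              group) }
        refine congrArg Subtype.val (show ψ (∏ q, f z q) = ∏ q, f z q from ?_)
        rw [map_prod]
        refine Fintype.prod_equiv (MulAction.toPerm n) _ _ fun q => ?_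
        induction q using Quotient.inductionOn with
        | _ a =>
          refine Subtype.ext ?_
          show (n : G) * ((a : G) * z * (a : G)⁻¹) * (n : G)⁻¹ = (n : G) * a * z * ((n : G) * a)⁻¹
          group
      refine ⟨⟨hRS (φ₀ z).2.1, Subgroup.mem_centralizer_iff.mpr fun s hs => mul_inv_eq_iff_eq_mul.mp (hN' ⟨s, hSN hs⟩)⟩,
        Subgroup.mem_centralizer_iff.mpr fun n hn => mul_inv_eq_iff_eq_mul.mp (hN' ⟨n, hn⟩)⟩
    · have hz' : φ₀ z = (⟨z, hZZr z z.2⟩ : ↥Zr) ^ Nat.card (↥N ⧸ S') := by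
        rw [Nat.card_eq_fintype_card, ← Finset.card_univ, ← Finset.prod_const]
        refine Finset.prod_congr rfl fun q _ => ?_
        induction q using Quotient.inductionOn with
        | _ a =>
          refine Subtype.ext ?_
          show (a : G) * z * (a : G)⁻¹ = z
          rw [Subgroup.mem_centralizer_iff.mp hz.2 a a.2, mul_inv_cancel_right]
      exact congrArg Subtype.val hz'
  obtain ⟨φ, hφ⟩ := key
  have hn : ∀ z ∈ Z, (Nat.card (↥N ⧸ S')).Coprime (orderOf z) := by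
    intro z hz
    obtain ⟨k, hk⟩ := IsPGroup.iff_orderOf.mp hS ⟨z, hz.1⟩
    rw [Subgroup.orderOf_mk] at hk
    rw [hk]
    refine Nat.Coprime.pow_right k ((hp.coprime_iff_not_dvd.mpr ?_).symm)
    rw [← Subgroup.index_eq_card]
    intro hd
    exact S.not_dvd_index (hd.trans (Subgroup.relIndex_mul_index hSN ▸ dvd_mul_right _ _))
  refine ⟨Wf, φ.ker.map Z.subtype, hWmem, Subgroup.map_subtype_le _, ?_, le_antisymm (sup_le inf_le_left (Subgroup.map_subtype_le _)) fun z hz => ?_⟩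
  · rw [eq_bot_iff]
    rintro x ⟨hxW, y, hy, rfl⟩
    have h1 := (hφ y).2 hxW
    rw [show φ y = 1 from hy] at h1
    rw [Subgroup.mem_bot]
    refine orderOf_eq_one_iff.mp (Nat.eq_one_of_dvd_coprimes (hn _ hxW.1) (orderOf_dvd_of_pow_eq_one h1.symm) dvd_rfl)
  · obtain ⟨m, hm⟩ := exists_pow_eq_self_of_coprime (hn _ (hφ ⟨z, hz⟩).1.1)
    set w := φ ⟨z, hz⟩ ^ m with hw
    have hwW : w ∈ Wf := Wf.pow_mem (hφ ⟨z, hz⟩).1 m
    have hφw : φ ⟨w, hwW.1⟩ = φ ⟨z, hz⟩ := by
      rw [(hφ ⟨w, hwW.1⟩).2 hwW]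
      show w ^ Nat.card (↥N ⧸ S') = φ ⟨z, hz⟩
      calc w ^ Nat.card (↥N ⧸ S') = (φ ⟨z, hz⟩ ^ Nat.card (↥N ⧸ S')) ^ m := by rw [hw, ← pow_mul, mul_comm, pow_mul]
        _ = φ ⟨z, hz⟩ := hm
    rw [show z = w * (w⁻¹ * z) by group]
    refine Subgroup.mul_mem_sup hwW ⟨(⟨w, hwW.1⟩ : ↥Z)⁻¹ * ⟨z, hz⟩, ?_, rfl⟩
    show φ ((⟨w, hwW.1⟩ : ↥Z)⁻¹ * ⟨z, hz⟩) = 1
    rw [map_mul, map_inv, hφw, inv_mul_cancel]

end Cfsg.Agent.S1944
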