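import Cfsg.Statements.S1948
import Cfsg.Agent.Layer.PElement
import Cfsg.Agent.Transfer.Basic
import Cfsg.Agent.PSolv.Basic

set_option autoImplicit false
open Cfsg

namespace Cfsg.Agent.S1948

/-- Let S be a Sylow p-subgroup of the finite group G. Then G = N_G(S)·O_{p'}(G) if and only if G is p-constrained and N_G(S) controls fusion in S, in the sense that whenever a subgroup Q of S has a conjugate g Q g⁻¹ inside S, the element g is a product n c with n normalizing S and c centralizing Q. -/
theorem result {G : Type*} [Group G] [Finite G] {p : ℕ} [Fact p.Prime] (S : Sylow p G) :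
    Subgroup.normalizer ((S : Subgroup G) : Set G) ⊔ Cfsg.pPrimeCore p G = ⊤ ↔
      (Cfsg.IsPConstrained p G ∧
        ∀ Q : Subgroup G, Q ≤ (S : Subgroup G) → ∀ g : G, Q.map (MulAut.conj g).toMonoidHom ≤ (S : Subgroup G) →
          ∃ n ∈ Subgroup.normalizer ((S : Subgroup G) : Set G), ∃ c ∈ Subgroup.centralizer (Q : Set G), g = n * c) := by
  classical
  set O := Cfsg.pPrimeCore p G with hO
  haveI hOn : O.Normal := (Solv.pPrimeCore_mem p).1
  set π := QuotientGroup.mk' O with hπ
  set M := Cfsg.pPrimePCore p G with hM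
  haveI hMn : M.Normal := by
    haveI := (Solv.pCore_mem (G := G ⧸ O) p).1
    exact Subgroup.Normal.comap inferInstance _
  have hS : IsPGroup p ↥(S : Subgroup G) := S.isPGroup'
  constructor
  · intro htop
    refine ⟨?_, fun Q hQ g hg => ?_⟩
    · rw [PSolv.isPConstrained_iff]
      have hSn : ((S : Subgroup G).map π).Normal := by
        rw [← Subgroup.normalizer_eq_top_iff, eq_top_iff]
        intro y _
        obtain ⟨g, rfl⟩ := QuotientGroup.mk'_surjective O y
        obtain ⟨n, hn, k, hk, rfl⟩ := Subgroup.mem_sup_of_normal_right.mp (htop ▸ Subgroup.mem_top g)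
        rw [map_mul, show QuotientGroup.mk' O k = 1 from (QuotientGroup.eq_one_iff k).mpr hk, mul_one]
        exact Subgroup.le_normalizer_map π ⟨n, hn, rfl⟩
      haveI := hSn
      intro y hy
      set C := Subgroup.centralizer (((S : Subgroup G).map π : Subgroup (G ⧸ O)) : Set (G ⧸ O)) with hC
      haveI : C.Normal := inferInstance
      have hyC : y ∈ C := Subgroup.centralizer_le (Solv.le_pCore hSn (hS.map π)) hy
      let Sb : Sylow p (G ⧸ O) := S.mapSurjective (QuotientGroup.mk'_surjective O)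
      have hSb : (Sb : Subgroup (G ⧸ O)) = (S : Subgroup G).map π := Sylow.coe_mapSurjective _ _
      have hi : ¬ p ∣ ((Sb : Subgroup (G ⧸ O)).subgroupOf C).index := fun hd =>
        Sb.not_dvd_index (hd.trans (Layer.relIndex_dvd_index_normal _ C))
      let P : Sylow p ↥C := (Sb.isPGroup'.comap_subtype (K := C)).toSylow hi
      obtain ⟨N, hNn, hNc, k, hk⟩ := Transfer.hasNPC_iff.mp (Transfer.hasNPC_of_burnside P fun g _ =>
        Subgroup.mem_centralizer_iff.mpr fun x hx =>
          Subtype.ext (Subgroup.mem_centralizer_iff.mp g.2 _ (hSb ▸ (hx : (x : G ⧸ O) ∈ (Sb : Subgroup (G ⧸ O))))))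
      haveI := Transfer.complement_characteristic hNn hNc ⟨k, hk⟩
      have hNb : N.map C.subtype ≤ Cfsg.pPrimeCore p (G ⧸ O) := Solv.le_pPrimeCore inferInstance
        (PSolv.coprime_of_not_dvd (by rwa [Subgroup.card_map_of_injective C.subtype_injective]))
      rw [Solv.pPrimeCore_quotient, le_bot_iff, Subgroup.map_eq_bot_iff_of_injective _ C.subtype_injective] at hNb
      subst hNb
      rw [Subgroup.index_bot] at hk
      exact Solv.le_pCore (p := p) (inferInstance : C.Normal) (IsPGroup.of_card hk) hyC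
    · obtain ⟨n, hn, k, hk, rfl⟩ := Subgroup.mem_sup_of_normal_right.mp (htop ▸ Subgroup.mem_top g)
      refine ⟨n, hn, k, Subgroup.mem_centralizer_iff.mpr fun q hq => ?_, rfl⟩
      have h1 : k * q * k⁻¹ ∈ (S : Subgroup G) := by
        have h2 : n * k * q * (n * k)⁻¹ ∈ (S : Subgroup G) := hg ⟨q, hq, rfl⟩
        have h3 := (Subgroup.mem_normalizer_iff.mp hn (k * q * k⁻¹))
        rw [show n * (k * q * k⁻¹) * n⁻¹ = n * k * q * (n * k)⁻¹ by group] at h3
        exact h3.mpr h2
      have h2 : k * q * k⁻¹ * q⁻¹ = 1 := by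
        refine PSolv.eq_one_of_mem hS PSolv.not_dvd_pPrimeCore (Subgroup.mul_mem _ h1 (Subgroup.inv_mem _ (hQ hq))) ?_
        rw [show k * q * k⁻¹ * q⁻¹ = k * (q * k⁻¹ * q⁻¹) by group]
        exact O.mul_mem hk (hOn.conj_mem _ (O.inv_mem hk) q)
      calc q * k = k * q * k⁻¹ * q⁻¹ * q * k := by rw [h2, one_mul]
        _ = k * q := by group
  · rintro ⟨hcons, hfus⟩
    have hi : ¬ p ∣ ((S : Subgroup G).subgroupOf M).index := fun hd =>
      S.not_dvd_index (hd.trans (Layer.relIndex_dvd_index_normal _ M))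
    let P : Sylow p ↥M := (hS.comap_subtype (K := M)).toSylow hi
    set T := (P : Subgroup ↥M).map M.subtype with hT
    have hTS : T ≤ (S : Subgroup G) := by rintro _ ⟨x, hx, rfl⟩; exact hx
    have hfr : Subgroup.normalizer (T : Set G) ⊔ M = ⊤ := Sylow.normalizer_sup_eq_top P
    have hMO : M ≤ O ⊔ T := by
      intro m hm
      have h1 : QuotientGroup.mk' O m ∈ T.map (QuotientGroup.mk' O) := by
        show QuotientGroup.mk' (Cfsg.pPrimeCore p G) m ∈ ((P : Subgroup ↥M).map M.subtype).map (QuotientGroup.mk' (Cfsg.pPrimeCore p G))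
        rw [PSolv.sylow_pPrimePCore_map P]; exact hm
      obtain ⟨t, ht, he⟩ := h1
      have hmem : m * t⁻¹ ∈ O := (QuotientGroup.eq_one_iff _).mp (by
        show QuotientGroup.mk' O (m * t⁻¹) = 1
        rw [map_mul, map_inv, he, mul_inv_cancel])
      have e : m = (m * t⁻¹) * t := by group
      rw [e]; exact Subgroup.mul_mem_sup hmem ht
    have hMle : M ≤ Subgroup.normalizer ((S : Subgroup G) : Set G) ⊔ O :=
      hMO.trans (sup_le le_sup_right (hTS.trans (Subgroup.le_normalizer.trans le_sup_left)))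
    rw [eq_top_iff, ← hfr]
    refine sup_le (fun g hg => ?_) hMle
    obtain ⟨n, hn, c, hc, rfl⟩ := hfus T hTS g (by rw [ConjFam.mem_normalizer_iff_conjMap.mp hg]; exact hTS)
    exact Subgroup.mul_mem _ (Subgroup.mem_sup_left hn) (hMle (hcons P hc))

end Cfsg.Agent.S1948
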