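import Cfsg.Statements.S1956
import Cfsg.Agent.Coprime.SylowFusion

set_option autoImplicit false
open Cfsg

namespace Cfsg.Agent.S1956

/-- Let P be a Sylow p-subgroup of the finite group G such that every element of P of order dividing p (dividing 4 when p = 2) is central in P. Then the fusion of these elements is controlled by N_G(P): if such an element a of P has g a g⁻¹ in P, then g = n c with n normalizing P and c commuting with a. -/
theorem result {G : Type*} [Group G] [Finite G] {p : ℕ} [Fact p.Prime] (P : Sylow p G)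
    (hcen : ∀ a ∈ (P : Subgroup G), (a ^ p = 1 ∨ (p = 2 ∧ a ^ 4 = 1)) → ∀ y ∈ (P : Subgroup G), a * y = y * a) :
    ∀ a ∈ (P : Subgroup G), (a ^ p = 1 ∨ (p = 2 ∧ a ^ 4 = 1)) → ∀ g : G, g * a * g⁻¹ ∈ (P : Subgroup G) →
      ∃ n ∈ Subgroup.normalizer ((P : Subgroup G) : Set G), ∃ c : G, c * a = a * c ∧ g = n * c := by
  intro a ha hpow g hga
  have hpow' : (g * a * g⁻¹) ^ p = 1 ∨ (p = 2 ∧ (g * a * g⁻¹) ^ 4 = 1) := by
    rcases hpow with h | ⟨h2, h4⟩
    · exact Or.inl (by rw [conj_pow, h]; group)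
    · exact Or.inr ⟨h2, by rw [conj_pow, h4]; group⟩
  obtain ⟨k, hk, hkg⟩ := SylowFusion.exists_normalizer_mul P (Subgroup.centralizer {g * a * g⁻¹}) g
    (fun s hs => by
      rw [Subgroup.mem_centralizer_singleton_iff]
      exact (hcen _ hga hpow' s hs).symm)
    (fun s hs => by
      rw [Subgroup.mem_centralizer_singleton_iff]
      calc g * s * g⁻¹ * (g * a * g⁻¹) = g * (s * a) * g⁻¹ := by group
        _ = g * (a * s) * g⁻¹ := by rw [hcen a ha hpow s hs]
        _ = g * a * g⁻¹ * (g * s * g⁻¹) := by group)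
  refine ⟨k * g, hkg, (k * g)⁻¹ * g, ?_, by group⟩
  have h := Subgroup.mem_centralizer_singleton_iff.mp hk
  calc (k * g)⁻¹ * g * a = g⁻¹ * k⁻¹ * (g * a * g⁻¹) * g := by group
    _ = g⁻¹ * k⁻¹ * ((g * a * g⁻¹) * k) * k⁻¹ * g := by group
    _ = g⁻¹ * k⁻¹ * (k * (g * a * g⁻¹)) * k⁻¹ * g := by rw [h]
    _ = a * ((k * g)⁻¹ * g) := by group

end Cfsg.Agent.S1956
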