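import Cfsg.Statements.S2231
import Mathlib
import Cfsg.Agent.PLocal.Qd
import Cfsg.Agent.Classical.SL

set_option autoImplicit false
open Cfsg

namespace Cfsg.Agent.S2231

theorem qd_nonabelian_pgroup {p : ℕ} [hp : Fact p.Prime] :
    ∃ U : Subgroup ↥(Cfsg.qd p), IsPGroup p U ∧ ¬ IsMulCommutative U := by
  let t : Matrix.SpecialLinearGroup (Fin 2) (ZMod p) := ⟨!![1, 1; 0, 1], by simp [Matrix.det_fin_two_of]⟩
  have ht : ∀ j : ℕ, ((t ^ j : Matrix.SpecialLinearGroup (Fin 2) (ZMod p)) : Matrix (Fin 2) (Fin 2) (ZMod p)) = !![1, (j : ZMod p); 0, 1] := by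
    intro j
    induction j with
    | zero => ext a b; fin_cases a <;> fin_cases b <;> simp
    | succ j ih =>
      rw [pow_succ, Matrix.SpecialLinearGroup.coe_mul, ih]
      ext a b; fin_cases a <;> fin_cases b <;> simp [t, Matrix.mul_apply, Fin.sum_univ_two]
      ring
  have htp : t ^ p = 1 := by
    apply Subtype.ext
    rw [ht p, ZMod.natCast_self]
    ext a b; fin_cases a <;> fin_cases b <;> simp
  refine ⟨(Subgroup.zpowers t).comap Cfsg.Agent.QdCoord.blk, ?_, ?_⟩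
  · rintro ⟨x, hx⟩
    obtain ⟨m, hm⟩ := Subgroup.mem_comap.mp hx
    refine ⟨2, Subtype.ext ?_⟩
    show x ^ p ^ 2 = 1
    rw [pow_two, pow_mul]
    have h1 : Cfsg.Agent.QdCoord.blk (x ^ p) = 1 := by
      have hm' : t ^ m = Cfsg.Agent.QdCoord.blk x := hm
      rw [map_pow, ← hm', ← zpow_natCast, ← zpow_mul, mul_comm, zpow_mul, zpow_natCast, htp, one_zpow]
    have h2 : ∀ (y : ↥(Cfsg.qd p)), Cfsg.Agent.QdCoord.blk y = 1 → ∀ j : ℕ, Cfsg.Agent.QdCoord.vec (y ^ j) = (j : ZMod p) • Cfsg.Agent.QdCoord.vec y := by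
      intro y hy j
      induction j with
      | zero => rw [pow_zero, Cfsg.Agent.QdCoord.vec_one, Nat.cast_zero, zero_smul]
      | succ j ih =>
        rw [pow_succ', Cfsg.Agent.QdCoord.vec_mul, hy, ih, Nat.cast_succ, add_smul, one_smul]
        simp
    apply Cfsg.Agent.QdCoord.ext_parts
    · rw [map_pow, h1, one_pow, map_one]
    · rw [h2 _ h1, ZMod.natCast_self, zero_smul, Cfsg.Agent.QdCoord.vec_one]
  · intro hc
    obtain ⟨X, hX1, hX2⟩ := Cfsg.Agent.QdCoord.exists_of_parts (1 : Matrix.SpecialLinearGroup (Fin 2) (ZMod p)) ![0, 1]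
    obtain ⟨Y, hY1, hY2⟩ := Cfsg.Agent.QdCoord.exists_of_parts t 0
    have h := congrArg Subtype.val (hc.is_comm.comm
      (⟨X, Subgroup.mem_comap.mpr (hX1 ▸ one_mem _)⟩ : ((Subgroup.zpowers t).comap Cfsg.Agent.QdCoord.blk : Subgroup ↥(Cfsg.qd p)))
      ⟨Y, Subgroup.mem_comap.mpr (hY1 ▸ Subgroup.mem_zpowers t)⟩)
    simp only [Subgroup.coe_mul] at h
    have hv := congrArg Cfsg.Agent.QdCoord.vec h
    rw [Cfsg.Agent.QdCoord.vec_mul, Cfsg.Agent.QdCoord.vec_mul, hX1, hY1, hX2, hY2] at hv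
    have := congrFun hv 0
    simp [t, Matrix.mulVec, dotProduct, Fin.sum_univ_two] at this

theorem psl2_sylow_comm {p : ℕ} [hp : Fact p.Prime] {K : Type*} [Field K] [Fintype K] [CharP K p]
    (Q : Sylow p (Matrix.ProjectiveSpecialLinearGroup (Fin 2) K)) :
    IsMulCommutative (Q : Subgroup (Matrix.ProjectiveSpecialLinearGroup (Fin 2) K)) := by
  obtain ⟨f, -, hqf⟩ := FiniteField.card K p
  let u : Multiplicative K →* Matrix.ProjectiveSpecialLinearGroup (Fin 2) K :=
    (QuotientGroup.mk' _).comp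
      { toFun := fun c => (⟨!![1, Multiplicative.toAdd c; 0, 1], by simp [Matrix.det_fin_two_of]⟩ : Matrix.SpecialLinearGroup (Fin 2) K)
        map_one' := by apply Subtype.ext; ext a b; fin_cases a <;> fin_cases b <;> simp
        map_mul' := fun x y => by
          apply Subtype.ext
          show _ = (!![1, Multiplicative.toAdd x; 0, 1] : Matrix (Fin 2) (Fin 2) K) * !![1, Multiplicative.toAdd y; 0, 1]
          ext a b; fin_cases a <;> fin_cases b <;> simp [Matrix.mul_apply, Fin.sum_univ_two, add_comm] }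
  have hu : Function.Injective u := by
    rw [injective_iff_map_eq_one]
    intro c hc
    have hc' := (QuotientGroup.eq_one_iff _).mp hc
    rw [Matrix.SpecialLinearGroup.mem_center_iff] at hc'
    obtain ⟨r, -, hr⟩ := hc'
    have := congrFun (congrFun hr 0) 1
    simp at this
    exact Multiplicative.toAdd.injective this.symm
  have hcard : Nat.card u.range = p ^ (f : ℕ) := by
    rw [← Nat.card_congr (MonoidHom.ofInjective hu).toEquiv, Nat.card_eq_fintype_card, Fintype.card_multiplicative, hqf]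
  obtain ⟨R, hR⟩ := (IsPGroup.of_card hcard).exists_le_sylow
  have hle : Nat.card (R : Subgroup (Matrix.ProjectiveSpecialLinearGroup (Fin 2) K)) ≤ p ^ (f : ℕ) := by
    obtain ⟨k, hk⟩ := R.isPGroup'.exists_card_eq
    rw [hk]
    have h0 : p ^ k ∣ Nat.card (Matrix.ProjectiveSpecialLinearGroup (Fin 2) K) := hk ▸ Subgroup.card_subgroup_dvd_card _
    have h1 : p ^ k ∣ Nat.card (Matrix.SpecialLinearGroup (Fin 2) K) :=
      h0.trans ⟨_, (mul_comm _ _).trans (Classical.card_PSL_mul (ι := Fin 2) (F := K)) |>.symm⟩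
    have h2 := Classical.card_SL_mul (F := K) 2 (by norm_num)
    rw [Fin.prod_univ_two, hqf] at h2
    simp only [Fin.val_zero, Fin.val_one, pow_zero, pow_one] at h2
    set q := p ^ (f : ℕ) with hq
    have hq1 : 1 < q := Nat.one_lt_pow f.2.ne' hp.out.one_lt
    have h3 : Nat.card (Matrix.SpecialLinearGroup (Fin 2) K) = q * ((q + 1) * (q - 1)) := by
      apply Nat.eq_of_mul_eq_mul_left (show 0 < q - 1 by omega)
      rw [h2, ← Nat.sq_sub_sq q 1, one_pow, show q ^ 2 - q = q * (q - 1) by rw [Nat.mul_sub, mul_one, sq]]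
      ring
    rw [h3] at h1
    have hpq : p ∣ q := dvd_pow_self p f.2.ne'
    have hc1 : Nat.Coprime (p ^ k) (q + 1) := Nat.Coprime.pow_left k (hp.out.coprime_iff_not_dvd.mpr fun h =>
      hp.out.one_lt.ne' (Nat.eq_one_of_dvd_one ((Nat.dvd_add_iff_right hpq).mpr h)))
    have hc2 : Nat.Coprime (p ^ k) (q - 1) := Nat.Coprime.pow_left k (hp.out.coprime_iff_not_dvd.mpr fun h => by
      have := Nat.dvd_sub hpq h
      rw [show q - (q - 1) = 1 by omega] at this
      exact hp.out.one_lt.ne' (Nat.eq_one_of_dvd_one this))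
    exact Nat.le_of_dvd (by omega) ((Nat.Coprime.mul_right hc1 hc2).dvd_of_dvd_mul_right h1)
  have hRu : u.range = R := Subgroup.eq_of_le_of_card_ge hR (by rw [hcard]; exact hle)
  let e := Q.equiv R
  refine ⟨⟨fun a b => e.injective ?_⟩⟩
  rw [map_mul, map_mul]
  obtain ⟨x, hx⟩ := (show (e a).1 ∈ u.range by rw [hRu]; exact (e a).2)
  obtain ⟨y, hy⟩ := (show (e b).1 ∈ u.range by rw [hRu]; exact (e b).2)
  apply Subtype.ext
  rw [Subgroup.coe_mul, Subgroup.coe_mul, ← hx, ← hy, ← map_mul, ← map_mul, mul_comm]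



/-- Let p be an odd prime and K a finite field of characteristic p. Then Qd(p) (the natural semidirect product of an elementary abelian group of order p² by SL₂(p)) is not involved in the projective special linear group PSL₂(K). -/
theorem result {p : ℕ} [Fact p.Prime] (hp : p ≠ 2) {K : Type*} [Field K] [Fintype K] [CharP K p] : ¬ Cfsg.Involves ↥(Cfsg.qd p) (Matrix.ProjectiveSpecialLinearGroup (Fin 2) K) := by
  rintro ⟨L, R, hn, ⟨e⟩⟩
  obtain ⟨U, hU, hnc⟩ := qd_nonabelian_pgroup (p := p)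
  obtain ⟨S, hS⟩ := (hU.map e.symm.toMonoidHom).exists_le_sylow
  obtain ⟨P, hP⟩ : ∃ P : Sylow p ↥L, (P : Subgroup ↥L).map (QuotientGroup.mk' (R.subgroupOf L)) = (S : Subgroup (↥L ⧸ R.subgroupOf L)) := by
    obtain ⟨P, hP⟩ := Sylow.mapSurjective_surjective (QuotientGroup.mk'_surjective (R.subgroupOf L)) p S
    exact ⟨P, by rw [← hP]; rfl⟩
  obtain ⟨Q, hQ⟩ := (P.isPGroup'.map L.subtype).exists_le_sylow
  have hQc := psl2_sylow_comm Q
  apply hnc
  refine ⟨⟨fun a b => ?_⟩⟩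
  have ha : e.symm a.1 ∈ (P : Subgroup ↥L).map (QuotientGroup.mk' (R.subgroupOf L)) := hP ▸ hS ⟨a.1, a.2, rfl⟩
  have hb : e.symm b.1 ∈ (P : Subgroup ↥L).map (QuotientGroup.mk' (R.subgroupOf L)) := hP ▸ hS ⟨b.1, b.2, rfl⟩
  obtain ⟨x, hx, hxa⟩ := ha
  obtain ⟨y, hy, hyb⟩ := hb
  have hxy : x * y = y * x := by
    apply Subtype.ext
    rw [Subgroup.coe_mul, Subgroup.coe_mul]
    exact congrArg Subtype.val (hQc.is_comm.comm ⟨_, hQ ⟨x, hx, rfl⟩⟩ ⟨_, hQ ⟨y, hy, rfl⟩⟩)
  apply Subtype.ext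
  apply e.symm.injective
  rw [Subgroup.coe_mul, Subgroup.coe_mul, map_mul, map_mul, ← hxa, ← hyb, ← map_mul, ← map_mul, hxy]

end Cfsg.Agent.S2231
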