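import Cfsg.Statements.S2268
import Mathlib

set_option autoImplicit false
open Cfsg

namespace Cfsg.Agent.S2268

/-- Let G be a finite group with an abelian Sylow p-subgroup P and let Q ≤ P. Then N_G(Q) = (N_G(Q) ∩ N_G(P))·C_G(Q), so that N_G(Q)/C_G(Q) is a homomorphic image of the subgroup (N_G(Q) ∩ N_G(P))/C_G(P) of N_G(P)/C_G(P); in particular the order of N_G(Q)/C_G(Q) divides the order of N_G(P)/C_G(P). -/
theorem result {G : Type*} [Group G] [Finite G] {p : ℕ} [Fact p.Prime]
    (P : Sylow p G) (hP : IsMulCommutative (P : Subgroup G)) (Q : Subgroup G) (hQ : Q ≤ (P : Subgroup G)) :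
    Subgroup.normalizer (Q : Set G) =
      (Subgroup.normalizer (Q : Set G) ⊓ Subgroup.normalizer ((P : Subgroup G) : Set G)) ⊔ Subgroup.centralizer (Q : Set G) ∧
    ((Subgroup.centralizer (Q : Set G)).subgroupOf (Subgroup.normalizer (Q : Set G))).index ∣ ((Subgroup.centralizer ((P : Subgroup G) : Set G)).subgroupOf (Subgroup.normalizer ((P : Subgroup G) : Set G))).index := by
  have hCA : Subgroup.centralizer (Q : Set G) ≤ Subgroup.normalizer (Q : Set G) := Subgroup.centralizer_le_normalizer _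
  have hPC : (P : Subgroup G) ≤ Subgroup.centralizer (Q : Set G) :=
    (Subgroup.le_centralizer (P : Subgroup G)).trans (Subgroup.centralizer_le hQ)
  have hCP : Subgroup.centralizer ((P : Subgroup G) : Set G) ≤ Subgroup.centralizer (Q : Set G) := Subgroup.centralizer_le hQ
  have hCN : Subgroup.centralizer ((P : Subgroup G) : Set G) ≤ Subgroup.normalizer ((P : Subgroup G) : Set G) := Subgroup.centralizer_le_normalizer _
  set A := Subgroup.normalizer (Q : Set G)
  set C := Subgroup.centralizer (Q : Set G)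
  set NP := Subgroup.normalizer ((P : Subgroup G) : Set G)
  have : (C.subgroupOf A).Normal := by
    refine ⟨fun x hx g q hq => ?_⟩
    have h1 : (g : G)⁻¹ * q * g ∈ (Q : Set G) := (Subgroup.mem_normalizer_iff''.1 g.2 q).1 hq
    have h2 := Subgroup.mem_centralizer_iff.1 hx _ h1
    calc q * ((g : G) * x * (g : G)⁻¹) = g * (((g : G)⁻¹ * q * g) * x) * (g : G)⁻¹ := by group
      _ = g * ((x : G) * ((g : G)⁻¹ * q * g)) * (g : G)⁻¹ := congrArg (fun z => (g : G) * z * (g : G)⁻¹) h2
      _ = ((g : G) * x * (g : G)⁻¹) * q := by group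
  have top : (A ⊓ NP).subgroupOf A ⊔ C.subgroupOf A = ⊤ := by
    rw [eq_top_iff, ← Sylow.normalizer_sup_eq_top' (N := C.subgroupOf A) (P.subtype (hPC.trans hCA)) (fun x hx => hPC hx)]
    refine sup_le_sup_right (fun x hx => ?_) _
    refine ⟨x.2, Subgroup.mem_normalizer_iff.2 fun h => ⟨fun hh => ?_, fun hh => ?_⟩⟩
    · exact ((Subgroup.mem_normalizer_iff.1 hx ⟨h, hCA (hPC hh)⟩).1 hh)
    · have hmem := hCA (hPC hh)
      have : h ∈ A := by simpa [mul_assoc] using mul_mem (mul_mem (inv_mem x.2) hmem) x.2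
      exact ((Subgroup.mem_normalizer_iff.1 hx ⟨h, this⟩).2 hh)
  have hAN : A ⊓ NP ⊔ C = A := by
    refine le_antisymm (sup_le inf_le_left hCA) ?_
    have := congrArg (Subgroup.map A.subtype) top
    rwa [Subgroup.map_sup, Subgroup.subgroupOf_map_subtype, Subgroup.subgroupOf_map_subtype, ← MonoidHom.range_eq_map,
      Subgroup.range_subtype, inf_eq_left.2 hCA, inf_eq_left.2 inf_le_left, eq_comm, le_antisymm_iff, and_iff_left (sup_le inf_le_left hCA)] at this
  refine ⟨hAN.symm, ?_⟩
  have e : (C.subgroupOf A).index = C.relIndex (A ⊓ NP) := by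
    rw [← Subgroup.relIndex_top_right, ← top, Subgroup.relIndex_sup_right, Subgroup.relIndex_subgroupOf inf_le_left]
  rw [e, ← Subgroup.relIndex]
  refine (Subgroup.relIndex_dvd_of_le_left _ hCP).trans ?_
  exact ⟨_, (Subgroup.relIndex_mul_relIndex _ _ _ (le_inf (hCP.trans hCA) hCN) inf_le_right).symm⟩

end Cfsg.Agent.S2268
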