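import Cfsg.Statements.S2270
import Mathlib
import Cfsg.Agent.Transfer.Abelian

set_option autoImplicit false
open Cfsg

namespace Cfsg.Agent.S2270

theorem two_dvd_of_inverted {G : Type*} [Group G] [Finite G] (P : Subgroup G) (x : G) (hx : x ∈ P) (hx2 : x ^ 2 ≠ 1)
    (z : G) (hz : z ∈ Subgroup.normalizer (P : Set G)) (hzx : z * x * z⁻¹ = x⁻¹) :
    2 ∣ ((Subgroup.centralizer (P : Set G)).subgroupOf (Subgroup.normalizer (P : Set G))).index := by
  set C := (Subgroup.centralizer (P : Set G)).subgroupOf (Subgroup.normalizer (P : Set G))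
  haveI hCn : C.Normal := by
    rw [show C = MonoidHom.ker (Subgroup.normalizerMonoidHom P) from (Subgroup.normalizerMonoidHom_ker P).symm]
    infer_instance
  by_contra hodd
  have hmem := C.pow_index_mem ⟨z, hz⟩
  rw [Subgroup.mem_subgroupOf, Subgroup.coe_pow, Subgroup.mem_centralizer_iff] at hmem
  have h1 := hmem x hx
  have key : ∀ j, z ^ (2 * j + 1) * x = x⁻¹ * z ^ (2 * j + 1) := by
    intro j
    have hz1 : z * x = x⁻¹ * z := by rw [← hzx]; group
    have hz2 : z * x⁻¹ = x * z := by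
      have := congrArg (fun w => w⁻¹) hzx
      simp only [mul_inv_rev, inv_inv] at this
      calc z * x⁻¹ = z * x⁻¹ * z⁻¹ * z := by group
        _ = x * z := by rw [← mul_assoc] at this; rw [this]
    have hz3 : SemiconjBy z x⁻¹ x := hz2
    have hz4 : Commute (z ^ 2) x⁻¹ := by rw [pow_two]; exact SemiconjBy.mul_left (show SemiconjBy z x x⁻¹ from hz1) hz3
    induction j with
    | zero => simpa using hz1
    | succ j ih =>
      rw [show 2 * (j + 1) + 1 = 2 + (2 * j + 1) by ring, pow_add, mul_assoc, ih, ← mul_assoc, hz4.eq, mul_assoc]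
  obtain ⟨j, hj⟩ := Nat.odd_iff.mpr (Nat.two_dvd_ne_zero.mp hodd)
  rw [hj, key j, mul_left_inj] at h1
  exact hx2 (by rw [pow_two]; nth_rewrite 1 [h1]; exact inv_mul_cancel x)

theorem exists_inverted {G : Type*} [Group G] [Finite G] {p : ℕ} [Fact p.Prime] (P : Sylow p G)
    (hP : IsMulCommutative (P : Subgroup G)) (x : G) (hx : x ∈ (P : Subgroup G)) (hc : IsConj x x⁻¹) :
    ∃ z ∈ Subgroup.normalizer ((P : Subgroup G) : Set G), z * x * z⁻¹ = x⁻¹ := by
  obtain ⟨g, hg⟩ := isConj_iff.mp hc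
  obtain ⟨z, hz, he⟩ := Cfsg.Agent.Transfer.control_of_abelian P hP x hx g (by rw [hg]; exact inv_mem hx)
  exact ⟨z, hz, he.trans hg⟩



/-- Let n ≥ 3, p an odd prime, and P an abelian Sylow p-subgroup of the symmetric group S_n (with p dividing n!, so that P ≠ 1). Then N(P)/C(P) has even order. -/
theorem result (n : ℕ) (hn : 3 ≤ n) {p : ℕ} [Fact p.Prime] (hp : p ≠ 2) (hpn : p ≤ n)
    (P : Sylow p (Equiv.Perm (Fin n))) (hP : IsMulCommutative (P : Subgroup (Equiv.Perm (Fin n)))) :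
    2 ∣ ((Subgroup.centralizer ((P : Subgroup (Equiv.Perm (Fin n))) : Set (Equiv.Perm (Fin n)))).subgroupOf (Subgroup.normalizer ((P : Subgroup (Equiv.Perm (Fin n))) : Set (Equiv.Perm (Fin n))))).index := by
  have hdvd : p ∣ Nat.card (Equiv.Perm (Fin n)) := by
    rw [Nat.card_perm, Nat.card_eq_fintype_card, Fintype.card_fin]
    exact (Fact.out : p.Prime).dvd_factorial.mpr hpn
  have hne : (P : Subgroup (Equiv.Perm (Fin n))) ≠ ⊥ := P.ne_bot_of_dvd_card hdvd
  obtain ⟨x, hx, hx1⟩ := (Subgroup.bot_or_exists_ne_one _).resolve_left hne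
  have hx2 : x ^ 2 ≠ 1 := by
    intro h
    have h1 := orderOf_dvd_of_pow_eq_one h
    obtain ⟨k, hk⟩ := (IsPGroup.iff_orderOf.mp P.isPGroup') ⟨x, hx⟩
    rw [← Subgroup.orderOf_coe] at hk
    rw [hk] at h1
    rcases Nat.eq_zero_or_pos k with rfl | hk0
    · exact hx1 (orderOf_eq_one_iff.mp (by simpa using hk))
    · have := (dvd_pow_self p hk0.ne').trans h1
      exact hp ((Nat.prime_dvd_prime_iff_eq Fact.out Nat.prime_two).mp this)
  obtain ⟨z, hz, hzx⟩ := exists_inverted P hP x hx (Equiv.Perm.isConj_iff_cycleType_eq.mpr (Equiv.Perm.cycleType_inv x).symm)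
  exact two_dvd_of_inverted _ x hx hx2 z hz hzx

end Cfsg.Agent.S2270
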