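import Cfsg.Statements.S2269
import Mathlib
import Cfsg.Agent.S2270

set_option autoImplicit false
open Cfsg

namespace Cfsg.Agent.S2269

theorem sylow_not_comm_of_six {n : ℕ} (hn : 6 ≤ n) (P : Sylow 2 (alternatingGroup (Fin n))) :
    ¬ IsMulCommutative (P : Subgroup (alternatingGroup (Fin n))) := by
  classical
  intro hP
  let f : Fin 6 ≃ {x : Fin n // x.val < 6} :=
    ⟨fun i => ⟨⟨i.val, by omega⟩, i.isLt⟩, fun x => ⟨x.1.val, x.2⟩, fun i => rfl, fun x => rfl⟩
  let F : Equiv.Perm (Fin 6) →* Equiv.Perm (Fin n) := Equiv.Perm.extendDomainHom f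
  let u : Equiv.Perm (Fin 6) := Equiv.swap 0 1 * Equiv.swap 1 2 * Equiv.swap 2 3 * Equiv.swap 4 5
  let v : Equiv.Perm (Fin 6) := Equiv.swap 0 2 * Equiv.swap 4 5
  have hmem : ∀ w : Equiv.Perm (Fin 6), Equiv.Perm.sign w = 1 → F w ∈ alternatingGroup (Fin n) := fun w hw => by
    rw [Equiv.Perm.mem_alternatingGroup]
    exact (Equiv.Perm.sign_extendDomain w f).trans hw
  let U : alternatingGroup (Fin n) := ⟨F u, hmem u (by decide)⟩
  let V : alternatingGroup (Fin n) := ⟨F v, hmem v (by decide)⟩
  have h4 : U ^ 4 = 1 := Subtype.ext (by show F u ^ 4 = 1; rw [← map_pow, show u ^ 4 = 1 by decide, map_one])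
  have h2 : V ^ 2 = 1 := Subtype.ext (by show F v ^ 2 = 1; rw [← map_pow, show v ^ 2 = 1 by decide, map_one])
  have hrel : V * U * V⁻¹ = U⁻¹ :=
    Subtype.ext (by show F v * F u * (F v)⁻¹ = (F u)⁻¹; rw [← map_inv, ← map_inv, ← map_mul, ← map_mul, show v * u * v⁻¹ = u⁻¹ by decide])
  have hpg : ∀ (g : alternatingGroup (Fin n)) (k : ℕ), g ^ 2 ^ k = 1 → IsPGroup 2 (Subgroup.zpowers g) := by
    rintro g k hg ⟨_, m, rfl⟩
    exact ⟨k, Subtype.ext (by show (g ^ m) ^ 2 ^ k = 1; rw [← zpow_natCast, zpow_comm, zpow_natCast, hg, one_zpow])⟩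
  have hnorm : Subgroup.zpowers V ≤ Subgroup.normalizer (Subgroup.zpowers U : Set (alternatingGroup (Fin n))) := by
    rw [Subgroup.zpowers_le, Subgroup.mem_normalizer_iff]
    intro g
    have key : ∀ m : ℤ, V * U ^ m * V⁻¹ = U ^ (-m) := fun m => by rw [← conj_zpow, hrel, inv_zpow, zpow_neg]
    constructor
    · rintro ⟨m, rfl⟩; exact ⟨-m, (key m).symm⟩
    · rintro ⟨m, hm⟩
      refine ⟨-m, ?_⟩
      have e := (key (-m)).trans (by rw [neg_neg] : U ^ (-(-m)) = U ^ m)
      exact mul_left_cancel (mul_right_cancel (e.trans hm))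
  obtain ⟨Q, hQ⟩ := ((hpg V 1 h2).to_sup_of_normal_right' (hpg U 2 h4) hnorm).exists_le_sylow
  obtain ⟨g, hg⟩ := MulAction.exists_smul_eq (alternatingGroup (Fin n)) Q P
  have hin : ∀ w, w ∈ (Q : Subgroup (alternatingGroup (Fin n))) → g * w * g⁻¹ ∈ (P : Subgroup (alternatingGroup (Fin n))) := fun w hw => by
    rw [← hg]; exact ⟨w, hw, rfl⟩
  have hc := congrArg Subtype.val (hP.is_comm.comm ⟨_, hin U (hQ (Subgroup.mem_sup_right (Subgroup.mem_zpowers U)))⟩
    ⟨_, hin V (hQ (Subgroup.mem_sup_left (Subgroup.mem_zpowers V)))⟩)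
  simp only [Subgroup.coe_mul] at hc
  have hUV : U * V = V * U :=
    mul_left_cancel (mul_right_cancel (((by group) : g * (U * V) * g⁻¹ = g * U * g⁻¹ * (g * V * g⁻¹)).trans
      (hc.trans ((by group) : g * V * g⁻¹ * (g * U * g⁻¹) = g * (V * U) * g⁻¹))))
  have he : F (u * v) = F (v * u) := by
    rw [map_mul F u v, map_mul F v u]
    exact congrArg Subtype.val hUV
  exact absurd (Equiv.Perm.extendDomainHom_injective f he) (by decide)

theorem exists_pcycle_inverted {n p : ℕ} [Fact p.Prime] (hp : p ≠ 2) (hn : p + 2 ≤ n)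
    (P : Sylow p (alternatingGroup (Fin n))) :
    ∃ x ∈ (P : Subgroup (alternatingGroup (Fin n))), x ^ 2 ≠ 1 ∧ IsConj x x⁻¹ := by
  classical
  have hpp : p.Prime := Fact.out
  obtain ⟨Δ, -, hΔ⟩ := Finset.exists_subset_card_eq (show p ≤ (Finset.univ : Finset (Fin n)).card by rw [Finset.card_fin]; omega)
  obtain ⟨c, hc, hcs⟩ := Finset.exists_cycleOn Δ
  have hcp : c ^ p = 1 := by
    refine Equiv.ext fun x => ?_
    by_cases hx : x ∈ Δ
    · simpa [← hΔ] using hc.pow_card_apply hx
    · simpa using Equiv.Perm.pow_apply_eq_self_of_apply_eq_self (by_contra fun h => hx (hcs (Equiv.Perm.mem_support.mpr h))) p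
  have hsign : Equiv.Perm.sign c = 1 := by
    have h1 : Equiv.Perm.sign c ^ p = 1 := by rw [← map_pow, hcp, map_one]
    rcases Int.units_eq_one_or (Equiv.Perm.sign c) with h | h
    · exact h
    · rw [h, (hpp.odd_of_ne_two hp).neg_one_pow] at h1
      exact absurd h1 (by decide)
  let c' : alternatingGroup (Fin n) := ⟨c, Equiv.Perm.mem_alternatingGroup.mpr hsign⟩
  have hc1 : c ≠ 1 := by
    obtain ⟨d, hd⟩ := Finset.card_pos.mp (hΔ ▸ hpp.pos)
    intro h
    exact hc.apply_ne (Finset.one_lt_card_iff_nontrivial.mp (hΔ ▸ hpp.one_lt)) hd (by rw [h]; rfl)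
  have hc'p : c' ^ p = 1 := Subtype.ext (by exact hcp)
  have hord : orderOf c' = p := orderOf_eq_prime hc'p fun h => hc1 (congrArg Subtype.val h)
  have hpg : IsPGroup p (Subgroup.zpowers c') := IsPGroup.of_card (n := 1) (by rw [Nat.card_zpowers, hord, pow_one])
  obtain ⟨Q, hQ⟩ := hpg.exists_le_sylow
  obtain ⟨g, hg⟩ := MulAction.exists_smul_eq (alternatingGroup (Fin n)) Q P
  refine ⟨g * c' * g⁻¹, hg ▸ ⟨c', hQ (Subgroup.mem_zpowers c'), rfl⟩, ?_, ?_⟩
  · intro h
    rw [conj_pow, conj_eq_one_iff] at h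
    have := orderOf_dvd_of_pow_eq_one h
    rw [hord] at this
    exact hp ((Nat.prime_dvd_prime_iff_eq hpp Nat.prime_two).mp this)
  · refine alternatingGroup.isConj_of (Equiv.Perm.isConj_iff_cycleType_eq.mpr (Equiv.Perm.cycleType_inv _).symm) ?_
    have h1 : ((g * c' * g⁻¹ : alternatingGroup (Fin n)) : Equiv.Perm (Fin n)).support.card = c.support.card :=
      Equiv.Perm.card_support_conj
    rw [h1, Fintype.card_fin]
    have := (Finset.card_le_card hcs).trans hΔ.le
    omega

theorem five_two (P : Sylow 2 (alternatingGroup (Fin 5))) (hP : IsMulCommutative (P : Subgroup (alternatingGroup (Fin 5)))) :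
    ((Subgroup.centralizer ((P : Subgroup (alternatingGroup (Fin 5))) : Set (alternatingGroup (Fin 5)))).subgroupOf (Subgroup.normalizer ((P : Subgroup (alternatingGroup (Fin 5))) : Set (alternatingGroup (Fin 5))))).index = 3 ∧ IsKleinFour (P : Subgroup (alternatingGroup (Fin 5))) := by
  classical
  have hG : Nat.card (alternatingGroup (Fin 5)) = 60 := by rw [Nat.card_eq_fintype_card]; decide
  have hP4 : Nat.card (P : Subgroup (alternatingGroup (Fin 5))) = 4 := by
    obtain ⟨k, hk⟩ := P.isPGroup'.exists_card_eq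
    have h1 : 2 ^ k ∣ 60 := hG ▸ hk ▸ Subgroup.card_subgroup_dvd_card _
    have h2 : 2 ^ 2 ∣ Nat.card (P : Subgroup (alternatingGroup (Fin 5))) := P.pow_dvd_card_of_pow_dvd_card (by rw [hG]; norm_num)
    rw [hk] at h2 ⊢
    have h3 : 2 ≤ k := (Nat.pow_dvd_pow_iff_le_right (by norm_num)).mp h2
    have h4 : k < 3 := by
      by_contra h
      exact absurd ((Nat.pow_dvd_pow 2 (not_lt.mp h)).trans h1) (by norm_num)
    rw [show k = 2 by omega]
    norm_num
  have hsq : ∀ g : (alternatingGroup (Fin 5)), g ^ 4 = 1 → g ^ 2 = 1 := by decide +kernel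
  have hK : IsKleinFour (P : Subgroup (alternatingGroup (Fin 5))) := by
    refine ⟨hP4, ?_⟩
    have h2 : ∀ g : (P : Subgroup (alternatingGroup (Fin 5))), g ^ 2 = 1 := fun g => Subtype.ext (hsq g (by
      have := pow_card_eq_one' (x := g); rw [hP4] at this; exact congrArg Subtype.val this))
    haveI : Nontrivial (P : Subgroup (alternatingGroup (Fin 5))) := Finite.one_lt_card_iff_nontrivial.mp (by omega)
    exact (Nat.dvd_prime Nat.prime_two).mp (Monoid.exponent_dvd_of_forall_pow_eq_one h2) |>.resolve_left (fun h =>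
      not_subsingleton (P : Subgroup (alternatingGroup (Fin 5))) (Monoid.exp_eq_one_iff.mp h))
  refine ⟨?_, hK⟩
  have hPC : (P : Subgroup (alternatingGroup (Fin 5))) ≤ (Subgroup.centralizer ((P : Subgroup (alternatingGroup (Fin 5))) : Set (alternatingGroup (Fin 5)))) := by haveI := hP; exact Subgroup.le_centralizer _
  have hPN : (P : Subgroup (alternatingGroup (Fin 5))) ≤ (Subgroup.normalizer ((P : Subgroup (alternatingGroup (Fin 5))) : Set (alternatingGroup (Fin 5)))) := Subgroup.le_normalizer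
  have h15 : ((Subgroup.centralizer ((P : Subgroup (alternatingGroup (Fin 5))) : Set (alternatingGroup (Fin 5)))).subgroupOf (Subgroup.normalizer ((P : Subgroup (alternatingGroup (Fin 5))) : Set (alternatingGroup (Fin 5))))).index ∣ 15 := by
    have h1 : (Subgroup.centralizer ((P : Subgroup (alternatingGroup (Fin 5))) : Set (alternatingGroup (Fin 5)))).relIndex (Subgroup.normalizer ((P : Subgroup (alternatingGroup (Fin 5))) : Set (alternatingGroup (Fin 5)))) ∣ (P : Subgroup (alternatingGroup (Fin 5))).relIndex (Subgroup.normalizer ((P : Subgroup (alternatingGroup (Fin 5))) : Set (alternatingGroup (Fin 5)))) := Subgroup.relIndex_dvd_of_le_left (Subgroup.normalizer ((P : Subgroup (alternatingGroup (Fin 5))) : Set (alternatingGroup (Fin 5)))) hPC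
    have h2 : (P : Subgroup (alternatingGroup (Fin 5))).relIndex (Subgroup.normalizer ((P : Subgroup (alternatingGroup (Fin 5))) : Set (alternatingGroup (Fin 5)))) ∣ (P : Subgroup (alternatingGroup (Fin 5))).index := Subgroup.relIndex_dvd_index_of_le hPN
    have h3 : (P : Subgroup (alternatingGroup (Fin 5))).index = 15 := by
      have := Subgroup.index_mul_card (P : Subgroup (alternatingGroup (Fin 5))); rw [hG, hP4] at this; omega
    exact h3 ▸ h1.trans h2
  have h6 : ((Subgroup.centralizer ((P : Subgroup (alternatingGroup (Fin 5))) : Set (alternatingGroup (Fin 5)))).subgroupOf (Subgroup.normalizer ((P : Subgroup (alternatingGroup (Fin 5))) : Set (alternatingGroup (Fin 5))))).index ∣ 6 := by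
    let S := {g : (alternatingGroup (Fin 5)) // g ∈ (P : Subgroup (alternatingGroup (Fin 5))) ∧ g ≠ 1}
    have hst : ∀ (a : (Subgroup.normalizer ((P : Subgroup (alternatingGroup (Fin 5))) : Set (alternatingGroup (Fin 5))))) (g : (alternatingGroup (Fin 5))), g ∈ (P : Subgroup (alternatingGroup (Fin 5))) ∧ g ≠ 1 ↔ MulAut.conj (a : (alternatingGroup (Fin 5))) g ∈ (P : Subgroup (alternatingGroup (Fin 5))) ∧ MulAut.conj (a : (alternatingGroup (Fin 5))) g ≠ 1 := fun a g =>
      and_congr (Subgroup.mem_normalizer_iff.mp a.2 g) (not_congr (by simp))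
    let ψ : (Subgroup.normalizer ((P : Subgroup (alternatingGroup (Fin 5))) : Set (alternatingGroup (Fin 5)))) →* Equiv.Perm S :=
      { toFun := fun a => (Equiv.Perm.subtypePerm ((MulAut.conj (a : (alternatingGroup (Fin 5)))).toEquiv) (fun g => (hst a g).symm))
        map_one' := Equiv.ext fun g => Subtype.ext (by simp)
        map_mul' := fun a b => Equiv.ext fun g => Subtype.ext (by simp [mul_assoc]) }
    have hker : ψ.ker = (Subgroup.centralizer ((P : Subgroup (alternatingGroup (Fin 5))) : Set (alternatingGroup (Fin 5)))).subgroupOf (Subgroup.normalizer ((P : Subgroup (alternatingGroup (Fin 5))) : Set (alternatingGroup (Fin 5)))) := by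
      ext a
      rw [MonoidHom.mem_ker, Subgroup.mem_subgroupOf, Subgroup.mem_centralizer_iff]
      constructor
      · intro h g hg
        by_cases hg1 : g = 1
        · simp [hg1]
        · have h' : (a : (alternatingGroup (Fin 5))) * g * (a : (alternatingGroup (Fin 5)))⁻¹ = g := congrArg Subtype.val (DFunLike.congr_fun h (⟨g, hg, hg1⟩ : S))
          nth_rewrite 1 [← h']; group
      · intro h
        refine Equiv.ext fun g => Subtype.ext ?_
        show (a : (alternatingGroup (Fin 5))) * g.1 * (a : (alternatingGroup (Fin 5)))⁻¹ = g.1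
        rw [← h g.1 g.2.1, mul_inv_cancel_right]
    rw [← hker, Subgroup.index_ker]
    have hS : Nat.card S = 3 := by
      have e : Nat.card S = Nat.card {g : (P : Subgroup (alternatingGroup (Fin 5))) // g ≠ 1} :=
        Nat.card_congr ⟨fun g => ⟨⟨g.1, g.2.1⟩, fun h => g.2.2 (congrArg Subtype.val h)⟩,
          fun g => ⟨g.1.1, g.1.2, fun h => g.2 (Subtype.ext h)⟩, fun g => rfl, fun g => rfl⟩
      rw [e, Nat.card_eq_fintype_card, Fintype.card_subtype_compl, Fintype.card_subtype_eq, ← Nat.card_eq_fintype_card, hP4]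
    have := Subgroup.card_subgroup_dvd_card ψ.range
    rwa [Nat.card_perm, hS] at this
  have h1 : ((Subgroup.centralizer ((P : Subgroup (alternatingGroup (Fin 5))) : Set (alternatingGroup (Fin 5)))).subgroupOf (Subgroup.normalizer ((P : Subgroup (alternatingGroup (Fin 5))) : Set (alternatingGroup (Fin 5))))).index ≠ 1 := by
    intro h
    rw [Subgroup.index_eq_one, Subgroup.subgroupOf_eq_top] at h
    obtain ⟨K, hK1, hK2⟩ := Cfsg.Agent.Transfer.hasNPC_iff.mp (Cfsg.Agent.Transfer.hasNPC_of_burnside P h)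
    rcases IsSimpleGroup.eq_bot_or_eq_top_of_normal K hK1 with rfl | rfl
    · obtain ⟨-, hK3⟩ := hK2
      obtain ⟨k, hk⟩ := hK3
      rw [Subgroup.index_bot, hG] at hk
      have h5 : (5 : ℕ) ∣ 2 ^ k := hk ▸ (by norm_num)
      exact absurd ((Nat.prime_dvd_prime_iff_eq (by norm_num) Nat.prime_two).mp ((by norm_num : Nat.Prime 5).dvd_of_dvd_pow h5)) (by norm_num)
    · exact hK2.1 (by rw [Subgroup.card_top, hG]; norm_num)
  have h3 := Nat.dvd_gcd h15 h6
  rcases (Nat.dvd_prime Nat.prime_three).mp (h3 : _ ∣ 3) with h | h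
  · exact absurd h h1
  · exact h



/-- Let n ≥ 5 and let P be an abelian Sylow p-subgroup of the alternating group A_n. Then N(P)/C(P) (taken in A_n) has even order, or P is cyclic, except when n = 5 and p = 2, where P is a four-group and N(P)/C(P) has order 3. -/
theorem result (n : ℕ) (hn : 5 ≤ n) {p : ℕ} [Fact p.Prime]
    (P : Sylow p (alternatingGroup (Fin n))) (hP : IsMulCommutative (P : Subgroup (alternatingGroup (Fin n)))) :
    (¬ (n = 5 ∧ p = 2) → 2 ∣ ((Subgroup.centralizer ((P : Subgroup (alternatingGroup (Fin n))) : Set (alternatingGroup (Fin n)))).subgroupOf (Subgroup.normalizer ((P : Subgroup (alternatingGroup (Fin n))) : Set (alternatingGroup (Fin n))))).index ∨ IsCyclic (P : Subgroup (alternatingGroup (Fin n)))) ∧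
    ((n = 5 ∧ p = 2) → ((Subgroup.centralizer ((P : Subgroup (alternatingGroup (Fin n))) : Set (alternatingGroup (Fin n)))).subgroupOf (Subgroup.normalizer ((P : Subgroup (alternatingGroup (Fin n))) : Set (alternatingGroup (Fin n))))).index = 3 ∧ IsKleinFour (P : Subgroup (alternatingGroup (Fin n)))) := by
  refine ⟨fun hnot => ?_, fun ⟨h5, h2⟩ => ?_⟩
  · by_cases hp : p = 2
    · subst hp
      exact absurd hP (sylow_not_comm_of_six (by omega) P)
    by_cases hcyc : IsCyclic (P : Subgroup (alternatingGroup (Fin n)))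
    · exact Or.inr hcyc
    left
    have hpp : p.Prime := Fact.out
    have hn2 : p + 2 ≤ n := by
      by_contra hlt
      apply hcyc
      obtain ⟨k, hk⟩ := P.isPGroup'.exists_card_eq
      have hdvd : p ^ k ∣ n.factorial := by
        have h1 : p ^ k ∣ Nat.card (Equiv.Perm (Fin n)) :=
          hk ▸ (Subgroup.card_subgroup_dvd_card _).trans (Subgroup.card_subgroup_dvd_card _)
        rwa [Nat.card_perm, Nat.card_eq_fintype_card, Fintype.card_fin] at h1
      have hk1 : k ≤ 1 := by
        have h3 : 3 ≤ p := by have := hpp.two_le; omega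
        have hb : Nat.log p n < 2 := Nat.log_lt_of_lt_pow (by omega) (by nlinarith)
        have hv : padicValNat p n.factorial = n / p := by
          rw [padicValNat_factorial hb, Finset.sum_Ico_eq_sum_range, Finset.sum_range_one, pow_one]
        have := (padicValNat_dvd_iff_le n.factorial_ne_zero).mp hdvd
        rw [hv] at this
        exact this.trans (Nat.lt_succ_iff.mp ((Nat.div_lt_iff_lt_mul hpp.pos).mpr (by omega)))
      rcases Nat.le_one_iff_eq_zero_or_eq_one.mp hk1 with rfl | rfl
      · haveI : Subsingleton (P : Subgroup (alternatingGroup (Fin n))) := (Nat.card_eq_one_iff_unique.mp hk).1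
        exact isCyclic_of_subsingleton
      · exact isCyclic_of_prime_card (hk.trans (pow_one p))
    obtain ⟨x, hx, hx2, hc⟩ := exists_pcycle_inverted hp hn2 P
    obtain ⟨z, hz, hzx⟩ := Cfsg.Agent.S2270.exists_inverted P hP x hx hc
    exact Cfsg.Agent.S2270.two_dvd_of_inverted _ x hx hx2 z hz hzx
  · subst h5 h2
    exact five_two P hP

end Cfsg.Agent.S2269
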