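import Cfsg.Statements.S2352
import Mathlib

set_option autoImplicit false
open Cfsg

namespace Cfsg.Agent.S2352

theorem exists_perm_extend {β : Type*} [Fintype β] [DecidableEq β] (R : β → β → Prop)
    (hf : ∀ x y z, R x y → R x z → y = z) (hi : ∀ x y z, R x z → R y z → x = y) :
    ∃ σ : Equiv.Perm β, ∀ x y, R x y → σ x = y := by
  classical
  let e : {x // ∃ y, R x y} ≃ {y // ∃ x, R x y} :=
    Equiv.ofBijective (fun x => ⟨x.2.choose, x.1, x.2.choose_spec⟩)
      ⟨fun x x' h => by
          have h' : x.2.choose = x'.2.choose := congrArg Subtype.val h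
          exact Subtype.ext (hi _ _ _ x.2.choose_spec (by rw [h']; exact x'.2.choose_spec)),
       fun y => ⟨⟨y.2.choose, y.1, y.2.choose_spec⟩, Subtype.ext (hf _ _ _ (Exists.choose_spec (p := fun z => R y.2.choose z) _) y.2.choose_spec)⟩⟩
  refine ⟨e.extendSubtype, fun x y h => ?_⟩
  rw [Equiv.extendSubtype_apply_of_mem e x ⟨y, h⟩]
  exact hf x _ y (Exists.choose_spec (p := fun z => R x z) _) h

theorem exists_finite_quotient (w : FreeGroup ℕ) (hw : w ≠ 1) :
    ∃ (L : ℕ) (f : ℕ → Equiv.Perm (Fin (L + 1))), FreeGroup.lift f w ≠ 1 := by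
  classical
  set l := w.toWord with hl
  have hne : l ≠ [] := fun h => hw (FreeGroup.toWord_eq_nil_iff.mp h)
  have hred := List.isChain_iff_getElem.mp (FreeGroup.isReduced_toWord (x := w))
  let R : ℕ → Fin (l.length + 1) → Fin (l.length + 1) → Prop := fun a x y =>
    ∃ (i : ℕ) (hi : i < l.length), (l[i] = (a, true) ∧ x.val = i + 1 ∧ y.val = i) ∨ (l[i] = (a, false) ∧ x.val = i ∧ y.val = i + 1)
  have key : ∀ a i (h : i + 1 < l.length) b, l[i] = (a, b) → l[i + 1] = (a, !b) → False := by
    intro a i h b h1 h2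
    have := hred i h
    rw [show w.toWord = l from rfl] at hred
    simp only [← hl, h1, h2] at this
    cases b <;> simp at this
  have hσ : ∀ a, ∃ σ : Equiv.Perm (Fin (l.length + 1)), ∀ x y, R a x y → σ x = y := by
    intro a
    refine exists_perm_extend (R a) ?_ ?_
    · rintro x y z ⟨i, hi, h⟩ ⟨j, hj, h'⟩
      rcases h with ⟨h1, h2, h3⟩ | ⟨h1, h2, h3⟩ <;> rcases h' with ⟨k1, k2, k3⟩ | ⟨k1, k2, k3⟩
      · exact Fin.ext (by omega)
      · have e : j = i + 1 := by omega
        subst e; exact (key a i hj true h1 k1).elim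
      · have e : i = j + 1 := by omega
        subst e; exact (key a j hi true k1 h1).elim
      · exact Fin.ext (by omega)
    · rintro x y z ⟨i, hi, h⟩ ⟨j, hj, h'⟩
      rcases h with ⟨h1, h2, h3⟩ | ⟨h1, h2, h3⟩ <;> rcases h' with ⟨k1, k2, k3⟩ | ⟨k1, k2, k3⟩
      · exact Fin.ext (by omega)
      · have e : i = j + 1 := by omega
        subst e; exact (key a j hi false k1 h1).elim
      · have e : j = i + 1 := by omega
        subst e; exact (key a i hj false h1 k1).elim
      · exact Fin.ext (by omega)
  choose f hf using hσ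
  refine ⟨l.length, f, ?_⟩
  rw [← FreeGroup.mk_toWord (x := w), FreeGroup.lift_mk, ← hl]
  have hind : ∀ k i, i + k = l.length →
      ((((l.drop i).map fun x => cond x.2 (f x.1) (f x.1)⁻¹).prod) (Fin.last l.length)).val = i := by
    intro k
    induction k with
    | zero => intro i hi; rw [List.drop_eq_nil_of_le (by omega)]; simp; omega
    | succ k ih =>
      intro i hi
      have hlt : i < l.length := by omega
      rw [List.drop_eq_getElem_cons hlt, List.map_cons, List.prod_cons, Equiv.Perm.mul_apply]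
      have h1 := ih (i + 1) (by omega)
      generalize (((l.drop (i + 1)).map fun x => cond x.2 (f x.1) (f x.1)⁻¹).prod) (Fin.last l.length) = z at h1 ⊢
      rcases h : l[i] with ⟨a, _ | _⟩
      · have := hf a ⟨i, by omega⟩ z ⟨i, hlt, Or.inr ⟨h, rfl, h1⟩⟩
        show ((f a)⁻¹ z).val = i
        rw [← this]
        simp
      · have := hf a z ⟨i, by omega⟩ ⟨i, hlt, Or.inl ⟨h, h1, rfl⟩⟩
        show (f a z).val = i
        rw [this]
  intro hcon
  have := hind l.length 0 (by omega)
  rw [List.drop_zero, hcon] at this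
  simp at this
  exact hne this



/-- A non-trivial law holds in only finitely many alternating groups: for every non-trivial element w of the free group on countably many generators there is N such that for all n ≥ N some substitution of elements of the alternating group of degree n into w is not the identity. -/
theorem result (w : FreeGroup ℕ) (hw : w ≠ 1) :
    ∃ N : ℕ, ∀ n : ℕ, N ≤ n → ∃ f : ℕ → alternatingGroup (Fin n), FreeGroup.lift f w ≠ 1 := by
  classical
  obtain ⟨L, f, hf⟩ := exists_finite_quotient w hw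
  refine ⟨L + 1 + 2, fun n hn => ?_⟩
  let e : Fin (L + 1) ⊕ Fin 2 ≃ {x : Fin n // x.val < L + 1 + 2} :=
    finSumFinEquiv.trans ⟨fun i => ⟨⟨i.val, by omega⟩, i.isLt⟩, fun x => ⟨x.1.val, x.2⟩, fun i => rfl, fun x => rfl⟩
  let ρ : Equiv.Perm (Fin 2) := Equiv.swap 0 1
  let ψ : Equiv.Perm (Fin (L + 1)) →* Equiv.Perm (Fin (L + 1) ⊕ Fin 2) :=
    { toFun := fun σ => Equiv.Perm.sumCongr σ (if Equiv.Perm.sign σ = 1 then 1 else ρ)
      map_one' := by simp
      map_mul' := fun a b => by
        rw [Equiv.Perm.sumCongr_mul]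
        congr 1
        rcases Int.units_eq_one_or (Equiv.Perm.sign a) with ha | ha <;> rcases Int.units_eq_one_or (Equiv.Perm.sign b) with hb | hb <;>
          simp [ha, hb, ρ] }
  have hψ : Function.Injective ψ := by
    intro a b h
    refine Equiv.ext fun x => ?_
    have := DFunLike.congr_fun h (Sum.inl x)
    simpa [ψ] using this
  let F : Equiv.Perm (Fin (L + 1)) →* Equiv.Perm (Fin n) := (Equiv.Perm.extendDomainHom e).comp ψ
  have hev : ∀ σ, F σ ∈ alternatingGroup (Fin n) := fun σ => by
    rw [Equiv.Perm.mem_alternatingGroup]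
    show Equiv.Perm.sign ((ψ σ).extendDomain e) = 1
    rw [Equiv.Perm.sign_extendDomain]
    show Equiv.Perm.sign (Equiv.Perm.sumCongr _ _) = 1
    rw [Equiv.Perm.sign_sumCongr]
    rcases Int.units_eq_one_or (Equiv.Perm.sign σ) with ha | ha <;> simp [ha, ρ]
  refine ⟨fun a => F.codRestrict _ hev (f a), fun h => hf ?_⟩
  have hcomp : FreeGroup.lift (fun a => F.codRestrict _ hev (f a)) = (F.codRestrict _ hev).comp (FreeGroup.lift f) :=
    FreeGroup.ext_hom _ _ fun a => by simp
  rw [hcomp, MonoidHom.comp_apply] at h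
  have h' : F (FreeGroup.lift f w) = F 1 := by rw [map_one]; exact congrArg Subtype.val h
  exact hψ (Equiv.Perm.extendDomainHom_injective e h')

end Cfsg.Agent.S2352
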