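import Cfsg.Statements.S2505
import Mathlib

set_option autoImplicit false
open Cfsg

namespace Cfsg.Agent.S2505

def abelianBound : ℕ → ℕ
  | 0 => 1
  | 1 => 1
  | 2 => 2
  | 3 => 3
  | 4 => 4
  | n + 5 => 3 * abelianBound (n + 2)

theorem abelianBound_mul : ∀ (N a b : ℕ), a + b = N → 1 ≤ b → abelianBound a * b ≤ abelianBound (a + b) := by
  intro N
  induction N using Nat.strong_induction_on with
  | _ N ih =>
    intro a b hN hb
    by_cases hb5 : 5 ≤ b
    · obtain ⟨b, rfl⟩ := Nat.exists_eq_add_of_le' hb5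
      have h := ih (a + (b + 2)) (by omega) a (b + 2) rfl (by omega)
      rw [show a + (b + 5) = (a + b) + 5 by omega, abelianBound, show a + b + 2 = a + (b + 2) by omega]
      calc abelianBound a * (b + 5) ≤ abelianBound a * (3 * (b + 2)) := Nat.mul_le_mul_left _ (by omega)
        _ = 3 * (abelianBound a * (b + 2)) := by ring
        _ ≤ 3 * abelianBound (a + (b + 2)) := Nat.mul_le_mul_left _ h
    by_cases ha5 : 5 ≤ a
    · obtain ⟨a, rfl⟩ := Nat.exists_eq_add_of_le' ha5
      have h := ih (a + 2 + b) (by omega) (a + 2) b rfl hb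
      rw [show a + 5 + b = (a + b) + 5 by omega, abelianBound, abelianBound, show a + b + 2 = a + 2 + b by omega, Nat.mul_assoc]
      exact Nat.mul_le_mul_left _ h
    push Not at hb5 ha5
    interval_cases a <;> interval_cases b <;> decide

theorem prod_le_abelianBound {ι : Type*} (s : Finset ι) (f : ι → ℕ) (hf : ∀ i ∈ s, 1 ≤ f i) :
    (∏ i ∈ s, f i) ≤ abelianBound (∑ i ∈ s, f i) := by
  classical
  induction s using Finset.induction with
  | empty => simp [abelianBound]
  | insert a s ha ih =>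
    rw [Finset.prod_insert ha, Finset.sum_insert ha, Nat.mul_comm, Nat.add_comm]
    exact le_trans (Nat.mul_le_mul_right _ (ih fun i hi => hf i (Finset.mem_insert_of_mem hi)))
      (abelianBound_mul _ _ _ rfl (hf a (Finset.mem_insert_self _ _)))

theorem abelian_card_le {α : Type*} [Fintype α] (A : Subgroup (Equiv.Perm α)) (hA : IsMulCommutative A) :
    Nat.card A ≤ abelianBound (Fintype.card α) := by
  classical
  let s := MulAction.orbitRel A α
  letI : Fintype (Quotient s) := Fintype.ofFinite _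
  let F : Quotient s → Type _ := fun w => {x : α // Quotient.mk s x = w}
  letI : ∀ w, Fintype (F w) := fun w => Fintype.ofFinite _
  let φ : A → ∀ w, F w := fun a w => ⟨a • w.out, by
    conv_rhs => rw [← Quotient.out_eq w]
    exact Quotient.sound ⟨a, rfl⟩⟩
  have hφ : Function.Injective φ := by
    intro a b h
    refine Subtype.ext (Equiv.ext fun x => ?_)
    obtain ⟨c, hc⟩ : ∃ c : A, c • (Quotient.mk s x).out = x := by
      have := Quotient.exact (Quotient.out_eq (Quotient.mk s x))
      obtain ⟨c, hc⟩ := MulAction.orbitRel_apply.mp this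
      exact ⟨c⁻¹, by rw [← hc, inv_smul_smul]⟩
    show a • x = b • x
    rw [← hc, ← mul_smul, ← mul_smul, hA.is_comm.comm a c, hA.is_comm.comm b c, mul_smul, mul_smul]
    exact congrArg (c • ·) (congrArg Subtype.val (congrFun h (Quotient.mk s x)))
  have h1 : Nat.card A ≤ ∏ w, Fintype.card (F w) := by
    rw [← Fintype.card_pi, ← Nat.card_eq_fintype_card]
    exact Nat.card_le_card_of_injective φ hφ
  have h2 : ∑ w, Fintype.card (F w) = Fintype.card α := by
    rw [← Fintype.card_sigma]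
    exact Fintype.card_congr (Equiv.sigmaFiberEquiv (Quotient.mk s))
  rw [← h2]
  exact h1.trans (prod_le_abelianBound _ _ fun w _ => Fintype.card_pos_iff.mpr ⟨⟨w.out, Quotient.out_eq w⟩⟩)

theorem abelian_exists {k : ℕ} (f : Fin k → ℕ) (hf : ∀ i, f i ≠ 0) (n : ℕ) (hn : ∑ i, f i = n) :
    ∃ A : Subgroup (Equiv.Perm (Fin n)), IsMulCommutative A ∧ Nat.card A = ∏ i, f i := by
  classical
  haveI : ∀ i, NeZero (f i) := fun i => ⟨hf i⟩
  let e : (Σ i, ZMod (f i)) ≃ Fin n := Fintype.equivFinOfCardEq (by simp [hn])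
  let ψ : Multiplicative (∀ i, ZMod (f i)) →* Equiv.Perm (Fin n) :=
    { toFun := fun v => e.permCongr (Equiv.sigmaCongrRight fun i => Equiv.addLeft (Multiplicative.toAdd v i))
      map_one' := by
        ext x
        simp [Equiv.permCongr_apply]
      map_mul' := fun u v => by
        ext x
        simp [Equiv.permCongr_apply, add_assoc] }
  have hψ : Function.Injective ψ := by
    intro u v h
    refine Multiplicative.toAdd.injective (funext fun i => ?_)
    have := DFunLike.congr_fun h (e ⟨i, 0⟩)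
    simpa [ψ, Equiv.permCongr_apply] using this
  refine ⟨ψ.range, ⟨⟨?_⟩⟩, ?_⟩
  · rintro ⟨_, u, rfl⟩ ⟨_, v, rfl⟩
    exact Subtype.ext (by simp only [Subgroup.coe_mul, ← map_mul, mul_comm u v])
  · rw [← Nat.card_congr (MonoidHom.ofInjective hψ).toEquiv, Nat.card_eq_fintype_card]
    simp

theorem abelianBound_three (j : ℕ) :
    abelianBound (3 * (j + 1)) = 3 ^ (j + 1) ∧ abelianBound (3 * (j + 1) + 1) = 4 * 3 ^ j ∧
      abelianBound (3 * (j + 1) + 2) = 2 * 3 ^ (j + 1) := by
  induction j with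
  | zero => decide
  | succ j ih =>
    obtain ⟨a, b, c⟩ := ih
    have e : ∀ m, 2 ≤ m → abelianBound (m + 3) = 3 * abelianBound m := by
      intro m hm
      obtain ⟨m, rfl⟩ := Nat.exists_eq_add_of_le' hm
      rw [show m + 2 + 3 = m + 5 by omega, abelianBound]
    refine ⟨?_, ?_, ?_⟩
    · rw [show 3 * (j + 1 + 1) = 3 * (j + 1) + 3 by omega, e _ (by omega), a]; ring
    · rw [show 3 * (j + 1 + 1) + 1 = 3 * (j + 1) + 1 + 3 by omega, e _ (by omega), b]; ring
    · rw [show 3 * (j + 1 + 1) + 2 = 3 * (j + 1) + 2 + 3 by omega, e _ (by omega), c]; ring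



/-- The largest order of an abelian subgroup of the symmetric group of degree n is 3^k when n = 3k, 4·3^(k−1) when n = 3k + 1, and 2·3^k when n = 3k + 2, for every k ≥ 1. -/
theorem result (k : ℕ) (hk : 1 ≤ k) :
    IsGreatest {c : ℕ | ∃ A : Subgroup (Equiv.Perm (Fin (3 * k))), IsMulCommutative A ∧ Nat.card A = c} (3 ^ k) ∧
    IsGreatest {c : ℕ | ∃ A : Subgroup (Equiv.Perm (Fin (3 * k + 1))), IsMulCommutative A ∧ Nat.card A = c}
      (4 * 3 ^ (k - 1)) ∧
    IsGreatest {c : ℕ | ∃ A : Subgroup (Equiv.Perm (Fin (3 * k + 2))), IsMulCommutative A ∧ Nat.card A = c}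
      (2 * 3 ^ k) := by
  obtain ⟨j, rfl⟩ := Nat.exists_eq_add_of_le' hk
  obtain ⟨a, b, c⟩ := abelianBound_three j
  have ub : ∀ n m, abelianBound n = m → m ∈ upperBounds {c : ℕ | ∃ A : Subgroup (Equiv.Perm (Fin n)), IsMulCommutative A ∧ Nat.card A = c} := by
    rintro n m rfl _ ⟨A, hA, rfl⟩
    simpa using abelian_card_le A hA
  refine ⟨⟨?_, ub _ _ a⟩, ⟨?_, ub _ _ (by simpa using b)⟩, ⟨?_, ub _ _ c⟩⟩
  · obtain ⟨A, h1, h2⟩ := abelian_exists (fun _ : Fin (j + 1) => 3) (by simp) (3 * (j + 1)) (by simp; ring)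
    exact ⟨A, h1, by simpa using h2⟩
  · obtain ⟨A, h1, h2⟩ := abelian_exists (Fin.cons 4 fun _ : Fin j => 3) (fun i => by induction i using Fin.cases <;> simp)
      (3 * (j + 1) + 1) (by simp [Fin.sum_univ_succ]; ring)
    exact ⟨A, h1, by simpa [Fin.prod_univ_succ] using h2⟩
  · obtain ⟨A, h1, h2⟩ := abelian_exists (Fin.cons 2 fun _ : Fin (j + 1) => 3) (fun i => by induction i using Fin.cases <;> simp)
      (3 * (j + 1) + 2) (by rw [Fin.sum_univ_succ]; simp; ring)
    exact ⟨A, h1, by rw [h2, Fin.prod_univ_succ]; simp⟩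

end Cfsg.Agent.S2505
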