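import Cfsg.Statements.S2504
import Mathlib
import Cfsg.Agent.S2505

set_option autoImplicit false
open Cfsg

namespace Cfsg.Agent.S2504

def evenBound : ℕ → ℕ
  | 0 => 1
  | 1 => 1
  | 2 => 1
  | 3 => 3
  | 4 => 4
  | 5 => 5
  | 6 => 9
  | 7 => 12
  | 8 => 16
  | n + 9 => 3 * evenBound (n + 6)

theorem evenBound_mul : ∀ (N a b : ℕ), a + b = N → 1 ≤ b → b ≠ 2 → evenBound a * b ≤ evenBound (a + b) := by
  intro N
  induction N using Nat.strong_induction_on with
  | _ N ih =>
    intro a b hN hb hb2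
    by_cases hb5 : 9 ≤ b
    · obtain ⟨b, rfl⟩ := Nat.exists_eq_add_of_le' hb5
      have h := ih (a + (b + 6)) (by omega) a (b + 6) rfl (by omega) (by omega)
      rw [show a + (b + 9) = (a + b) + 9 by omega, evenBound, show a + b + 6 = a + (b + 6) by omega]
      calc evenBound a * (b + 9) ≤ evenBound a * (3 * (b + 6)) := Nat.mul_le_mul_left _ (by omega)
        _ = 3 * (evenBound a * (b + 6)) := by ring
        _ ≤ 3 * evenBound (a + (b + 6)) := Nat.mul_le_mul_left _ h
    by_cases ha5 : 9 ≤ a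
    · obtain ⟨a, rfl⟩ := Nat.exists_eq_add_of_le' ha5
      have h := ih (a + 6 + b) (by omega) (a + 6) b rfl hb hb2
      rw [show a + 9 + b = (a + b) + 9 by omega, evenBound, evenBound, show a + b + 6 = a + 6 + b by omega, Nat.mul_assoc]
      exact Nat.mul_le_mul_left _ h
    push Not at hb5 ha5
    interval_cases a <;> interval_cases b <;> first | contradiction | decide

theorem prod_le_evenBound {ι : Type*} (s : Finset ι) (f : ι → ℕ) (hf : ∀ i ∈ s, 1 ≤ f i) (hf2 : ∀ i ∈ s, f i ≠ 2) :
    (∏ i ∈ s, f i) ≤ evenBound (∑ i ∈ s, f i) := by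
  classical
  induction s using Finset.induction with
  | empty => simp [evenBound]
  | insert a s ha ih =>
    rw [Finset.prod_insert ha, Finset.sum_insert ha, Nat.mul_comm, Nat.add_comm]
    exact le_trans (Nat.mul_le_mul_right _ (ih (fun i hi => hf i (Finset.mem_insert_of_mem hi)) fun i hi => hf2 i (Finset.mem_insert_of_mem hi)))
      (evenBound_mul _ _ _ rfl (hf a (Finset.mem_insert_self _ _)) (hf2 a (Finset.mem_insert_self _ _)))

theorem abelian_even_card_le {α : Type*} [Fintype α] [DecidableEq α] (A : Subgroup (Equiv.Perm α)) (hA : IsMulCommutative A)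
    (hev : ∀ g ∈ A, Equiv.Perm.sign g = 1) :
    Nat.card A ≤ max (evenBound (Fintype.card α)) (Cfsg.Agent.S2505.abelianBound (Fintype.card α - 2)) := by
  classical
  let s := MulAction.orbitRel A α
  letI : Fintype (Quotient s) := Fintype.ofFinite _
  let F : Quotient s → Type _ := fun w => {x : α // Quotient.mk s x = w}
  letI : ∀ w, Fintype (F w) := fun w => Fintype.ofFinite _
  by_cases h2 : ∃ w, Fintype.card (F w) = 2
  · obtain ⟨w, hw⟩ := h2
    refine le_trans ?_ (le_max_right _ _)
    have hinv : ∀ (g : A) (x : α), Quotient.mk s x ≠ w ↔ Quotient.mk s ((g : Equiv.Perm α) x) ≠ w := by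
      intro g x
      rw [show Quotient.mk s ((g : Equiv.Perm α) x) = Quotient.mk s x from Quotient.sound ⟨g, rfl⟩]
    let φ : A →* Equiv.Perm {x // Quotient.mk s x ≠ w} :=
      { toFun := fun g => (g : Equiv.Perm α).subtypePerm (fun x => (hinv g x).symm)
        map_one' := Equiv.ext fun x => rfl
        map_mul' := fun a b => Equiv.ext fun x => rfl }
    have hφ : Function.Injective φ := by
      rw [injective_iff_map_eq_one]
      intro g hg
      by_contra hne
      have hsupp : (g : Equiv.Perm α).support ⊆ Finset.univ.filter (fun x => Quotient.mk s x = w) := by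
        intro x hx
        refine Finset.mem_filter.mpr ⟨Finset.mem_univ _, by_contra fun h => ?_⟩
        exact Equiv.Perm.mem_support.mp hx (congrArg Subtype.val (DFunLike.congr_fun hg (⟨x, h⟩ : {x // Quotient.mk s x ≠ w})))
      have hle := Finset.card_le_card hsupp
      rw [← Fintype.card_subtype] at hle
      have h3 : Fintype.card {x // Quotient.mk s x = w} = 2 := by
        rw [← hw]
      have hne' : (g : Equiv.Perm α) ≠ 1 := fun h => hne (Subtype.ext h)
      have h4 := Equiv.Perm.two_le_card_support_of_ne_one hne'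
      have hswap : (g : Equiv.Perm α).IsSwap := Equiv.Perm.card_support_eq_two.mp (by omega)
      have := hev g g.2
      rw [hswap.sign_eq] at this
      exact absurd this (by decide)
    have hab : IsMulCommutative φ.range := ⟨⟨by
      rintro ⟨_, u, rfl⟩ ⟨_, v, rfl⟩
      exact Subtype.ext (by simp only [Subgroup.coe_mul, ← map_mul, hA.is_comm.comm u v])⟩⟩
    have h := Cfsg.Agent.S2505.abelian_card_le φ.range hab
    rw [← Nat.card_congr (MonoidHom.ofInjective hφ).toEquiv] at h
    have hc : Fintype.card {x // Quotient.mk s x ≠ w} = Fintype.card α - 2 := by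
      rw [Fintype.card_subtype_compl]
      congr 1
    rwa [hc] at h
  refine le_trans ?_ (le_max_left _ _)
  push Not at h2
  let φ : A → ∀ w, F w := fun a w => ⟨a • w.out, by
    conv_rhs => rw [← Quotient.out_eq w]
    exact Quotient.sound ⟨a, rfl⟩⟩
  have hφ : Function.Injective φ := by
    intro a b h
    refine Subtype.ext (Equiv.ext fun x => ?_)
    obtain ⟨c, hc⟩ : ∃ c : A, c • (Quotient.mk s x).out = x := by
      have := Quotient.exact (Quotient.out_eq (Quotient.mk s x))
      obtain ⟨c, hc⟩ := MulAction.orbitRel_apply.mp this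
      exact ⟨c⁻¹, by rw [← hc, inv_smul_smul]⟩
    show a • x = b • x
    rw [← hc, ← mul_smul, ← mul_smul, hA.is_comm.comm a c, hA.is_comm.comm b c, mul_smul, mul_smul]
    exact congrArg (c • ·) (congrArg Subtype.val (congrFun h (Quotient.mk s x)))
  have h1 : Nat.card A ≤ ∏ w, Fintype.card (F w) := by
    rw [← Fintype.card_pi, ← Nat.card_eq_fintype_card]
    exact Nat.card_le_card_of_injective φ hφ
  have hsum : ∑ w, Fintype.card (F w) = Fintype.card α := by
    rw [← Fintype.card_sigma]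
    exact Fintype.card_congr (Equiv.sigmaFiberEquiv (Quotient.mk s))
  rw [← hsum]
  exact h1.trans (prod_le_evenBound _ _ (fun w _ => Fintype.card_pos_iff.mpr ⟨⟨w.out, Quotient.out_eq w⟩⟩) fun w _ => h2 w)

theorem klein_even : ∀ v : ZMod 2 × ZMod 2, Equiv.Perm.sign (Equiv.addLeft v) = 1 := by decide

theorem three_even : ∀ v : ZMod 3, Equiv.Perm.sign (Equiv.addLeft v) = 1 := by decide

theorem even_abelian_exists (r j n : ℕ) (hn : 4 * r + 3 * j = n) :
    ∃ A : Subgroup (alternatingGroup (Fin n)), IsMulCommutative A ∧ Nat.card A = 4 ^ r * 3 ^ j := by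
  classical
  let e : (Fin r × (ZMod 2 × ZMod 2)) ⊕ (Fin j × ZMod 3) ≃ Fin n :=
    Fintype.equivFinOfCardEq (by simp; omega)
  let ψ : Multiplicative ((Fin r → ZMod 2 × ZMod 2) × (Fin j → ZMod 3)) →* Equiv.Perm (Fin n) :=
    { toFun := fun v => e.permCongr (Equiv.Perm.sumCongr (Equiv.prodCongrRight fun i => Equiv.addLeft ((Multiplicative.toAdd v).1 i))
          (Equiv.prodCongrRight fun i => Equiv.addLeft ((Multiplicative.toAdd v).2 i)))
      map_one' := by
        ext x
        rcases h : e.symm x with ⟨i, y⟩ | ⟨i, y⟩ <;> simp [Equiv.permCongr_apply, h] <;> rw [← h, Equiv.apply_symm_apply]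
      map_mul' := fun u v => by
        ext x
        rcases h : e.symm x with ⟨i, y⟩ | ⟨i, y⟩ <;> simp [Equiv.permCongr_apply, h, add_assoc] }
  have hev : ∀ v, ψ v ∈ alternatingGroup (Fin n) := fun v => by
    rw [Equiv.Perm.mem_alternatingGroup]
    show Equiv.Perm.sign (e.permCongr _) = 1
    rw [Equiv.Perm.sign_permCongr, Equiv.Perm.sign_sumCongr, Equiv.Perm.sign_prodCongrRight, Equiv.Perm.sign_prodCongrRight]
    simp [klein_even, three_even]
  have hψ : Function.Injective (ψ.codRestrict _ hev) := by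
    intro u v h
    have h' : ψ u = ψ v := congrArg Subtype.val h
    refine Multiplicative.toAdd.injective (Prod.ext (funext fun i => ?_) (funext fun i => ?_))
    · have := DFunLike.congr_fun h' (e (Sum.inl (i, 0)))
      simpa [ψ, Equiv.permCongr_apply] using this
    · have := DFunLike.congr_fun h' (e (Sum.inr (i, 0)))
      simpa [ψ, Equiv.permCongr_apply] using this
  refine ⟨(ψ.codRestrict _ hev).range, ⟨⟨?_⟩⟩, ?_⟩
  · rintro ⟨_, u, rfl⟩ ⟨_, v, rfl⟩
    exact Subtype.ext (by simp only [Subgroup.coe_mul, ← map_mul, mul_comm u v])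
  · rw [← Nat.card_congr (MonoidHom.ofInjective hψ).toEquiv, Nat.card_eq_fintype_card]
    simp

theorem evenBound_three (j : ℕ) :
    evenBound (3 * (j + 2)) = 3 ^ (j + 2) ∧ evenBound (3 * (j + 2) + 1) = 4 * 3 ^ (j + 1) ∧
      evenBound (3 * (j + 2) + 2) = 16 * 3 ^ j := by
  induction j with
  | zero => decide
  | succ j ih =>
    obtain ⟨a, b, c⟩ := ih
    have e : ∀ m, 6 ≤ m → evenBound (m + 3) = 3 * evenBound m := by
      intro m hm
      obtain ⟨m, rfl⟩ := Nat.exists_eq_add_of_le' hm
      rw [show m + 6 + 3 = m + 9 by omega, evenBound]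
    refine ⟨?_, ?_, ?_⟩
    · rw [show 3 * (j + 1 + 2) = 3 * (j + 2) + 3 by omega, e _ (by omega), a]; ring
    · rw [show 3 * (j + 1 + 2) + 1 = 3 * (j + 2) + 1 + 3 by omega, e _ (by omega), b]; ring
    · rw [show 3 * (j + 1 + 2) + 2 = 3 * (j + 2) + 2 + 3 by omega, e _ (by omega), c]; ring



/-- The largest order of an abelian subgroup of the alternating group of degree n is 3^k when n = 3k, 4·3^(k−1) when n = 3k + 1, and 16·3^(k−2) when n = 3k + 2, for every k ≥ 2 (so for all degrees n ≥ 6). -/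
theorem result (k : ℕ) (hk : 2 ≤ k) :
    IsGreatest {c : ℕ | ∃ A : Subgroup (alternatingGroup (Fin (3 * k))), IsMulCommutative A ∧ Nat.card A = c} (3 ^ k) ∧
    IsGreatest {c : ℕ | ∃ A : Subgroup (alternatingGroup (Fin (3 * k + 1))), IsMulCommutative A ∧ Nat.card A = c}
      (4 * 3 ^ (k - 1)) ∧
    IsGreatest {c : ℕ | ∃ A : Subgroup (alternatingGroup (Fin (3 * k + 2))), IsMulCommutative A ∧ Nat.card A = c}
      (16 * 3 ^ (k - 2)) := by
  obtain ⟨j, rfl⟩ := Nat.exists_eq_add_of_le' hk
  obtain ⟨a, b, c⟩ := evenBound_three j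
  obtain ⟨a', b', c'⟩ := Cfsg.Agent.S2505.abelianBound_three (j + 1)
  obtain ⟨-, b'', c''⟩ := Cfsg.Agent.S2505.abelianBound_three j
  have ub : ∀ n m, evenBound n ≤ m → Cfsg.Agent.S2505.abelianBound (n - 2) ≤ m →
      m ∈ upperBounds {c : ℕ | ∃ A : Subgroup (alternatingGroup (Fin n)), IsMulCommutative A ∧ Nat.card A = c} := by
    rintro n m h1 h2 _ ⟨A, hA, rfl⟩
    have hab : IsMulCommutative (A.map (alternatingGroup (Fin n)).subtype) := ⟨⟨by
      rintro ⟨_, u, hu, rfl⟩ ⟨_, v, hv, rfl⟩
      exact Subtype.ext (congrArg (fun z : A => ((z : alternatingGroup (Fin n)) : Equiv.Perm (Fin n))) (hA.is_comm.comm ⟨u, hu⟩ ⟨v, hv⟩))⟩⟩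
    have h := abelian_even_card_le _ hab (by rintro _ ⟨u, -, rfl⟩; exact Equiv.Perm.mem_alternatingGroup.mp u.2)
    rw [Subgroup.card_map_of_injective (Subgroup.subtype_injective _), Fintype.card_fin] at h
    exact h.trans (max_le h1 h2)
  have p0 : 3 ^ (j + 1) = 3 * 3 ^ j := by ring
  have p1 : 3 ^ (j + 2) = 9 * 3 ^ j := by ring
  refine ⟨⟨?_, ub _ _ a.le ?_⟩, ⟨?_, ub _ _ (le_of_eq (by rw [b, show j + 2 - 1 = j + 1 by omega])) ?_⟩,
    ⟨?_, ub _ _ (le_of_eq (by rw [c, Nat.add_sub_cancel])) ?_⟩⟩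
  · simpa using even_abelian_exists 0 (j + 2) (3 * (j + 2)) (by omega)
  · rw [show 3 * (j + 2) - 2 = 3 * (j + 1) + 1 by omega, b'']; omega
  · simpa using even_abelian_exists 1 (j + 1) (3 * (j + 2) + 1) (by omega)
  · rw [show 3 * (j + 2) + 1 - 2 = 3 * (j + 1) + 2 by omega, c'', show j + 2 - 1 = j + 1 by omega]; omega
  · simpa using even_abelian_exists 2 j (3 * (j + 2) + 2) (by omega)
  · rw [show 3 * (j + 2) + 2 - 2 = 3 * (j + 1 + 1) by omega, a', Nat.add_sub_cancel]; omega

end Cfsg.Agent.S2504
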