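import Cfsg.Statements.S2909
import Cfsg.Agent.Coprime.Basic
import Cfsg.Agent.Coprime.AxB
import Cfsg.Agent.PSolv.Basic
import Cfsg.Agent.Solv.CoprimeBasic
import Cfsg.Agent.Solv.Nilpotent

set_option autoImplicit false
open Cfsg
open scoped commutatorElement

namespace Cfsg.Agent.S2909

/-- Let p be a prime, E a normal p-subgroup of the finite group G, and U a non-cyclic elementary abelian p-subgroup of G such that either C_E(U) = C_E(u) for every nontrivial u ∈ U, or [E, U] = [E, ⟨u⟩] for every nontrivial u ∈ U. If R is a subgroup of order prime to p normalized by U, then [R, U] centralizes E. -/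
theorem result {G : Type*} [Group G] [Finite G] {p : ℕ} [Fact p.Prime] (E : Subgroup G) [E.Normal] (hE : IsPGroup p ↥E) (U : Subgroup G) (hU : Cfsg.IsElementaryAbelian p U) (hnc : ¬ IsCyclic ↥U) (hcond : (∀ u ∈ U, u ≠ 1 → E ⊓ Subgroup.centralizer (U : Set G) = E ⊓ Subgroup.centralizer ({u} : Set G)) ∨ (∀ u ∈ U, u ≠ 1 → ⁅E, U⁆ = ⁅E, Subgroup.zpowers u⁆)) (R : Subgroup G) (hR : ¬ p ∣ Nat.card ↥R) (hRU : U ≤ Subgroup.normalizer (R : Set G)) : ⁅R, U⁆ ≤ Subgroup.centralizer (E : Set G) := by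
  classical
  haveI : Fact p.Prime := inferInstance
  have hp : p.Prime := Fact.out
  have hU2 : p ^ 2 ≤ Nat.card ↥U := by
    obtain ⟨k, hk⟩ := (show IsPGroup p ↥U from fun a => ⟨1, Subtype.ext (by simpa using hU.2 a a.2)⟩).exists_card_eq
    rw [hk]
    refine Nat.pow_le_pow_right hp.pos ?_
    by_contra hlt
    have : k = 0 ∨ k = 1 := by omega
    rcases this with rfl | rfl
    · rw [pow_zero] at hk
      haveI := (Nat.card_eq_one_iff_unique.mp hk).1
      exact hnc inferInstance
    · exact hnc (isCyclic_of_prime_card (hk.trans (pow_one p)))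
  have hgen := CoprimeAct.le_iSup_centralizer_elem hU.1 hU.2 hU2 hR hRU
  set C := Subgroup.centralizer (E : Set G) with hC
  haveI hCn : C.Normal := inferInstance
  set π := QuotientGroup.mk' C with hπ
  suffices hR2 : R ≤ (Subgroup.centralizer ((U.map π : Subgroup (G ⧸ C)) : Set (G ⧸ C))).comap π by
    rw [Subgroup.commutator_le]
    intro r hr v hv
    refine (QuotientGroup.eq_one_iff _).mp ?_
    show π ⁅r, v⁆ = 1
    rw [map_commutatorElement, commutatorElement_eq_one_iff_mul_comm]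
    exact (Subgroup.mem_centralizer_iff.mp (hR2 hr) _ ⟨v, hv, rfl⟩).symm
  refine hgen.trans (iSup_le ?_)
  rintro ⟨u, hu, hu1⟩ x ⟨hxR, hxu⟩
  show π x ∈ Subgroup.centralizer _
  rw [Subgroup.mem_centralizer_iff]
  rintro _ ⟨v, hv, rfl⟩
  symm
  rw [← commutatorElement_eq_one_iff_mul_comm, ← map_commutatorElement]
  refine (QuotientGroup.eq_one_iff _).mpr ?_
  have hxu' : Commute x u := Subgroup.mem_centralizer_singleton_iff.mp hxu
  haveI := hU.1
  have hvu : Commute v u := setLike_mul_comm hv hu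
  have hwu : Commute ⁅x, v⁆ u := by
    rw [commutatorElement_def]
    exact ((hxu'.mul_left hvu).mul_left hxu'.inv_left).mul_left hvu.inv_left
  have hwR : ⁅x, v⁆ ∈ R := by
    rw [commutatorElement_def, show x * v * x⁻¹ * v⁻¹ = x * (v * x⁻¹ * v⁻¹) by group]
    exact R.mul_mem hxR ((Subgroup.mem_normalizer_iff.mp (hRU hv) _).mp (R.inv_mem hxR))
  have hwp : (orderOf ⁅x, v⁆).Coprime p := PSolv.coprime_orderOf_of_mem hR hwR
  set w := ⁅x, v⁆ with hw
  have hu' : IsPGroup p ↥(Subgroup.zpowers u) := by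
    intro a
    refine ⟨1, Subtype.ext ?_⟩
    obtain ⟨i, hi⟩ := Subgroup.mem_zpowers_iff.mp a.2
    show (a : G) ^ p ^ 1 = 1
    rw [← hi, pow_one, ← zpow_natCast, ← zpow_mul, mul_comm, zpow_mul, zpow_natCast, hU.2 u hu, one_zpow]
  have huE : Subgroup.zpowers u ≤ Subgroup.normalizer (E : Set G) := by
    rw [Subgroup.normalizer_eq_top_iff.mpr inferInstance]; exact le_top
  set Q := Subgroup.zpowers u ⊔ E with hQdef
  have hQ : IsPGroup p ↥Q := PSolv.isPGroup_sup hu' hE huE
  have huQ : Subgroup.zpowers u ≤ Q := le_sup_left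
  have hdec : ∀ q ∈ Q, ∃ i : ℤ, ∃ e ∈ E, q = u ^ i * e := by
    intro q hq
    obtain ⟨a, ⟨i, rfl⟩, e, he, rfl⟩ := Subgroup.mem_sup_of_normal_right.mp hq
    exact ⟨i, e, he, rfl⟩
  have hwQ : w ∈ Subgroup.normalizer (Q : Set G) := by
    rw [Subgroup.mem_normalizer_iff_map_conj_eq, Subgroup.map_sup]
    congr 1
    · rw [MonoidHom.map_zpowers]
      congr 1
      show w * u * w⁻¹ = u
      rw [hwu.eq, mul_inv_cancel_right]
    · exact Subgroup.mem_normalizer_iff_map_conj_eq.mp (by rw [Subgroup.normalizer_eq_top_iff.mpr inferInstance]; exact Subgroup.mem_top w)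
  suffices hmain : Q ≤ Subgroup.centralizer {w} by
    rw [hC, Subgroup.mem_centralizer_iff]
    intro e he
    exact Subgroup.mem_centralizer_singleton_iff.mp (hmain (Subgroup.mem_sup_right he))
  rcases hcond with h1 | h2
  · refine CoprimeAct.le_centralizer_of_axb hQ hwp hwQ huQ ?_ ?_
    · rintro _ ⟨i, rfl⟩
      exact Subgroup.mem_centralizer_singleton_iff.mpr (hwu.zpow_right i).symm.eq
    · rintro q ⟨hqQ, hqc⟩
      obtain ⟨i, e, he, rfl⟩ := hdec q hqQ
      have hqu : Commute (u ^ i * e) u := (Subgroup.mem_centralizer_iff.mp hqc u (Subgroup.mem_zpowers u)).symm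
      have heu : Commute e u := by
        have h := ((Commute.refl u).zpow_left i).inv_left.mul_left hqu
        rwa [inv_mul_cancel_left] at h
      have heU : ∀ c ∈ E, Commute c u → ∀ b ∈ U, Commute b c := fun c hc hcu b hb => by
        have : c ∈ E ⊓ Subgroup.centralizer (U : Set G) := by
          rw [h1 u hu hu1]; exact ⟨hc, Subgroup.mem_centralizer_singleton_iff.mpr hcu.eq⟩
        exact Subgroup.mem_centralizer_iff.mp this.2 b hb
      have hxe : x⁻¹ * e * x ∈ E := by simpa using (‹E.Normal›).conj_mem e he x⁻¹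
      have hxeu : Commute (x⁻¹ * e * x) u := (hxu'.inv_left.mul_left heu).mul_left hxu'
      have c1 : Commute v (x⁻¹ * e * x) := heU _ hxe hxeu v hv
      have c2 : Commute v e := heU _ he heu v hv
      have hwe : Commute w e := by
        show w * e = e * w
        rw [hw, commutatorElement_def]
        calc x * v * x⁻¹ * v⁻¹ * e = x * v * x⁻¹ * (v⁻¹ * e) := by group
          _ = x * v * x⁻¹ * (e * v⁻¹) := by rw [c2.inv_left.eq]
          _ = x * (v * (x⁻¹ * e * x)) * x⁻¹ * v⁻¹ := by group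
          _ = x * ((x⁻¹ * e * x) * v) * x⁻¹ * v⁻¹ := by rw [c1.eq]
          _ = e * (x * v * x⁻¹ * v⁻¹) := by group
      exact Subgroup.mem_centralizer_singleton_iff.mpr ((hwu.zpow_right i).mul_right hwe).symm.eq
  · set K := ⁅E, U⁆ with hK
    have hUK : U ≤ Subgroup.normalizer (K : Set G) := Subgroup.normalizer_commutator_ge_right E U
    have hEK : E ≤ Subgroup.normalizer (K : Set G) := Subgroup.normalizer_commutator_ge_left E U
    have hKu : K = ⁅E, Subgroup.zpowers u⁆ := h2 u hu hu1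
    have hxK : x ∈ Subgroup.normalizer (K : Set G) := by
      rw [Subgroup.mem_normalizer_iff_map_conj_eq, hKu, Subgroup.map_commutator, MonoidHom.map_zpowers]
      congr 1
      · exact Subgroup.mem_normalizer_iff_map_conj_eq.mp (by rw [Subgroup.normalizer_eq_top_iff.mpr inferInstance]; exact Subgroup.mem_top x)
      · congr 1
        show x * u * x⁻¹ = u
        rw [hxu'.eq, mul_inv_cancel_right]
    have hK2 : K ≤ ⁅Q, Q⁆ := hKu ▸ Subgroup.commutator_mono le_sup_right huQ
    have hmod : ∀ b ∈ U, ∀ e ∈ E, b * e * b⁻¹ * e⁻¹ ∈ K := fun b hb e he => by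
      have := Subgroup.commutator_mem_commutator he hb
      rw [show b * e * b⁻¹ * e⁻¹ = ⁅e, b⁆⁻¹ by rw [commutatorElement_def]; group]
      exact K.inv_mem this
    have hwmod : ∀ e ∈ E, w * e * w⁻¹ * e⁻¹ ∈ K := by
      intro e he
      have cc := fun (g : G) (hg : g ∈ Subgroup.normalizer (K : Set G)) (k : G) (hk : k ∈ K) =>
        (Subgroup.mem_normalizer_iff.mp hg k).mp hk
      have hk2 : v⁻¹ * e * v * e⁻¹ ∈ K := by simpa using hmod v⁻¹ (U.inv_mem hv) e he
      have he' : x⁻¹ * e * x ∈ E := by simpa using (‹E.Normal›).conj_mem e he x⁻¹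
      have hk1 : v * (x⁻¹ * e * x) * v⁻¹ * (x⁻¹ * e * x)⁻¹ ∈ K := hmod v hv _ he'
      have hxv : x * v * x⁻¹ ∈ Subgroup.normalizer (K : Set G) :=
        Subgroup.mul_mem _ (Subgroup.mul_mem _ hxK (hUK hv)) (Subgroup.inv_mem _ hxK)
      have := K.mul_mem (cc _ hxv _ hk2) (cc x hxK _ hk1)
      rw [hw, commutatorElement_def]
      convert this using 1
      group
    set W := Subgroup.zpowers w with hW
    have hWQ : W ≤ Subgroup.normalizer (Q : Set G) := Subgroup.zpowers_le.mpr hwQ
    haveI : Group.IsSolvable ↥W := by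
      haveI : IsMulCommutative ↥W := inferInstance
      exact Group.isSolvable_of_comm fun a b => mul_comm' a b
    have hcop : (Nat.card ↥W).Coprime (Nat.card ↥Q) := by
      obtain ⟨k, hk⟩ := hQ.exists_card_eq
      rw [Nat.card_zpowers, hk]
      exact hwp.pow_right k
    have hsplit := Solv.commutator_sup_centralizer hWQ hcop (Or.inl inferInstance)
    have hle : ⁅Q, W⁆ ≤ ⁅Q, Q⁆ := by
      rw [Subgroup.commutator_comm, Subgroup.commutator_le]
      intro a ha q hq
      have hS : ∀ q ∈ Q, w * q * w⁻¹ * q⁻¹ ∈ ⁅Q, Q⁆ := by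
        intro q hq
        obtain ⟨i, e, he, rfl⟩ := hdec q hq
        have hi : w * u ^ i * w⁻¹ = u ^ i := by rw [(hwu.zpow_right i).eq, mul_inv_cancel_right]
        rw [show w * (u ^ i * e) * w⁻¹ * (u ^ i * e)⁻¹ = (w * u ^ i * w⁻¹) * (w * e * w⁻¹ * e⁻¹) * (u ^ i)⁻¹ by group, hi]
        exact ((Subgroup.mem_normalizer_iff.mp (Subgroup.normalizer_commutator_ge_left Q Q (huQ ⟨i, rfl⟩))) _).mp
          (hK2 (hwmod e he))
      have hSub : ∀ n : ℕ, ∀ q ∈ Q, w ^ n * q * (w ^ n)⁻¹ * q⁻¹ ∈ ⁅Q, Q⁆ := by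
        intro n
        induction n with
        | zero => intro q _; simp
        | succ n ih =>
          intro q hq
          have hq' : w * q * w⁻¹ ∈ Q := (Subgroup.mem_normalizer_iff.mp hwQ q).mp hq
          have := Subgroup.mul_mem _ (ih _ hq') (hS q hq)
          rw [pow_succ]
          convert this using 1
          group
      obtain ⟨n, -, hn⟩ : ∃ n : ℕ, True ∧ w ^ n = a := by
        obtain ⟨n, hn⟩ := (Submonoid.mem_powers_iff a w).mp ((isOfFinOrder_of_finite w).mem_powers_iff_mem_zpowers.mpr ha)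
        exact ⟨n, trivial, hn⟩
      rw [commutatorElement_def, ← hn]
      exact hSub n q hq
    have hCC : Q ⊓ Subgroup.centralizer (W : Set G) = Q := by
      set C₁ := Q ⊓ Subgroup.centralizer (W : Set G) with hC₁
      by_contra hne
      have hlt : C₁.subgroupOf Q ≠ ⊤ := fun h => hne (le_antisymm inf_le_left (Subgroup.subgroupOf_eq_top.mp h))
      obtain ⟨M, hM, hCM⟩ := (eq_top_or_exists_le_coatom (C₁.subgroupOf Q)).resolve_left hlt
      refine hM.1 (eq_top_iff.mpr fun y _ => ?_)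
      have hyQ : (y : G) ∈ ⁅Q, Q⁆ ⊔ C₁ := (sup_le_sup_right hle C₁) (hsplit.ge y.2)
      have hle2 : ⁅Q, Q⁆ ⊔ C₁ ≤ M.map Q.subtype := by
        refine sup_le ?_ fun c hc => ⟨⟨c, hc.1⟩, hCM hc, rfl⟩
        rw [← Subgroup.map_subtype_commutator Q]
        exact Subgroup.map_mono (Solv.pGroup_coatom hQ hM).1
      obtain ⟨z, hz, he⟩ := hle2 hyQ
      rwa [Subtype.ext he] at hz
    intro q hq
    rw [← hCC] at hq
    exact Subgroup.mem_centralizer_singleton_iff.mpr (Subgroup.mem_centralizer_iff.mp hq.2 w (Subgroup.mem_zpowers w)).symm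

end Cfsg.Agent.S2909
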