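import Cfsg.Statements.S2958
import Mathlib

set_option autoImplicit false
open Cfsg

namespace Cfsg.Agent.S2958

/-- Let X, A, B be subgroups of a group G such that G is generated by the conjugates of X and every conjugate of X is contained in A or in B. Then A = G or B = G. -/
theorem result {G : Type*} [Group G] (X A B : Subgroup G) (hgen : (⨆ g : G, X.map (MulAut.conj g).toMonoidHom) = ⊤) (hcover : ∀ g : G, X.map (MulAut.conj g).toMonoidHom ≤ A ∨ X.map (MulAut.conj g).toMonoidHom ≤ B) : A = ⊤ ∨ B = ⊤ := by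
  by_cases hall : ∀ g : G, X.map (MulAut.conj g).toMonoidHom ≤ A
  · exact Or.inl (eq_top_iff.2 (hgen ▸ iSup_le hall))
  push Not at hall
  obtain ⟨g₀, hg₀⟩ := hall
  right
  set N : Subgroup G := ⨆ g : {g : G // ¬ X.map (MulAut.conj g).toMonoidHom ≤ A},
    X.map (MulAut.conj g.1).toMonoidHom with hN
  have hNB : N ≤ B := iSup_le fun g => (hcover g.1).resolve_left g.2
  have hcomp : ∀ (a g : G), (X.map (MulAut.conj g).toMonoidHom).map (MulAut.conj a).toMonoidHom
      = X.map (MulAut.conj (a * g)).toMonoidHom := by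
    intro a g
    rw [Subgroup.map_map]
    congr 1
    ext x
    simp [mul_assoc]
  have hnorm : (⊤ : Subgroup G) ≤ Subgroup.normalizer (N : Set G) := by
    rw [← hgen]
    refine iSup_le fun g => ?_
    by_cases hg : X.map (MulAut.conj g).toMonoidHom ≤ A
    · intro a ha
      have haA := hg ha
      have hstep : ∀ b ∈ A, N.map (MulAut.conj b).toMonoidHom ≤ N := by
        intro b hb
        rw [hN, Subgroup.map_iSup]
        refine iSup_le fun u => ?_
        rw [hcomp]
        refine le_iSup_of_le (⟨b * u.1, fun hle => u.2 ?_⟩ :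
          {g : G // ¬ X.map (MulAut.conj g).toMonoidHom ≤ A}) le_rfl
        intro y hy
        have : b * y * b⁻¹ ∈ A := hle (by
          rw [← hcomp]
          exact Subgroup.mem_map_of_mem _ hy)
        simpa [mul_assoc] using mul_mem (mul_mem (inv_mem hb) this) hb
      rw [Subgroup.mem_normalizer_iff]
      intro n
      constructor
      · intro hn
        exact hstep a haA (Subgroup.mem_map_of_mem _ hn)
      · intro hn
        have := hstep a⁻¹ (inv_mem haA) (Subgroup.mem_map_of_mem _ hn)
        simpa [mul_assoc] using this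
    · exact (le_iSup_of_le (⟨g, hg⟩ : {g : G // ¬ X.map (MulAut.conj g).toMonoidHom ≤ A}) le_rfl).trans
        (Subgroup.le_normalizer (H := N))
  haveI : N.Normal := (Subgroup.normalizer_eq_top_iff (H := N)).1 (top_le_iff.1 hnorm)
  refine eq_top_iff.2 (le_trans ?_ hNB)
  rw [← hgen]
  refine iSup_le fun g => ?_
  have h0 : X.map (MulAut.conj g₀).toMonoidHom ≤ N := le_iSup_of_le (⟨g₀, hg₀⟩ :
    {g : G // ¬ X.map (MulAut.conj g).toMonoidHom ≤ A}) le_rfl
  intro y hy
  rw [← show g * g₀⁻¹ * g₀ = g by group, ← hcomp] at hy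
  obtain ⟨z, hz, rfl⟩ := Subgroup.mem_map.1 hy
  exact ‹N.Normal›.conj_mem z (h0 hz) _

end Cfsg.Agent.S2958
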