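import Cfsg.Statements.S3155
import Mathlib

set_option autoImplicit false
open Cfsg

namespace Cfsg.Agent.S3155

/-- Let B be the direct product of three cyclic groups of order 4. Then the automorphism of B inverting every element is not the square of any automorphism of B. -/
theorem result {B : Type*} [CommGroup B] [Finite B] (hB : Nonempty (B ≃* Multiplicative (ZMod 4 × ZMod 4 × ZMod 4)))
    (τ : B ≃* B) : τ.trans τ ≠ MulEquiv.inv B := by
  intro h
  obtain ⟨e⟩ := hB
  let a : (ZMod 4 × ZMod 4 × ZMod 4) →+ (ZMod 4 × ZMod 4 × ZMod 4) :=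
    AddMonoidHom.mk' (fun v => Multiplicative.toAdd (e (τ (e.symm (Multiplicative.ofAdd v))))) (fun u v => by simp)
  haveI : Fact (1 < 4) := ⟨by norm_num⟩
  let L : (ZMod 4 × ZMod 4 × ZMod 4) →ₗ[ZMod 4] (ZMod 4 × ZMod 4 × ZMod 4) := a.toZModLinearMap 4
  have hL : L ∘ₗ L = (-1 : ZMod 4) • LinearMap.id := by
    apply LinearMap.ext
    intro v
    show a (a v) = (-1 : ZMod 4) • v
    rw [neg_one_smul]
    apply Multiplicative.ofAdd.injective
    show e (τ (e.symm (e (τ (e.symm (Multiplicative.ofAdd v)))))) = (Multiplicative.ofAdd v)⁻¹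
    rw [MulEquiv.symm_apply_apply, show τ (τ (e.symm (Multiplicative.ofAdd v))) = (e.symm (Multiplicative.ofAdd v))⁻¹ from DFunLike.congr_fun h _,
      map_inv, MulEquiv.apply_symm_apply]
  have hd := congrArg LinearMap.det hL
  rw [LinearMap.det_comp, LinearMap.det_smul, LinearMap.det_id, mul_one,
    Module.finrank_prod, Module.finrank_prod, Module.finrank_self] at hd
  generalize LinearMap.det L = d at hd
  revert d
  decide

end Cfsg.Agent.S3155
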