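import Cfsg.Statements.S3180
import Mathlib

set_option autoImplicit false
open Cfsg

namespace Cfsg.Agent.S3180

/-- Let P be a Sylow p-subgroup of a finite group J and P₁ a subgroup of P that is weakly closed in P with respect to J. If J acts on a set and two points, each fixed by every element of P₁, lie in one J-orbit, then they lie in one orbit of the normalizer of P₁ in J. -/
theorem result {J : Type*} [Group J] [Finite J]
    {p : ℕ} [Fact p.Prime] (P : Sylow p J) (P₁ : Subgroup J) (hW : Cfsg.IsWeaklyClosed P₁ (P : Subgroup J))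
    {Ω : Type*} [MulAction J Ω] (x y : Ω) (hx : ∀ g ∈ P₁, g • x = x) (hy : ∀ g ∈ P₁, g • y = y)
    (hc : ∃ g : J, g • x = y) :
    ∃ g ∈ Subgroup.normalizer (P₁ : Set J), g • x = y := by
  classical
  obtain ⟨g, hg⟩ := hc
  obtain ⟨hWP, hW2⟩ := hW
  let K : Subgroup J := MulAction.stabilizer J y
  have h1 : P₁ ≤ K := fun a ha => hy a ha
  have h2 : P₁.map (MulAut.conj g).toMonoidHom ≤ K := by
    rintro _ ⟨a, ha, rfl⟩
    show (g * a * g⁻¹) • y = y
    rw [mul_smul, mul_smul, ← hg, inv_smul_smul, hx a ha, hg]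
  have hp1 : IsPGroup p P₁ := P.isPGroup'.to_le hWP
  obtain ⟨S₁, hS₁⟩ := (hp1.of_equiv (Subgroup.subgroupOfEquivOfLe h1).symm).exists_le_sylow
  obtain ⟨S₂, hS₂⟩ := ((hp1.map (MulAut.conj g).toMonoidHom).of_equiv (Subgroup.subgroupOfEquivOfLe h2).symm).exists_le_sylow
  obtain ⟨k, hk⟩ := MulAction.exists_smul_eq K S₂ S₁
  have h3 : P₁.map (MulAut.conj ((k : J) * g)).toMonoidHom ≤ (S₁ : Subgroup K).map K.subtype := by
    rintro _ ⟨a, ha, rfl⟩
    have hmem : (⟨g * a * g⁻¹, h2 ⟨a, ha, rfl⟩⟩ : K) ∈ (S₂ : Subgroup K) := hS₂ ⟨a, ha, rfl⟩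
    refine ⟨k * ⟨g * a * g⁻¹, h2 ⟨a, ha, rfl⟩⟩ * k⁻¹, hk ▸ ⟨_, hmem, rfl⟩, ?_⟩
    show (k : J) * (g * a * g⁻¹) * (k : J)⁻¹ = (k : J) * g * a * ((k : J) * g)⁻¹
    rw [mul_inv_rev]; simp only [mul_assoc]
  have h4 : P₁ ≤ (S₁ : Subgroup K).map K.subtype := fun a ha => ⟨⟨a, h1 ha⟩, hS₁ ha, rfl⟩
  obtain ⟨R, hR⟩ := (S₁.isPGroup'.map K.subtype).exists_le_sylow
  obtain ⟨t, ht⟩ := MulAction.exists_smul_eq J R P
  have h5 : ∀ w, P₁.map (MulAut.conj w).toMonoidHom ≤ (R : Subgroup J) → P₁.map (MulAut.conj (t * w)).toMonoidHom = P₁ := by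
    intro w hw
    refine hW2 _ ?_
    rintro _ ⟨a, ha, rfl⟩
    rw [← ht]
    exact ⟨w * a * w⁻¹, hw ⟨a, ha, rfl⟩, by show t * (w * a * w⁻¹) * t⁻¹ = t * w * a * (t * w)⁻¹; rw [mul_inv_rev]; simp only [mul_assoc]⟩
  have e1 : t ∈ Subgroup.normalizer (P₁ : Set J) := by
    rw [Subgroup.mem_normalizer_iff]
    have e := h5 1 (by rintro _ ⟨a, ha, rfl⟩; simpa using hR (h4 ha))
    rw [mul_one] at e
    intro a
    constructor
    · intro ha; rw [← e]; exact ⟨a, ha, rfl⟩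
    · intro ha
      rw [← e] at ha
      obtain ⟨b, hb, hbe⟩ := ha
      exact mul_left_cancel (mul_right_cancel hbe) ▸ hb
  have e2 : t * ((k : J) * g) ∈ Subgroup.normalizer (P₁ : Set J) := by
    rw [Subgroup.mem_normalizer_iff]
    have e := h5 _ (h3.trans hR)
    intro a
    constructor
    · intro ha; rw [← e]; exact ⟨a, ha, rfl⟩
    · intro ha
      rw [← e] at ha
      obtain ⟨b, hb, hbe⟩ := ha
      exact mul_left_cancel (mul_right_cancel hbe) ▸ hb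
  refine ⟨(k : J) * g, ?_, ?_⟩
  · have := mul_mem (inv_mem e1) e2
    rwa [inv_mul_cancel_left] at this
  · rw [mul_smul, hg]; exact k.2

end Cfsg.Agent.S3180
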