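import Cfsg.Statements.S3195
import Mathlib
import Cfsg.Agent.Transfer.BaerSuzuki

set_option autoImplicit false
open Cfsg

namespace Cfsg.Agent.S3195

theorem eq_inv_one {G : Type*} [Group G] [Finite G] {y : G} (hy : Odd (orderOf y)) (h : y = y⁻¹) : y = 1 := by
  have h2 : y ^ 2 = 1 := by rw [pow_two]; conv_lhs => arg 2; rw [h]
                            exact mul_inv_cancel y
  have := Nat.le_of_dvd (by norm_num) (orderOf_dvd_of_pow_eq_one h2)
  obtain ⟨k, hk⟩ := hy
  exact orderOf_eq_one_iff.mp (by omega)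

theorem conjugate_of_inverted {G : Type*} [Group G] [Finite G] {a y : G} (ha : a * a = 1) (hy : Odd (orderOf y))
    (hinv : a * y * a = y⁻¹) : ∃ g : G, g * a * g⁻¹ = a * y := by
  obtain ⟨k, hk⟩ := hy
  refine ⟨(y ^ (k + 1))⁻¹, ?_⟩
  have hai : a⁻¹ = a := inv_eq_of_mul_eq_one_left ha
  have e : a * (y ^ (k + 1)) * a = (y ^ (k + 1))⁻¹ := by
    have h' : a * y * a⁻¹ = y⁻¹ := by rw [hai]; exact hinv
    rw [← inv_pow, ← h', conj_pow, hai]
  rw [inv_inv, ← e]
  calc a * y ^ (k + 1) * a * a * y ^ (k + 1) = a * y ^ (k + 1) * y ^ (k + 1) := by rw [mul_assoc (a * _) a a, ha, mul_one]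
    _ = a * y := by
      rw [mul_assoc, ← pow_add, show k + 1 + (k + 1) = (2 * k + 1) + 1 by ring, pow_succ, ← hk, pow_orderOf_eq_one, one_mul]

theorem second_inverts {G : Type*} [Group G] {a b y : G} (hb : b * b = 1) (hinv : a * y * a = y⁻¹) (hc : b * y = y * b)
    (hab : a * b = b * a) : (a * b) * y * (a * b) = y⁻¹ := by
  calc (a * b) * y * (a * b) = a * (b * y) * (b * a) := by rw [hab]; simp only [mul_assoc]; rw [← hab]; simp only [← mul_assoc]; rw [hab]
    _ = a * y * (b * b) * a := by rw [hc]; simp only [mul_assoc]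
    _ = y⁻¹ := by rw [hb, mul_one, hinv]

theorem inverted_commute {G : Type*} [Group G] [Finite G] {a b c y1 y2 : G}
    (hab : ∀ z : G, Odd (orderOf z) → a * z * a = z⁻¹ → b * z = z * b ∨ c * z = z * c)
    (o1 : Odd (orderOf y1)) (o2 : Odd (orderOf y2))
    (a1 : a * y1 * a = y1⁻¹) (b1 : b * y1 = y1 * b) (c1 : c * y1 * c = y1⁻¹)
    (a2 : a * y2 = y2 * a) (b2 : b * y2 * b = y2⁻¹) (c2 : c * y2 * c = y2⁻¹)
    (hb : b * b = 1) (hc : c * c = 1) : y1 * y2 = y2 * y1 := by
  set z := y2⁻¹ * y1 * y2 with hz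
  have hai : a * y2⁻¹ = y2⁻¹ * a := (Commute.inv_right (show Commute a y2 from a2)).eq
  have hoz : Odd (orderOf z) := by
    rw [hz, show y2⁻¹ * y1 * y2 = MulAut.conj y2⁻¹ y1 by simp, MulEquiv.orderOf_eq]; exact o1
  have haz : a * z * a = z⁻¹ := by
    calc a * z * a = (a * y2⁻¹) * y1 * (y2 * a) := by rw [hz]; group
      _ = y2⁻¹ * (a * y1 * a) * y2 := by rw [hai, ← a2]; group
      _ = z⁻¹ := by rw [a1, hz]; group
  have hbi : ∀ {d : G}, d * d = 1 → d⁻¹ = d := fun hd => inv_eq_of_mul_eq_one_left hd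
  -- conjugating back
  have key : ∀ {d : G}, d * d = 1 → d * y2 * d = y2⁻¹ → d * z = z * d → Commute (d * y2⁻¹ * y2⁻¹) y1 := by
    intro d hd hd2 hdz
    have e1 : y2 * d = d * y2⁻¹ := by
      rw [← hd2]
      calc y2 * d = 1 * (y2 * d) := (one_mul _).symm
        _ = (d * d) * (y2 * d) := by rw [hd]
        _ = d * (d * y2 * d) := by group
    have e3 : Commute (y2 * d * y2⁻¹) y1 := by
      show _ = _
      calc y2 * d * y2⁻¹ * y1 = y2 * (d * z) * y2⁻¹ := by rw [hz]; group
        _ = y2 * (z * d) * y2⁻¹ := by rw [hdz]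
        _ = y1 * (y2 * d * y2⁻¹) := by rw [hz]; group
    rwa [e1] at e3
  obtain ⟨k, hk⟩ := o2
  have hroot : ∀ m : G, Commute (y2⁻¹ * y2⁻¹) m → Commute y2 m := by
    intro m hm
    have := (hm.inv_left.pow_left (k + 1))
    rwa [mul_inv_rev, inv_inv, ← pow_two, ← pow_mul, show 2 * (k + 1) = (2 * k + 1) + 1 by ring, pow_succ, ← hk,
      pow_orderOf_eq_one, one_mul] at this
  rcases hab z hoz haz with h | h
  · have e := key hb b2 h
    have hbc : Commute b y1 := b1
    have := hbc.inv_left.mul_left e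
    rw [mul_assoc b, inv_mul_cancel_left] at this
    exact (hroot y1 this).eq.symm
  · have e := key hc c2 h
    -- the square of a conjugator inverting `y1`
    set w := y2⁻¹ * y2⁻¹ with hw
    rw [mul_assoc] at e
    have e1 : w * y1 * w⁻¹ = y1⁻¹ := by
      have h1 : (c * w) * y1 * (c * w)⁻¹ = y1 := by rw [e.eq, mul_inv_cancel_right]
      rw [mul_inv_rev, hbi hc] at h1
      have h2 := congrArg (fun t => c * t * c) h1
      simp only [c1] at h2
      rw [← h2]
      calc w * y1 * w⁻¹ = 1 * (w * y1 * w⁻¹) * 1 := by group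
        _ = (c * c) * (w * y1 * w⁻¹) * (c * c) := by rw [hc]
        _ = _ := by group
    have e2 : Commute (w * w) y1 := by
      show _ = _
      have h2 : w * (w * y1 * w⁻¹) * w⁻¹ = y1 := by
        rw [e1]
        calc w * y1⁻¹ * w⁻¹ = (w * y1 * w⁻¹)⁻¹ := by group
          _ = y1 := by rw [e1, inv_inv]
      calc w * w * y1 = (w * (w * y1 * w⁻¹) * w⁻¹) * (w * w) := by group
        _ = y1 * (w * w) := by rw [h2]
    have how : Odd (orderOf w) := by
      refine Odd.of_dvd_nat (hk ▸ odd_two_mul_add_one k) ?_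
      rw [hw, ← pow_two, inv_pow, orderOf_inv]
      exact orderOf_pow_dvd 2
    obtain ⟨j, hj⟩ := how
    have hwy : Commute w y1 := by
      have := e2.pow_left (j + 1)
      rwa [← pow_two, ← pow_mul, show 2 * (j + 1) = (2 * j + 1) + 1 by ring, pow_succ, ← hj, pow_orderOf_eq_one,
        one_mul] at this
    exact (hroot y1 hwy).eq.symm



/-- Let A be a Klein four-subgroup of a finite group G. If every G-conjugate of every involution of A commutes with some involution of A (its centralizer meets A nontrivially), then A meets the largest normal 2-subgroup O₂(G) nontrivially. -/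
theorem result {G : Type*} [Group G] [Finite G]
    (A : Subgroup G) (hA : IsKleinFour ↥A)
    (h : ∀ a ∈ A, a ≠ 1 → ∀ g : G, A ⊓ Subgroup.centralizer ({g * a * g⁻¹} : Set G) ≠ ⊥) :
    A ⊓ Cfsg.pCore 2 G ≠ ⊥ := by
  classical
  haveI := hA
  haveI : Nontrivial A := Finite.one_lt_card_iff_nontrivial.mp (by rw [IsKleinFour.card_four]; norm_num)
  by_contra hcon
  have hexp : ∀ x ∈ A, x * x = 1 := fun x hx => congrArg Subtype.val (IsKleinFour.mul_self (⟨x, hx⟩ : A))
  have hcomm : ∀ x ∈ A, ∀ y ∈ A, x * y = y * x := fun x hx y hy => by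
    have h1 := hexp _ (A.mul_mem hx hy)
    calc x * y = (x * y) * 1 := (mul_one _).symm
      _ = (x * y) * ((y * y) * 1) := by rw [hexp y hy, one_mul]
      _ = (x * y) * ((y * (x * x)) * y) := by rw [hexp x hx]; group
      _ = ((x * y) * (y * x)) * (x * y) := by group
      _ = (x * (y * y) * x) * (x * y) := by group
      _ = x * y := by rw [hexp y hy, mul_one, hexp x hx, one_mul]
      _ = y * x := by
        have : (x * y)⁻¹ = x * y := inv_eq_of_mul_eq_one_left h1
        rw [← this, mul_inv_rev, inv_eq_of_mul_eq_one_left (hexp x hx), inv_eq_of_mul_eq_one_left (hexp y hy)]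
  have hinv : ∀ a ∈ A, a ≠ 1 → ∃ y : G, y ≠ 1 ∧ Odd (orderOf y) ∧ a * y * a = y⁻¹ := by
    intro a ha ha1
    obtain ⟨y, hy1, hy2, hy3⟩ := Cfsg.Agent.BaerSuzuki.exists_inverted a (by rw [pow_two]; exact hexp a ha) (fun N hN hN2 haN => by
      have : a ∈ A ⊓ Cfsg.pCore 2 G := ⟨ha, le_sSup (show N ∈ {N : Subgroup G | N.Normal ∧ IsPGroup 2 N} from ⟨hN, hN2⟩) haN⟩
      rw [hcon, Subgroup.mem_bot] at this
      exact ha1 this)
    exact ⟨y, hy1, hy2, by rwa [inv_eq_of_mul_eq_one_left (hexp a ha)] at hy3⟩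
  -- inverted elements are centralized by another involution
  have hcent : ∀ a ∈ A, a ≠ 1 → ∀ y : G, Odd (orderOf y) → a * y * a = y⁻¹ → y ≠ 1 →
      ∃ b ∈ A, b ≠ 1 ∧ b ≠ a ∧ b * y = y * b := by
    intro a ha ha1 y hy hinv hy1
    obtain ⟨g, hg⟩ := conjugate_of_inverted (hexp a ha) hy hinv
    obtain ⟨⟨b, hb⟩, hb1⟩ := Subgroup.ne_bot_iff_exists_ne_one.mp (h a ha ha1 g)
    have hb1' : b ≠ 1 := fun e => hb1 (Subtype.ext e)
    have hcb : g * a * g⁻¹ * b = b * (g * a * g⁻¹) := Subgroup.mem_centralizer_iff.mp hb.2 _ rfl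
    rw [hg] at hcb
    refine ⟨b, hb.1, hb1', ?_, ?_⟩
    · rintro rfl
      rw [hinv, ← mul_assoc, hexp b ha, one_mul] at hcb
      exact hy1 (eq_inv_one hy hcb.symm)
    · apply mul_left_cancel (a := a)
      rw [← mul_assoc, hcomm a ha b hb.1, mul_assoc, ← hcb, mul_assoc]
  have hthird : ∀ a ∈ A, ∀ b ∈ A, a ≠ 1 → b ≠ 1 → a ≠ b → ∀ x ∈ A, x ≠ 1 → x = a ∨ x = b ∨ x = a * b := by
    intro a ha b hb ha1 hb1 hab x hx hx1
    by_contra hne
    push Not at hne
    have := IsKleinFour.eq_mul_of_ne_all (x := (⟨a, ha⟩ : A)) (y := ⟨b, hb⟩) (z := ⟨x, hx⟩)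
      (fun e => ha1 (congrArg Subtype.val e)) (fun e => hb1 (congrArg Subtype.val e))
      (fun e => hab (congrArg Subtype.val e)) (fun e => hx1 (congrArg Subtype.val e))
      (fun e => hne.1 (congrArg Subtype.val e)) (fun e => hne.2.1 (congrArg Subtype.val e))
    exact hne.2.2 (congrArg Subtype.val this)
  obtain ⟨⟨a, ha⟩, ha'⟩ := exists_ne (1 : A)
  have ha1 : a ≠ 1 := fun e => ha' (Subtype.ext e)
  obtain ⟨y1, hy1, o1, i1⟩ := hinv a ha ha1
  obtain ⟨b, hb, hb1, hba, hc1⟩ := hcent a ha ha1 y1 o1 i1 hy1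
  obtain ⟨y2, hy2, o2, i2⟩ := hinv b hb hb1
  obtain ⟨x, hx, hx1, hxb, hxc⟩ := hcent b hb hb1 y2 o2 i2 hy2
  have hcA := A.mul_mem ha hb
  have hc1' : a * b ≠ 1 := fun e => hba (by
    rw [mul_eq_one_iff_eq_inv.mp e, inv_eq_of_mul_eq_one_left (hexp b hb)])
  have i1c : (a * b) * y1 * (a * b) = y1⁻¹ := second_inverts (hexp b hb) i1 hc1 (hcomm a ha b hb)
  -- the two centralizing involutions are different
  rcases hthird a ha b hb ha1 hb1 hba.symm x hx hx1 with rfl | rfl | rfl
  · have i2c : (x * b) * y2 * (x * b) = y2⁻¹ := by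
      have := second_inverts (hexp x ha) i2 hxc (hcomm b hb x ha)
      rwa [hcomm b hb x ha] at this
    have hcm := inverted_commute (a := x) (b := b) (c := x * b) (fun z oz iz => by
      rcases eq_or_ne z 1 with rfl | hz1
      · simp
      obtain ⟨w, hw, hw1, hwx, hwc⟩ := hcent x ha ha1 z oz iz hz1
      rcases hthird x ha b hb ha1 hb1 hba.symm w hw hw1 with rfl | rfl | rfl
      · exact absurd rfl hwx
      · exact Or.inl hwc
      · exact Or.inr hwc) o1 o2 i1 hc1 i1c hxc i2 i2c (hexp b hb) (hexp _ hcA)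
    have o12 : Odd (orderOf (y1 * y2)) :=
      (o1.mul o2).of_dvd_nat ((show Commute y1 y2 from hcm).orderOf_mul_dvd_mul_orderOf)
    have ic : (x * b) * (y1 * y2) * (x * b) = (y1 * y2)⁻¹ := by
      calc (x * b) * (y1 * y2) * (x * b) = (x * b) * y1 * 1 * y2 * (x * b) := by group
        _ = (x * b) * y1 * ((x * b) * (x * b)) * y2 * (x * b) := by rw [hexp _ hcA]
        _ = ((x * b) * y1 * (x * b)) * ((x * b) * y2 * (x * b)) := by group
        _ = _ := by rw [i1c, i2c, ← mul_inv_rev, ← hcm]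
    have hne : y1 * y2 ≠ 1 := fun e => by
      have h2 : y2 = y1⁻¹ := eq_inv_of_mul_eq_one_right e
      rw [h2] at hxc
      have : x * y1 = y1 * x := by
        have := (show Commute x y1⁻¹ from hxc).inv_right
        rwa [inv_inv] at this
      rw [this, mul_assoc, hexp x ha, mul_one] at i1
      exact hy1 (eq_inv_one o1 i1)
    obtain ⟨w, hw, hw1, hwne, hwc⟩ := hcent _ hcA hc1' _ o12 ic hne
    rcases hthird x ha b hb ha1 hb1 hba.symm w hw hw1 with rfl | rfl | rfl
    · have : Commute w y1 := by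
        have := (show Commute w (y1 * y2) from hwc).mul_right (show Commute w y2 from hxc).inv_right
        rwa [mul_inv_cancel_right] at this
      rw [this.eq, mul_assoc, hexp w ha, mul_one] at i1
      exact hy1 (eq_inv_one o1 i1)
    · have : Commute w y2 := by
        have := (show Commute w y1 from hc1).inv_right.mul_right (show Commute w (y1 * y2) from hwc)
        rwa [inv_mul_cancel_left] at this
      rw [this.eq, mul_assoc, hexp w hb, mul_one] at i2
      exact hy2 (eq_inv_one o2 i2)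
    · exact hwne rfl
  · exact hxb rfl
  · have i2a : a * y2 * a = y2⁻¹ := by
      have := second_inverts (hexp _ hcA) i2 hxc (hcomm b hb _ hcA)
      rwa [show b * (a * b) = a by rw [hcomm a ha b hb, ← mul_assoc, hexp b hb, one_mul]] at this
    have hcm := inverted_commute (a := a * b) (b := b) (c := a) (fun z oz iz => by
      rcases eq_or_ne z 1 with rfl | hz1
      · simp
      obtain ⟨w, hw, hw1, hwx, hwc⟩ := hcent _ hcA hc1' z oz iz hz1
      rcases hthird a ha b hb ha1 hb1 hba.symm w hw hw1 with rfl | rfl | rfl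
      · exact Or.inr hwc
      · exact Or.inl hwc
      · exact absurd rfl hwx) o1 o2 i1c hc1 i1 hxc i2 i2a (hexp b hb) (hexp a ha)
    have o12 : Odd (orderOf (y1 * y2)) :=
      (o1.mul o2).of_dvd_nat ((show Commute y1 y2 from hcm).orderOf_mul_dvd_mul_orderOf)
    have ia : a * (y1 * y2) * a = (y1 * y2)⁻¹ := by
      calc a * (y1 * y2) * a = a * y1 * 1 * y2 * a := by group
        _ = a * y1 * (a * a) * y2 * a := by rw [hexp a ha]
        _ = (a * y1 * a) * (a * y2 * a) := by group
        _ = _ := by rw [i1, i2a, ← mul_inv_rev, ← hcm]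
    have hne : y1 * y2 ≠ 1 := fun e => by
      have h2 : y2 = y1⁻¹ := eq_inv_of_mul_eq_one_right e
      rw [h2] at i2
      have h3 : b * y1⁻¹ = y1⁻¹ * b := (Commute.inv_right (show Commute b y1 from hc1)).eq
      rw [h3, mul_assoc, hexp b hb, mul_one, inv_inv] at i2
      exact hy1 (eq_inv_one o1 i2.symm)
    obtain ⟨w, hw, hw1, hwne, hwc⟩ := hcent a ha ha1 _ o12 ia hne
    rcases hthird a ha b hb ha1 hb1 hba.symm w hw hw1 with rfl | rfl | rfl
    · exact hwne rfl
    · have : Commute w y2 := by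
        have := (show Commute w y1 from hc1).inv_right.mul_right (show Commute w (y1 * y2) from hwc)
        rwa [inv_mul_cancel_left] at this
      rw [this.eq, mul_assoc, hexp w hb, mul_one] at i2
      exact hy2 (eq_inv_one o2 i2)
    · have : Commute (a * b) y1 := by
        have := (show Commute (a * b) (y1 * y2) from hwc).mul_right (show Commute (a * b) y2 from hxc).inv_right
        rwa [mul_inv_cancel_right] at this
      rw [this.eq, mul_assoc, hexp _ hcA, mul_one] at i1c
      exact hy1 (eq_inv_one o1 i1c)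

end Cfsg.Agent.S3195
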