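import Cfsg.Statements.S3208
import Mathlib

set_option autoImplicit false
open Cfsg

namespace Cfsg.Agent.S3208

/-- Let j be an involution of a finite group G, H a subgroup of G, and T a Sylow 2-subgroup of H ∩ C_G(j) containing j such that ⟨j⟩ is a characteristic subgroup of T. Then T is a Sylow 2-subgroup of H. -/
theorem result {G : Type*} [Group G] [Finite G]
    (j : G) (hj : orderOf j = 2) (H T : Subgroup G) (hT : T ≤ H ⊓ Subgroup.centralizer ({j} : Set G)) (h2 : IsPGroup 2 ↥T)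
    (hSyl : ¬ 2 ∣ T.relIndex (H ⊓ Subgroup.centralizer ({j} : Set G))) (hjT : j ∈ T)
    (hchar : ((Subgroup.zpowers j).subgroupOf T).Characteristic) :
    ¬ 2 ∣ T.relIndex H := by
  classical
  haveI : Fact (Nat.Prime 2) := ⟨Nat.prime_two⟩
  intro hdvd
  have hTH : T ≤ H := hT.trans inf_le_left
  have h2' : IsPGroup 2 (T.subgroupOf H) := h2.of_equiv (Subgroup.subgroupOfEquivOfLe hTH).symm
  obtain ⟨S, hS⟩ := h2'.exists_le_sylow
  have hne : T.subgroupOf H ≠ (S : Subgroup H) := fun e => S.not_dvd_index (e ▸ hdvd)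
  let T' : Subgroup (S : Subgroup H) := (T.subgroupOf H).subgroupOf S
  haveI : Group.IsNilpotent (S : Subgroup H) := S.isPGroup'.isNilpotent
  have hlt : T' < ⊤ := lt_top_iff_ne_top.mpr fun e => hne (le_antisymm hS (Subgroup.subgroupOf_eq_top.mp e))
  have hN : T' < Subgroup.normalizer (T' : Set (S : Subgroup H)) := Group.normalizerCondition_of_isNilpotent T' hlt
  obtain ⟨g, hgN, hgT⟩ := SetLike.exists_of_lt hN
  have hgnorm : ((g : H) : G) ∈ Subgroup.normalizer (T : Set G) := by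
    rw [Subgroup.mem_normalizer_iff]
    intro y
    constructor
    · intro hy
      exact (Subgroup.mem_normalizer_iff.mp hgN ⟨⟨y, hTH hy⟩, hS hy⟩).mp hy
    · intro hy
      have h1 := hTH hy
      have hyH : y ∈ H := by
        have := H.mul_mem (H.mul_mem (H.inv_mem (g : H).2) h1) (g : H).2
        simpa [mul_assoc] using this
      have hyS : (⟨y, hyH⟩ : H) ∈ (S : Subgroup H) := by
        have h3 : (g : H) * ⟨y, hyH⟩ * (g : H)⁻¹ ∈ (S : Subgroup H) := hS hy
        have := (S : Subgroup H).mul_mem ((S : Subgroup H).mul_mem ((S : Subgroup H).inv_mem g.2) h3) g.2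
        simpa [mul_assoc] using this
      exact (Subgroup.mem_normalizer_iff.mp hgN ⟨⟨y, hyH⟩, hyS⟩).mpr hy
  let φ : T ≃* T := Subgroup.normalizerMonoidHom T ⟨_, hgnorm⟩
  have hfix := Subgroup.characteristic_iff_map_eq.mp hchar φ
  have hmem : φ ⟨j, hjT⟩ ∈ (Subgroup.zpowers j).subgroupOf T := hfix ▸ ⟨⟨j, hjT⟩, Subgroup.mem_zpowers j, rfl⟩
  have hj2 : j * j = 1 := by
    have h0 := pow_orderOf_eq_one j
    rwa [hj, pow_two] at h0
  have hjj : ((g : H) : G) * j * ((g : H) : G)⁻¹ = j := by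
    obtain ⟨m, hm⟩ := hmem
    have hm' : j ^ m = ((g : H) : G) * j * ((g : H) : G)⁻¹ := hm
    rcases Int.even_or_odd' m with ⟨c, rfl | rfl⟩
    · exfalso
      rw [zpow_mul, zpow_two, hj2, one_zpow] at hm'
      have : j = 1 := conj_eq_one_iff.mp hm'.symm
      rw [this, orderOf_one] at hj; omega
    · rw [zpow_add, zpow_mul, zpow_two, hj2, one_zpow, one_mul, zpow_one] at hm'
      exact hm'.symm
  have hgC : (g : H).1 ∈ H ⊓ Subgroup.centralizer ({j} : Set G) := by
    refine ⟨(g : H).2, ?_⟩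
    show ((g : H) : G) ∈ Subgroup.centralizer ({j} : Set G)
    rw [Subgroup.mem_centralizer_singleton_iff]
    exact mul_inv_eq_iff_eq_mul.mp hjj
  let K : Subgroup G := H ⊓ Subgroup.centralizer ({j} : Set G)
  have hTK : IsPGroup 2 (T.subgroupOf K) := h2.of_equiv (Subgroup.subgroupOfEquivOfLe hT).symm
  let W : Subgroup K := ((Subgroup.normalizer (T' : Set (S : Subgroup H))).map ((H.subtype).comp (S : Subgroup H).subtype)).subgroupOf K ⊓ ⊤
  let z : K := ⟨(g : H).1, hgC⟩
  have hz : z ∈ Subgroup.normalizer ((T.subgroupOf K : Subgroup K) : Set K) := by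
    rw [Subgroup.mem_normalizer_iff]
    intro y
    exact Subgroup.mem_normalizer_iff.mp hgnorm y
  have hzp : IsPGroup 2 (Subgroup.zpowers z) := by
    intro w
    obtain ⟨k, hk⟩ := S.isPGroup' g
    obtain ⟨m, hm⟩ := w.2
    refine ⟨k, Subtype.ext (Subtype.ext ?_)⟩
    rw [Subgroup.coe_pow, ← hm]
    show ((((g : H) : G) ^ m) ^ 2 ^ k) = 1
    have hk' : ((g : H) : G) ^ 2 ^ k = 1 := congrArg (fun u : (S : Subgroup H) => ((u : H) : G)) hk
    rw [← zpow_natCast, zpow_comm, zpow_natCast, hk', one_zpow]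
  have hsup := hzp.to_sup_of_normal_right' hTK (Subgroup.zpowers_le.mpr hz)
  obtain ⟨R, hR⟩ := hTK.exists_le_sylow
  let R' : Sylow 2 K := hTK.toSylow hSyl
  have := R'.is_maximal' hsup (le_sup_right)
  have hzT : z ∈ T.subgroupOf K := by
    have hzz : z ∈ Subgroup.zpowers z ⊔ T.subgroupOf K := Subgroup.mem_sup_left (Subgroup.mem_zpowers z)
    rw [this] at hzz
    exact hzz
  exact hgT hzT

end Cfsg.Agent.S3208
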