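import Cfsg.Statements.S3279
import Cfsg.Agent.Perm5.Basic
import Mathlib.GroupTheory.Sylow
import Mathlib.GroupTheory.Nilpotent
import Mathlib.GroupTheory.Perm.Cycle.Type
import Mathlib.Tactic.Group

set_option autoImplicit false
open Cfsg

namespace Cfsg.Agent.S3279
open scoped Pointwise

/-- Two involutions with product of even order commute with a common involution. -/
theorem exists_common_involution {H : Type*} [Group H] [Finite H] {a b : H} (ha : a * a = 1)
    (hb : b * b = 1) (hnc : ¬ IsConj a b) :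
    ∃ w : H, orderOf w = 2 ∧ a * w = w * a ∧ b * w = w * b := by
  have hai : a⁻¹ = a := inv_eq_of_mul_eq_one_right ha
  have hbi : b⁻¹ = b := inv_eq_of_mul_eq_one_right hb
  have hr : a * (a * b) * a⁻¹ = (a * b)⁻¹ := by
    rw [mul_inv_rev, hai, hbi, ← mul_assoc, ha, one_mul]
  have hra : ∀ k : ℕ, a * (a * b) ^ k * a⁻¹ = ((a * b) ^ k)⁻¹ := fun k => by
    rw [← conj_pow, hr, inv_pow]
  have hn0 := orderOf_pos (a * b)
  rcases Nat.even_or_odd' (orderOf (a * b)) with ⟨k, hk | hk⟩
  · have hw : orderOf ((a * b) ^ k) = 2 := by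
      rw [orderOf_pow' _ (by omega), hk, Nat.gcd_mul_left_left, Nat.mul_div_cancel _ (by omega)]
    have hwi : ((a * b) ^ k)⁻¹ = (a * b) ^ k := by
      refine inv_eq_of_mul_eq_one_right ?_
      rw [← pow_two, ← hw, pow_orderOf_eq_one]
    refine ⟨(a * b) ^ k, hw, ?_, ?_⟩
    · have := hra k
      rw [hwi] at this
      exact mul_inv_eq_iff_eq_mul.1 this
    · have h1 : a * (a * b) ^ k = (a * b) ^ k * a := by
        have := hra k
        rw [hwi] at this
        exact mul_inv_eq_iff_eq_mul.1 this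
      have h2 : (a * b) ^ k * (a * b) = (a * b) * (a * b) ^ k := (Commute.pow_self (a * b) k).eq
      calc b * (a * b) ^ k = a * ((a * b) * (a * b) ^ k) := by rw [← mul_assoc, ← mul_assoc, ha, one_mul]
        _ = a * ((a * b) ^ k * (a * b)) := by rw [h2]
        _ = (a * b) ^ k * a * (a * b) := by rw [← mul_assoc, h1]
        _ = (a * b) ^ k * b := by rw [mul_assoc, ← mul_assoc a, ha, one_mul]
  · refine absurd (isConj_iff.2 ⟨(a * b) ^ k, ?_⟩) hnc
    have h1 : a * ((a * b) ^ k)⁻¹ = (a * b) ^ k * a := by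
      rw [← mul_inv_eq_iff_eq_mul]
      calc a * ((a * b) ^ k)⁻¹ * a⁻¹ = (a * (a * b) ^ k * a⁻¹)⁻¹ := by group
        _ = (a * b) ^ k := by rw [hra, inv_inv]
    have h2 : (a * b) ^ k * (a * b) ^ k = (a * b)⁻¹ := by
      refine eq_inv_of_mul_eq_one_left ?_
      rw [← pow_add, ← pow_succ, show k + k + 1 = orderOf (a * b) by omega, pow_orderOf_eq_one]
    rw [mul_assoc, h1, ← mul_assoc, h2, mul_inv_rev, hai, hbi, mul_assoc, ha, mul_one]


theorem iff_aux {A B C D E : Prop} (p1 : A ↔ ¬ (B ↔ C)) (p2 : A ↔ ¬ (D ↔ E)) (hc : C) :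
    D ↔ (B ↔ E) := by
  tauto

theorem sign_aux {P Q R : Prop} [Decidable P] [Decidable Q] [Decidable R] (h : R ↔ (Q ↔ P)) :
    (if R then (1 : ℤˣ) else -1) = (if P then 1 else -1) * (if Q then 1 else -1) := by
  by_cases p : P <;> by_cases q : Q <;> by_cases r : R <;> simp only [p, q, r, if_true, if_false] <;>
    first | decide | (exfalso; tauto)

set_option maxHeartbeats 1000000 in
/-- Let G be a finite simple group and x an involution of G whose centralizer contains at most three involutions. Then C_G(x) contains a Sylow 2-subgroup of G, and all involutions of G are conjugate. -/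
theorem result {G : Type*} [Group G] [Finite G] [IsSimpleGroup G] (x : G) (hx : orderOf x = 2)
    (h3 : Nat.card {u : ↥(Subgroup.centralizer ({x} : Set G)) // orderOf u = 2} ≤ 3) :
    (∃ S : Sylow 2 G, (S : Subgroup G) ≤ Subgroup.centralizer ({x} : Set G)) ∧
      ∀ u v : G, orderOf u = 2 → orderOf v = 2 → IsConj u v := by
  classical
  haveI := Fact.mk Nat.prime_two
  let C := Subgroup.centralizer ({x} : Set G)
  have hinv : ∀ u : G, orderOf u = 2 → u * u = 1 := fun u hu => by
    rw [← pow_two, ← hu, pow_orderOf_eq_one]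
  have hord : ∀ u v : G, IsConj u v → orderOf u = 2 → orderOf v = 2 := fun u v h hu => by
    obtain ⟨c, rfl⟩ := isConj_iff.1 h
    rw [← hu]; exact (MulAut.conj c).orderOf_eq u
  have hxx := hinv x hx
  have hmemC : ∀ u, u ∈ C ↔ u * x = x * u := fun u => Subgroup.mem_centralizer_singleton_iff
  have hmul : ∀ u v : G, orderOf u = 2 → orderOf v = 2 → u * v = v * u → u ≠ v → orderOf (u * v) = 2 := by
    intro u v hu hv hc hne
    refine orderOf_eq_prime ?_ fun h => hne ?_
    · rw [(Commute.mul_pow hc 2), pow_two, pow_two, hinv u hu, hinv v hv, one_mul]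
    · calc u = u * (v * v) := by rw [hinv v hv, mul_one]
        _ = v := by rw [← mul_assoc, h, one_mul]
  let I : Finset G := (Set.toFinite {u : G | u ∈ C ∧ orderOf u = 2}).toFinset
  have hI : ∀ u, u ∈ I ↔ u * x = x * u ∧ orderOf u = 2 := fun u => by simp [I, hmemC]
  have hIc : I.card ≤ 3 := by
    refine le_trans (le_of_eq ?_) h3
    rw [← Nat.card_eq_finsetCard]
    exact Nat.card_congr ⟨fun u => ⟨⟨u.1, (hmemC _).2 ((hI _).1 u.2).1⟩, by rw [← Subgroup.orderOf_coe]; exact ((hI _).1 u.2).2⟩,
      fun u => ⟨u.1.1, (hI _).2 ⟨(hmemC _).1 u.1.2, by rw [Subgroup.orderOf_coe]; exact u.2⟩⟩, fun _ => rfl, fun _ => rfl⟩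
  have hxI : x ∈ I := (hI x).2 ⟨rfl, hx⟩
  have hI3 : ∀ a, a ∈ I → a ≠ x → I = {x, a, x * a} := by
    intro a ha hax
    obtain ⟨hac, hao⟩ := (hI a).1 ha
    have hxa := hmul x a hx hao hac.symm hax.symm
    have h1 : x * a ∈ I := (hI _).2 ⟨by rw [mul_assoc, hac], hxa⟩
    refine (Finset.eq_of_subset_of_card_le ?_ ?_).symm
    · simp [Finset.insert_subset_iff, hxI, ha, h1]
    · rw [Finset.card_insert_of_notMem, Finset.card_pair]
      · exact hIc
      · intro e; exact absurd (mul_eq_right.1 e.symm) (by intro e'; rw [e', orderOf_one] at hx; omega)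
      · simp only [Finset.mem_insert, Finset.mem_singleton]
        rintro (e | e)
        · exact hax e.symm
        · have : a = 1 := mul_eq_left.1 e.symm
          rw [this, orderOf_one] at hao; omega
  have hIcomm : ∀ a ∈ I, ∀ b ∈ I, a * b = b * a := by
    intro a ha b hb
    by_cases hax : a = x
    · subst hax; exact ((hI b).1 hb).1.symm
    rw [hI3 a ha hax] at hb
    simp only [Finset.mem_insert, Finset.mem_singleton] at hb
    rcases hb with rfl | rfl | rfl
    · exact ((hI a).1 ha).1
    · rfl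
    · rw [← mul_assoc, ((hI a).1 ha).1]
  have hone : ∀ u : G, orderOf u = 2 → u ≠ 1 := fun u hu e => by
    rw [e, orderOf_one] at hu; omega
  -- a commutative simple group has a single involution
  have hcomm : (∀ u v : G, u * v = v * u) → ∀ y : G, orderOf y = 2 → y = x := by
    intro h y hy
    haveI : (Subgroup.zpowers x).Normal := ⟨fun n hn g => by rwa [h g n, mul_inv_cancel_right]⟩
    have htop : Subgroup.zpowers x = ⊤ := by
      refine ((inferInstance : (Subgroup.zpowers x).Normal).eq_bot_or_eq_top).resolve_left fun e => ?_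
      exact hone x hx (Subgroup.zpowers_eq_bot.1 e)
    obtain ⟨k, hk⟩ := Subgroup.mem_zpowers_iff.1 (htop ▸ Subgroup.mem_top y : y ∈ Subgroup.zpowers x)
    rw [← zpow_mod_orderOf, hx] at hk
    rcases Int.emod_two_eq_zero_or_one k with e | e
    · exact absurd (by rw [← hk]; simp [e]) (hone y hy)
    · rw [← hk]; simp [e]
  -- a class that centralizes one involution forces commutativity
  have key : ∀ b c : G, orderOf c = 2 → (∀ b', IsConj b b' → b' * c = c * b') → orderOf b = 2 →
      ∀ u v : G, u * v = v * u := by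
    intro b c hc hb' hb
    have hN : Subgroup.normalClosure ({b} : Set G) = ⊤ := by
      refine ((Subgroup.normalClosure_normal).eq_bot_or_eq_top).resolve_left fun h => ?_
      exact hone b hb (Subgroup.mem_bot.1 (h ▸ Subgroup.subset_normalClosure rfl))
    have hle : Subgroup.normalClosure ({b} : Set G) ≤ Subgroup.centralizer ({c} : Set G) := by
      refine (Subgroup.closure_le _).2 fun y hy => ?_
      obtain ⟨b0, hb0, hy'⟩ := Group.mem_conjugatesOfSet_iff.1 hy
      rw [Set.mem_singleton_iff] at hb0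
      exact Subgroup.mem_centralizer_singleton_iff.2 (hb' y (hb0 ▸ hy'))
    rw [hN] at hle
    have hcc : c ∈ Subgroup.center G := Subgroup.mem_center_iff.2 fun g =>
      Subgroup.mem_centralizer_singleton_iff.1 (hle (Subgroup.mem_top g))
    have hZ : Subgroup.center G = ⊤ := by
      refine ((inferInstance : (Subgroup.center G).Normal).eq_bot_or_eq_top).resolve_left fun h => ?_
      exact hone c hc (Subgroup.mem_bot.1 (h ▸ hcc))
    intro u v
    exact (Subgroup.mem_center_iff.1 (hZ ▸ Subgroup.mem_top u : u ∈ Subgroup.center G) v).symm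
  have hconj : ∀ u c : G, orderOf u = 2 → orderOf (c * u * c⁻¹) = 2 := fun u c hu =>
    hord u _ (isConj_iff.2 ⟨c, rfl⟩) hu
  have hcmm : ∀ u v c : G, u * v = v * u → (c * u * c⁻¹) * (c * v * c⁻¹) = (c * v * c⁻¹) * (c * u * c⁻¹) := by
    intro u v c h
    calc _ = c * (u * v) * c⁻¹ := by group
      _ = c * (v * u) * c⁻¹ := by rw [h]
      _ = _ := by group
  have hw : ∀ b, orderOf b = 2 → ¬ IsConj x b → ∃ w ∈ I, b * w = w * b := fun b hb hnc => by
    obtain ⟨w, h1, h2, h3'⟩ := exists_common_involution hxx (hinv b hb) hnc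
    exact ⟨w, (hI w).2 ⟨h2.symm, h1⟩, h3'⟩
  -- commuting involutions can be moved simultaneously into a given Sylow subgroup
  have pair : ∀ (S : Sylow 2 G) (u v : G), orderOf u = 2 → orderOf v = 2 → u * v = v * u →
      ∃ c : G, c * u * c⁻¹ ∈ (S : Subgroup G) ∧ c * v * c⁻¹ ∈ (S : Subgroup G) := by
    intro S u v hu hv huv
    have hzu : IsPGroup 2 (Subgroup.zpowers u) := IsPGroup.of_card (n := 1) (by rw [Nat.card_zpowers, hu, pow_one])
    have hzv : IsPGroup 2 (Subgroup.zpowers v) := IsPGroup.of_card (n := 1) (by rw [Nat.card_zpowers, hv, pow_one])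
    have hle : Subgroup.zpowers v ≤ Subgroup.normalizer (Subgroup.zpowers u : Set G) := by
      refine le_trans ?_ (Subgroup.centralizer_le_normalizer _)
      rw [Subgroup.zpowers_le, Subgroup.mem_centralizer_iff]
      intro w hw'
      obtain ⟨i, rfl⟩ := hw'
      exact (Commute.zpow_left huv i).eq
    obtain ⟨Q, hQ⟩ := (IsPGroup.to_sup_of_normal_left' hzu hzv hle).exists_le_sylow
    obtain ⟨g, hg⟩ := MulAction.exists_smul_eq G Q S
    refine ⟨g, ?_, ?_⟩ <;> rw [← hg]
    · exact Subgroup.smul_mem_pointwise_smul u (MulAut.conj g) _ (hQ (Subgroup.mem_sup_left (Subgroup.mem_zpowers u)))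
    · exact Subgroup.smul_mem_pointwise_smul v (MulAut.conj g) _ (hQ (Subgroup.mem_sup_right (Subgroup.mem_zpowers v)))
  -- Sylow subgroups
  obtain ⟨P⟩ := (inferInstance : Nonempty (Sylow 2 C))
  obtain ⟨T, hT⟩ := ((P.isPGroup'.map C.subtype)).exists_le_sylow
  have hxP : x ∈ (P : Subgroup C).map C.subtype := by
    let xc : C := ⟨x, (hmemC x).2 rfl⟩
    haveI : (Subgroup.zpowers xc).Normal := ⟨fun n hn g => by
      obtain ⟨i, rfl⟩ := hn
      have hcm : Commute g xc := Subtype.ext ((hmemC g).1 g.2)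
      show g * xc ^ i * g⁻¹ ∈ _
      rw [(hcm.zpow_right i).eq, mul_inv_cancel_right]; exact ⟨i, rfl⟩⟩
    have hz : IsPGroup 2 (Subgroup.zpowers xc) := IsPGroup.of_card (n := 1) (by
      rw [Nat.card_zpowers, ← Subgroup.orderOf_coe, pow_one]; exact hx)
    have he : (P : Subgroup C) ⊔ Subgroup.zpowers xc = P :=
      P.is_maximal' (P.isPGroup'.to_sup_of_normal_right hz) le_sup_left
    exact ⟨xc, he ▸ Subgroup.mem_sup_right (Subgroup.mem_zpowers xc), rfl⟩
  have hxT : x ∈ (T : Subgroup G) := hT hxP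
  by_cases hTC : (T : Subgroup G) ≤ C
  · refine ⟨⟨T, hTC⟩, ?_⟩
    have hTI : ∀ u, u ∈ (T : Subgroup G) → orderOf u = 2 → u ∈ I := fun u h1 h2 =>
      (hI u).2 ⟨(hmemC u).1 (hTC h1), h2⟩
    suffices h : ∀ a ∈ I, IsConj x a by
      intro u v hu hv
      obtain ⟨c, hc, -⟩ := pair T u u hu hu rfl
      obtain ⟨d, hd, -⟩ := pair T v v hv hv rfl
      exact (((isConj_iff.2 ⟨c, rfl⟩ : IsConj u _)).trans (h _ (hTI _ hc (hconj u c hu))).symm).trans
        ((h _ (hTI _ hd (hconj v d hv))).trans (isConj_iff.2 ⟨d, rfl⟩ : IsConj v _).symm)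
    by_contra! hne
    obtain ⟨y, hy, hxy⟩ := hne
    have hyx : y ≠ x := fun e => hxy (e ▸ IsConj.refl x)
    obtain ⟨hyc, hyo⟩ := (hI y).1 hy
    set z := x * y with hzdef
    have hIeq : I = {x, y, z} := hI3 y hy hyx
    have hz : z ∈ I := by rw [hIeq]; simp
    have hzo := ((hI z).1 hz).2
    have hyzc : y * z = z * y := hIcomm y hy z hz
    have hIx : ∀ b ∈ I, IsConj y b → b = y ∨ (b = z ∧ IsConj y z) := fun b hb hyb => by
      rw [hIeq] at hb
      simp only [Finset.mem_insert, Finset.mem_singleton] at hb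
      rcases hb with rfl | rfl | rfl
      exacts [absurd hyb.symm hxy, Or.inl rfl, Or.inr ⟨rfl, hyb⟩]
    have hY : ∀ b, IsConj y b → orderOf b = 2 ∧ ∃ w ∈ I, b * w = w * b := fun b hb =>
      ⟨hord _ _ hb hyo, hw b (hord _ _ hb hyo) fun h => hxy (h.trans hb.symm)⟩
    have himg : ∀ u v, IsConj y u → IsConj y v → u * v = v * u → ∃ c : G,
        (c * u * c⁻¹ = y ∨ (c * u * c⁻¹ = z ∧ IsConj y z)) ∧
        (c * v * c⁻¹ = y ∨ (c * v * c⁻¹ = z ∧ IsConj y z)) := by
      intro u v hu hv huv
      obtain ⟨c, h1, h2⟩ := pair T u v (hY u hu).1 (hY v hv).1 huv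
      exact ⟨c, hIx _ (hTI _ h1 (hconj u c (hY u hu).1)) (hu.trans (isConj_iff.2 ⟨c, rfl⟩)),
        hIx _ (hTI _ h2 (hconj v c (hY v hv).1)) (hv.trans (isConj_iff.2 ⟨c, rfl⟩))⟩
    by_cases hyz : IsConj y z
    · -- two classes: the commuting graph on the class of y is complete bipartite
      let adj : G → G → Prop := fun u v => u ≠ v ∧ u * v = v * u
      have adjS : ∀ u v, adj u v ↔ adj v u := fun u v => ⟨fun h => ⟨Ne.symm h.1, h.2.symm⟩, fun h => ⟨Ne.symm h.1, h.2.symm⟩⟩
      have adjC : ∀ u v c : G, adj u v → adj (c * u * c⁻¹) (c * v * c⁻¹) := fun u v c h =>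
        ⟨fun e => h.1 (mul_left_cancel (mul_right_cancel e)), hcmm u v c h.2⟩
      have adjC' : ∀ u v c : G, adj (c * u * c⁻¹) (c * v * c⁻¹) ↔ adj u v := by
        refine fun u v c => ⟨fun h => ?_, adjC u v c⟩
        have := adjC _ _ c⁻¹ h
        have e : ∀ w : G, c⁻¹ * (c * w * c⁻¹) * c⁻¹⁻¹ = w := fun w => by group
        rwa [e u, e v] at this
      have hzy : z ≠ y := fun e => hone x hx (mul_eq_right.1 e)
      have E : ∀ b, IsConj y b → (adj b y ↔ ¬ adj b z) := by
        intro b hb
        constructor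
        · rintro ⟨hby, h1⟩ ⟨hbz, h2⟩
          have hbx : b * x = x * b := by
            have hx' : x = z * y := by rw [hzdef, mul_assoc, hinv y hyo, mul_one]
            exact hx' ▸ (Commute.mul_right h2 h1 : Commute b (z * y)).eq
          rcases hIx b ((hI b).2 ⟨hbx, (hY b hb).1⟩) hb with e | ⟨e, -⟩
          exacts [hby e, hbz e]
        · intro h
          by_cases hby : b = y
          · exact absurd ⟨hby ▸ Ne.symm hzy, hby ▸ hyzc⟩ h
          refine ⟨hby, ?_⟩
          by_cases hbz : b = z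
          · rw [hbz]; exact hyzc.symm
          obtain ⟨-, w, hwI, hbw⟩ := hY b hb
          rw [hIeq] at hwI
          simp only [Finset.mem_insert, Finset.mem_singleton] at hwI
          rcases hwI with rfl | rfl | rfl
          · rcases hIx b ((hI b).2 ⟨hbw, (hY b hb).1⟩) hb with e | ⟨e, -⟩
            exacts [absurd e hby, absurd e hbz]
          · exact hbw
          · exact absurd ⟨hbz, hbw⟩ h
      have edge : ∀ u v, IsConj y u → IsConj y v → adj u v → ∀ b, IsConj y b → (adj b u ↔ ¬ adj b v) := by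
        intro u v hu hv huv b hb
        obtain ⟨c, h1, h2⟩ := himg u v hu hv huv.2
        have hd := (adjC u v c huv).1
        rw [← adjC' b u c, ← adjC' b v c]
        have hcb := E _ (hb.trans (isConj_iff.2 ⟨c, rfl⟩ : IsConj b (c * b * c⁻¹)))
        rcases h1 with e | ⟨e, -⟩ <;> rcases h2 with e' | ⟨e', -⟩
        · exact absurd (e.trans e'.symm) hd
        · rw [e, e']; exact hcb
        · rw [e, e', hcb, not_not]
        · exact absurd (e.trans e'.symm) hd
      have par : ∀ a b, IsConj y a → IsConj y b → (adj a b ↔ ¬ (adj a z ↔ adj b z)) := by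
        intro a b ha hb
        constructor
        · intro hab
          have h := edge a b ha hb hab z hyz
          rw [adjS z a, adjS z b] at h
          exact fun h' => iff_not_self (h'.symm.trans h)
        · intro h
          by_cases fa : adj a z
          · have fb : ¬ adj b z := fun fb => h ⟨fun _ => fb, fun _ => fa⟩
            exact (adjS a b).2 ((edge a z ha hyz fa b hb).2 fb)
          · have fb : adj b z := by
              by_contra fb; exact h ⟨fun h' => absurd h' fa, fun h' => absurd h' fb⟩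
            exact (edge b z hb hyz fb a ha).2 fa
      have fy : adj y z := ⟨Ne.symm hzy, hyzc⟩
      have hc : ∀ g : G, IsConj y (g * y * g⁻¹) := fun g => isConj_iff.2 ⟨g, rfl⟩
      have hs : ∀ g h : G, (adj (g * h * y * (g * h)⁻¹) z ↔ (adj (h * y * h⁻¹) z ↔ adj (g * y * g⁻¹) z)) := by
        intro g h
        have p1 := par (h * y * h⁻¹) y (hc h) (IsConj.refl y)
        have p2 := par (g * (h * y * h⁻¹) * g⁻¹) (g * y * g⁻¹) ((hc h).trans (isConj_iff.2 ⟨g, rfl⟩)) (hc g)
        rw [adjC'] at p2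
        have e : g * (h * y * h⁻¹) * g⁻¹ = g * h * y * (g * h)⁻¹ := by group
        rw [e] at p2
        exact iff_aux p1 p2 fy
      let φ : G →* ℤˣ :=
        { toFun := fun g => if adj (g * y * g⁻¹) z then 1 else -1
          map_one' := by
            have : (1 : G) * y * 1⁻¹ = y := by group
            simp only [this, if_pos fy]
          map_mul' := fun g h => sign_aux (hs g h) }
      obtain ⟨g0, hg0⟩ := isConj_iff.1 hyz
      have hφ : φ g0 = -1 := by
        show (if adj (g0 * y * g0⁻¹) z then (1 : ℤˣ) else -1) = -1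
        rw [hg0, if_neg (fun h => h.1 rfl)]
      have hker : φ.ker = ⊥ := by
        refine ((inferInstance : φ.ker.Normal).eq_bot_or_eq_top).resolve_right fun h => ?_
        have : φ g0 = 1 := MonoidHom.mem_ker.1 (h ▸ Subgroup.mem_top g0 : g0 ∈ φ.ker)
        rw [hφ] at this
        exact absurd this (by decide)
      exact hyx (hcomm (fun u v => (MonoidHom.ker_eq_bot_iff φ).1 hker (by rw [map_mul, map_mul, mul_comm])) y hyo)
    · -- every conjugate of y centralizes z
      refine hyx (hcomm (key y z hzo (fun b hb => ?_) hyo) y hyo)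
      obtain ⟨-, w, hwI, hbw⟩ := hY b hb
      suffices b = y ∨ b * z = z * b by
        rcases this with e | h
        exacts [e.symm ▸ hyzc, h]
      rw [hIeq] at hwI
      simp only [Finset.mem_insert, Finset.mem_singleton] at hwI
      rcases hwI with e0 | e0 | e0 <;> rw [e0] at hbw
      · rcases hIx b ((hI b).2 ⟨hbw, (hY b hb).1⟩) hb with e | ⟨-, h⟩
        exacts [Or.inl e, absurd h hyz]
      · obtain ⟨c, h1, h2⟩ := himg b y hb (IsConj.refl y) hbw
        have e1 := h1.resolve_right fun h => hyz h.2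
        have e2 := h2.resolve_right fun h => hyz h.2
        exact Or.inl (mul_left_cancel (mul_right_cancel (e1.trans e2.symm)))
      · exact Or.inr hbw
  · exfalso
    set Pm := (P : Subgroup C).map C.subtype with hPm
    have hPmC : Pm ≤ C := Subgroup.map_subtype_le _
    have hTP : (T : Subgroup G) ⊓ C = Pm := by
      refine le_antisymm ?_ (le_inf hT hPmC)
      intro u hu
      have hp : IsPGroup 2 ((T : Subgroup G).comap C.subtype) := T.isPGroup'.comap_subtype
      have he : (T : Subgroup G).comap C.subtype = P :=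
        P.is_maximal' hp fun w hw' => hT ⟨w, hw', rfl⟩
      exact ⟨⟨u, hu.2⟩, he ▸ hu.1, rfl⟩
    haveI : Group.IsNilpotent (T : Subgroup G) := T.isPGroup'.isNilpotent
    obtain ⟨t, ht1, ht2⟩ := SetLike.exists_of_lt (Group.normalizerCondition_of_isNilpotent (Pm.subgroupOf (T : Subgroup G))
      (lt_top_iff_ne_top.2 fun h => hTC fun u hu => hPmC (Subgroup.subgroupOf_eq_top.1 h hu)))
    have hN : ∀ u, u ∈ Pm → (t : G) * u * (t : G)⁻¹ ∈ Pm := by
      intro u hu
      exact (Subgroup.mem_normalizer_iff.1 ht1 ⟨u, hT hu⟩).1 hu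
    have htC : (t : G) ∉ C := fun h => ht2 (by
      rw [Subgroup.mem_subgroupOf, ← hTP]; exact ⟨t.2, h⟩)
    set z := (t : G) * x * (t : G)⁻¹ with hzdef
    have hzC : z ∈ C := hPmC (hN x hxP)
    have hzo : orderOf z = 2 := hconj x t hx
    have hzI : z ∈ I := (hI z).2 ⟨(hmemC z).1 hzC, hzo⟩
    have hzx : z ≠ x := fun e => htC ((hmemC t).2 (mul_inv_eq_iff_eq_mul.1 e))
    -- an involution in the center of T
    haveI : Nontrivial (T : Subgroup G) := ⟨⟨x, hxT⟩, 1, fun e => hone x hx (congrArg Subtype.val e)⟩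
    have h2Z : 2 ∣ Nat.card (Subgroup.center (T : Subgroup G)) := by
      haveI := T.isPGroup'.center_nontrivial
      refine ((T.isPGroup'.to_subgroup _).card_eq_or_dvd).resolve_left fun h => ?_
      exact absurd h (Finite.one_lt_card).ne'
    obtain ⟨y', hy'⟩ := exists_prime_orderOf_dvd_card' 2 h2Z
    set y := ((y' : (T : Subgroup G)) : G) with hydef
    have hyT : ∀ u ∈ (T : Subgroup G), u * y = y * u := fun u hu =>
      congrArg Subtype.val (Subgroup.mem_center_iff.1 y'.2 ⟨u, hu⟩)
    have hyo : orderOf y = 2 := by rw [hydef, Subgroup.orderOf_coe, Subgroup.orderOf_coe]; exact hy'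
    have hyI : y ∈ I := (hI y).2 ⟨(hyT x hxT).symm, hyo⟩
    have hty := hyT t t.2
    have hyx : y ≠ x := fun e => htC ((hmemC t).2 (e ▸ hty))
    have hyz : z ≠ y := fun e => hyx (by
      have e1 : (t : G) * x = y * t := mul_inv_eq_iff_eq_mul.1 e
      exact (mul_left_cancel (e1.trans hty.symm)).symm)
    have hIeq : I = {x, y, z} := by
      have h := hI3 y hyI hyx
      have hzI' := hzI
      rw [h] at hzI'
      simp only [Finset.mem_insert, Finset.mem_singleton] at hzI'
      rcases hzI' with e | e | e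
      exacts [absurd e hzx, absurd e hyz, e ▸ h]
    have hIP : ∀ a ∈ I, a * z = z * a := fun a ha => hIcomm a ha z hzI
    have hxy : ¬ IsConj x y := by
      intro h
      obtain ⟨c, hc⟩ := isConj_iff.1 h
      let T' := (T : Subgroup G).map (MulAut.conj c⁻¹).toMonoidHom
      have hT' : T' ≤ C := by
        rintro w ⟨u, hu, rfl⟩
        refine (hmemC _).2 ?_
        show c⁻¹ * u * c⁻¹⁻¹ * x = x * (c⁻¹ * u * c⁻¹⁻¹)
        have e : x = c⁻¹ * y * c := by rw [← hc]; group
        rw [e]
        calc _ = c⁻¹ * (u * y) * c := by group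
          _ = c⁻¹ * (y * u) * c := by rw [hyT u hu]
          _ = _ := by group
      have hc1 : Nat.card (T'.subgroupOf C) = Nat.card (T : Subgroup G) := by
        rw [Nat.card_congr (Subgroup.subgroupOfEquivOfLe hT').toEquiv]
        exact Subgroup.card_map_of_injective (MulAut.conj c⁻¹).injective
      obtain ⟨Q, hQ⟩ := (IsPGroup.comap_subtype (T.isPGroup'.map _) : IsPGroup 2 (T'.subgroupOf C)).exists_le_sylow
      have hle : Nat.card (T : Subgroup G) ≤ Nat.card Pm := by
        rw [← hc1, hPm, Subgroup.card_map_of_injective C.subtype_injective]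
        refine le_trans (Subgroup.card_le_of_le hQ) (le_of_eq ?_)
        rw [Q.card_eq_multiplicity, P.card_eq_multiplicity]
      exact hTC ((Subgroup.eq_of_le_of_card_ge hT hle) ▸ hPmC)
    have hzI2 : ∀ a, orderOf a = 2 → a * z = z * a → a ∈ I := by
      intro a ha haz
      have h1 : (t : G)⁻¹ * a * (t : G)⁻¹⁻¹ ∈ I := by
        refine (hI _).2 ⟨?_, hconj a _ ha⟩
        have := hcmm a z (t : G)⁻¹ haz
        have e : (t : G)⁻¹ * z * (t : G)⁻¹⁻¹ = x := by rw [hzdef]; group
        rwa [e] at this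
      have e : a = (t : G) * ((t : G)⁻¹ * a * (t : G)⁻¹⁻¹) * (t : G)⁻¹ := by group
      generalize hw' : (t : G)⁻¹ * a * (t : G)⁻¹⁻¹ = w at h1 e
      have hwT : w ∈ Pm ∨ w = y := by
        rw [hIeq] at h1
        simp only [Finset.mem_insert, Finset.mem_singleton] at h1
        rcases h1 with h | h | h
        exacts [Or.inl (h ▸ hxP), Or.inr h, Or.inl (h ▸ hN x hxP)]
      rcases hwT with h | h
      · exact (hI a).2 ⟨(hmemC a).1 (hPmC (e ▸ hN w h)), ha⟩
      · rw [h, hty, mul_inv_cancel_right] at e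
        exact e ▸ hyI
    refine htC ((hmemC t).2 (key y y hyo (fun b hb => ?_) hyo t x))
    have hbo := hord _ _ hb hyo
    obtain ⟨w, hwI, hbw⟩ := hw b hbo fun h => hxy (h.trans hb.symm)
    rw [hIeq] at hwI
    simp only [Finset.mem_insert, Finset.mem_singleton] at hwI
    rcases hwI with rfl | rfl | rfl
    · exact hIcomm b ((hI b).2 ⟨hbw, hbo⟩) y hyI
    · exact hbw
    · exact hIcomm b (hzI2 b hbo hbw) y hyI

end Cfsg.Agent.S3279
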