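import Cfsg.Statements.S3305
import Mathlib

set_option autoImplicit false
open Cfsg

namespace Cfsg.Agent.S3305

/-- If any two distinct Sylow 2-subgroups of the finite group G intersect in a cyclic group, then the same holds in every quotient group G/H, H a normal subgroup of G. -/
theorem result {G : Type*} [Group G] [Finite G]
    (hC : ∀ S T : Sylow 2 G, S ≠ T → IsCyclic ↥((S : Subgroup G) ⊓ (T : Subgroup G))) (H : Subgroup G) [H.Normal] :
    ∀ S T : Sylow 2 (G ⧸ H), S ≠ T → IsCyclic ↥((S : Subgroup (G ⧸ H)) ⊓ (T : Subgroup (G ⧸ H))) := by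
  intro S T hST
  haveI := Fact.mk Nat.prime_two
  set π := QuotientGroup.mk' H with hπ
  have hs : Function.Surjective π := QuotientGroup.mk'_surjective H
  set D := (S : Subgroup (G ⧸ H)) ⊓ (T : Subgroup (G ⧸ H)) with hD
  -- a Sylow subgroup above the preimage of the intersection
  obtain ⟨S', hS'⟩ := Sylow.mapSurjective_surjective (f := π) hs 2 S
  have hS'm : (S' : Subgroup G).map π = S := by rw [← hS']; rfl
  set D0 : Subgroup G := (S' : Subgroup G) ⊓ D.comap π with hD0
  have hD0m : D0.map π = D := by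
    refine le_antisymm ?_ ?_
    · rintro _ ⟨x, hx, rfl⟩
      exact hx.2
    · intro y hy
      obtain ⟨x, hx, rfl⟩ : y ∈ (S' : Subgroup G).map π := hS'm ▸ hy.1
      exact ⟨x, ⟨hx, hy⟩, rfl⟩
  have hD0p : IsPGroup 2 D0 := S'.2.to_le inf_le_left
  set Y : Subgroup G := (T : Subgroup (G ⧸ H)).comap π with hY
  have hD0Y : D0 ≤ Y := fun x hx => hx.2.2
  obtain ⟨Q, hQ⟩ := (hD0p.of_equiv (Subgroup.subgroupOfEquivOfLe hD0Y).symm).exists_le_sylow
  obtain ⟨T', hT'⟩ := (Q.2.map Y.subtype).exists_le_sylow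
  have hDT : D0 ≤ T' := fun x hx => hT' ⟨⟨x, hD0Y hx⟩, hQ (show (⟨x, hD0Y hx⟩ : Y) ∈ D0.subgroupOf Y from hx), rfl⟩
  have hne : S' ≠ T' := by
    intro h
    apply hST
    -- the image of a Sylow subgroup of the preimage is the whole Sylow subgroup
    have hsY : Function.Surjective (π.subgroupComap (T : Subgroup (G ⧸ H))) :=
      π.subgroupComap_surjective_of_surjective _ hs
    have htop : ((Q.mapSurjective hsY : Sylow 2 T) : Subgroup T) = ⊤ :=
      ((Q.mapSurjective hsY).is_maximal' (T.2.to_subgroup ⊤) le_top).symm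
    have hle : (T : Subgroup (G ⧸ H)) ≤ (T' : Subgroup G).map π := by
      intro t ht
      have ht' : (⟨t, ht⟩ : T) ∈ ((Q.mapSurjective hsY : Sylow 2 T) : Subgroup T) := by
        rw [htop]; exact Subgroup.mem_top _
      obtain ⟨q, hq, hqt⟩ := ht'
      exact ⟨(q : G), hT' ⟨q, hq, rfl⟩, congrArg Subtype.val hqt⟩
    apply Sylow.ext
    rw [← hS'm, h]
    exact T.is_maximal' (T'.2.map π) hle
  have hc := hC S' T' hne
  haveI := hc
  haveI : IsCyclic D0 := isCyclic_of_injective (Subgroup.inclusion (le_inf inf_le_left hDT))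
    (Subgroup.inclusion_injective _)
  rw [← hD0m]
  exact isCyclic_of_surjective _ (π.subgroupMap_surjective D0)

end Cfsg.Agent.S3305
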