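import Cfsg.Statements.S3511

set_option autoImplicit false
open Cfsg

namespace Cfsg.Agent.S3511

/-- Let a finite group G act faithfully on a set Ω. If every element of G of square-free order has a regular cycle (an orbit of the cyclic group it generates with trivial stabilizer), then every element of G has a regular cycle. -/
theorem result {G : Type*} [Group G] [Finite G] {Ω : Type*} [MulAction G Ω] [FaithfulSMul G Ω]
    (h : ∀ g : G, Squarefree (orderOf g) → ∃ ω : Ω, MulAction.stabilizer (Subgroup.zpowers g) ω = ⊥) (g : G) :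
    ∃ ω : Ω, MulAction.stabilizer (Subgroup.zpowers g) ω = ⊥ := by
  classical
  rcases Nat.eq_zero_or_pos (orderOf g) with h0 | hpos
  · exact absurd h0 (orderOf_pos g).ne'
  set n := orderOf g with hn
  let r := ∏ p ∈ n.primeFactors, p
  have hrn : r ∣ n := Nat.prod_primeFactors_dvd n
  obtain ⟨m, hm⟩ := hrn
  have hm0 : m ≠ 0 := by rintro rfl; simp at hm; omega
  have hr0 : r ≠ 0 := by rintro h; rw [h] at hm; simp at hm; omega
  have hord : orderOf (g ^ m) = r := by
    rw [orderOf_pow' g hm0, ← hn, hm, Nat.gcd_mul_left_left, Nat.mul_div_cancel _ (Nat.pos_of_ne_zero hm0)]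
  have hsq : Squarefree r := Finset.squarefree_prod_of_pairwise_isCoprime (fun p hp q hq hpq => by
      show IsRelPrime p q
      exact Nat.coprime_iff_isRelPrime.1 ((Nat.coprime_primes (Nat.prime_of_mem_primeFactors hp) (Nat.prime_of_mem_primeFactors hq)).2 hpq))
    (fun p hp => (Nat.prime_of_mem_primeFactors hp).prime.squarefree)
  obtain ⟨ω, hω⟩ := h (g ^ m) (by rw [hord]; exact hsq)
  refine ⟨ω, ?_⟩
  by_contra hne
  obtain ⟨x, hx, hx1⟩ := (Subgroup.bot_or_exists_ne_one _).resolve_left hne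
  set q := (orderOf x).minFac with hqdef
  have ho1 : orderOf x ≠ 1 := fun e => hx1 (orderOf_eq_one_iff.1 e)
  have hq : q.Prime := Nat.minFac_prime ho1
  obtain ⟨d, hd⟩ := Nat.minFac_dvd (orderOf x)
  set y := x ^ d with hy
  have hd0 : d ≠ 0 := by rintro rfl; rw [Nat.mul_zero] at hd; exact (orderOf_pos x).ne' hd
  have hyq : orderOf y = q := by
    rw [hy, orderOf_pow' x hd0, hd, Nat.gcd_mul_left_left, Nat.mul_div_cancel _ (Nat.pos_of_ne_zero hd0)]
  have hymem : y ∈ MulAction.stabilizer (Subgroup.zpowers g) ω := Subgroup.pow_mem _ hx d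
  have hyg : (y : G) ∈ Subgroup.zpowers g := y.2
  obtain ⟨i, hi : g ^ i = (y : G)⟩ := hyg
  have hqn : q ∣ n := hyq ▸ (Subgroup.orderOf_coe y ▸ orderOf_dvd_of_mem_zpowers y.2)
  have hqr : q ∣ r := Finset.dvd_prod_of_mem _ (Nat.mem_primeFactors.2 ⟨hq, hqn, by omega⟩)
  have hni : (n : ℤ) ∣ i * q := by
    rw [hn, orderOf_dvd_iff_zpow_eq_one, zpow_mul, hi, zpow_natCast, ← Subgroup.coe_pow, ← hyq, pow_orderOf_eq_one]
    rfl
  obtain ⟨s, hs⟩ := hqr
  have hmi : (m : ℤ) ∣ i := by
    rw [hm, hs] at hni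
    push_cast at hni
    have : ((s : ℤ) * m) * q ∣ i * q := by
      convert hni using 1; ring
    exact dvd_trans (dvd_mul_left _ _) (Int.dvd_of_mul_dvd_mul_right (by exact_mod_cast hq.ne_zero) this)
  obtain ⟨j, rfl⟩ := hmi
  have hz : (y : G) ∈ Subgroup.zpowers (g ^ m) := ⟨j, by show (g ^ m) ^ j = _; rw [← hi, zpow_mul, zpow_natCast]⟩
  have : (⟨y, hz⟩ : Subgroup.zpowers (g ^ m)) ∈ MulAction.stabilizer (Subgroup.zpowers (g ^ m)) ω := hymem
  rw [hω, Subgroup.mem_bot] at this
  have : (y : G) = 1 := congrArg Subtype.val this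
  exact hq.ne_one (hyq ▸ (orderOf_eq_one_iff.2 (Subtype.ext this)))

end Cfsg.Agent.S3511
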