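import Cfsg.Statements.S3546
import Cfsg.Agent.Perm5.Basic

set_option autoImplicit false
open Cfsg

namespace Cfsg.Agent.S3546

/-- Let G act faithfully and transitively on a finite set and let D be the subgroup of G generated by the derangements (the elements fixing no point). Then D is itself transitive, and D contains every element of G whose number of fixed points is different from 1. -/
theorem result {G Ω : Type*} [Group G] [Finite G] [MulAction G Ω] [FaithfulSMul G Ω] [Finite Ω]
    (htrans : MulAction.IsPretransitive G Ω) :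
    MulAction.IsPretransitive ↥(Subgroup.closure {g : G | ∀ ω : Ω, g • ω ≠ ω}) Ω ∧
    ∀ g : G, Nat.card (MulAction.fixedBy Ω g) ≠ 1 → g ∈ Subgroup.closure {g : G | ∀ ω : Ω, g • ω ≠ ω} := by
  classical
  haveI := htrans
  haveI : Fintype G := Fintype.ofFinite G
  haveI : Fintype Ω := Fintype.ofFinite Ω
  set D := Subgroup.closure {g : G | ∀ ω : Ω, g • ω ≠ ω} with hD
  rcases subsingleton_or_nontrivial Ω with hs | hn
  · refine ⟨⟨fun a b => ⟨1, Subsingleton.elim _ _⟩⟩, fun g _ => ?_⟩
    have : g = 1 := eq_of_smul_eq_smul fun x : Ω => Subsingleton.elim _ _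
    exact this ▸ D.one_mem
  haveI : D.Normal := by
    refine ⟨fun x hx g => ?_⟩
    induction hx using Subgroup.closure_induction with
    | mem y hy =>
      refine Subgroup.subset_closure fun ω hω => hy (g⁻¹ • ω) ?_
      rw [mul_smul, mul_smul] at hω
      exact smul_eq_iff_eq_inv_smul g |>.1 hω
    | one => simp
    | mul y z _ _ hy hz => simpa [mul_assoc] using D.mul_mem hy hz
    | inv y _ hy => simpa [mul_assoc] using D.inv_mem hy
  let O := MulAction.orbitRel.Quotient D Ω
  haveI : Fintype O := Fintype.ofFinite O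
  -- every coset other than `D` has constant fixed point number one
  have key : ∀ g : G, g ∉ D → Fintype.card (MulAction.fixedBy Ω g) ≠ 0 := by
    intro g hg h0
    refine hg (Subgroup.subset_closure fun ω hω => ?_)
    rw [Fintype.card_eq_zero_iff] at h0
    exact h0.elim ⟨ω, hω⟩
  obtain ⟨a₀, b₀, hab⟩ := exists_pair_ne Ω
  haveI : Nonempty Ω := ⟨a₀⟩
  have h1 : Fintype.card (MulAction.orbitRel.Quotient G Ω) = 1 :=
    le_antisymm (Fintype.card_le_one_iff_subsingleton.2 ((MulAction.pretransitive_iff_subsingleton_quotient G Ω).1 inferInstance))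
      (Fintype.card_pos_iff.2 ⟨Quotient.mk'' a₀⟩)
  have hG := MulAction.sum_card_fixedBy_eq_card_orbits_mul_card_group G Ω
  have hDs := MulAction.sum_card_fixedBy_eq_card_orbits_mul_card_group D Ω
  rw [h1, one_mul] at hG
  have hsplit := Finset.sum_add_sum_compl (Finset.univ.filter (· ∈ D)) (fun g : G => Fintype.card (MulAction.fixedBy Ω g))
  have hDsum : ∑ g ∈ Finset.univ.filter (· ∈ D), Fintype.card (MulAction.fixedBy Ω g) = Fintype.card O * Fintype.card D := by
    rw [Finset.sum_subtype (p := (· ∈ D)) _ (by simp)]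
    exact hDs
  have hO : 1 ≤ Fintype.card O := Fintype.card_pos_iff.2 ⟨Quotient.mk'' a₀⟩
  have hcompl : (Finset.univ.filter (· ∈ D))ᶜ.card ≤ ∑ g ∈ (Finset.univ.filter (· ∈ D))ᶜ, Fintype.card (MulAction.fixedBy Ω g) := by
    rw [Finset.card_eq_sum_ones]
    refine Finset.sum_le_sum fun g hg => ?_
    have := key g (by simpa using hg)
    omega
  have hcc : (Finset.univ.filter (· ∈ D))ᶜ.card + Fintype.card D = Fintype.card G := by
    rw [Fintype.card_subtype, add_comm, Finset.card_add_card_compl]
  have hO1 : Fintype.card O = 1 := by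
    by_contra hne
    have : 2 * Fintype.card D ≤ Fintype.card O * Fintype.card D := Nat.mul_le_mul_right _ (by omega)
    have : 0 < Fintype.card D := Fintype.card_pos
    omega
  refine ⟨(MulAction.pretransitive_iff_subsingleton_quotient D Ω).2 (Fintype.card_le_one_iff_subsingleton.1 hO1.le), fun g hg => ?_⟩
  by_contra hgD
  rw [hO1, one_mul] at hDsum
  rw [Nat.card_eq_fintype_card] at hg
  have hlt : (Finset.univ.filter (· ∈ D))ᶜ.card < ∑ g ∈ (Finset.univ.filter (· ∈ D))ᶜ, Fintype.card (MulAction.fixedBy Ω g) := by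
    rw [Finset.card_eq_sum_ones]
    refine Finset.sum_lt_sum (fun x hx => ?_) ⟨g, by simpa using hgD, ?_⟩
    · have := key x (by simpa using hx)
      omega
    · have := key g hgD
      omega
  omega

end Cfsg.Agent.S3546
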