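import Cfsg.Statements.S3548
import Mathlib

set_option autoImplicit false
open Cfsg

namespace Cfsg.Agent.S3548

/-- Let G act faithfully and transitively on a finite set with n ≥ 2 points and let D be the subgroup generated by the derangements. Then the index of D in G divides n − 1, and if it equals n − 1 then n is a prime power. -/
theorem result {G Ω : Type*} [Group G] [Finite G] [MulAction G Ω] [FaithfulSMul G Ω] [Finite Ω]
    (htrans : MulAction.IsPretransitive G Ω) (hΩ : 2 ≤ Nat.card Ω) :
    (Subgroup.closure {g : G | ∀ ω : Ω, g • ω ≠ ω}).index ∣ Nat.card Ω - 1 ∧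
    ((Subgroup.closure {g : G | ∀ ω : Ω, g • ω ≠ ω}).index = Nat.card Ω - 1 → IsPrimePow (Nat.card Ω)) := by
  classical
  haveI := Fintype.ofFinite G
  haveI := Fintype.ofFinite Ω
  haveI := htrans
  haveI : Nonempty Ω := (Nat.card_pos_iff.mp (by omega : 0 < Nat.card Ω)).1
  set S := {g : G | ∀ ω : Ω, g • ω ≠ ω}
  set D := Subgroup.closure S with hD
  haveI hDn : D.Normal := by
    refine ⟨fun x hx g => ?_⟩
    have : D ≤ D.comap (MulAut.conj g).toMonoidHom := by
      rw [hD, Subgroup.closure_le]
      intro y hy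
      refine Subgroup.subset_closure fun ω h => hy (g⁻¹ • ω) ?_
      have h' : (g * y * g⁻¹) • ω = ω := h
      rw [mul_smul, mul_smul] at h'
      conv_rhs => rw [← h']
      rw [inv_smul_smul]
    exact this hx
  have hfix : ∀ g : G, g ∉ D → 1 ≤ Fintype.card (MulAction.fixedBy Ω g) := by
    intro g hg
    have : ¬ ∀ ω : Ω, g • ω ≠ ω := fun h => hg (Subgroup.subset_closure h)
    push Not at this
    obtain ⟨ω, hω⟩ := this
    exact Fintype.card_pos_iff.mpr ⟨⟨ω, hω⟩⟩
  -- Burnside for `G` and for `D`
  set Gs : Finset G := Finset.univ.filter (· ∈ D)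
  have hG : ∑ g : G, Fintype.card (MulAction.fixedBy Ω g) = Fintype.card G := by
    rw [MulAction.sum_card_fixedBy_eq_card_orbits_mul_card_group G Ω]
    haveI : Subsingleton (MulAction.orbitRel.Quotient G Ω) := (MulAction.pretransitive_iff_subsingleton_quotient G Ω).mp htrans
    haveI : Nonempty (MulAction.orbitRel.Quotient G Ω) := ⟨Quotient.mk _ (Classical.arbitrary Ω)⟩
    rw [Fintype.card_eq_one_iff_nonempty_unique.mpr ⟨uniqueOfSubsingleton (Classical.arbitrary _)⟩, one_mul]
  set m := Fintype.card (MulAction.orbitRel.Quotient D Ω)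
  have hDsum : ∑ g ∈ Gs, Fintype.card (MulAction.fixedBy Ω g) = m * Fintype.card D := by
    rw [← MulAction.sum_card_fixedBy_eq_card_orbits_mul_card_group D Ω]
    exact Finset.sum_subtype Gs (by simp [Gs]) _
  have hcs : ∀ g : G, g ∈ Gsᶜ ↔ g ∉ D := by simp [Gs]
  have hGs : Gs.card = Fintype.card D := by rw [Fintype.card_subtype]
  have hsplit := Finset.sum_add_sum_compl Gs (fun g => Fintype.card (MulAction.fixedBy Ω g))
  have hge : Gsᶜ.card ≤ ∑ g ∈ Gsᶜ, Fintype.card (MulAction.fixedBy Ω g) := by
    rw [Finset.card_eq_sum_ones]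
    exact Finset.sum_le_sum fun g hg => hfix g ((hcs g).mp hg)
  have hm1 : 1 ≤ m := Fintype.card_pos_iff.mpr ⟨Quotient.mk _ (Classical.arbitrary Ω)⟩
  have hcc : Gsᶜ.card + Gs.card = Fintype.card G := by rw [add_comm, Finset.card_add_card_compl]
  have hDpos : 1 ≤ Fintype.card D := Fintype.card_pos
  have hm : m = 1 ∧ ∑ g ∈ Gsᶜ, Fintype.card (MulAction.fixedBy Ω g) = Gsᶜ.card := by
    rw [hG, hDsum] at hsplit
    have hle : m * Fintype.card D ≤ Fintype.card D := by omega
    have : m = 1 := le_antisymm (Nat.le_of_mul_le_mul_right (by rw [one_mul]; exact hle) (by omega)) hm1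
    refine ⟨this, ?_⟩
    rw [this, one_mul] at hsplit
    omega
  haveI hDt : MulAction.IsPretransitive D Ω := by
    rw [MulAction.pretransitive_iff_subsingleton_quotient]
    exact Fintype.card_le_one_iff_subsingleton.mp hm.1.le
  have hone : ∀ g : G, g ∉ D → ∀ a b : Ω, g • a = a → g • b = b → a = b := by
    intro g hg a b ha hb
    by_contra hab
    have h2 : 2 ≤ Fintype.card (MulAction.fixedBy Ω g) :=
      Fintype.one_lt_card_iff.mpr ⟨⟨a, ha⟩, ⟨b, hb⟩, fun h => hab (congrArg Subtype.val h)⟩
    have := Finset.sum_lt_sum (fun x hx => hfix x ((hcs x).mp hx)) ⟨g, (hcs g).mpr hg, h2⟩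
    rw [← Finset.card_eq_sum_ones, hm.2] at this
    exact lt_irrefl _ this
  obtain ⟨a⟩ := ‹Nonempty Ω›
  set S0 := MulAction.stabilizer G a
  have hsup : S0 ⊔ D = ⊤ := by
    rw [eq_top_iff]
    intro g _
    obtain ⟨⟨d, hd⟩, hda⟩ := MulAction.exists_smul_eq D (g • a) a
    have hda' : d • g • a = a := hda
    have h1 : d * g ∈ S0 := by show (d * g) • a = a; rw [mul_smul, hda']
    have := (S0 ⊔ D).mul_mem (Subgroup.mem_sup_right (D.inv_mem hd)) (Subgroup.mem_sup_left h1)
    rwa [inv_mul_cancel_left] at this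
  have hidx : D.index = D.relIndex S0 := by
    rw [← Subgroup.relIndex_top_right, ← hsup, Subgroup.relIndex_sup_right]
  have horb : ∀ b : Ω, b ≠ a → D.index ∣ Nat.card (MulAction.orbit S0 b) := by
    intro b hb
    rw [hidx, Nat.card_congr (MulAction.orbitEquivQuotientStabilizer S0 b), ← Subgroup.index_eq_card]
    refine Subgroup.index_dvd_of_le (fun g hg => ?_)
    show (g : G) ∈ D
    by_contra hgD
    exact hb (hone g hgD b a hg g.2)
  have ha0 : MulAction.orbit S0 a = {a} := by
    ext x
    constructor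
    · rintro ⟨g, rfl⟩; exact g.2
    · rintro rfl; exact MulAction.mem_orbit_self _
  refine ⟨?_, fun heq => ?_⟩
  · have hcount : Nat.card Ω = ∑ q : MulAction.orbitRel.Quotient S0 Ω, Nat.card (MulAction.orbit S0 q.out) := by
      rw [Nat.card_congr (MulAction.selfEquivSigmaOrbits S0 Ω), Nat.card_sigma]
    set qa : MulAction.orbitRel.Quotient S0 Ω := Quotient.mk _ a
    rw [← Finset.add_sum_erase _ _ (Finset.mem_univ qa)] at hcount
    have hqa : MulAction.orbit S0 qa.out = {a} := by
      rw [← ha0]
      exact MulAction.orbit_eq_iff.mpr (MulAction.orbitRel_apply.mp (Quotient.exact (Quotient.out_eq qa)))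
    rw [hqa, Nat.card_coe_set_eq, Set.ncard_singleton] at hcount
    rw [hcount, Nat.add_sub_cancel_left]
    refine Finset.dvd_sum fun q hq => horb _ fun h => (Finset.mem_erase.mp hq).1 ?_
    rw [← Quotient.out_eq q, h]
  · -- sharply two-transitive case
    have hn : 1 < Fintype.card Ω := by rw [← Nat.card_eq_fintype_card]; omega
    have hfull : ∀ b c : Ω, b ≠ a → c ≠ a → c ∈ MulAction.orbit S0 b := by
      intro b c hb hc
      have hd := Nat.le_of_dvd (Nat.card_pos_iff.mpr ⟨⟨⟨b, MulAction.mem_orbit_self b⟩⟩, inferInstance⟩) (horb b hb)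
      rw [heq, Nat.card_coe_set_eq, Nat.card_eq_fintype_card] at hd
      have hsub : MulAction.orbit S0 b ⊆ {a}ᶜ := by
        rintro x ⟨g, rfl⟩ hx
        refine hb ?_
        have hx' : (g : G) • b = a := hx
        exact smul_left_cancel (g : G) (hx'.trans g.2.symm)
      have := Set.eq_of_subset_of_ncard_le hsub (by
        rw [Set.ncard_compl, Set.ncard_singleton, Nat.card_eq_fintype_card]; exact hd) (Set.toFinite _)
      rw [this]; exact hc
    have hreg : ∀ d ∈ D, d • a = a → d = 1 := by
      intro d hd hda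
      apply eq_of_smul_eq_smul (α := Ω)
      intro x
      rw [one_smul]
      rcases eq_or_ne x a with rfl | hxa
      · exact hda
      -- the stabiliser of two points has the order of the stabiliser in the kernel
      have hle : MulAction.stabilizer S0 x ≤ D.subgroupOf S0 := fun g hg => by
        show (g : G) ∈ D
        by_contra hgD
        exact hxa (hone g hgD x a hg g.2)
      have hi : (MulAction.stabilizer S0 x).index = (D.subgroupOf S0).index := by
        show _ = D.relIndex S0
        rw [← hidx, heq, MulAction.index_stabilizer]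
        have : MulAction.orbit S0 x = {a}ᶜ := by
          ext y
          refine ⟨?_, fun hy => hfull x y hxa hy⟩
          rintro ⟨g, rfl⟩ hy
          have hy' : (g : G) • x = a := hy
          exact hxa (smul_left_cancel (g : G) (hy'.trans g.2.symm))
        rw [this, Set.ncard_compl, Set.ncard_singleton]
      have hEq : MulAction.stabilizer S0 x = D.subgroupOf S0 := by
        refine Subgroup.eq_of_le_of_card_ge hle ?_
        have e1 := (MulAction.stabilizer S0 x).index_mul_card
        have e2 := (D.subgroupOf S0).index_mul_card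
        rw [hi, ← e2] at e1
        exact (Nat.eq_of_mul_eq_mul_left (Nat.pos_of_ne_zero Subgroup.index_ne_zero_of_finite) e1).ge
      exact (hEq.ge (show (⟨d, hda⟩ : S0) ∈ D.subgroupOf S0 from hd) : _)
    have hcardD : Nat.card D = Nat.card Ω := by
      refine Nat.card_eq_of_bijective (fun d : D => (d : G) • a) ⟨?_, fun x => ?_⟩
      · intro d e h
        have h' : (d : G) • a = (e : G) • a := h
        exact Subtype.ext (inv_mul_eq_one.mp (hreg _ (D.mul_mem (D.inv_mem d.2) e.2) (by
          rw [mul_smul, ← h', inv_smul_smul])))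
      · obtain ⟨d, hd⟩ := MulAction.exists_smul_eq D a x
        exact ⟨d, hd⟩
    obtain ⟨p, hp, hpd⟩ := Nat.exists_prime_and_dvd (show Nat.card D ≠ 1 by omega)
    haveI := Fact.mk hp
    obtain ⟨d0, hd0⟩ := exists_prime_orderOf_dvd_card' p hpd
    have hall : ∀ d : D, d ≠ 1 → d ^ p = 1 := by
      intro d hd
      have h1 : (d : G) • a ≠ a := fun h => hd (Subtype.ext (hreg _ d.2 h))
      have h0 : (d0 : G) • a ≠ a := fun h => by
        rw [show d0 = 1 from Subtype.ext (hreg _ d0.2 h), orderOf_one] at hd0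
        exact hp.one_lt.ne hd0
      obtain ⟨g, hg⟩ := hfull _ _ h0 h1
      have hg' : (g : G) • (d0 : G) • a = (d : G) • a := hg
      have he : (g : G) * d0 * (g : G)⁻¹ = d := by
        have hmem : ((d : G)⁻¹ * ((g : G) * d0 * (g : G)⁻¹)) ∈ D :=
          D.mul_mem (D.inv_mem d.2) (hDn.conj_mem _ d0.2 g)
        have hga : (g : G)⁻¹ • a = a := inv_smul_eq_iff.mpr g.2.symm
        exact (inv_mul_eq_one.mp (hreg _ hmem (by rw [mul_smul, mul_smul, mul_smul, hga, hg', inv_smul_smul]))).symm
      apply Subtype.ext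
      rw [Subgroup.coe_pow, Subgroup.coe_one, ← he, conj_pow, ← Subgroup.coe_pow, ← hd0, pow_orderOf_eq_one]
      simp
    have hP : IsPGroup p D := fun d => ⟨1, by
      by_cases h : d = 1
      · subst h; simp
      · rw [pow_one]; exact hall d h⟩
    obtain ⟨k, hk⟩ := hP.exists_card_eq
    rw [← hcardD, hk]
    refine hp.prime.isPrimePow.pow ?_
    rintro rfl
    rw [pow_zero] at hk
    omega

end Cfsg.Agent.S3548
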