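import Cfsg.Statements.S3549
import Mathlib

set_option autoImplicit false
open Cfsg

namespace Cfsg.Agent.S3549

open scoped Pointwise

theorem fixed_of_coset {G X : Type*} [Group G] [MulAction G X] [Finite G] [Finite X] [Nonempty X] (E : Subgroup G)
    [MulAction.IsPretransitive E X] (g : G)
    (hle : ∀ e : E, ∀ x y : X, (g * e) • x = x → (g * e) • y = y → x = y) : ∃ x : X, g • x = x := by
  classical
  haveI := Fintype.ofFinite E
  haveI := Fintype.ofFinite X
  by_contra hno
  push Not at hno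
  let T := {p : E × X // (g * p.1) • p.2 = p.2}
  let f : T → E := fun p => p.1.1
  have hinj : Function.Injective f := by
    intro p q h
    have h1 : p.1.1 = q.1.1 := h
    apply Subtype.ext
    refine Prod.ext h1 (hle p.1.1 _ _ p.2 ?_)
    rw [h1]; exact q.2
  have hnot : ¬ Function.Surjective f := fun h => by
    obtain ⟨p, hp⟩ := h 1
    have h2 : (g * ((p.1.1 : E) : G)) • p.1.2 = p.1.2 := p.2
    rw [show p.1.1 = 1 from hp, Subgroup.coe_one, mul_one] at h2
    exact hno _ h2
  obtain ⟨x0⟩ := ‹Nonempty X›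
  have hcard : Fintype.card T = Fintype.card E := by
    have e1 : ∀ x : X, Fintype.card {e : E // (g * e) • x = x} = Fintype.card (MulAction.stabilizer E x0) := by
      intro x
      obtain ⟨e0, he0⟩ := MulAction.exists_smul_eq E x (g⁻¹ • x)
      obtain ⟨u, hu⟩ := MulAction.exists_smul_eq E x0 x
      refine Fintype.card_congr
        { toFun := fun e => ⟨u⁻¹ * (e0⁻¹ * e.1) * u, ?_⟩
          invFun := fun s => ⟨e0 * (u * s.1 * u⁻¹), ?_⟩
          left_inv := fun e => Subtype.ext (by simp [mul_assoc])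
          right_inv := fun s => Subtype.ext (by simp [mul_assoc]) }
      · show (u⁻¹ * (e0⁻¹ * e.1) * u) • x0 = x0
        rw [mul_smul, hu, mul_smul, mul_smul]
        have he : (e.1 : E) • x = g⁻¹ • x := by
          rw [eq_inv_smul_iff, Subgroup.smul_def, ← mul_smul]; exact e.2
        rw [he, ← he0, inv_smul_smul, ← hu, inv_smul_smul]
      · have hs : (s.1 : E) • x0 = x0 := s.2
        have h3 : (e0 * (u * s.1 * u⁻¹)) • x = g⁻¹ • x := by
          rw [mul_smul, mul_smul, mul_smul, show u⁻¹ • x = x0 from inv_smul_eq_iff.mpr hu.symm, hs, hu, he0]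
        show (g * ((e0 * (u * s.1 * u⁻¹) : E) : G)) • x = x
        rw [mul_smul, ← Subgroup.smul_def, h3, smul_inv_smul]
    calc Fintype.card T = ∑ x : X, Fintype.card {e : E // (g * e) • x = x} := by
          rw [← Fintype.card_sigma]
          exact Fintype.card_congr
            { toFun := fun p => ⟨p.1.2, p.1.1, p.2⟩
              invFun := fun q => ⟨(q.2.1, q.1), q.2.2⟩
              left_inv := fun p => rfl
              right_inv := fun q => rfl }
      _ = Fintype.card X * Fintype.card (MulAction.stabilizer E x0) := by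
          rw [Finset.sum_congr rfl fun x _ => e1 x, Finset.sum_const, smul_eq_mul, Finset.card_univ]
      _ = Fintype.card E := by
          rw [← MulAction.card_orbit_mul_card_stabilizer_eq_card_group E x0]
          congr 1
          exact Fintype.card_congr (Equiv.subtypeUnivEquiv fun x => MulAction.mem_orbit_iff.mpr (MulAction.exists_smul_eq E x0 x)).symm
  exact hnot ((Fintype.bijective_iff_injective_and_card f).mpr ⟨hinj, hcard⟩).2

theorem index_dvd {G X : Type*} [Group G] [MulAction G X] [Finite G] [Finite X] [Nonempty X] (D : Subgroup G) [D.Normal]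
    [MulAction.IsPretransitive D X] (hone : ∀ g : G, g ∉ D → ∀ a b : X, g • a = a → g • b = b → a = b) :
    D.index ∣ Nat.card X - 1 := by
  classical
  haveI := Fintype.ofFinite X
  obtain ⟨a⟩ := ‹Nonempty X›
  set S0 := MulAction.stabilizer G a
  have hsup : S0 ⊔ D = ⊤ := by
    rw [eq_top_iff]
    intro g _
    obtain ⟨⟨d, hd⟩, hda⟩ := MulAction.exists_smul_eq D (g • a) a
    have hda' : d • g • a = a := hda
    have h1 : d * g ∈ S0 := by show (d * g) • a = a; rw [mul_smul, hda']
    have := (S0 ⊔ D).mul_mem (Subgroup.mem_sup_right (D.inv_mem hd)) (Subgroup.mem_sup_left h1)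
    rwa [inv_mul_cancel_left] at this
  have hidx : D.index = D.relIndex S0 := by
    rw [← Subgroup.relIndex_top_right, ← hsup, Subgroup.relIndex_sup_right]
  have horb : ∀ b : X, b ≠ a → D.index ∣ Nat.card (MulAction.orbit S0 b) := by
    intro b hb
    rw [hidx, Nat.card_congr (MulAction.orbitEquivQuotientStabilizer S0 b), ← Subgroup.index_eq_card]
    refine Subgroup.index_dvd_of_le (fun g hg => ?_)
    show (g : G) ∈ D
    by_contra hgD
    exact hb (hone g hgD b a hg g.2)
  have ha0 : MulAction.orbit S0 a = {a} := by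
    ext x
    constructor
    · rintro ⟨g, rfl⟩; exact g.2
    · rintro rfl; exact MulAction.mem_orbit_self _
  have hcount : Nat.card X = ∑ q : MulAction.orbitRel.Quotient S0 X, Nat.card (MulAction.orbit S0 q.out) := by
    rw [Nat.card_congr (MulAction.selfEquivSigmaOrbits S0 X), Nat.card_sigma]
  set qa : MulAction.orbitRel.Quotient S0 X := Quotient.mk _ a
  rw [← Finset.add_sum_erase _ _ (Finset.mem_univ qa)] at hcount
  have hqa : MulAction.orbit S0 qa.out = {a} := by
    rw [← ha0]
    exact MulAction.orbit_eq_iff.mpr (MulAction.orbitRel_apply.mp (Quotient.exact (Quotient.out_eq qa)))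
  rw [hqa, Nat.card_coe_set_eq, Set.ncard_singleton] at hcount
  rw [hcount, Nat.add_sub_cancel_left]
  refine Finset.dvd_sum fun q hq => horb _ fun h => (Finset.mem_erase.mp hq).1 ?_
  rw [← Quotient.out_eq q, h]



/-- Let G act faithfully, transitively but imprimitively on a finite set with n points, and let D be the subgroup generated by the derangements. Then the index of D in G is at most √n − 1. -/
theorem result {G Ω : Type*} [Group G] [Finite G] [MulAction G Ω] [FaithfulSMul G Ω] [Finite Ω]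
    (htrans : MulAction.IsPretransitive G Ω) (himp : ¬ MulAction.IsPreprimitive G Ω) :
    ((Subgroup.closure {g : G | ∀ ω : Ω, g • ω ≠ ω}).index : ℝ) ≤ Real.sqrt (Nat.card Ω) - 1 := by
  classical
  haveI := Fintype.ofFinite G
  haveI := Fintype.ofFinite Ω
  haveI := htrans
  have hnt : ∃ B : Set Ω, MulAction.IsBlock G B ∧ ¬ MulAction.IsTrivialBlock B := by
    by_contra h
    push Not at h
    exact himp { isTrivialBlock_of_isBlock := fun {B} hB => h B hB }
  obtain ⟨B, hB, hBt⟩ := hnt
  rw [MulAction.IsTrivialBlock, not_or, Set.not_subsingleton_iff] at hBt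
  obtain ⟨⟨b0, hb0, b1, hb1, hb01⟩, hBu⟩ := hBt
  haveI : Nonempty Ω := ⟨b0⟩
  set S := {g : G | ∀ ω : Ω, g • ω ≠ ω}
  set D := Subgroup.closure S with hD
  haveI hDn : D.Normal := by
    refine ⟨fun x hx g => ?_⟩
    have : D ≤ D.comap (MulAut.conj g).toMonoidHom := by
      rw [hD, Subgroup.closure_le]
      intro y hy
      refine Subgroup.subset_closure fun ω h => hy (g⁻¹ • ω) ?_
      have h' : (g * y * g⁻¹) • ω = ω := h
      rw [mul_smul, mul_smul] at h'
      conv_rhs => rw [← h']
      rw [inv_smul_smul]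
    exact this hx
  have hfix : ∀ g : G, g ∉ D → 1 ≤ Fintype.card (MulAction.fixedBy Ω g) := by
    intro g hg
    have : ¬ ∀ ω : Ω, g • ω ≠ ω := fun h => hg (Subgroup.subset_closure h)
    push Not at this
    obtain ⟨ω, hω⟩ := this
    exact Fintype.card_pos_iff.mpr ⟨⟨ω, hω⟩⟩
  -- Burnside for `G` and for `D`
  set Gs : Finset G := Finset.univ.filter (· ∈ D)
  have hG : ∑ g : G, Fintype.card (MulAction.fixedBy Ω g) = Fintype.card G := by
    rw [MulAction.sum_card_fixedBy_eq_card_orbits_mul_card_group G Ω]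
    haveI : Subsingleton (MulAction.orbitRel.Quotient G Ω) := (MulAction.pretransitive_iff_subsingleton_quotient G Ω).mp htrans
    haveI : Nonempty (MulAction.orbitRel.Quotient G Ω) := ⟨Quotient.mk _ (Classical.arbitrary Ω)⟩
    rw [Fintype.card_eq_one_iff_nonempty_unique.mpr ⟨uniqueOfSubsingleton (Classical.arbitrary _)⟩, one_mul]
  set m := Fintype.card (MulAction.orbitRel.Quotient D Ω)
  have hDsum : ∑ g ∈ Gs, Fintype.card (MulAction.fixedBy Ω g) = m * Fintype.card D := by
    rw [← MulAction.sum_card_fixedBy_eq_card_orbits_mul_card_group D Ω]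
    exact Finset.sum_subtype Gs (by simp [Gs]) _
  have hcs : ∀ g : G, g ∈ Gsᶜ ↔ g ∉ D := by simp [Gs]
  have hGs : Gs.card = Fintype.card D := by rw [Fintype.card_subtype]
  have hsplit := Finset.sum_add_sum_compl Gs (fun g => Fintype.card (MulAction.fixedBy Ω g))
  have hge : Gsᶜ.card ≤ ∑ g ∈ Gsᶜ, Fintype.card (MulAction.fixedBy Ω g) := by
    rw [Finset.card_eq_sum_ones]
    exact Finset.sum_le_sum fun g hg => hfix g ((hcs g).mp hg)
  have hm1 : 1 ≤ m := Fintype.card_pos_iff.mpr ⟨Quotient.mk _ (Classical.arbitrary Ω)⟩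
  have hcc : Gsᶜ.card + Gs.card = Fintype.card G := by rw [add_comm, Finset.card_add_card_compl]
  have hDpos : 1 ≤ Fintype.card D := Fintype.card_pos
  have hm : m = 1 ∧ ∑ g ∈ Gsᶜ, Fintype.card (MulAction.fixedBy Ω g) = Gsᶜ.card := by
    rw [hG, hDsum] at hsplit
    have hle : m * Fintype.card D ≤ Fintype.card D := by omega
    have : m = 1 := le_antisymm (Nat.le_of_mul_le_mul_right (by rw [one_mul]; exact hle) (by omega)) hm1
    refine ⟨this, ?_⟩
    rw [this, one_mul] at hsplit
    omega
  haveI hDt : MulAction.IsPretransitive D Ω := by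
    rw [MulAction.pretransitive_iff_subsingleton_quotient]
    exact Fintype.card_le_one_iff_subsingleton.mp hm.1.le
  have hone : ∀ g : G, g ∉ D → ∀ a b : Ω, g • a = a → g • b = b → a = b := by
    intro g hg a b ha hb
    by_contra hab
    have h2 : 2 ≤ Fintype.card (MulAction.fixedBy Ω g) :=
      Fintype.one_lt_card_iff.mpr ⟨⟨a, ha⟩, ⟨b, hb⟩, fun h => hab (congrArg Subtype.val h)⟩
    have := Finset.sum_lt_sum (fun x hx => hfix x ((hcs x).mp hx)) ⟨g, (hcs g).mpr hg, h2⟩
    rw [← Finset.card_eq_sum_ones, hm.2] at this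
    exact lt_irrefl _ this
  set X := MulAction.orbit G B
  have hmemX : ∀ B' : X, ∃ g : G, g • B = (B' : Set Ω) := fun B' => B'.2
  have hcoe : ∀ (g : G) (B' : X), ((g • B' : X) : Set Ω) = g • (B' : Set Ω) := fun g B' => rfl
  haveI : Nonempty X := ⟨⟨B, MulAction.mem_orbit_self B⟩⟩
  have hblk : ∀ B' : X, MulAction.IsBlock G (B' : Set Ω) ∧ (B' : Set Ω).Nonempty := fun B' => by
    obtain ⟨g, hg⟩ := hmemX B'
    rw [← hg]; exact ⟨hB.translate g, ⟨g • b0, Set.smul_mem_smul_set hb0⟩⟩
  haveI hDX : MulAction.IsPretransitive D X := by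
    refine ⟨fun B1 B2 => ?_⟩
    obtain ⟨x, hx⟩ := (hblk B1).2
    obtain ⟨y, hy⟩ := (hblk B2).2
    obtain ⟨d, hd⟩ := MulAction.exists_smul_eq D x y
    refine ⟨d, Subtype.ext ?_⟩
    obtain ⟨g1, hg1⟩ := hmemX B1
    obtain ⟨g2, hg2⟩ := hmemX B2
    show (d : G) • (B1 : Set Ω) = (B2 : Set Ω)
    rw [← hg1, ← hg2, ← mul_smul]
    rw [← hg1] at hx
    rw [← hg2] at hy
    obtain ⟨x0, hx0, rfl⟩ := hx
    refine (hB.smul_eq_smul_of_nonempty ⟨y, ⟨x0, hx0, ?_⟩, hy⟩)
    rw [← hd]; exact mul_smul _ _ _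
  -- the stabiliser of a block
  have hwithin : ∀ B' : X, D.index ∣ Nat.card (B' : Set Ω) - 1 ∧
      ∀ g : G, g ∉ D → g • B' = B' → ∃ x : Ω, x ∈ (B' : Set Ω) ∧ g • x = x := by
    intro B'
    obtain ⟨hblk', ⟨x0, hx0⟩⟩ := hblk B'
    let K : Subgroup G := MulAction.stabilizer G (B' : Set Ω)
    letI : MulAction K (B' : Set Ω) :=
      { smul := fun k x => ⟨(k : G) • (x : Ω), by
          have h1 : (k : G) • (x : Ω) ∈ (k : G) • (B' : Set Ω) := Set.smul_mem_smul_set x.2
          rwa [show (k : G) • (B' : Set Ω) = (B' : Set Ω) from k.2] at h1⟩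
        one_smul := fun x => Subtype.ext (one_smul G (x : Ω))
        mul_smul := fun a b x => Subtype.ext (mul_smul (a : G) (b : G) (x : Ω)) }
    haveI : Nonempty (B' : Set Ω) := ⟨⟨x0, hx0⟩⟩
    let D' := D.subgroupOf K
    haveI : MulAction.IsPretransitive D' (B' : Set Ω) := by
      refine ⟨fun x y => ?_⟩
      obtain ⟨d, hd⟩ := MulAction.exists_smul_eq D (x : Ω) (y : Ω)
      have hd' : (d : G) • (x : Ω) = y := hd
      have hK : (d : G) ∈ K := hblk'.smul_eq_of_mem x.2 (hd'.symm ▸ y.2)
      exact ⟨⟨⟨d, hK⟩, d.2⟩, Subtype.ext hd'⟩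
    have h1 : ∀ g : K, g ∉ D' → ∀ x y : (B' : Set Ω), g • x = x → g • y = y → x = y := fun g hg x y hx hy =>
      Subtype.ext (hone (g : G) hg _ _ (congrArg Subtype.val hx) (congrArg Subtype.val hy))
    refine ⟨?_, fun g hg hgB => ?_⟩
    · have hsup : K ⊔ D = ⊤ := by
        rw [eq_top_iff]
        intro g _
        obtain ⟨⟨d, hd⟩, hdd⟩ := MulAction.exists_smul_eq D (g • x0) x0
        have hdd' : d • g • x0 = x0 := hdd
        have h2 : d * g ∈ K := hblk'.smul_eq_of_mem hx0 (by rw [mul_smul, hdd']; exact hx0)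
        have := (K ⊔ D).mul_mem (Subgroup.mem_sup_right (D.inv_mem hd)) (Subgroup.mem_sup_left h2)
        rwa [inv_mul_cancel_left] at this
      have e : D.index = D'.index := by
        rw [← Subgroup.relIndex_top_right, ← hsup, Subgroup.relIndex_sup_right]; rfl
      rw [e]
      exact index_dvd D' h1
    · let k : K := ⟨g, congrArg Subtype.val hgB⟩
      obtain ⟨x, hx⟩ := fixed_of_coset (X := (B' : Set Ω)) D' k fun e x y hx hy => h1 _ (fun he => hg (by
        have := D'.mul_mem he (D'.inv_mem e.2)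
        rw [mul_inv_cancel_right] at this
        exact this)) x y hx hy
      exact ⟨x, x.2, congrArg Subtype.val hx⟩
  have hblocks : D.index ∣ Nat.card X - 1 := by
    refine index_dvd D fun g hg B1 B2 h1 h2 => ?_
    obtain ⟨x, hx, hgx⟩ := (hwithin B1).2 g hg h1
    obtain ⟨y, hy, hgy⟩ := (hwithin B2).2 g hg h2
    obtain rfl := hone g hg x y hgx hgy
    obtain ⟨g1, hg1⟩ := hmemX B1
    obtain ⟨g2, hg2⟩ := hmemX B2
    apply Subtype.ext
    rw [← hg1, ← hg2]
    exact hB.smul_eq_smul_of_nonempty ⟨x, hg1 ▸ hx, hg2 ▸ hy⟩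
  have hb : 2 ≤ Nat.card B := by
    rw [Nat.card_coe_set_eq]
    exact (Set.one_lt_ncard (Set.toFinite _)).mpr ⟨b0, hb0, b1, hb1, hb01⟩
  have hmul := hB.ncard_block_mul_ncard_orbit_eq ⟨b0, hb0⟩
  rw [← Nat.card_coe_set_eq, ← Nat.card_coe_set_eq] at hmul
  have hc : 2 ≤ Nat.card X := by
    by_contra h
    have : Nat.card X = 1 := by
      have : 0 < Nat.card X := Nat.card_pos
      omega
    rw [this, mul_one] at hmul
    exact hBu (Set.eq_univ_of_forall fun x => by
      have := Set.eq_of_subset_of_ncard_le (Set.subset_univ B) (by rw [Set.ncard_univ, ← Nat.card_coe_set_eq, hmul]) (Set.toFinite _)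
      rw [this]; trivial)
  have i1 : D.index + 1 ≤ Nat.card B := by
    have h' : D.index ∣ Nat.card B - 1 := (hwithin ⟨B, MulAction.mem_orbit_self B⟩).1
    have := Nat.le_of_dvd (by omega) h'
    omega
  have i2 : D.index + 1 ≤ Nat.card X := by
    have := Nat.le_of_dvd (by omega) hblocks
    omega
  have i3 : (D.index + 1) * (D.index + 1) ≤ Nat.card Ω := hmul ▸ Nat.mul_le_mul i1 i2
  have : ((D.index : ℝ) + 1) ≤ Real.sqrt (Nat.card Ω) := by
    refine Real.le_sqrt_of_sq_le ?_
    rw [pow_two]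
    exact_mod_cast i3
  linarith

end Cfsg.Agent.S3549
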