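import Cfsg.Statements.S3560
import Mathlib

set_option autoImplicit false
open Cfsg

namespace Cfsg.Agent.S3560

open scoped Pointwise

/-- Permutations preserving the Hamming distance of coordinates given by an equivalence. -/
noncomputable def hammingGroup {ι : Type*} [Fintype ι] {m n : ℕ} (E : Fin n ≃ (ι → Fin m)) :
    Subgroup (Equiv.Perm (Fin n)) where
  carrier := {P | ∀ x y, hammingDist (E (P x)) (E (P y)) = hammingDist (E x) (E y)}
  one_mem' := fun x y => rfl
  mul_mem' := fun {P Q} hP hQ x y => by simp only [Equiv.Perm.mul_apply]; rw [hP, hQ]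
  inv_mem' := fun {P} hP x y => by
    have := hP (P⁻¹ x) (P⁻¹ y)
    simpa using this.symm

theorem mem_hamming {ι : Type*} [Fintype ι] {m n : ℕ} (E : Fin n ≃ (ι → Fin m))
    (π : Equiv.Perm ι) (σ : ι → Equiv.Perm (Fin m)) :
    (E.trans ((Equiv.arrowCongr π (Equiv.refl (Fin m))).trans (Equiv.piCongrRight σ))).trans E.symm ∈
      hammingGroup E := by
  classical
  intro x y
  simp only [Equiv.trans_apply, Equiv.apply_symm_apply]
  have e1 : ∀ f : ι → Fin m, (Equiv.piCongrRight σ) ((Equiv.arrowCongr π (Equiv.refl (Fin m))) f) =
      fun k => σ k (f (π.symm k)) := fun f => rfl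
  rw [e1, e1]
  unfold hammingDist
  refine Finset.card_bij (fun k _ => π.symm k) ?_ ?_ ?_
  · intro k hk
    simp only [Finset.mem_filter, Finset.mem_univ, true_and] at hk ⊢
    exact fun h => hk (congrArg (σ k) h)
  · intro a _ b _ h
    exact π.symm.injective h
  · intro b hb
    refine ⟨π b, ?_, π.symm_apply_apply b⟩
    simp only [Finset.mem_filter, Finset.mem_univ, true_and] at hb ⊢
    rw [Equiv.symm_apply_apply]
    exact fun h => hb ((σ (π b)).injective h)



/-- Let K be a finite group isomorphic to a direct product of r ≥ 2 groups all of the same order m ≥ 3. Then K is not a B-group: there is a primitive but not doubly transitive permutation group (on some finite set) containing a regular subgroup isomorphic to K. -/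
theorem result {K : Type*} [Group K] [Finite K] {ι : Type*} [Fintype ι] (F : ι → Type*) [∀ i, Group (F i)]
    (hr : 2 ≤ Fintype.card ι) (m : ℕ) (hm : 3 ≤ m) (hcard : ∀ i, Nat.card (F i) = m) (e : K ≃* (∀ i, F i)) :
    ∃ (n : ℕ) (G R : Subgroup (Equiv.Perm (Fin n))), R ≤ G ∧ Nonempty (↥R ≃* K) ∧
      MulAction.IsPretransitive ↥R (Fin n) ∧ (∀ a : Fin n, MulAction.stabilizer ↥R a = ⊥) ∧
      MulAction.IsPreprimitive ↥G (Fin n) ∧ ¬ MulAction.IsMultiplyPretransitive ↥G (Fin n) 2 := by
  classical
  haveI hne : ∀ i, Finite (F i) := fun i => Nat.finite_of_card_ne_zero (by rw [hcard i]; omega)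
  let ε : ∀ i, F i ≃ Fin m := fun i => Finite.equivFinOfCardEq (hcard i)
  let E : Fin (Fintype.card (ι → Fin m)) ≃ (ι → Fin m) := (Fintype.equivFin (ι → Fin m)).symm
  set n := Fintype.card (ι → Fin m)
  let C : K ≃ Fin n := e.toEquiv.trans ((Equiv.piCongrRight ε).trans E.symm)
  let ρ : K →* Equiv.Perm (Fin n) := C.permCongrHom.toMonoidHom.comp (MulAction.toPermHom K K)
  have hρ : ∀ k x, ρ k x = C (k * C.symm x) := fun k x => rfl
  have hρi : Function.Injective ρ := by
    intro a b h
    have := congrArg (fun P : Equiv.Perm (Fin n) => P (C 1)) h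
    simpa [hρ] using this
  set G := hammingGroup E with hG
  have hRG : ρ.range ≤ G := by
    rintro _ ⟨k, rfl⟩
    have := mem_hamming E (Equiv.refl ι) fun i => (ε i).permCongr (Equiv.mulLeft (e k i))
    convert this using 1
    ext x : 1
    simp only [hρ, Equiv.trans_apply]
    apply E.injective
    funext i
    simp [C]
  have htr : MulAction.IsPretransitive ρ.range (Fin n) := by
    refine ⟨fun x y => ⟨⟨ρ (C.symm y * (C.symm x)⁻¹), _, rfl⟩, ?_⟩⟩
    show ρ _ x = y
    rw [hρ, inv_mul_cancel_right, Equiv.apply_symm_apply]
  refine ⟨n, G, ρ.range, hRG, ⟨(MonoidHom.ofInjective hρi).symm⟩, htr, ?_, ?_, ?_⟩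
  · intro a
    rw [Subgroup.eq_bot_iff_forall]
    rintro ⟨_, k, rfl⟩ hx
    have h1 : ρ k a = a := hx
    have : k = 1 := by
      have := congrArg C.symm h1
      simpa [hρ] using this
    subst this
    exact Subtype.ext (map_one ρ)
  · haveI : MulAction.IsPretransitive G (Fin n) := ⟨fun x y => by
      obtain ⟨⟨g, hg⟩, h⟩ := htr.exists_smul_eq x y
      exact ⟨⟨g, hRG hg⟩, h⟩⟩
    refine ⟨fun {B} hB => ?_⟩
    rcases B.subsingleton_or_nontrivial with h | h
    · exact Or.inl h
    right
    obtain ⟨x, hx, y, hy, hxy⟩ := h
    have hstab : ∀ (a : Fin n) (π : Equiv.Perm ι) (σ : ι → Equiv.Perm (Fin m)), a ∈ B →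
        (∀ k, σ k (E a (π.symm k)) = E a k) → ∀ b ∈ B, E.symm (fun k => σ k (E b (π.symm k))) ∈ B := by
      intro a π σ ha hfix b hb
      let g : G := ⟨_, mem_hamming E π σ⟩
      have hga : g • a = a := by
        show E.symm _ = a
        rw [Equiv.symm_apply_eq]
        exact funext hfix
      have hgB := hB.smul_eq_of_mem (g := g) ha (by rw [hga]; exact ha)
      have : g • b ∈ B := hgB ▸ Set.smul_mem_smul_set hb
      exact this
    obtain ⟨j, hj⟩ : ∃ j, E x j ≠ E y j := Function.ne_iff.mp fun h => hxy (E.injective h)
    -- a third value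
    obtain ⟨c, hc⟩ := Finset.exists_mem_notMem_of_card_lt_card (s := ({E x j, E y j} : Finset (Fin m)))
      (t := Finset.univ) (lt_of_le_of_lt Finset.card_le_two (by rw [Finset.card_univ, Fintype.card_fin]; omega))
    simp only [Finset.mem_univ, Finset.mem_insert, Finset.mem_singleton, true_and, not_or] at hc
    have hz : E.symm (Function.update (E y) j c) ∈ B := by
      have := hstab x (Equiv.refl ι) (Function.update (fun _ => 1) j (Equiv.swap (E y j) c)) hx (fun k => by
        rcases eq_or_ne k j with rfl | hk
        · simpa using Equiv.swap_apply_of_ne_of_ne hj (Ne.symm hc.1)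
        · simp [hk]) y hy
      convert this using 2
      funext k
      rcases eq_or_ne k j with rfl | hk
      · simp
      · simp [hk]
    -- every line through `y` lies in the block
    have hline : ∀ (i : ι) (d : Fin m), d ≠ E y i → E.symm (Function.update (E y) i d) ∈ B := by
      intro i d hd
      have hyc : c ≠ E y j := hc.2
      -- move coordinate `j` to `i`
      let τ : Equiv.Perm (Fin m) := Equiv.swap (Equiv.swap (E y j) (E y i) c) d * Equiv.swap (E y j) (E y i)
      have hne : Equiv.swap (E y j) (E y i) c ≠ E y i := by
        intro h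
        have := congrArg (Equiv.swap (E y j) (E y i)) h
        rw [Equiv.swap_apply_self, Equiv.swap_apply_right] at this
        exact hyc this
      have hτ1 : τ (E y j) = E y i := by
        simp only [τ, Equiv.Perm.mul_apply, Equiv.swap_apply_left]
        exact Equiv.swap_apply_of_ne_of_ne hne.symm hd.symm
      have hτ2 : τ c = d := by simp [τ]
      rcases eq_or_ne i j with rfl | hij
      · have := hstab y (Equiv.refl ι) (Function.update (fun _ => 1) i τ) hy (fun k => by
          rcases eq_or_ne k i with rfl | hk
          · simpa using hτ1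
          · simp [hk]) _ hz
        convert this using 2
        funext k
        rcases eq_or_ne k i with rfl | hk
        · simp [hτ2]
        · simp [hk]
      have := hstab y (Equiv.swap i j)
        (Function.update (Function.update (fun _ => 1) i τ) j (Equiv.swap (E y i) (E y j))) hy (fun k => by
          rcases eq_or_ne k j with rfl | hk
          · simp
          rcases eq_or_ne k i with rfl | hk'
          · simpa [hij] using hτ1
          · simp [hk, hk', Equiv.swap_apply_of_ne_of_ne hk' hk]) _ hz
      convert this using 2
      funext k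
      rcases eq_or_ne k j with rfl | hk
      · simp [hij, Ne.symm hij]
      rcases eq_or_ne k i with rfl | hk'
      · simp [hij, hτ2]
      · simp [hk, hk', Equiv.swap_apply_of_ne_of_ne hk' hk]
    -- translate: lines through every point of the block
    have hall : ∀ (s : Finset ι) (w : ι → Fin m), (∀ k ∉ s, w k = E y k) → E.symm w ∈ B := by
      intro s
      induction s using Finset.induction with
      | empty => intro w hw; rw [funext fun k => hw k (Finset.notMem_empty k), Equiv.symm_apply_apply]; exact hy
      | insert i s his ih =>
        intro w hw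
        by_cases hwi : w i = E y i
        · exact ih w fun k hk => by
            rcases eq_or_ne k i with rfl | hki
            · exact hwi
            · exact hw k (by simp [hki, hk])
        have hb : E.symm (Function.update w i (E y i)) ∈ B := ih _ fun k hk => by
          rcases eq_or_ne k i with rfl | hki
          · simp
          · simpa [hki] using hw k (by simp [hki, hk])
        -- transport the line at `y` to the line at the new point
        set w' := Function.update w i (E y i) with hw'
        let g : G := ⟨_, mem_hamming E (Equiv.refl ι) fun k => Equiv.swap (E y k) (w' k)⟩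
        have hgy : g • y = E.symm w' := by
          show E.symm _ = _
          congr 1
          funext k
          simp
        have hgB := hB.smul_eq_of_mem (g := g) hy (hgy ▸ hb)
        have : g • E.symm (Function.update (E y) i (w i)) ∈ B := hgB ▸ Set.smul_mem_smul_set (hline i (w i) hwi)
        convert this using 1
        show E.symm w = E.symm _
        congr 1
        funext k
        rcases eq_or_ne k i with rfl | hki
        · simp [hw']
        · simp [hw', hki]
    refine Set.eq_univ_of_forall fun z => ?_
    simpa using hall Finset.univ (E z) (fun k hk => absurd (Finset.mem_univ k) hk)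
  · intro h2
    obtain ⟨i, j, hij⟩ := Fintype.exists_pair_of_one_lt_card (show 1 < Fintype.card ι by omega)
    let z : ι → Fin m := fun _ => ⟨0, by omega⟩
    let one : Fin m := ⟨1, by omega⟩
    have h01 : (⟨0, by omega⟩ : Fin m) ≠ one := by simp [one]
    let a := Function.update z i one
    let b := Function.update a j one
    have d1 : hammingDist z a = 1 := by
      unfold hammingDist
      rw [Finset.card_eq_one]
      refine ⟨i, ?_⟩
      ext k
      rcases eq_or_ne k i with rfl | hk <;> simp_all [a, z]
    have d2 : hammingDist z b = 2 := by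
      unfold hammingDist
      rw [Finset.card_eq_two]
      refine ⟨i, j, hij, ?_⟩
      ext k
      rcases eq_or_ne k i with rfl | hk
      · simp_all [a, b, z]
      · rcases eq_or_ne k j with rfl | hk' <;> simp_all [a, b, z]
    rw [MulAction.is_two_pretransitive_iff] at h2
    have hza : E.symm z ≠ E.symm a := fun h => by rw [E.symm.injective h] at d1; simp at d1
    have hzb : E.symm z ≠ E.symm b := fun h => by rw [E.symm.injective h] at d2; simp at d2
    obtain ⟨g, hg1, hg2⟩ := h2 hza hzb
    have := g.2 (E.symm z) (E.symm a)
    have e1 : (g : Equiv.Perm (Fin n)) (E.symm z) = E.symm z := hg1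
    have e2 : (g : Equiv.Perm (Fin n)) (E.symm a) = E.symm b := hg2
    rw [e1, e2, Equiv.apply_symm_apply, Equiv.apply_symm_apply, Equiv.apply_symm_apply, d1, d2] at this
    exact absurd this (by norm_num)

end Cfsg.Agent.S3560
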