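import Cfsg.Statements.S3681
import Mathlib

set_option autoImplicit false
open Cfsg

namespace Cfsg.Agent.S3681

theorem commutator_three {α : Type*} [Fintype α] [DecidableEq α] (g h : Equiv.Perm α) (x : α)
    (hgx : g x ≠ x) (hhx : h x ≠ x) (honly : ∀ z, g z ≠ z → h z ≠ z → z = x) :
    Equiv.Perm.IsThreeCycle (g * h * g⁻¹ * h⁻¹) := by
  have aia : ∀ (f : Equiv.Perm α) y, f (f⁻¹ y) = y := fun f y => f.apply_symm_apply y
  have iaa : ∀ (f : Equiv.Perm α) y, f⁻¹ (f y) = y := fun f y => f.symm_apply_apply y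
  have hG : ∀ z, g z ≠ z → z ≠ x → h z = z := fun z hz hzx => by
    by_contra e; exact hzx (honly z hz e)
  have hH : ∀ z, h z ≠ z → z ≠ x → g z = z := fun z hz hzx => by
    by_contra e; exact hzx (honly z e hz)
  have hinv : ∀ (f : Equiv.Perm α) y, f y = y → f⁻¹ y = y := fun f y e => by
    conv_lhs => rw [← e]
    rw [iaa]
  have hha : h (g x) = g x := hG _ (fun e => hgx (g.injective e)) hgx
  have hgb : g (h x) = h x := hH _ (fun e => hhx (h.injective e)) hhx
  have hab : g x ≠ h x := fun e => by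
    rw [e] at hha; exact hhx (h.injective hha)
  have hga' : g⁻¹ x ≠ x := fun e => hgx (by rw [← congrArg g e, aia])
  have hhb' : h⁻¹ x ≠ x := fun e => hhx (by rw [← congrArg h e, aia])
  have hha' : h (g⁻¹ x) = g⁻¹ x := hG _ (by rw [aia]; exact hga'.symm) hga'
  have hgb' : g (h⁻¹ x) = h⁻¹ x := hH _ (by rw [aia]; exact hhb'.symm) hhb'
  have key : g * h * g⁻¹ * h⁻¹ = Equiv.swap x (h x) * Equiv.swap x (g x) := by
    apply Equiv.ext
    intro z
    simp only [Equiv.Perm.mul_apply]
    by_cases hzx : z = x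
    · subst hzx
      rw [hinv g _ hgb', aia, Equiv.swap_apply_left, Equiv.swap_apply_of_ne_of_ne hgx hab]
    by_cases hza : z = g x
    · subst hza
      rw [hinv h _ hha, iaa, hgb, Equiv.swap_apply_right, Equiv.swap_apply_left]
    by_cases hzb : z = h x
    · subst hzb
      rw [iaa, hha', aia, Equiv.swap_apply_of_ne_of_ne hhx (Ne.symm hab), Equiv.swap_apply_right]
    rw [Equiv.swap_apply_of_ne_of_ne hzx hza, Equiv.swap_apply_of_ne_of_ne hzx hzb]
    by_cases hz : h z = z
    · rw [hinv h z hz]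
      have h1 : g⁻¹ z ≠ x := fun e => hza (by rw [← e, aia])
      have h2 : h (g⁻¹ z) = g⁻¹ z := by
        by_cases hgz : g z = z
        · rw [hinv g z hgz]; exact hz
        · exact hG _ (by rw [aia]; exact fun e => hgz (by conv_lhs => rw [e, aia])) h1
      rw [h2, aia]
    · have hgz : g z = z := hH z hz hzx
      have h1 : h⁻¹ z ≠ x := fun e => hzb (by rw [← e, aia])
      have h2 : g (h⁻¹ z) = h⁻¹ z :=
        hH _ (by rw [aia]; exact fun e => hz (by conv_lhs => rw [e, aia])) h1
      rw [hinv g _ h2, aia, hgz]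
  rw [key]
  exact Equiv.Perm.isThreeCycle_swap_mul_swap_same (Ne.symm hhx) (Ne.symm hgx) (Ne.symm hab)



/-- Bochert's bound for primitive groups. Let a finite group G act faithfully and primitively on a finite set Ω with n elements, and suppose the image of G in the symmetric group of Ω does not contain the alternating group of Ω. Then |G| · ⌊(n + 1)/2⌋! ≤ n!, that is, the index of G in the symmetric group is at least ⌊(n + 1)/2⌋!. -/
theorem result {G Ω : Type*} [Group G] [Finite G] [MulAction G Ω] [FaithfulSMul G Ω] [Fintype Ω] [DecidableEq Ω]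
    (hprim : MulAction.IsPreprimitive G Ω) (hA : ¬ alternatingGroup Ω ≤ (MulAction.toPermHom G Ω).range) :
    Nat.card G * Nat.factorial ((Fintype.card Ω + 1) / 2) ≤ Nat.factorial (Fintype.card Ω) := by
  classical
  set R := (MulAction.toPermHom G Ω).range with hR
  have hcardR : Nat.card G = Nat.card R :=
    Nat.card_congr (MonoidHom.ofInjective (f := MulAction.toPermHom G Ω) MulAction.toPerm_injective).toEquiv
  haveI hRprim : MulAction.IsPreprimitive R Ω := by
    let f : Ω →ₑ[(MulAction.toPermHom G Ω).rangeRestrict] Ω := { toFun := id, map_smul' := fun g x => rfl }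
    haveI := hprim
    exact MulAction.IsPreprimitive.of_surjective (f := f) Function.surjective_id
  let D : Finset Ω → Prop := fun Δ => ∀ g ∈ R, g.support ⊆ Δ → g = 1
  obtain ⟨Δ, hΔ, hmax⟩ := Finset.exists_max_image (Finset.univ.filter D) Finset.card
    ⟨∅, Finset.mem_filter.mpr ⟨Finset.mem_univ _, fun g _ hg => Equiv.Perm.support_eq_empty_iff.mp (Finset.subset_empty.mp hg)⟩⟩
  have hD : D Δ := (Finset.mem_filter.mp hΔ).2
  have hk : (Fintype.card Ω + 1) / 2 ≤ Δ.card := by
    by_contra hlt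
    push Not at hlt
    have hnot : ∀ S : Finset Ω, Δ.card < S.card → ¬ D S := fun S hS hDS =>
      absurd (hmax S (Finset.mem_filter.mpr ⟨Finset.mem_univ _, hDS⟩)) (not_le.mpr hS)
    have h1 := hnot Δᶜ (by rw [Finset.card_compl]; omega)
    simp only [D] at h1
    push Not at h1
    obtain ⟨g, hgR, hgs, hg1⟩ := h1
    obtain ⟨x, hx⟩ := Finset.nonempty_iff_ne_empty.mpr (fun e => hg1 (Equiv.Perm.support_eq_empty_iff.mp e))
    have hxΔ : x ∉ Δ := Finset.mem_compl.mp (hgs hx)
    have h2 := hnot (insert x Δ) (by rw [Finset.card_insert_of_notMem hxΔ]; omega)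
    simp only [D] at h2
    push Not at h2
    obtain ⟨h, hhR, hhs, hh1⟩ := h2
    have hxh : h x ≠ x := fun e => hh1 (hD h hhR fun y hy => by
      rcases Finset.mem_insert.mp (hhs hy) with rfl | h'
      · exact absurd e (Equiv.Perm.mem_support.mp hy)
      · exact h')
    have h3 := commutator_three g h x (Equiv.Perm.mem_support.mp hx) hxh (fun z hzg hzh => by
      have a1 := Finset.mem_compl.mp (hgs (Equiv.Perm.mem_support.mpr hzg))
      rcases Finset.mem_insert.mp (hhs (Equiv.Perm.mem_support.mpr hzh)) with h' | h'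
      · exact h'
      · exact absurd h' a1)
    exact hA (Equiv.Perm.alternatingGroup_le_of_isPreprimitive_of_isThreeCycle_mem hRprim h3
      (R.mul_mem (R.mul_mem (R.mul_mem hgR hhR) (R.inv_mem hgR)) (R.inv_mem hhR)))
  let f : R × Equiv.Perm {y // y ∈ Δ} → Equiv.Perm Ω := fun p => (p.1 : Equiv.Perm Ω) * Equiv.Perm.ofSubtype p.2
  have hf : Function.Injective f := by
    rintro ⟨g, s⟩ ⟨g', s'⟩ h
    have h' : (g : Equiv.Perm Ω) * Equiv.Perm.ofSubtype s = g' * Equiv.Perm.ofSubtype s' := h
    have e : ((g'⁻¹ * g : R) : Equiv.Perm Ω) = Equiv.Perm.ofSubtype (s' * s⁻¹) := by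
      rw [Subgroup.coe_mul, Subgroup.coe_inv, map_mul, map_inv, inv_mul_eq_iff_eq_mul, eq_comm, ← mul_assoc, mul_inv_eq_iff_eq_mul]
      exact h'.symm
    have e1 : ((g'⁻¹ * g : R) : Equiv.Perm Ω) = 1 := hD _ (g'⁻¹ * g).2 fun y hy => by
      rw [e, Equiv.Perm.mem_support] at hy
      by_contra hyΔ
      exact hy (Equiv.Perm.ofSubtype_apply_of_not_mem _ hyΔ)
    have hg : g = g' := (inv_mul_eq_one.mp (Subtype.ext e1 : g'⁻¹ * g = 1)).symm
    subst hg
    exact Prod.ext rfl (Equiv.Perm.ofSubtype_injective (mul_left_cancel h'))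
  have hle := Nat.card_le_card_of_injective f hf
  rw [Nat.card_prod, Nat.card_perm, Nat.card_perm, Nat.card_eq_fintype_card (α := {y // y ∈ Δ}), Fintype.card_coe,
    Nat.card_eq_fintype_card (α := Ω)] at hle
  exact le_trans (Nat.mul_le_mul (le_of_eq hcardR) (Nat.factorial_le hk)) hle

end Cfsg.Agent.S3681
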