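import Cfsg.Statements.S3815
import Cfsg.Agent.Solv.Cores
import Cfsg.Agent.PSolv.Basic

set_option autoImplicit false
open Cfsg
open scoped commutatorElement

namespace Cfsg.Agent.S3815

/-- Let G be a finite group, p a prime and d ∈ G an element of order prime to p. If dg has order prime to p for every element g ∈ G of order prime to p, then d ∈ O_{p'}(G). -/
theorem result {G : Type*} [Group G] [Finite G] {p : ℕ} [Fact p.Prime]
    (d : G) (hd : (orderOf d).Coprime p)
    (h : ∀ g : G, (orderOf g).Coprime p → (orderOf (d * g)).Coprime p) :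
    d ∈ Cfsg.pPrimeCore p G := by
  have hp : p.Prime := Fact.out
  have hconj : ∀ a y : G, orderOf (a * y * a⁻¹) = orderOf y := fun a y => (MulAut.conj a).orderOf_eq y
  let N : Subgroup G :=
    { carrier := {x | ∀ g : G, (orderOf g).Coprime p → (orderOf (x * g)).Coprime p}
      one_mem' := fun g hg => by rw [one_mul]; exact hg
      mul_mem' := fun {x y} hx hy g hg => by rw [mul_assoc]; exact hx _ (hy g hg)
      inv_mem' := fun {x} hx g hg => by
        have hpow : ∀ n : ℕ, (orderOf (x ^ n * g)).Coprime p := by
          intro n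
          induction n with
          | zero => rw [pow_zero, one_mul]; exact hg
          | succ n ih => rw [pow_succ', mul_assoc]; exact hx _ ih
        have e : x⁻¹ = x ^ (orderOf x - 1) := inv_eq_of_mul_eq_one_right (by
          rw [← pow_succ', Nat.sub_add_cancel (orderOf_pos x), pow_orderOf_eq_one])
        rw [e]; exact hpow _ }
  haveI hN : N.Normal := ⟨fun x hx a g hg => by
    have h1 := hx (a⁻¹ * g * a) (by have := hconj a⁻¹ g; rw [inv_inv] at this; rw [this]; exact hg)
    rw [← hconj a] at h1
    rwa [show a * (x * (a⁻¹ * g * a)) * a⁻¹ = a * x * a⁻¹ * g by group] at h1⟩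
  refine Solv.le_pPrimeCore hN (PSolv.coprime_of_not_dvd fun hdvd => ?_) (show d ∈ N from h)
  obtain ⟨y, hy⟩ := exists_prime_orderOf_dvd_card' p hdvd
  have h1 := y.2 1 (by rw [orderOf_one]; exact Nat.coprime_one_left p)
  rw [mul_one, Subgroup.orderOf_coe, hy, Nat.coprime_self] at h1
  exact hp.ne_one h1

end Cfsg.Agent.S3815
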