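import Cfsg.Statements.S3820
import Mathlib

set_option autoImplicit false
set_option linter.style.haveILetI false
open Cfsg

namespace Cfsg.Agent.S3820

/-- Call a subgroup H of G pronormal if H and gHg⁻¹ are conjugate inside ⟨H, gHg⁻¹⟩ for every g ∈ G. Let S ≤ H ≤ G be subgroups of a finite group with S pronormal in G (for instance S a Sylow subgroup). Then H is pronormal in G if and only if H and gHg⁻¹ are conjugate inside ⟨H, gHg⁻¹⟩ for every g ∈ N_G(S). In particular H is pronormal whenever N_G(S) ≤ H. -/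
theorem result {G : Type*} [Group G] [Finite G] (S H : Subgroup G) (hSH : S ≤ H)
    (hS : Cfsg.IsPronormal S) :
    Cfsg.IsPronormal H ↔
      ∀ g ∈ Subgroup.normalizer (S : Set G), ∃ w ∈ H ⊔ H.map (MulAut.conj g).toMonoidHom,
        H.map (MulAut.conj g).toMonoidHom = H.map (MulAut.conj w).toMonoidHom := by
  refine ⟨fun h g _ => h g, fun h g => ?_⟩
  obtain ⟨x, hx, hxe⟩ := hS g
  have hcomp : ∀ a b : G, (H.map (MulAut.conj b).toMonoidHom).map (MulAut.conj a).toMonoidHom =
      H.map (MulAut.conj (a * b)).toMonoidHom := fun a b => by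
    rw [Subgroup.map_map]; congr 1; ext z; simp [mul_assoc]
  have hxJ : x ∈ H ⊔ H.map (MulAut.conj g).toMonoidHom := sup_le_sup hSH (Subgroup.map_mono hSH) hx
  have hn : x⁻¹ * g ∈ Subgroup.normalizer (S : Set G) := by
    rw [Subgroup.mem_normalizer_iff]
    intro s
    have e : ∀ t, t ∈ S ↔ g * t * g⁻¹ ∈ S.map (MulAut.conj g).toMonoidHom := by
      intro t
      exact (Subgroup.mem_map_iff_mem (f := (MulAut.conj g).toMonoidHom) (MulEquiv.injective (MulAut.conj g))).symm.trans (by simp)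
    rw [e s, hxe]
    constructor
    · rintro ⟨t, ht, hte⟩
      have : x⁻¹ * g * s * (x⁻¹ * g)⁻¹ = t := by
        have : x * t * x⁻¹ = g * s * g⁻¹ := by simpa using hte
        rw [show x⁻¹ * g * s * (x⁻¹ * g)⁻¹ = x⁻¹ * (g * s * g⁻¹) * x by group, ← this]; group
      rwa [this]
    · intro ht
      exact ⟨_, ht, by simp [mul_assoc]⟩
  obtain ⟨w, hw, hwe⟩ := h _ hn
  refine ⟨x * w, mul_mem hxJ ?_, ?_⟩
  · refine (?_ : H ⊔ H.map (MulAut.conj (x⁻¹ * g)).toMonoidHom ≤ _) hw
    refine sup_le le_sup_left ?_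
    rw [← hcomp]
    rintro _ ⟨z, hz, rfl⟩
    simpa using mul_mem (mul_mem (inv_mem hxJ) (Subgroup.mem_sup_right hz : z ∈ H ⊔ H.map (MulAut.conj g).toMonoidHom)) hxJ
  · rw [← hcomp, ← hwe, hcomp, mul_inv_cancel_left]

end Cfsg.Agent.S3820
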