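import Cfsg.Statements.S3821
import Mathlib

set_option autoImplicit false
set_option linter.style.haveILetI false
open Cfsg

namespace Cfsg.Agent.S3821

/-- Let A be a normal subgroup of the finite group G and H a subgroup of A. Then H is pronormal in G (H and gHg⁻¹ conjugate inside ⟨H, gHg⁻¹⟩ for every g ∈ G) if and only if H is pronormal in A and G = A · N_G(H). -/
theorem result {G : Type*} [Group G] [Finite G] (A H : Subgroup G) [A.Normal] (hHA : H ≤ A) :
    Cfsg.IsPronormal H ↔ (Cfsg.IsPronormal (H.subgroupOf A) ∧ A ⊔ Subgroup.normalizer (H : Set G) = ⊤) := by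
  have hmap : ∀ a : A, ((H.subgroupOf A).map (MulAut.conj a).toMonoidHom).map A.subtype =
      H.map (MulAut.conj (a : G)).toMonoidHom := fun a => by
    conv_rhs => rw [← Subgroup.map_subgroupOf_eq_of_le hHA]
    rw [Subgroup.map_map, Subgroup.map_map]; congr 1
  have hleA : ∀ g : G, H.map (MulAut.conj g).toMonoidHom ≤ A := fun g => by
    rintro _ ⟨z, hz, rfl⟩; simpa using (inferInstance : A.Normal).conj_mem z (hHA hz) g
  constructor
  · intro h
    refine ⟨fun a => ?_, eq_top_iff.mpr fun g _ => ?_⟩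
    · obtain ⟨x, hx, hxe⟩ := h a
      have hxA : x ∈ A := (sup_le hHA (hleA a)) hx
      refine ⟨⟨x, hxA⟩, ?_, Subgroup.map_injective A.subtype_injective (by rw [hmap, hmap]; exact hxe)⟩
      rw [← hmap a, ← Subgroup.map_subgroupOf_eq_of_le hHA, ← Subgroup.map_sup,
        Subgroup.map_subgroupOf_eq_of_le hHA] at hx
      exact (Subgroup.mem_map_iff_mem A.subtype_injective).mp hx
    · obtain ⟨x, hx, hxe⟩ := h g
      have hxA : x ∈ A := (sup_le hHA (hleA g)) hx
      rw [← mul_inv_cancel_left x g]
      refine Subgroup.mul_mem_sup hxA ?_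
      rw [Subgroup.mem_normalizer_iff]
      intro s
      have e : ∀ t, t ∈ H ↔ g * t * g⁻¹ ∈ H.map (MulAut.conj g).toMonoidHom := by
        intro t
        exact (Subgroup.mem_map_iff_mem (f := (MulAut.conj g).toMonoidHom) (MulEquiv.injective (MulAut.conj g))).symm.trans (by simp)
      rw [e s, hxe]
      constructor
      · rintro ⟨t, ht, hte⟩
        have : x⁻¹ * g * s * (x⁻¹ * g)⁻¹ = t := by
          have : x * t * x⁻¹ = g * s * g⁻¹ := by simpa using hte
          rw [show x⁻¹ * g * s * (x⁻¹ * g)⁻¹ = x⁻¹ * (g * s * g⁻¹) * x by group, ← this]; group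
        rwa [this]
      · intro ht
        exact ⟨_, ht, by simp [mul_assoc]⟩
  · rintro ⟨hA, htop⟩ g
    obtain ⟨a, ha, n, hn, rfl⟩ := Subgroup.mem_sup_of_normal_left.mp (htop.ge (Subgroup.mem_top g))
    have e : H.map (MulAut.conj (a * n)).toMonoidHom = H.map (MulAut.conj a).toMonoidHom := by
      have : H.map (MulAut.conj n).toMonoidHom = H := by
        ext z
        rw [Subgroup.mem_normalizer_iff] at hn
        constructor
        · rintro ⟨t, ht, rfl⟩; simpa using (hn t).mp ht
        · intro hz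
          refine ⟨n⁻¹ * z * n, (hn _).mpr ?_, ?_⟩
          · simpa [mul_assoc] using hz
          · simp [mul_assoc]
      conv_rhs => rw [← this, Subgroup.map_map]
      congr 1; ext z; simp [mul_assoc]
    obtain ⟨x, hx, hxe⟩ := hA ⟨a, ha⟩
    refine ⟨x, ?_, by rw [e, ← hmap ⟨a, ha⟩, hxe, hmap]⟩
    have := Subgroup.mem_map_of_mem A.subtype hx
    rwa [Subgroup.map_sup, hmap, Subgroup.map_subgroupOf_eq_of_le hHA, ← e] at this

end Cfsg.Agent.S3821
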