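import Cfsg.Statements.S3836
import Mathlib
import Cfsg.Agent.Solv.Cores

set_option autoImplicit false
set_option linter.style.haveILetI false
open Cfsg

open scoped Pointwise commutatorElement

namespace Cfsg.Agent.S3836

/-- Let G be a finite group that is p-stable in the normalizer form: for every p-subgroup Q and every x ∈ N_G(Q) with [Q, x, x] = 1, the image of x in N_G(Q)/C_G(Q) lies in O_p(N_G(Q)/C_G(Q)). Then every subgroup of G is p-stable in the same sense. -/
theorem result {G : Type*} [Group G] [Finite G] {p : ℕ} [Fact p.Prime] (hst : Cfsg.IsNormalizerPStable p G) (H : Subgroup G) : Cfsg.IsNormalizerPStable p ↥H := by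
  intro P hP g hg hcomm
  let PG : Subgroup G := P.map H.subtype
  have hNle : ∀ x : H, x ∈ Subgroup.normalizer (P : Set H) → (x : G) ∈ Subgroup.normalizer (PG : Set G) := fun x hx =>
    Subgroup.le_normalizer_map _ (Subgroup.mem_map_of_mem _ hx)
  let ι : ↥(Subgroup.normalizer (P : Set H)) →* ↥(Subgroup.normalizer (PG : Set G)) :=
    { toFun := fun x => ⟨((x : H) : G), hNle x x.2⟩
      map_one' := rfl
      map_mul' := fun _ _ => rfl }
  let K₁ := (Subgroup.centralizer (P : Set H)).subgroupOf (Subgroup.normalizer (P : Set H))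
  let K₂ := (Subgroup.centralizer (PG : Set G)).subgroupOf (Subgroup.normalizer (PG : Set G))
  have hK : ∀ x, x ∈ K₁ ↔ ι x ∈ K₂ := fun x => by
    simp only [K₁, K₂, Subgroup.mem_subgroupOf, Subgroup.mem_centralizer_iff]
    constructor
    · rintro h _ ⟨y, hy, rfl⟩; exact congrArg Subtype.val (h y hy)
    · intro h y hy; exact Subtype.ext (h y ⟨y, hy, rfl⟩)
  let φ := QuotientGroup.map K₁ K₂ ι (fun x hx => (hK x).mp hx)
  have hinj : Function.Injective φ := by
    rw [injective_iff_map_eq_one]
    intro u
    induction u using QuotientGroup.induction_on with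
    | H u =>
      intro hu
      exact (QuotientGroup.eq_one_iff u).mpr ((hK u).mpr ((QuotientGroup.eq_one_iff (ι u)).mp hu))
  have h := hst PG (hP.map _) g (hNle g hg) (by
    have : ⁅⁅P, Subgroup.zpowers g⁆, Subgroup.zpowers g⁆.map H.subtype = ⊥ := by rw [hcomm, Subgroup.map_bot]
    rwa [Subgroup.map_commutator, Subgroup.map_commutator, MonoidHom.map_zpowers] at this)
  obtain ⟨hn, hp⟩ := Solv.pCore_mem (G := ↥(Subgroup.normalizer (PG : Set G)) ⧸ K₂) p
  refine Solv.le_pCore (hn.comap φ) ?_ (show φ _ ∈ pCore p _ from h)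
  exact hp.comap_of_injective φ hinj

end Cfsg.Agent.S3836
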