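import Cfsg.Statements.S3838
import Cfsg.Agent.Transfer.Frattini

set_option autoImplicit false
open Cfsg
open Cfsg.Agent.Transfer

namespace Cfsg.Agent.S3838

/-- Let G be a finite group with Sylow p-subgroup P such that N_G(P) has a normal p-complement. Then N_G(Q) has a normal p-complement for every subgroup Q with [P, P] ≤ Q ≤ Φ(P). -/
theorem result {G : Type*} [Group G] [Finite G] {p : ℕ} [Fact p.Prime] (P : Sylow p G) (hN : Cfsg.HasNormalPComplement p ↥(Subgroup.normalizer ((P : Subgroup G) : Set G))) (Q : Subgroup G) (h1 : (commutator ↥(P : Subgroup G)).map (P : Subgroup G).subtype ≤ Q) (h2 : Q ≤ (frattini ↥(P : Subgroup G)).map (P : Subgroup G).subtype) : Cfsg.HasNormalPComplement p ↥(Subgroup.normalizer (Q : Set G)) := by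
  open scoped commutatorElement in
  set M := Subgroup.normalizer (Q : Set G) with hM
  have hQP : Q ≤ (P : Subgroup G) := h2.trans (Subgroup.map_subtype_le _)
  have hc : ∀ a ∈ (P : Subgroup G), ∀ b ∈ (P : Subgroup G), a * b * a⁻¹ * b⁻¹ ∈ Q := by
    intro a ha b hb
    refine h1 ⟨⁅(⟨a, ha⟩ : (P : Subgroup G)), ⟨b, hb⟩⁆,
      Subgroup.commutator_mem_commutator (Subgroup.mem_top _) (Subgroup.mem_top _), ?_⟩
    simp [commutatorElement_def]
  have hPM : (P : Subgroup G) ≤ M := by
    have key : ∀ a ∈ (P : Subgroup G), ∀ b ∈ Q, a * b * a⁻¹ ∈ Q := fun a ha b hb => by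
      simpa using mul_mem (hc a ha b (hQP hb)) hb
    intro a ha
    refine Subgroup.mem_normalizer_iff.mpr fun b => ⟨fun hb => key a ha b hb, fun hb => ?_⟩
    simpa [mul_assoc] using key a⁻¹ (inv_mem ha) _ hb
  let PM : Sylow p M := P.subtype hPM
  let QM : Subgroup M := Q.subgroupOf M
  haveI : QM.Normal := Subgroup.normal_in_normalizer
  have hQMP : QM ≤ (PM : Subgroup M) := fun x hx => Subgroup.mem_subgroupOf.mpr
    (hQP (Subgroup.mem_subgroupOf.mp hx))
  refine hasNPC_of_quotient_frattini PM QM hQMP ?_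
    (hasNPC_quotient_of_normalizer PM QM hQMP ?_ ?_)
  · intro x hx
    obtain ⟨y, hy, hye⟩ := h2 (Subgroup.mem_subgroupOf.mp hx)
    let e : (PM : Subgroup M) ≃* (P : Subgroup G) := Subgroup.subgroupOfEquivOfLe hPM
    refine ⟨e.symm y, ?_, ?_⟩
    · change e.symm y ∈ frattini ↥(PM : Subgroup M)
      rw [frattini, Order.radical, ← SetLike.mem_coe]
      simp only [Subgroup.coe_iInf, Set.mem_iInter, SetLike.mem_coe]
      intro K hK
      have hK' : IsCoatom (K.map e.toMonoidHom) :=
        (OrderIso.isCoatom_iff (MulEquiv.mapSubgroup e) K).mpr hK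
      obtain ⟨z, hz, hze⟩ := frattini_le_coatom hK' hy
      rwa [← hze, MulEquiv.coe_toMonoidHom, MulEquiv.symm_apply_apply]
    · exact Subtype.ext hye
  · intro a ha b hb
    exact Subgroup.mem_subgroupOf.mpr (hc _ (Subgroup.mem_subgroupOf.mp ha) _
      (Subgroup.mem_subgroupOf.mp hb))
  · let f : ↥(Subgroup.normalizer ((PM : Subgroup M) : Set M)) →*
        ↥(Subgroup.normalizer ((P : Subgroup G) : Set G)) :=
      (M.subtype.comp (Subgroup.subtype _)).codRestrict _ fun x => by
        refine Subgroup.mem_normalizer_iff.mpr fun b => ?_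
        constructor
        · intro hb
          exact Subgroup.mem_subgroupOf.mp
            ((Subgroup.mem_normalizer_iff.mp x.2 ⟨b, hPM hb⟩).mp (Subgroup.mem_subgroupOf.mpr hb))
        · intro hb
          have h := (Subgroup.mem_normalizer_iff.mp (inv_mem x.2) ⟨_, hPM hb⟩).mp
            (Subgroup.mem_subgroupOf.mpr hb)
          simpa [mul_assoc] using Subgroup.mem_subgroupOf.mp h
    refine hasNPC_of_injective f ?_ hN
    intro x y hxy
    apply Subtype.ext; apply Subtype.ext
    exact (congrArg Subtype.val hxy : _)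

end Cfsg.Agent.S3838
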