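import Cfsg.Statements.S3861
import Cfsg.Agent.Transfer.RealOdd

set_option autoImplicit false
open Cfsg


namespace Cfsg.Agent.S3861

/-- A finite group G has no non-identity element of odd order that is conjugate to its inverse if and only if the Sylow 2-subgroups of G are normal. -/
theorem result {G : Type*} [Group G] [Finite G] (P : Sylow 2 G) : (∀ x : G, x ≠ 1 → Odd (orderOf x) → ¬ IsConj x x⁻¹) ↔ (P : Subgroup G).Normal := by
  refine ⟨fun h => Cfsg.Agent.RealOdd.sylow_normal_of_no_real P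
    fun x hx ho g hg => h x hx ho (isConj_iff.mpr ⟨g, hg⟩), fun hP x hx ho hc => ?_⟩
  haveI := hP
  obtain ⟨g, hg⟩ := isConj_iff.mp hc
  have hQodd : Odd (Nat.card (G ⧸ (P : Subgroup G))) :=
    Nat.odd_iff.mpr (Nat.two_dvd_ne_zero.mp P.not_dvd_index)
  set u : G ⧸ (P : Subgroup G) := (x : G ⧸ (P : Subgroup G)) with hu
  set v : G ⧸ (P : Subgroup G) := (g : G ⧸ (P : Subgroup G)) with hv
  have h1 : v * u * v⁻¹ = u⁻¹ := congrArg (QuotientGroup.mk' (P : Subgroup G)) hg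
  have h2 : ∀ n : ℕ, v ^ (2 * n) * u * (v ^ (2 * n))⁻¹ = u := by
    intro n
    induction n with
    | zero => simp
    | succ n ih =>
      calc v ^ (2 * (n + 1)) * u * (v ^ (2 * (n + 1)))⁻¹
          = v * (v * (v ^ (2 * n) * u * (v ^ (2 * n))⁻¹) * v⁻¹) * v⁻¹ := by
            rw [show 2 * (n + 1) = 1 + 1 + 2 * n by ring, pow_add, pow_add, pow_one]; group
        _ = v * u⁻¹ * v⁻¹ := by rw [ih, h1]
        _ = (v * u * v⁻¹)⁻¹ := by group
        _ = u := by rw [h1, inv_inv]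
  obtain ⟨m, hm⟩ := hQodd
  have h3 := h2 (m + 1)
  rw [show 2 * (m + 1) = (2 * m + 1) + 1 by ring, pow_succ, ← hm, pow_card_eq_one', one_mul,
    h1] at h3
  have h4 : orderOf u ∣ 2 := orderOf_dvd_of_pow_eq_one (by
    rw [pow_two]; nth_rewrite 1 [← h3]; exact inv_mul_cancel u)
  have h5 : orderOf u = 1 := Nat.eq_one_of_dvd_coprimes (b := Nat.card (G ⧸ (P : Subgroup G)))
    (Nat.coprime_two_left.mpr ⟨m, hm⟩) h4 (orderOf_dvd_natCard u)
  have hxP : x ∈ (P : Subgroup G) := (QuotientGroup.eq_one_iff x).mp (orderOf_eq_one_iff.mp h5)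
  obtain ⟨k, hk⟩ := IsPGroup.iff_orderOf.mp P.isPGroup' ⟨x, hxP⟩
  rw [← Subgroup.orderOf_coe] at hk
  exact hx (orderOf_eq_one_iff.mp (Nat.eq_one_of_dvd_coprimes (a := 2 ^ k) (b := orderOf x)
    ((Nat.coprime_two_left.mpr ho).pow_left k) (dvd_of_eq hk) dvd_rfl))

end Cfsg.Agent.S3861
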