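import Cfsg.Statements.S3862
import Cfsg.Agent.Transfer.OmegaFour

set_option autoImplicit false
open Cfsg
open Cfsg.Agent.Transfer

namespace Cfsg.Agent.S3862

/-- If every 2-element of the finite group G that is conjugate to its inverse lies in the centre of G, then G has a normal 2-complement. -/
theorem result {G : Type*} [Group G] [Finite G] (h : ∀ x : G, (∃ j : ℕ, orderOf x = 2 ^ j) → IsConj x x⁻¹ → x ∈ Subgroup.center G) : Cfsg.HasNormalPComplement 2 G := by
  haveI : Fact (Nat.Prime 2) := ⟨Nat.prime_two⟩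
  refine hasNPC_of_frobCond (frobCond_of_sylow (Classical.arbitrary (Sylow 2 G))
    fun Q hQP g hg hgc => ?_)
  refine mem_centralizer_of_smallReal hgc Q ((Classical.arbitrary (Sylow 2 G)).isPGroup'.to_le hQP)
    hg fun a ha hs => ?_
  have hc : a ∈ Subgroup.center G := by
    rcases hs with h1 | ⟨-, h4, hr⟩
    · obtain ⟨i, -, hi⟩ := (Nat.dvd_prime_pow Nat.prime_two).mp
        (show orderOf a ∣ 2 ^ 1 from orderOf_dvd_of_pow_eq_one (by simpa using h1))
      exact h a ⟨i, hi⟩ (by rw [inv_eq_of_mul_eq_one_right (by rw [← sq]; exact h1)])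
    · obtain ⟨i, -, hi⟩ := (Nat.dvd_prime_pow Nat.prime_two).mp
        (show orderOf a ∣ 2 ^ 2 from orderOf_dvd_of_pow_eq_one (by simpa using h4))
      exact h a ⟨i, hi⟩ hr
  exact (Subgroup.mem_center_iff.mp hc g).symm

end Cfsg.Agent.S3862
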