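import Cfsg.Statements.S3863
import Cfsg.Agent.Transfer.RealBasic

set_option autoImplicit false
open Cfsg
open scoped commutatorElement


namespace Cfsg.Agent.S3863

/-- Let x be an element of the finite group G that is conjugate to its inverse. Then some 2-element conjugates x to its inverse; if the conjugacy class of x has odd size then x ^ 2 = 1; and x lies in, and is conjugate to its inverse inside, every normal subgroup of odd index. -/
theorem result {G : Type*} [Group G] [Finite G] (x : G) (hx : IsConj x x⁻¹) : (∃ t : G, (∃ j : ℕ, orderOf t = 2 ^ j) ∧ t * x * t⁻¹ = x⁻¹) ∧ (Odd (Subgroup.centralizer ({x} : Set G)).index → x ^ 2 = 1) ∧ ∀ (N : Subgroup G) [N.Normal], Odd N.index → ∃ hxN : x ∈ N, IsConj (⟨x, hxN⟩ : N) (⟨x, hxN⟩ : N)⁻¹ := by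
  refine ⟨Cfsg.Agent.RealBasic.exists_two_inverter hx,
    fun h => Cfsg.Agent.RealBasic.sq_eq_one_of_odd_class hx h, fun N _ hN => ?_⟩
  obtain ⟨t, ht, htx⟩ := Cfsg.Agent.RealBasic.exists_two_inverter hx
  exact ⟨Cfsg.Agent.RealBasic.mem_of_odd_index hx N hN,
    isConj_iff.mpr ⟨⟨t, Cfsg.Agent.RealBasic.two_elem_mem N hN ht⟩, Subtype.ext htx⟩⟩

end Cfsg.Agent.S3863
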