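import Cfsg.Statements.S3866
import Mathlib

set_option autoImplicit false
set_option linter.style.haveILetI false
open Cfsg

open scoped Pointwise commutatorElement

namespace Cfsg.Agent.S3866

/-- Let A be a commutative normal subgroup of the finite group G with G generated by A and an element x. Then a ↦ x a x⁻¹ a⁻¹ is a surjective homomorphism from A onto the commutator subgroup of G whose kernel is the centralizer of x in A; in particular the commutator subgroup has order equal to the index in A of that centralizer. -/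
theorem result {G : Type*} [Group G] [Finite G] (A : Subgroup G) [A.Normal] (hA : IsMulCommutative A) (x : G) (hgen : A ⊔ Subgroup.zpowers x = ⊤) : (∀ a ∈ A, x * a * x⁻¹ * a⁻¹ ∈ commutator G) ∧ (∀ c ∈ commutator G, ∃ a ∈ A, x * a * x⁻¹ * a⁻¹ = c) ∧ (∀ a ∈ A, ∀ b ∈ A, x * (a * b) * x⁻¹ * (a * b)⁻¹ = (x * a * x⁻¹ * a⁻¹) * (x * b * x⁻¹ * b⁻¹)) ∧ Nat.card (commutator G) * Nat.card ↥(A ⊓ Subgroup.centralizer ({x} : Set G)) = Nat.card A := by
  have hab : ∀ a ∈ A, ∀ b ∈ A, a * b = b * a := fun a ha b hb => congrArg Subtype.val (mul_comm' (⟨a, ha⟩ : A) ⟨b, hb⟩)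
  have hAn : A.Normal := inferInstance
  let f : A →* G :=
    { toFun := fun a => x * a * x⁻¹ * (a : G)⁻¹
      map_one' := by simp
      map_mul' := fun a b => by
        simp only [Subgroup.coe_mul, mul_inv_rev]
        have h1 := hab _ (inv_mem a.2) _ (mul_mem (hAn.conj_mem _ b.2 x) (inv_mem b.2))
        calc x * ((a : G) * b) * x⁻¹ * ((b : G)⁻¹ * (a : G)⁻¹) = x * a * x⁻¹ * ((x * b * x⁻¹ * (b : G)⁻¹) * (a : G)⁻¹) := by group
          _ = x * a * x⁻¹ * ((a : G)⁻¹ * (x * b * x⁻¹ * (b : G)⁻¹)) := by rw [← h1]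
          _ = x * a * x⁻¹ * (a : G)⁻¹ * (x * b * x⁻¹ * (b : G)⁻¹) := by group }
  have hin : ∀ a ∈ A, x * a * x⁻¹ * a⁻¹ ∈ commutator G := fun a _ => by
    rw [← commutatorElement_def]
    exact Subgroup.commutator_mem_commutator (Subgroup.mem_top x) (Subgroup.mem_top a)
  have hrange : f.range = commutator G := by
    refine le_antisymm (by rintro _ ⟨a, rfl⟩; exact hin a a.2) ?_
    have hfA : f.range ≤ A := by rintro _ ⟨a, rfl⟩; exact mul_mem (hAn.conj_mem _ a.2 x) (inv_mem a.2)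
    haveI : f.range.Normal := by
      rw [← Subgroup.normalizer_eq_top_iff, eq_top_iff, ← hgen, sup_le_iff, Subgroup.zpowers_le]
      refine ⟨fun w hw => Subgroup.centralizer_le_normalizer _ (Subgroup.mem_centralizer_iff.mpr fun b hb => hab b (hfA hb) w hw), ?_⟩
      rw [Subgroup.mem_normalizer_iff]
      intro c
      constructor
      · rintro ⟨a, rfl⟩
        exact ⟨⟨x * a * x⁻¹, hAn.conj_mem _ a.2 x⟩, by simp [f, mul_assoc]⟩
      · rintro ⟨a, ha⟩
        refine ⟨⟨x⁻¹ * a * x, by simpa using hAn.conj_mem _ a.2 x⁻¹⟩, ?_⟩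
        show x * (x⁻¹ * a * x) * x⁻¹ * (x⁻¹ * a * x)⁻¹ = c
        have : x * (a : G) * x⁻¹ * (a : G)⁻¹ = x * c * x⁻¹ := ha
        rw [show c = x⁻¹ * (x * c * x⁻¹) * x by group, ← this]; group
    have hgen' : ∀ y : G, y ∈ A ⊔ Subgroup.zpowers x := fun y => hgen ▸ Subgroup.mem_top y
    have hx : ∀ a : A, QuotientGroup.mk' f.range x * QuotientGroup.mk' f.range a = QuotientGroup.mk' f.range a * QuotientGroup.mk' f.range x := fun a => by
      rw [← commutatorElement_eq_one_iff_mul_comm, ← map_commutatorElement, commutatorElement_def]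
      exact (QuotientGroup.eq_one_iff _).mpr ⟨a, rfl⟩
    rw [commutator_def, Subgroup.commutator_le]
    intro a _ b _
    rw [← QuotientGroup.eq_one_iff]
    show QuotientGroup.mk' f.range ⁅a, b⁆ = 1
    rw [map_commutatorElement, commutatorElement_eq_one_iff_mul_comm]
    have hS : ∀ u ∈ (QuotientGroup.mk' f.range) '' ((A : Set G) ∪ {x}), ∀ v ∈ (QuotientGroup.mk' f.range) '' ((A : Set G) ∪ {x}), u * v = v * u := by
      rintro _ ⟨u, hu | rfl, rfl⟩ _ ⟨v, hv | rfl, rfl⟩
      · rw [← map_mul, hab u hu v hv, map_mul]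
      · exact (hx ⟨u, hu⟩).symm
      · exact hx ⟨v, hv⟩
      · rfl
    haveI := Subgroup.isMulCommutative_closure hS
    have hall : ∀ y, QuotientGroup.mk' f.range y ∈ Subgroup.closure ((QuotientGroup.mk' f.range) '' ((A : Set G) ∪ {x})) := fun y => by
      rw [← MonoidHom.map_closure, Subgroup.closure_union, Subgroup.closure_eq, ← Subgroup.zpowers_eq_closure]
      exact Subgroup.mem_map_of_mem _ (hgen' y)
    exact congrArg Subtype.val (mul_comm' (⟨_, hall a⟩ : Subgroup.closure ((QuotientGroup.mk' f.range) '' ((A : Set G) ∪ {x}))) ⟨_, hall b⟩)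
  refine ⟨hin, fun c hc => ?_, fun a ha b hb => map_mul f ⟨a, ha⟩ ⟨b, hb⟩, ?_⟩
  · obtain ⟨a, rfl⟩ := hrange.ge hc
    exact ⟨a, a.2, rfl⟩
  · have hker : Nat.card f.ker = Nat.card ↥(A ⊓ Subgroup.centralizer ({x} : Set G)) := by
      have e : (A ⊓ Subgroup.centralizer ({x} : Set G)).subgroupOf A = f.ker := by
        ext a
        rw [Subgroup.mem_subgroupOf, Subgroup.mem_inf, Subgroup.mem_centralizer_singleton_iff]
        show (a : G) ∈ A ∧ _ ↔ x * a * x⁻¹ * (a : G)⁻¹ = 1
        rw [mul_inv_eq_one, mul_inv_eq_iff_eq_mul]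
        exact ⟨fun h => h.2.symm, fun h => ⟨a.2, h.symm⟩⟩
      rw [← e, Nat.card_congr (Subgroup.subgroupOfEquivOfLe inf_le_left).toEquiv]
    rw [← hrange, ← hker, ← Subgroup.index_ker, Subgroup.index_mul_card]

end Cfsg.Agent.S3866
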