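import Cfsg.Statements.S3917
import Mathlib
import Cfsg.Agent.Solv.AbelianAction

set_option autoImplicit false
set_option linter.style.haveILetI false
open Cfsg

open scoped Pointwise

namespace Cfsg.Agent.S3917

/-- Say that a group has self-centralizing non-cyclic subgroups when every non-cyclic subgroup H satisfies C_G(H) ≤ H. A finite abelian group with self-centralizing non-cyclic subgroups is cyclic or elementary abelian of order p² for a prime p. -/
theorem result {G : Type*} [CommGroup G] [Finite G] (hX : (∀ H : Subgroup G, ¬ IsCyclic ↥H → Subgroup.centralizer (H : Set G) ≤ H)) :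
    IsCyclic G ∨ ∃ p : ℕ, p.Prime ∧ Nat.card G = p ^ 2 ∧ Monoid.exponent G = p := by
  by_cases hc : IsCyclic G
  · exact Or.inl hc
  right
  obtain ⟨p, hp, hcard⟩ := Solv.exists_prime_torsion_of_not_cyclic hc
  haveI := Fact.mk hp
  have hall : ∀ H : Subgroup G, (∀ z ∈ H, z ^ p = 1) → p ^ 2 ≤ Nat.card H → H = ⊤ := by
    intro H hH hHc
    have hnc : ¬ IsCyclic ↥H := by
      intro hcy
      obtain ⟨c, hc'⟩ := isCyclic_iff_exists_zpowers_eq_top.mp hcy
      rw [← Subgroup.card_top (G := H), ← hc', Nat.card_zpowers] at hHc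
      have h1 := Nat.le_of_dvd hp.pos (orderOf_dvd_of_pow_eq_one (Subtype.ext (hH c c.2) : c ^ p = 1))
      have := hp.two_le
      nlinarith
    exact eq_top_iff.mpr fun z _ => hX H hnc (Subgroup.mem_centralizer_iff.mpr fun y _ => mul_comm y z)
  have hK := hall _ (fun z hz => hz) hcard
  have hexp : ∀ z : G, z ^ p = 1 := fun z => (hK.ge (Subgroup.mem_top z) : z ∈ (powMonoidHom p : G →* G).ker)
  have hpG : IsPGroup p G := fun z => ⟨1, by rw [pow_one]; exact hexp z⟩
  obtain ⟨k, hk⟩ := hpG.exists_card_eq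
  have hk2 : 2 ≤ k := by
    rw [← Subgroup.card_top (G := G), ← hK] at hk
    exact (Nat.pow_le_pow_iff_right hp.one_lt).mp (hk ▸ hcard)
  obtain ⟨H, hH⟩ := Sylow.exists_subgroup_card_pow_prime (G := G) p (n := 2) (hk ▸ Nat.pow_dvd_pow p hk2)
  have hHt := hall H (fun z _ => hexp z) hH.ge
  rw [hHt, Subgroup.card_top] at hH
  refine ⟨p, hp, hH, ?_⟩
  rcases (Nat.dvd_prime hp).mp (Monoid.exponent_dvd_of_forall_pow_eq_one hexp) with h | h
  · exfalso
    haveI := Monoid.exp_eq_one_iff.mp h
    rw [Nat.card_eq_one_iff_unique.mpr ⟨inferInstance, inferInstance⟩] at hH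
    have := hp.two_le
    nlinarith
  · exact h

end Cfsg.Agent.S3917
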