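import Cfsg.Statements.S3939
import Cfsg.Agent.Solv.Nilpotent

set_option autoImplicit false
set_option linter.style.haveILetI false
open Cfsg

namespace Cfsg.Agent.S3939

/-- In a finite group G the set of elements g such that the subgroup generated by g and x is nilpotent for every x ∈ G is exactly the hypercenter of G (the last term of the upper central series). -/
theorem result {G : Type*} [Group G] [Finite G] (g : G) :
    (∀ x : G, Group.IsNilpotent ↥(Subgroup.closure ({x, g} : Set G))) ↔ g ∈ ⨆ n : ℕ, Subgroup.upperCentralSeries G n := by
  obtain ⟨k, hk, hk1⟩ := Solv.exists_hypercentre_index (G := G)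
  rw [hk]
  exact ⟨fun h => Solv.mem_hypercentre_of_pair_nilpotent h hk1,
    fun hg x => Solv.isNilpotent_closure_pair_of_hypercentre hg x⟩

end Cfsg.Agent.S3939
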