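import Cfsg.Statements.S4013
import Mathlib

set_option autoImplicit false
set_option linter.style.haveILetI false
open Cfsg

open scoped Pointwise commutatorElement

namespace Cfsg.Agent.S4013

/-- Let G be a finite p-group (p prime) and N < M normal subgroups of G such that for some g ∈ M ∖ N the conjugacy class of g is exactly M ∖ N. Then p = 2 and N has index 2 in M. -/
theorem result {G : Type*} [Group G] [Finite G] (p : ℕ) [Fact p.Prime] (hG : IsPGroup p G) (N M : Subgroup G) [N.Normal] [M.Normal] (hNM : N < M) (g : G) (hgM : g ∈ M) (hgN : g ∉ N) (hcl : {h : G | IsConj g h} = (M : Set G) \ (N : Set G)) : p = 2 ∧ N.relIndex M = 2 := by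
  have hp : p.Prime := Fact.out
  obtain ⟨k, hk⟩ := (hG.index (Subgroup.centralizer ({g} : Set G)))
  have hcard : Nat.card {h : G | IsConj g h} = p ^ k := by
    have h1 : {h : G | IsConj g h} = MulAction.orbit (ConjAct G) g := by
      ext h; rw [ConjAct.mem_orbit_conjAct]; exact isConj_comm
    have h2 := Nat.card_congr (MulAction.orbitEquivQuotientStabilizer (ConjAct G) g)
    rw [h1, h2, ← hk]
    show (MulAction.stabilizer (ConjAct G) g).index = _
    rw [ConjAct.stabilizer_eq_centralizer]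
    rfl
  rw [hcl, Nat.card_coe_set_eq, Set.ncard_sdiff (SetLike.coe_subset_coe.mpr hNM.le), ← Nat.card_coe_set_eq, ← Nat.card_coe_set_eq] at hcard
  obtain ⟨a, ha⟩ := (hG.to_subgroup N).exists_card_eq
  obtain ⟨b, hb⟩ := (hG.to_subgroup M).exists_card_eq
  have hcard' : Nat.card M - Nat.card N = p ^ k := hcard
  rw [ha, hb] at hcard'
  have hr := Subgroup.relIndex_mul_relIndex ⊥ N M bot_le hNM.le
  rw [Subgroup.relIndex_bot_left, Subgroup.relIndex_bot_left, ha, hb] at hr
  have hab : a < b := (Nat.pow_lt_pow_iff_right hp.one_lt).mp (by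
    rw [← ha, ← hb]
    exact Set.ncard_lt_ncard (SetLike.coe_ssubset_coe.mpr hNM))
  obtain ⟨d, rfl⟩ : ∃ d, b = a + (d + 1) := ⟨b - a - 1, by omega⟩
  rw [pow_add] at hcard' hr
  have hrel : N.relIndex M = p ^ (d + 1) := Nat.eq_of_mul_eq_mul_left (pow_pos hp.pos a) hr
  have hdvd : p ^ (d + 1) - 1 ∣ p ^ k := ⟨p ^ a, by rw [← hcard', Nat.sub_mul, one_mul, mul_comm]⟩
  obtain ⟨i, -, hi⟩ := (Nat.dvd_prime_pow hp).mp hdvd
  rcases Nat.eq_zero_or_pos i with rfl | hi0
  · have h2 : p ^ (d + 1) = 2 := by have := Nat.one_le_pow (d + 1) p hp.pos; rw [pow_zero] at hi; omega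
    have hpd : p ∣ 2 := h2 ▸ dvd_pow_self p (Nat.succ_ne_zero d)
    exact ⟨(Nat.prime_dvd_prime_iff_eq hp Nat.prime_two).mp hpd, hrel.trans h2⟩
  · exfalso
    have h1 : p ∣ p ^ (d + 1) - 1 := hi ▸ dvd_pow_self p hi0.ne'
    have h2 : p ∣ 1 := by
      have := Nat.dvd_sub (dvd_pow_self p (Nat.succ_ne_zero d)) h1
      rwa [show p ^ (d + 1) - (p ^ (d + 1) - 1) = 1 by have := Nat.one_le_pow (d + 1) p hp.pos; omega] at this
    exact hp.one_lt.ne' (Nat.dvd_one.mp h2)

end Cfsg.Agent.S4013
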