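import Cfsg.Statements.S4027
import Cfsg.Agent.Transfer.RealOdd

set_option autoImplicit false
open Cfsg


namespace Cfsg.Agent.S4027

/-- Let G be a finite group in which every element x of odd order satisfies N_G(⟨x⟩) = C_G(x). Then the Sylow 2-subgroups of G are normal. -/
theorem result {G : Type*} [Group G] [Finite G]
    (hirr : ∀ x : G, (∀ r : ℕ, r.Prime → r ∣ orderOf x → r ≠ 2) →
      Subgroup.normalizer ((Subgroup.zpowers x : Subgroup G) : Set G) ≤ Subgroup.centralizer {x}) (P : Sylow 2 G) :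
    (P : Subgroup G).Normal := by
  refine Cfsg.Agent.RealOdd.sylow_normal_of_no_real P fun x hx ho g hg => ?_
  have hgN : g ∈ Subgroup.normalizer ((Subgroup.zpowers x : Subgroup G) : Set G) := by
    refine Subgroup.mem_normalizer_iff.mpr fun u => ⟨fun hu => ?_, fun hu => ?_⟩
    · obtain ⟨i, rfl⟩ := Subgroup.mem_zpowers_iff.mp hu
      rw [← conj_zpow, hg]; exact zpow_mem (inv_mem (Subgroup.mem_zpowers x)) i
    · obtain ⟨i, hi⟩ := Subgroup.mem_zpowers_iff.mp hu
      refine Subgroup.mem_zpowers_iff.mpr ⟨-i, ?_⟩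
      apply (MulAut.conj g).injective
      rw [MulAut.conj_apply, MulAut.conj_apply, ← conj_zpow, hg, inv_zpow, zpow_neg, inv_inv, hi]
  have h1 := Subgroup.mem_centralizer_singleton_iff.mp (hirr x (fun r _ hrd e => by
    exact (Nat.not_even_iff_odd.mpr ho) (even_iff_two_dvd.mpr (e ▸ hrd))) hgN)
  rw [h1, mul_inv_cancel_right] at hg
  have : orderOf x ∣ 2 := orderOf_dvd_of_pow_eq_one (by
    rw [pow_two]; nth_rewrite 2 [hg]; exact mul_inv_cancel x)
  exact hx (orderOf_eq_one_iff.mp (Nat.eq_one_of_dvd_coprimes (Nat.coprime_two_left.mpr ho) this dvd_rfl))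

end Cfsg.Agent.S4027
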