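import Cfsg.Statements.S4028
import Mathlib

set_option autoImplicit false
set_option linter.style.haveILetI false
open Cfsg

open scoped Pointwise

namespace Cfsg.Agent.S4028

/-- Let G be a finite group with Sylow 2-subgroup P. Then N_G(⟨x⟩) = C_G(x) holds for every 2-element x of G if and only if N_P(⟨y⟩) = C_P(y) holds for every y ∈ P (computed inside P). -/
theorem result {G : Type*} [Group G] [Finite G] (P : Sylow 2 G) :
    (∀ x : G, (∀ r : ℕ, r.Prime → r ∣ orderOf x → r = 2) →
      Subgroup.normalizer ((Subgroup.zpowers x : Subgroup G) : Set G) ≤ Subgroup.centralizer {x}) ↔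
    (∀ y : ↥(P : Subgroup G), Subgroup.normalizer ((Subgroup.zpowers y : Subgroup ↥(P : Subgroup G)) : Set ↥(P : Subgroup G)) ≤
        Subgroup.centralizer {y}) := by
  constructor
  · intro h y g hg
    obtain ⟨k, hk⟩ := P.isPGroup' y
    have h2 : ∀ r : ℕ, r.Prime → r ∣ orderOf (y : G) → r = 2 := fun r hr hrd =>
      (Nat.prime_dvd_prime_iff_eq hr Nat.prime_two).mp (hr.dvd_of_dvd_pow (hrd.trans (orderOf_dvd_of_pow_eq_one (congrArg Subtype.val hk))))
    have hg' := Subgroup.le_normalizer_map (P : Subgroup G).subtype (Subgroup.mem_map_of_mem (P : Subgroup G).subtype hg)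
    rw [MonoidHom.map_zpowers] at hg'
    exact Subgroup.mem_centralizer_singleton_iff.mpr (Subtype.ext (Subgroup.mem_centralizer_singleton_iff.mp (h _ h2 hg')))
  · intro h x hx g hg
    have hxp : IsPGroup 2 (Subgroup.zpowers x) := IsPGroup.of_card (n := (orderOf x).primeFactorsList.length) (by
      rw [Nat.card_zpowers]
      exact Nat.eq_prime_pow_of_unique_prime_dvd (orderOf_pos x).ne' fun {d} hd hdd => hx d hd hdd)
    let X := Subgroup.zpowers x
    let N := Subgroup.normalizer (X : Set G)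
    by_contra hgc
    let C := (Subgroup.centralizer ({x} : Set G)).subgroupOf N
    -- the subgroup `X` together with a 2-element moving `x`
    obtain ⟨t, ht, htp, htc⟩ : ∃ t, t ∈ N ∧ (∃ k, t ^ 2 ^ k = 1) ∧ t ∉ Subgroup.centralizer ({x} : Set G) := by
      let φ : N →* MulAut X := Subgroup.normalizerMonoidHom X
      obtain ⟨e, m, hm, he⟩ := Nat.exists_eq_pow_mul_and_not_dvd (orderOf_pos g).ne' 2 (by decide)
      refine ⟨g ^ m, N.pow_mem hg m, ⟨e, by rw [← pow_mul, mul_comm, ← he, pow_orderOf_eq_one]⟩, fun hc => hgc ?_⟩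
      have hker : ∀ u : N, φ u = 1 ↔ (u : G) ∈ Subgroup.centralizer ({x} : Set G) := fun u => by
        constructor
        · intro hu
          have := congrArg (fun f : MulAut X => ((f ⟨x, Subgroup.mem_zpowers x⟩ : X) : G)) hu
          exact Subgroup.mem_centralizer_singleton_iff.mpr (mul_inv_eq_iff_eq_mul.mp this)
        · intro hu
          ext ⟨z, hz⟩
          obtain ⟨i, rfl⟩ := Subgroup.mem_zpowers_iff.mp hz
          exact mul_inv_eq_iff_eq_mul.mpr ((Commute.zpow_right (Subgroup.mem_centralizer_singleton_iff.mp hu : Commute (u : G) x) i).eq)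
      have h1 : φ ⟨g, hg⟩ ^ m = 1 := by rw [← map_pow]; exact (hker _).mpr hc
      obtain ⟨k, hk⟩ := hxp.exists_card_eq
      haveI : IsCyclic X := inferInstance
      have hcardA : Nat.card (MulAut X) ∣ 2 ^ k := by
        rw [IsCyclic.card_mulAut, hk]
        rcases Nat.eq_zero_or_pos k with rfl | hk0
        · simp
        · rw [Nat.totient_prime_pow Nat.prime_two hk0]
          exact Dvd.dvd.trans (by simp) (pow_dvd_pow 2 (Nat.sub_le k 1))
      have h2 : orderOf (φ ⟨g, hg⟩) = 1 := Nat.eq_one_of_dvd_coprimes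
        ((Nat.prime_two.coprime_iff_not_dvd.mpr hm).pow_left k)
        ((orderOf_dvd_natCard _).trans hcardA) (orderOf_dvd_of_pow_eq_one h1)
      exact (hker _).mp (orderOf_eq_one_iff.mp h2)
    obtain ⟨k, hk⟩ := htp
    have htp' : IsPGroup 2 (Subgroup.zpowers t) := by
      rintro ⟨z, hz⟩
      obtain ⟨i, rfl⟩ := Subgroup.mem_zpowers_iff.mp hz
      refine ⟨k, Subtype.ext ?_⟩
      show (t ^ i) ^ 2 ^ k = 1
      rw [← zpow_natCast, ← zpow_mul, mul_comm, zpow_mul, zpow_natCast, hk, one_zpow]
    haveI : Fact (Nat.Prime 2) := ⟨Nat.prime_two⟩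
    obtain ⟨R, hR⟩ := (htp'.to_sup_of_normal_right' hxp (Subgroup.zpowers_le.mpr ht)).exists_le_sylow
    obtain ⟨c, hc⟩ := MulAction.exists_smul_eq G R P
    have hmem : ∀ z ∈ (R : Subgroup G), c * z * c⁻¹ ∈ (P : Subgroup G) := fun z hz => by
      rw [← hc, Sylow.coe_subgroup_smul]
      exact Subgroup.smul_mem_pointwise_smul z (MulAut.conj c) _ hz
    have hxR : x ∈ (R : Subgroup G) := hR (Subgroup.mem_sup_right (Subgroup.mem_zpowers x))
    have htR : t ∈ (R : Subgroup G) := hR (Subgroup.mem_sup_left (Subgroup.mem_zpowers t))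
    have hnorm : (⟨_, hmem t htR⟩ : (P : Subgroup G)) ∈ Subgroup.normalizer ((Subgroup.zpowers (⟨_, hmem x hxR⟩ : (P : Subgroup G)) : Subgroup _) : Set _) := by
      have h1 : c * t * c⁻¹ ∈ Subgroup.normalizer ((Subgroup.zpowers (c * x * c⁻¹) : Subgroup G) : Set G) := by
        have := Subgroup.le_normalizer_map (MulAut.conj c).toMonoidHom (Subgroup.mem_map_of_mem (MulAut.conj c).toMonoidHom ht)
        rw [MonoidHom.map_zpowers] at this
        exact this
      rw [Subgroup.mem_normalizer_iff] at h1 ⊢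
      intro z
      have e : ∀ w : (P : Subgroup G), w ∈ Subgroup.zpowers (⟨_, hmem x hxR⟩ : (P : Subgroup G)) ↔ (w : G) ∈ Subgroup.zpowers (c * x * c⁻¹) := fun w => by
        rw [← Subgroup.mem_map_iff_mem (P : Subgroup G).subtype_injective, MonoidHom.map_zpowers]; rfl
      rw [e, e]
      exact h1 z
    have h3 := congrArg Subtype.val (Subgroup.mem_centralizer_singleton_iff.mp (h _ hnorm))
    apply htc
    rw [Subgroup.mem_centralizer_singleton_iff]
    exact mul_left_cancel (mul_right_cancel (show c * (t * x) * c⁻¹ = c * (x * t) * c⁻¹ by simpa [mul_assoc] using h3))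

end Cfsg.Agent.S4028
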