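import Cfsg.Statements.S4034
import Cfsg.Agent.Solv.PRegular

set_option autoImplicit false
set_option linter.style.haveILetI false
open Cfsg

namespace Cfsg.Agent.S4034

/-- Let G be a finite group and p a prime. Every conjugacy class of p-regular elements of G (elements of order prime to p) has p-power size if and only if G has an abelian p-complement, i.e. an abelian subgroup of order prime to p and p-power index. -/
theorem result {G : Type*} [Group G] [Finite G] {p : ℕ} (hp : p.Prime) :
    (∀ x : G, (orderOf x).Coprime p → ∃ k : ℕ, (ConjClasses.mk x).carrier.ncard = p ^ k) ↔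
    (∃ H : Subgroup G, IsMulCommutative H ∧ ¬ p ∣ Nat.card H ∧ ∃ k : ℕ, H.index = p ^ k) := by
  haveI := Fact.mk hp
  constructor
  · intro h
    refine Solv.exists_abelian_complement fun x hx => ?_
    obtain ⟨k, hk⟩ := h x hx
    exact ⟨k, dvd_of_eq ((Solv.carrier_ncard x).symm.trans hk)⟩
  · rintro ⟨H, hc, hH, k, hk⟩ x hx
    obtain ⟨e, he⟩ := Solv.pRegularSmall_of_complement hc hH hk x hx
    obtain ⟨j, -, hj⟩ := (Nat.dvd_prime_pow hp).mp he
    exact ⟨j, (Solv.carrier_ncard x).trans hj⟩

end Cfsg.Agent.S4034
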