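import Cfsg.Statements.S4035
import Cfsg.Agent.Transfer.Regular
import Cfsg.Agent.Solv.PRegular

set_option autoImplicit false
open Cfsg
open Cfsg.Agent.Transfer

namespace Cfsg.Agent.S4035

/-- Let G be a finite group and p a prime such that p divides the size of no conjugacy class of p-regular elements (elements of order prime to p). Then G is the internal direct product of a Sylow p-subgroup P and a normal subgroup H of order prime to p: P is normal, P ⊓ H = 1 and PH = G. -/
theorem result {G : Type*} [Group G] [Finite G] {p : ℕ} [Fact p.Prime]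
    (h : ∀ x : G, (orderOf x).Coprime p → ¬ p ∣ (ConjClasses.mk x).carrier.ncard) (P : Sylow p G) :
    (P : Subgroup G).Normal ∧ ∃ H : Subgroup G, H.Normal ∧ ¬ p ∣ Nat.card H ∧
      (P : Subgroup G) ⊓ H = ⊥ ∧ (P : Subgroup G) ⊔ H = ⊤ := by
  obtain ⟨hN, hC⟩ := sylow_normal_of_regular (fun x hx => by
    rw [← Cfsg.Agent.Solv.carrier_ncard]; exact h x hx) P
  haveI := hN
  obtain ⟨H, hH, hc, hi⟩ := hasNPC_iff.mp (hasNPC_of_regular P hC)
  have hcomp := isComplement'_sylow hc hi P
  exact ⟨hN, H, hH, hc, hcomp.symm.disjoint.eq_bot, hcomp.symm.sup_eq_top⟩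

end Cfsg.Agent.S4035
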