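import Cfsg.Statements.S4036
import Mathlib

set_option autoImplicit false
set_option linter.style.haveILetI false
open Cfsg

open scoped Pointwise commutatorElement

namespace Cfsg.Agent.S4036

/-- Let P be a finite abelian p-group and K a group of automorphisms of P (a subgroup of Aut P) whose order is divisible by p. If all non-identity elements of K have the same fixed-point subgroup on P, then K has no non-trivial normal subgroup of order prime to p. -/
theorem result {P : Type*} [CommGroup P] [Finite P] {p : ℕ}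
    [Fact p.Prime] (hP : IsPGroup p P) (K : Subgroup (MulAut P)) (hK : p ∣ Nat.card K)
    (hfix : ∀ x y : MulAut P, x ∈ K → y ∈ K → x ≠ 1 → y ≠ 1 → ∀ v : P, x v = v ↔ y v = v) :
    ∀ N : Subgroup ↥K, N.Normal → ¬ p ∣ Nat.card N → N = ⊥ := by
  intro N hN hNp
  have hp : p.Prime := Fact.out
  by_contra hne
  obtain ⟨n, hn, hn1⟩ := N.bot_or_exists_ne_one.resolve_left hne
  obtain ⟨k, hk⟩ := exists_prime_orderOf_dvd_card' p hK
  have hk1 : k ≠ 1 := fun h => hp.one_lt.ne' (by rw [← hk, h, orderOf_one])
  haveI := Fintype.ofFinite N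
  haveI := hN
  let T : Subgroup P :=
    { carrier := {v | ∏ a : N, ((a : K) : MulAut P) v = 1}
      one_mem' := by simp
      mul_mem' := fun {a b} ha hb => by
        simp only [Set.mem_setOf_eq] at ha hb ⊢
        simp only [map_mul]
        rw [Finset.prod_mul_distrib, ha, hb, one_mul]
      inv_mem' := fun {a} ha => by
        simp only [Set.mem_setOf_eq] at ha ⊢
        simp only [map_inv]
        rw [Finset.prod_inv_distrib, ha, inv_one] }
  have hTinv : ∀ c : K, ∀ v ∈ T, (c : MulAut P) v ∈ T := by
    intro c v hv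
    show ∏ a : N, ((a : K) : MulAut P) ((c : MulAut P) v) = 1
    let e : N ≃ N := (MulAut.conjNormal c⁻¹).toEquiv
    rw [← map_one (c : MulAut P), ← (show ∏ a : N, ((a : K) : MulAut P) v = 1 from hv), map_prod]
    refine Fintype.prod_equiv e _ _ fun a => ?_
    have he : ((e a : N) : K) = c⁻¹ * a * c := by simp [e, MulAut.conjNormal_apply]
    rw [he, ← MulAut.mul_apply, ← MulAut.mul_apply, ← Subgroup.coe_mul, ← Subgroup.coe_mul]
    congr 2
    group
  have hsum : ∀ (b : N) (v : P), ∏ a : N, ((a : K) : MulAut P) (((b : K) : MulAut P) v) = ∏ a : N, ((a : K) : MulAut P) v := by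
    intro b v
    refine Fintype.prod_equiv (Equiv.mulRight b) _ _ fun a => ?_
    simp [MulAut.mul_apply]
  have hTbot : T = ⊥ := by
    by_contra hT
    letI : MulAction (Subgroup.zpowers k) T :=
      { smul := fun c v => ⟨((c : K) : MulAut P) v, hTinv c v v.2⟩
        one_smul := fun v => Subtype.ext (by rfl)
        mul_smul := fun a b v => Subtype.ext (by rfl) }
    have hkp : IsPGroup p (Subgroup.zpowers k) := IsPGroup.of_card (n := 1) (by rw [Nat.card_zpowers, hk, pow_one])
    obtain ⟨j, hj⟩ := (hP.to_subgroup T).exists_card_eq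
    have hdvd : p ∣ Nat.card T := by
      rw [hj]
      refine dvd_pow_self p fun h => ?_
      rw [h, pow_zero, Subgroup.card_eq_one] at hj
      exact hT hj
    obtain ⟨v, hv, hv1⟩ := hkp.exists_fixed_point_of_prime_dvd_card_of_fixed_point T hdvd
      (a := 1) (fun c => Subtype.ext (map_one ((c : K) : MulAut P)))
    have hkv : (k : MulAut P) v = v := congrArg Subtype.val (hv ⟨k, Subgroup.mem_zpowers k⟩)
    have hall : ∀ a : N, ((a : K) : MulAut P) v = v := by
      intro a
      by_cases ha : a = 1
      · subst ha; rfl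
      · exact (hfix _ _ k.2 (a : K).2 (fun h => hk1 (Subtype.ext h)) (fun h => ha (Subtype.ext (Subtype.ext h))) v).mp hkv
    have hvT : ∏ a : N, ((a : K) : MulAut P) (v : P) = 1 := v.2
    simp only [hall, Finset.prod_const, Finset.card_univ] at hvT
    obtain ⟨i, hi⟩ := hP (v : P)
    have h1 : orderOf (v : P) ∣ Fintype.card N := orderOf_dvd_of_pow_eq_one hvT
    rw [← Nat.card_eq_fintype_card] at h1
    have h2 : orderOf (v : P) ∣ p ^ i := orderOf_dvd_of_pow_eq_one hi
    have h3 := Nat.eq_one_of_dvd_coprimes (((hp.coprime_iff_not_dvd).mpr hNp).symm.pow_right i) h1 h2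
    exact hv1 (Subtype.ext (orderOf_eq_one_iff.mp h3).symm)
  apply hn1
  apply Subtype.ext
  ext v
  have hmem : (n : MulAut P) v * v⁻¹ ∈ T := by
    show ∏ a : N, ((a : K) : MulAut P) ((n : MulAut P) v * v⁻¹) = 1
    simp only [map_mul, map_inv]
    rw [Finset.prod_mul_distrib, Finset.prod_inv_distrib, hsum ⟨n, hn⟩ v, mul_inv_cancel]
  rw [hTbot, Subgroup.mem_bot] at hmem
  exact mul_inv_eq_one.mp hmem

end Cfsg.Agent.S4036
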