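import Cfsg.Statements.S4043
import Cfsg.Agent.Transfer.Basic
import Cfsg.Agent.Solv.SchurZassenhaus

set_option autoImplicit false
open Cfsg
open Cfsg.Agent.Transfer

namespace Cfsg.Agent.S4043

/-- Let G be a finite group that is the semidirect product of a normal p-subgroup N by a subgroup A, and also of N by a subgroup A₁, where p is a prime and A and A₁ both have normal p-complements. If C_N(A) = C_N(A₁) = 1, then A₁ is conjugate to A by an element of N. -/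
theorem result {G : Type*} [Group G] [Finite G] {p : ℕ}
    [Fact p.Prime] (N : Subgroup G) [N.Normal] (hN : IsPGroup p N) (A A₁ : Subgroup G)
    (hA : A.IsComplement' N) (hA₁ : A₁.IsComplement' N)
    (hAp : Cfsg.HasNormalPComplement p A) (hA₁p : Cfsg.HasNormalPComplement p A₁)
    (hC : ∀ n : G, n ∈ N → (∀ a : G, a ∈ A → a * n * a⁻¹ = n) → n = 1)
    (hC₁ : ∀ n : G, n ∈ N → (∀ a : G, a ∈ A₁ → a * n * a⁻¹ = n) → n = 1) :
    ∃ n : G, n ∈ N ∧ A₁ = A.map (MulAut.conj n).toMonoidHom := by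
  open scoped Pointwise in
  obtain ⟨K, hKn, hKc, k, hKi⟩ := hasNPC_iff.mp hAp
  obtain ⟨K₁, hK₁n, hK₁c, k₁, hK₁i⟩ := hasNPC_iff.mp hA₁p
  obtain ⟨s, hs⟩ := IsPGroup.iff_card.mp hN
  have hmapc : ∀ (B : Subgroup G) (L : Subgroup B), Nat.card (L.map B.subtype) = Nat.card L :=
    fun B L => (Nat.card_congr (L.equivMapOfInjective _ B.subtype_injective).toEquiv).symm
  -- `K N` is normal
  have hnorm : ∀ (B : Subgroup G), B.IsComplement' N → ∀ L : Subgroup B, L.Normal →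
      (L.map B.subtype ⊔ N).Normal := by
    intro B hB L hL
    rw [← Subgroup.normalizer_eq_top_iff, eq_top_iff, ← hB.sup_eq_top, sup_le_iff]
    refine ⟨fun b hb => ?_, le_sup_right.trans Subgroup.le_normalizer⟩
    have hmap : ∀ c ∈ B, ∀ x ∈ L.map B.subtype ⊔ N, c * x * c⁻¹ ∈ L.map B.subtype ⊔ N := by
      intro c hc x hx
      obtain ⟨_, ⟨l, hl, rfl⟩, n, hn, rfl⟩ := Subgroup.mem_sup_of_normal_right.mp hx
      rw [show c * ((B.subtype l) * n) * c⁻¹ = (c * B.subtype l * c⁻¹) * (c * n * c⁻¹) by group]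
      exact Subgroup.mul_mem_sup ⟨(⟨c, hc⟩ : B) * l * (⟨c, hc⟩ : B)⁻¹, hL.conj_mem l hl _, rfl⟩
        (Subgroup.Normal.conj_mem ‹N.Normal› n hn c)
    exact Subgroup.mem_normalizer_iff.mpr fun x => ⟨hmap b hb x, fun hx => by
      simpa [mul_assoc] using hmap b⁻¹ (inv_mem hb) _ hx⟩
  set Kg := K.map A.subtype with hKg
  set Kg₁ := K₁.map A₁.subtype with hKg₁
  haveI hM : (Kg ⊔ N).Normal := hnorm A hA K hKn
  haveI hM₁ : (Kg₁ ⊔ N).Normal := hnorm A₁ hA₁ K₁ hK₁n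
  -- the two preimages agree
  have hle : ∀ (B C : Subgroup G) (L : Subgroup B) (L' : Subgroup C) (m : ℕ), B.IsComplement' N →
      C.IsComplement' N → (L'.map C.subtype ⊔ N).Normal → L'.index = p ^ m →
      ¬ p ∣ Nat.card L → L.map B.subtype ≤ L'.map C.subtype ⊔ N := by
    intro B C L L' m hB hC hn hi hc
    set M := L'.map C.subtype ⊔ N with hMdef
    have hidx : M.index ∣ p ^ (m + s) := by
      refine (Subgroup.index_dvd_of_le (le_sup_left : L'.map C.subtype ≤ M)).trans ?_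
      rw [Subgroup.index_map_subtype, hi, hC.symm.index_eq_card, hs, pow_add]
    rintro _ ⟨l, hl, rfl⟩
    obtain ⟨i, -, hi'⟩ := (Nat.dvd_prime_pow Fact.out).mp hidx
    have h1 : orderOf (QuotientGroup.mk' M (B.subtype l)) ∣ Nat.card L :=
      (orderOf_map_dvd _ _).trans ((dvd_of_eq (Subgroup.orderOf_coe l)).trans (L.orderOf_dvd_natCard hl))
    have h2 : orderOf (QuotientGroup.mk' M (B.subtype l)) ∣ p ^ i := hi' ▸ orderOf_dvd_natCard _
    exact (QuotientGroup.eq_one_iff _).mp (orderOf_eq_one_iff.mp (Nat.eq_one_of_dvd_coprimes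
      (((Fact.out : p.Prime).coprime_iff_not_dvd.mpr hc).symm.pow_right i) h1 h2))
  set M := Kg ⊔ N with hMdef
  have hMeq : Kg₁ ⊔ N = M :=
    le_antisymm (sup_le (hle A₁ A K₁ K k hA₁ hA inferInstance hKi hK₁c) le_sup_right)
      (sup_le (hle A A₁ K K₁ k₁ hA hA₁ inferInstance hK₁i hKc) le_sup_right)
  -- conjugate the complements in `M`
  have hKgc : Nat.Coprime (Nat.card Kg) (Nat.card N) := by
    rw [hKg, hmapc, hs]; exact ((Fact.out : p.Prime).coprime_iff_not_dvd.mpr hKc).symm.pow_right s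
  have hKg₁c : Nat.Coprime (Nat.card Kg₁) (Nat.card N) := by
    rw [hKg₁, hmapc, hs]; exact ((Fact.out : p.Prime).coprime_iff_not_dvd.mpr hK₁c).symm.pow_right s
  have hN' : Nat.card (N.subgroupOf M) = Nat.card N :=
    Nat.card_congr (Subgroup.subgroupOfEquivOfLe le_sup_right).toEquiv
  have hsup : ∀ L : Subgroup G, L ≤ M → L ⊔ N = M → L.subgroupOf M ⊔ N.subgroupOf M = ⊤ := by
    intro L hL he
    refine Subgroup.map_injective M.subtype_injective ?_
    rw [Subgroup.map_sup, Subgroup.map_subgroupOf_eq_of_le hL,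
      Subgroup.map_subgroupOf_eq_of_le le_sup_right, he, ← MonoidHom.range_eq_map,
      Subgroup.range_subtype]
  have hK1M : Kg₁ ≤ M := hMeq ▸ le_sup_left
  have hcop : (Nat.card (N.subgroupOf M)).Coprime (N.subgroupOf M).index := by
    have hcmp : Subgroup.IsComplement' (N.subgroupOf M) (Kg.subgroupOf M) :=
      Solv.isComplement'_of_coprime_sup (hsup Kg le_sup_left rfl) (by
        rw [hN', Nat.card_congr (Subgroup.subgroupOfEquivOfLe le_sup_left).toEquiv]; exact hKgc)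
    rw [hcmp.symm.index_eq_card, hN', Nat.card_congr (Subgroup.subgroupOfEquivOfLe le_sup_left).toEquiv]
    exact hKgc.symm
  have hsolv : Group.IsSolvable (N.subgroupOf M) := by
    haveI := (hN.comap_subtype (K := M)).isNilpotent
    exact inferInstanceAs (Group.IsSolvable (N.comap M.subtype))
  obtain ⟨n, hn, hne⟩ := Solv.sz_conj (N.subgroupOf M) hcop (Or.inl hsolv)
    (hsup Kg le_sup_left rfl)
    (by rw [hN', Nat.card_congr (Subgroup.subgroupOfEquivOfLe le_sup_left).toEquiv]; exact hKgc)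
    (hsup Kg₁ hK1M hMeq)
    (by rw [hN', Nat.card_congr (Subgroup.subgroupOfEquivOfLe hK1M).toEquiv]; exact hKg₁c)
  have hnN : (n : G) ∈ N := hn
  have hconj : MulAut.conj (n : G) • Kg = Kg₁ := Solv.conj_of_conj_subgroupOf le_sup_left hK1M hne
  refine ⟨n, hnN, ?_⟩
  -- `C_N(K) = 1`
  have hCK : ∀ w ∈ N, w ∈ Subgroup.centralizer (Kg₁ : Set G) → w = 1 := by
    set C := N ⊓ Subgroup.centralizer (Kg₁ : Set G) with hC'
    intro w hw hwc
    have hCn : ∀ a ∈ A₁, ∀ c ∈ C, a * c * a⁻¹ ∈ C := by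
      rintro a ha c ⟨hc, hcc⟩
      refine ⟨Subgroup.Normal.conj_mem ‹N.Normal› c hc a, Subgroup.mem_centralizer_iff.mpr ?_⟩
      rintro _ ⟨l, hl, rfl⟩
      have hl' : a⁻¹ * (A₁.subtype l) * a ∈ Kg₁ :=
        ⟨(⟨a, ha⟩ : A₁)⁻¹ * l * ⟨a, ha⟩, by simpa using hK₁n.conj_mem l hl (⟨a, ha⟩ : A₁)⁻¹, rfl⟩
      have := Subgroup.mem_centralizer_iff.mp hcc _ hl'
      calc A₁.subtype l * (a * c * a⁻¹) = a * (a⁻¹ * A₁.subtype l * a * c) * a⁻¹ := by group
        _ = a * c * a⁻¹ * A₁.subtype l := by rw [this]; group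
    let act : MulAction A₁ C :=
      { smul := fun a c => ⟨(a : G) * c * (a : G)⁻¹, hCn a a.2 c c.2⟩
        one_smul := fun c => Subtype.ext (show (1 : G) * c * 1⁻¹ = c by simp)
        mul_smul := fun a b c => Subtype.ext
          (show ((a : G) * b) * c * ((a : G) * b)⁻¹ = a * (b * c * (b : G)⁻¹) * (a : G)⁻¹ by group) }
    letI := act
    let φ : A₁ →* Equiv.Perm C := MulAction.toPermHom A₁ C
    have hP : IsPGroup p φ.range := by
      haveI := hK₁n
      have hker : K₁ ≤ φ.ker := fun l hl => MonoidHom.mem_ker.mpr (Equiv.ext fun c => Subtype.ext (by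
        change (l : G) * c * (l : G)⁻¹ = c
        rw [Subgroup.mem_centralizer_iff.mp c.2.2 l ⟨l, hl, rfl⟩, mul_inv_cancel_right]))
      obtain ⟨i, -, hi⟩ := (Nat.dvd_prime_pow (Fact.out : p.Prime)).mp
        ((Subgroup.index_ker φ) ▸ hK₁i ▸ Subgroup.index_dvd_of_le hker)
      exact IsPGroup.of_card hi
    have hone : (⟨1, one_mem _⟩ : C) ∈ MulAction.fixedPoints φ.range C := by
      rintro ⟨_, a, rfl⟩
      exact Subtype.ext (show (a : G) * 1 * (a : G)⁻¹ = 1 by group)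
    by_cases hb : C = ⊥
    · exact Subgroup.mem_bot.mp (hb ▸ (⟨hw, hwc⟩ : w ∈ C))
    obtain ⟨i, hi⟩ := IsPGroup.iff_card.mp (hN.to_le (inf_le_left : C ≤ N))
    have hpd : p ∣ Nat.card C := by
      rcases i with _ | i
      · exact absurd (Subgroup.eq_bot_of_card_eq C (hi.trans (pow_zero p))) hb
      · exact hi ▸ dvd_pow_self p (Nat.succ_ne_zero i)
    obtain ⟨c, hc, hc1⟩ := hP.exists_fixed_point_of_prime_dvd_card_of_fixed_point C hpd hone
    refine absurd (hC₁ c c.2.1 fun a ha => ?_) (fun e => hc1 (Subtype.ext e.symm))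
    exact congrArg Subtype.val (hc ⟨φ ⟨a, ha⟩, ⟨⟨a, ha⟩, rfl⟩⟩)
  -- normalizers
  have hA1N : A₁ ≤ Subgroup.normalizer (Kg₁ : Set G) := by
    intro a ha
    have key : ∀ b ∈ A₁, ∀ x ∈ Kg₁, b * x * b⁻¹ ∈ Kg₁ := by
      rintro b hb _ ⟨l, hl, rfl⟩
      exact ⟨(⟨b, hb⟩ : A₁) * l * (⟨b, hb⟩ : A₁)⁻¹, hK₁n.conj_mem l hl _, rfl⟩
    exact Subgroup.mem_normalizer_iff.mpr fun x => ⟨key a ha x, fun hx => by
      simpa [mul_assoc] using key a⁻¹ (inv_mem ha) _ hx⟩
  have hA'N : A.map (MulAut.conj (n : G)).toMonoidHom ≤ Subgroup.normalizer (Kg₁ : Set G) := by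
    rintro _ ⟨a, ha, rfl⟩
    have key : ∀ b ∈ A, ∀ x ∈ Kg₁, ((n : G) * b * (n : G)⁻¹) * x * ((n : G) * b * (n : G)⁻¹)⁻¹ ∈ Kg₁ := by
      intro b hb x hx
      rw [← hconj, Solv.mem_conj_smul] at hx ⊢
      obtain ⟨l, hl, hle'⟩ := hx
      refine ⟨(⟨b, hb⟩ : A) * l * (⟨b, hb⟩ : A)⁻¹, hKn.conj_mem l hl _, ?_⟩
      simp only [Subgroup.coe_subtype, Subgroup.coe_mul, InvMemClass.coe_inv] at hle' ⊢
      rw [hle']; group
    refine Subgroup.mem_normalizer_iff.mpr fun x => ⟨key a ha x, fun hx => ?_⟩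
    have h1 := key a⁻¹ (inv_mem ha) _ hx
    have e : (n : G) * a⁻¹ * (n : G)⁻¹ * ((MulAut.conj (n : G)).toMonoidHom a * x *
        ((MulAut.conj (n : G)).toMonoidHom a)⁻¹) * ((n : G) * a⁻¹ * (n : G)⁻¹)⁻¹ = x := by
      simp only [MulEquiv.coe_toMonoidHom, MulAut.conj_apply]; group
    rwa [e] at h1
  refine Subgroup.eq_of_le_of_card_ge ?_ ?_
  · intro a₁ ha₁
    obtain ⟨⟨⟨a, ha⟩, ⟨w, hw⟩⟩, e⟩ := hA.2 ((n : G)⁻¹ * a₁ * n)
    have hb : (n : G) * a * (n : G)⁻¹ ∈ A.map (MulAut.conj (n : G)).toMonoidHom := ⟨a, ha, rfl⟩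
    have he : a₁ = ((n : G) * a * (n : G)⁻¹) * ((n : G) * w * (n : G)⁻¹) := by
      change a * w = (n : G)⁻¹ * a₁ * n at e
      rw [show (n : G) * a * (n : G)⁻¹ * ((n : G) * w * (n : G)⁻¹) = n * (a * w) * (n : G)⁻¹ by group, e]
      group
    set u := (n : G) * w * (n : G)⁻¹ with hu
    have huN : u ∈ N := Subgroup.Normal.conj_mem ‹N.Normal› w hw n
    have hunorm : u ∈ Subgroup.normalizer (Kg₁ : Set G) := by
      rw [show u = ((n : G) * a * (n : G)⁻¹)⁻¹ * a₁ by rw [he]; group]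
      exact mul_mem (inv_mem (hA'N hb)) (hA1N ha₁)
    have hdisj : Kg₁ ⊓ N = ⊥ := (Subgroup.disjoint_of_coprime_natCard hKg₁c).eq_bot
    have hu1 : u = 1 := by
      refine hCK u huN (Subgroup.mem_centralizer_iff.mpr fun l hl => ?_)
      have h1 : u * l * u⁻¹ * l⁻¹ ∈ Kg₁ ⊓ N := by
        refine ⟨Subgroup.mul_mem _ ((Subgroup.mem_normalizer_iff.mp hunorm l).mp hl) (Subgroup.inv_mem _ hl), ?_⟩
        rw [show u * l * u⁻¹ * l⁻¹ = u * (l * u⁻¹ * l⁻¹) by group]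
        exact mul_mem huN (Subgroup.Normal.conj_mem ‹N.Normal› _ (inv_mem huN) l)
      rw [hdisj, Subgroup.mem_bot, mul_inv_eq_one] at h1
      exact (mul_inv_eq_iff_eq_mul.mp h1).symm
    rw [he, hu1, mul_one]
    exact hb
  · rw [← Nat.card_congr (A.equivMapOfInjective _ (MulAut.conj (n : G)).injective).toEquiv,
      ← hA.index_eq_card, ← hA₁.index_eq_card]

end Cfsg.Agent.S4043
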