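import Cfsg.Statements.S4049
import Cfsg.Agent.Transfer.RealOdd

set_option autoImplicit false
open Cfsg


namespace Cfsg.Agent.S4049

/-- Let G be a finite group such that N_G(H)/C_G(H) has odd order for every nontrivial subgroup H of odd order. Then the Sylow 2-subgroups of G are normal. -/
theorem result {G : Type*} [Group G] [Finite G]
    (hhom : ∀ H : Subgroup G, H ≠ ⊥ → ¬ 2 ∣ Nat.card ↥H →
        ¬ 2 ∣ (Subgroup.centralizer (H : Set G)).relIndex (Subgroup.normalizer (H : Set G))) (P : Sylow 2 G) :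
    (P : Subgroup G).Normal := by
  refine Cfsg.Agent.RealOdd.sylow_normal_of_no_real P fun x hx ho g hg => ?_
  set H := Subgroup.zpowers x with hH
  have hodd : ¬ 2 ∣ Nat.card H := by
    rw [Nat.card_zpowers]; exact Nat.two_dvd_ne_zero.mpr (Nat.odd_iff.mp ho)
  apply hhom H (by simpa [hH] using hx) hodd
  have hgN : g ∈ Subgroup.normalizer (H : Set G) := by
    refine Subgroup.mem_normalizer_iff.mpr fun u => ⟨fun hu => ?_, fun hu => ?_⟩
    · obtain ⟨i, rfl⟩ := Subgroup.mem_zpowers_iff.mp hu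
      rw [← conj_zpow, hg]; exact zpow_mem (inv_mem (Subgroup.mem_zpowers x)) i
    · obtain ⟨i, hi⟩ := Subgroup.mem_zpowers_iff.mp hu
      refine Subgroup.mem_zpowers_iff.mpr ⟨-i, ?_⟩
      apply (MulAut.conj g).injective
      rw [MulAut.conj_apply, MulAut.conj_apply, ← conj_zpow, hg, inv_zpow, zpow_neg, inv_inv, hi]
  set N := Subgroup.normalizer (H : Set G) with hN
  set C := (Subgroup.centralizer (H : Set G)).subgroupOf N with hC
  haveI : C.Normal := by
    refine ⟨fun c hc n => Subgroup.mem_subgroupOf.mpr (Subgroup.mem_centralizer_iff.mpr fun u hu => ?_)⟩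
    have hu' : (n : G)⁻¹ * u * (n : G) ∈ H := by
      simpa using (Subgroup.mem_normalizer_iff.mp (inv_mem n.2) u).mp hu
    have h1 := Subgroup.mem_centralizer_iff.mp (Subgroup.mem_subgroupOf.mp hc) _ hu'
    simp only [Subgroup.coe_mul, Subgroup.coe_inv]
    calc u * ((n : G) * c * (n : G)⁻¹) = (n : G) * ((n : G)⁻¹ * u * n * c) * (n : G)⁻¹ := by group
      _ = (n : G) * c * (n : G)⁻¹ * u := by rw [h1]; group
  have hne : ((⟨g, hgN⟩ : N) : N ⧸ C) ≠ 1 := by
    rw [Ne, QuotientGroup.eq_one_iff]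
    intro hgC
    have h1 := Subgroup.mem_centralizer_iff.mp (Subgroup.mem_subgroupOf.mp hgC) x (Subgroup.mem_zpowers x)
    rw [Subgroup.coe_mk] at h1
    have h2 : x = x⁻¹ := by rw [← hg, ← h1, mul_inv_cancel_right]
    have : orderOf x ∣ 2 := orderOf_dvd_of_pow_eq_one (by
      rw [pow_two]; nth_rewrite 2 [h2]; exact mul_inv_cancel x)
    exact hx (orderOf_eq_one_iff.mp (Nat.eq_one_of_dvd_coprimes (Nat.coprime_two_left.mpr ho) this dvd_rfl))
  have hsq : ((⟨g, hgN⟩ : N) : N ⧸ C) ^ 2 = 1 := by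
    rw [← QuotientGroup.mk_pow, QuotientGroup.eq_one_iff, Subgroup.mem_subgroupOf]
    refine Subgroup.mem_centralizer_iff.mpr fun u hu => ?_
    obtain ⟨i, rfl⟩ := Subgroup.mem_zpowers_iff.mp hu
    have h1 : g * g * x * (g * g)⁻¹ = x := by
      calc g * g * x * (g * g)⁻¹ = g * (g * x * g⁻¹) * g⁻¹ := by group
        _ = g * x⁻¹ * g⁻¹ := by rw [hg]
        _ = (g * x * g⁻¹)⁻¹ := conj_inv.symm
        _ = x := by rw [hg, inv_inv]
    rw [Subgroup.coe_pow, pow_two]
    calc x ^ i * (g * g) = (g * g * x * (g * g)⁻¹) ^ i * (g * g) := by rw [h1]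
      _ = g * g * x ^ i := by rw [conj_zpow, inv_mul_cancel_right]
  exact (orderOf_eq_prime hsq hne) ▸ orderOf_dvd_natCard _

end Cfsg.Agent.S4049
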