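import Cfsg.Statements.S4056
import Mathlib
import Cfsg.Agent.S0013

set_option autoImplicit false
set_option linter.style.haveILetI false
open Cfsg

namespace Cfsg.Agent.S4056

/-- In a finite 2-group of nilpotency class at most 2 and exponent dividing 4, the Frattini subgroup lies in the centre and is elementary abelian. -/
theorem result {P : Type*} [Group P] [Finite P] (hP : IsPGroup 2 P)
    (hcl : Group.nilpotencyClass P ≤ 2) (hexp : Monoid.exponent P ∣ 4) :
    frattini P ≤ Subgroup.center P ∧ Cfsg.IsElementaryAbelian 2 (frattini P) := by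
  haveI := hP.isNilpotent
  have htop : Subgroup.upperCentralSeries P 2 = ⊤ := by
    rw [eq_top_iff, ← Subgroup.upperCentralSeries_nilpotencyClass (G := P)]
    exact Subgroup.upperCentralSeries_mono P hcl
  have hcz : ∀ a b : P, a * b * a⁻¹ * b⁻¹ ∈ Subgroup.center P := by
    intro a b
    have h : a ∈ Subgroup.upperCentralSeries P 2 := htop ▸ Subgroup.mem_top a
    have h2 := (Subgroup.mem_upperCentralSeries_succ_iff.mp h) b
    rw [Subgroup.upperCentralSeries_one] at h2
    simpa [commutatorElement_def] using h2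
  have h4 : ∀ x : P, x ^ 4 = 1 := fun x =>
    orderOf_dvd_iff_pow_eq_one.mp ((Monoid.order_dvd_exponent x).trans hexp)
  have hsq : ∀ x : P, x ^ 2 ∈ Subgroup.center P ∧ (x ^ 2) ^ 2 = 1 := by
    intro x
    refine ⟨Subgroup.mem_center_iff.mpr fun y => ?_, by rw [← pow_mul]; exact h4 x⟩
    obtain ⟨d, hd⟩ : ∃ d, d = y * x * y⁻¹ * x⁻¹ := ⟨_, rfl⟩
    have hdz := Subgroup.mem_center_iff.mp (hd ▸ hcz y x)
    have hyx : y * x = d * (x * y) := by rw [hd]; group
    have hn : ∀ n : ℕ, y ^ n * x = d ^ n * (x * y ^ n) := by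
      intro n
      induction n with
      | zero => simp
      | succ n ih =>
        calc y ^ (n + 1) * x = y ^ n * (y * x) := by rw [pow_succ, mul_assoc]
          _ = y ^ n * d * (x * y) := by rw [hyx, mul_assoc]
          _ = d * (y ^ n * x) * y := by rw [hdz (y ^ n)]; group
          _ = d ^ (n + 1) * (x * y ^ (n + 1)) := by
            rw [ih, pow_succ' d, pow_succ y]; simp only [mul_assoc]
    have hd4 : d ^ 4 = 1 := by
      have := hn 4
      rw [h4 y, one_mul, mul_one] at this
      exact mul_eq_right.mp this.symm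
    have hy2 : y ^ 2 * x ^ 2 = x ^ 2 * y ^ 2 := by
      calc y ^ 2 * x ^ 2 = d ^ 2 * (x * y ^ 2) * x := by rw [pow_two x, ← mul_assoc, hn 2]
        _ = d ^ 2 * x * (y ^ 2 * x) := by simp only [mul_assoc]
        _ = d ^ 2 * x * (d ^ 2 * (x * y ^ 2)) := by rw [hn 2]
        _ = d ^ 2 * (d ^ 2) * (x * (x * y ^ 2)) := by
          have : x * d ^ 2 = d ^ 2 * x := (Commute.pow_right (hdz x : Commute x d) 2).eq
          simp only [mul_assoc]
          rw [← mul_assoc x (d ^ 2), this, mul_assoc]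
        _ = x ^ 2 * y ^ 2 := by rw [← pow_add, hd4, one_mul, pow_two x, mul_assoc]
    have hxy : (x * y) ^ 2 = d * (x ^ 2 * y ^ 2) := by
      calc (x * y) ^ 2 = x * (y * x) * y := by rw [pow_two]; simp only [mul_assoc]
        _ = x * d * (x * y) * y := by rw [hyx]; simp only [mul_assoc]
        _ = d * (x ^ 2 * y ^ 2) := by rw [hdz x, pow_two, pow_two]; simp only [mul_assoc]
    have hd2 : d ^ 2 = 1 := by
      have h := h4 (x * y)
      rw [show (4 : ℕ) = 2 * 2 from rfl, pow_mul, hxy, Commute.mul_pow ((hdz _ : Commute _ d).symm),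
        Commute.mul_pow (hy2.symm : Commute (x ^ 2) (y ^ 2)), ← pow_mul, ← pow_mul, h4, h4, mul_one, mul_one] at h
      exact h
    calc y * x ^ 2 = d * (x * y) * x := by rw [pow_two, ← mul_assoc, hyx]
      _ = d * x * (y * x) := by simp only [mul_assoc]
      _ = d * x * (d * (x * y)) := by rw [hyx]
      _ = d * d * (x * (x * y)) := by
        simp only [mul_assoc]
        rw [← mul_assoc x d, hdz x, mul_assoc]
      _ = x ^ 2 * y := by rw [← pow_two, hd2, one_mul, pow_two, mul_assoc]
  let N : Subgroup P :=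
    { carrier := {z | z ∈ Subgroup.center P ∧ z ^ 2 = 1}
      one_mem' := ⟨one_mem _, one_pow _⟩
      mul_mem' := fun {a b} ha hb => ⟨mul_mem ha.1 hb.1, by
        rw [Commute.mul_pow (Subgroup.mem_center_iff.mp hb.1 a : Commute a b), ha.2, hb.2, mul_one]⟩
      inv_mem' := fun {a} ha => ⟨inv_mem ha.1, by rw [inv_pow, ha.2, inv_one]⟩ }
  haveI : N.Normal := ⟨fun z hz g => by rw [Subgroup.mem_center_iff.mp hz.1 g, mul_inv_cancel_right]; exact hz⟩
  have hle : frattini P ≤ N := by
    refine S0013.result 2 hP N ?_ fun x => hsq x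
    rw [commutator_def, Subgroup.commutator_le]
    intro a _ b _
    rw [commutatorElement_def]
    refine ⟨hcz a b, ?_⟩
    obtain ⟨c, hc⟩ : ∃ c, c = a * b * a⁻¹ * b⁻¹ := ⟨_, rfl⟩
    rw [← hc]
    have hcc := Subgroup.mem_center_iff.mp (hc ▸ hcz a b)
    have hb2 : b * (a ^ 2) = a ^ 2 * b := Subgroup.mem_center_iff.mp (hsq a).1 b
    have h1 : a * b * a⁻¹ = c * b := by rw [hc]; group
    have h2 : a * (a * b * a⁻¹) * a⁻¹ = b := by
      rw [show a * (a * b * a⁻¹) * a⁻¹ = a ^ 2 * b * (a ^ 2)⁻¹ by simp [pow_two, mul_assoc], ← hb2, mul_inv_cancel_right]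
    rw [h1, ← mul_assoc, hcc a, show c * a * b * a⁻¹ = c * (a * b * a⁻¹) by group, h1, ← mul_assoc, ← pow_two] at h2
    exact mul_eq_right.mp h2
  exact ⟨fun z hz => (hle hz).1,
    ⟨⟨fun a b => Subtype.ext (Subgroup.mem_center_iff.mp (hle b.2).1 a)⟩⟩, fun a ha => (hle ha).2⟩

end Cfsg.Agent.S4056
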