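import Cfsg.Statements.S4066
import Mathlib

set_option autoImplicit false
set_option linter.style.haveILetI false
open Cfsg

open scoped Pointwise

namespace Cfsg.Agent.S4066

/-- Let G be a finite group in which the centralizer of every element meets each of its conjugates by elements outside its normalizer trivially. Then any two distinct Sylow p-subgroups of G, for any prime p, intersect trivially. -/
theorem result {G : Type*} [Group G] [Finite G] (hTI : ∀ x : G, Cfsg.IsTISubset (Subgroup.centralizer ({x} : Set G) : Set G))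
    {p : ℕ} [Fact p.Prime] (P Q : Sylow p G) (hPQ : P ≠ Q) : (P : Subgroup G) ⊓ (Q : Subgroup G) = ⊥ := by
  haveI := Fact.mk (Fact.out : p.Prime)
  by_contra hne
  obtain ⟨z, hz, hz1⟩ := ((P : Subgroup G) ⊓ (Q : Subgroup G)).bot_or_exists_ne_one.resolve_left hne
  let C : Subgroup G := Subgroup.centralizer {z}
  have hcen : ∀ R : Sylow p G, z ∈ (R : Subgroup G) → ∃ u ∈ (R : Subgroup G), u ≠ 1 ∧ ∀ g ∈ (R : Subgroup G), g * u = u * g := by
    intro R hR
    haveI : Nontrivial ↥(R : Subgroup G) := ⟨⟨⟨z, hR⟩, 1, fun h => hz1 (congrArg Subtype.val h)⟩⟩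
    haveI := R.isPGroup'.center_nontrivial
    obtain ⟨u, hu⟩ := exists_ne (1 : Subgroup.center ↥(R : Subgroup G))
    exact ⟨u.1.1, u.1.2, fun h => hu (Subtype.ext (Subtype.ext h)), fun g hg =>
      congrArg Subtype.val (Subgroup.mem_center_iff.mp u.2 ⟨g, hg⟩)⟩
  have hN : ∀ R : Sylow p G, z ∈ (R : Subgroup G) → (R : Subgroup G) ≤ Subgroup.normalizer (C : Set G) := by
    intro R hR g hg
    obtain ⟨u, _, hu1, huc⟩ := hcen R hR
    by_contra hgn
    have huC : u ∈ C := Subgroup.mem_centralizer_singleton_iff.mpr (huc z hR).symm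
    exact hu1 (hTI z g hgn u huC (by rw [huc g hg, mul_inv_cancel_right]; exact huC))
  obtain ⟨hzP, hzQ⟩ := Subgroup.mem_inf.mp hz
  obtain ⟨u, huP, hu1, huc⟩ := hcen P hzP
  let D : Subgroup G := Subgroup.centralizer {u}
  have hPD : (P : Subgroup G) ≤ D := fun g hg => Subgroup.mem_centralizer_singleton_iff.mpr (huc g hg)
  have hND : Subgroup.normalizer (C : Set G) ≤ Subgroup.normalizer (D : Set G) := by
    intro g hg
    by_contra hgn
    refine hz1 (hTI u g hgn z (hPD hzP) ?_)
    have huC : u ∈ C := Subgroup.mem_centralizer_singleton_iff.mpr (huc z hzP).symm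
    have h2 : g⁻¹ * u * g ∈ C := by
      apply (Subgroup.mem_normalizer_iff.mp hg _).mpr
      simpa [mul_assoc] using huC
    have h3 := Subgroup.mem_centralizer_singleton_iff.mp h2
    refine Subgroup.mem_centralizer_singleton_iff.mpr ?_
    calc g * z * g⁻¹ * u = g * (z * (g⁻¹ * u * g)) * g⁻¹ := by group
      _ = g * (g⁻¹ * u * g * z) * g⁻¹ := by rw [h3]
      _ = u * (g * z * g⁻¹) := by group
  obtain ⟨n, hn⟩ := MulAction.exists_smul_eq ↥(Subgroup.normalizer (C : Set G)) (P.subtype (hN P hzP)) (Q.subtype (hN Q hzQ))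
  have hQD : (Q : Subgroup G) ≤ D := by
    intro q hq
    have hq' : (⟨q, hN Q hzQ hq⟩ : Subgroup.normalizer (C : Set G)) ∈
        ((n • P.subtype (hN P hzP) : Sylow p ↥(Subgroup.normalizer (C : Set G))) : Subgroup _) := by
      rw [hn]; exact hq
    rw [Sylow.coe_subgroup_smul, Subgroup.mem_smul_pointwise_iff_exists] at hq'
    obtain ⟨t, ht, hte⟩ := hq'
    have hte' := congrArg Subtype.val hte
    simp only [MulAut.smul_def, MulAut.conj_apply, Subgroup.coe_mul, Subgroup.coe_inv] at hte'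
    rw [← hte']
    exact (Subgroup.mem_normalizer_iff.mp (hND n.2) _).mp (hPD ht)
  refine hPQ (Sylow.ext (Q.is_maximal' P.isPGroup' ?_))
  intro x hxQ
  have hxD := hQD hxQ
  have hnorm : ∀ h ∈ D, h ∈ Subgroup.normalizer ((Subgroup.centralizer ({x} : Set G) : Subgroup G) : Set G) := by
    intro h hh
    by_contra hgn
    have hux : u ∈ Subgroup.centralizer ({x} : Set G) :=
      Subgroup.mem_centralizer_singleton_iff.mpr (Subgroup.mem_centralizer_singleton_iff.mp hxD).symm
    exact hu1 (hTI x h hgn u hux (by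
      rw [Subgroup.mem_centralizer_singleton_iff.mp hh, mul_inv_cancel_right]; exact hux))
  let S : Set G := {y | ∃ h ∈ D, y = h * x * h⁻¹}
  have hconj : ∀ h ∈ D, h * x * h⁻¹ * x = x * (h * x * h⁻¹) := fun h hh =>
    Subgroup.mem_centralizer_singleton_iff.mp
      ((Subgroup.mem_normalizer_iff.mp (hnorm h hh) x).mp (Subgroup.mem_centralizer_singleton_iff.mpr rfl))
  have hS : ∀ a ∈ S, ∀ b ∈ S, a * b = b * a := by
    rintro _ ⟨h, hh, rfl⟩ _ ⟨k, hk, rfl⟩
    have := hconj (k⁻¹ * h) (mul_mem (inv_mem hk) hh)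
    calc h * x * h⁻¹ * (k * x * k⁻¹) = k * (k⁻¹ * h * x * (k⁻¹ * h)⁻¹ * x) * k⁻¹ := by group
      _ = k * (x * (k⁻¹ * h * x * (k⁻¹ * h)⁻¹)) * k⁻¹ := by rw [this]
      _ = _ := by group
  let K := Subgroup.closure S
  haveI := Subgroup.isMulCommutative_closure hS
  have hKp : IsPGroup p K := by
    rintro ⟨y, hy⟩
    suffices h : ∃ k, y ^ p ^ k = 1 by
      obtain ⟨k, hk⟩ := h
      exact ⟨k, Subtype.ext hk⟩
    induction hy using Subgroup.closure_induction with
    | mem y hy =>
      obtain ⟨h, -, rfl⟩ := hy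
      obtain ⟨k, hk⟩ := Q.isPGroup' ⟨x, hxQ⟩
      refine ⟨k, ?_⟩
      rw [conj_pow, show x ^ p ^ k = 1 from congrArg Subtype.val hk, mul_one, mul_inv_cancel]
    | one => exact ⟨0, one_pow _⟩
    | mul a b ha hb iha ihb =>
      obtain ⟨i, hi⟩ := iha
      obtain ⟨j, hj⟩ := ihb
      refine ⟨i + j, ?_⟩
      have hab : Commute a b := congrArg Subtype.val (mul_comm' (⟨a, ha⟩ : K) ⟨b, hb⟩)
      rw [hab.mul_pow, pow_add, pow_mul, hi, one_pow, one_mul, mul_comm, pow_mul, hj, one_pow]
    | inv a ha iha =>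
      obtain ⟨i, hi⟩ := iha
      exact ⟨i, by rw [inv_pow, hi, inv_one]⟩
  have hPK : (P : Subgroup G) ≤ Subgroup.normalizer (K : Set G) := by
    intro g hg
    have hle : ∀ c ∈ D, K ≤ K.comap (MulAut.conj c).toMonoidHom := by
      intro c hc
      refine (Subgroup.closure_le _).mpr ?_
      rintro _ ⟨h, hh, rfl⟩
      exact Subgroup.subset_closure ⟨c * h, mul_mem hc hh, by simp [mul_assoc]⟩
    rw [Subgroup.mem_normalizer_iff]
    refine fun k => ⟨fun hk => by simpa using hle g (hPD hg) hk, fun hk => ?_⟩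
    simpa [mul_assoc] using hle g⁻¹ (inv_mem (hPD hg)) hk
  rw [← P.is_maximal' (P.isPGroup'.to_sup_of_normal_right' hKp hPK) le_sup_left]
  exact Subgroup.mem_sup_right (Subgroup.subset_closure ⟨1, one_mem _, by simp⟩)

end Cfsg.Agent.S4066
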