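import Cfsg.Statements.S4084
import Mathlib

set_option autoImplicit false
open Cfsg

namespace Cfsg.Agent.S4084

theorem graph_key {A : Type*} [Group A] [Finite A] {p q : ℕ} (hp : p.Prime) (hq : q.Prime)
    (hpq : p ≠ q) : (∃ g : A, orderOf g = p * q) ↔ ∃ x : A,
      (p ∣ Nat.card {y : A // ∀ z : A, Commute x z → Commute y z}) ∧
      q ∣ Nat.card {y : A // Commute x y} := by
  classical
  let Z : A → Subgroup A := fun x => Subgroup.centralizer {z : A | Commute x z}
  have hZ : ∀ x : A, Nat.card {y : A // ∀ z : A, Commute x z → Commute y z} = Nat.card (Z x) :=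
    fun x => Nat.card_congr (Equiv.subtypeEquivRight fun y => by
      simp only [Z, Subgroup.mem_centralizer_iff, Set.mem_setOf_eq, commute_iff_eq, eq_comm])
  have hC : ∀ x : A, Nat.card {y : A // Commute x y} =
      Nat.card (Subgroup.centralizer ({x} : Set A)) :=
    fun x => Nat.card_congr (Equiv.subtypeEquivRight fun y => by
      rw [Subgroup.mem_centralizer_singleton_iff, commute_iff_eq, eq_comm])
  constructor
  · rintro ⟨g, hg⟩
    refine ⟨g, ?_, ?_⟩
    · rw [hZ]
      refine ((dvd_mul_right p q).trans (dvd_of_eq hg.symm)).trans (Subgroup.orderOf_dvd_natCard _ ?_)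
      exact Subgroup.mem_centralizer_iff.mpr fun z hz => (hz : Commute g z).eq.symm
    · rw [hC]
      exact ((dvd_mul_left q p).trans (dvd_of_eq hg.symm)).trans
        (Subgroup.orderOf_dvd_natCard _ (Subgroup.mem_centralizer_singleton_iff.mpr rfl))
  · rintro ⟨x, h1, h2⟩
    haveI := Fact.mk hp
    haveI := Fact.mk hq
    rw [hZ] at h1
    rw [hC] at h2
    obtain ⟨⟨a, ha⟩, hap⟩ := exists_prime_orderOf_dvd_card' p h1
    obtain ⟨⟨b, hb⟩, hbq⟩ := exists_prime_orderOf_dvd_card' q h2
    rw [Subgroup.orderOf_mk] at hap hbq
    have hab : Commute a b := (Subgroup.mem_centralizer_iff.mp ha b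
      (Subgroup.mem_centralizer_singleton_iff.mp hb).symm).symm
    exact ⟨a * b, by rw [hab.orderOf_mul_eq_mul_orderOf_of_coprime
      (by rw [hap, hbq]; exact (Nat.coprime_primes hp hq).mpr hpq), hap, hbq]⟩

/-- Let G and H be finite groups whose commuting graphs are isomorphic: there is a bijection e : G → H with x, y commuting exactly when e(x), e(y) commute. Then G and H have the same prime graph: for distinct primes p, q, G has an element of order pq if and only if H does (and #G = #H, so the prime divisors agree). -/
theorem result {G H : Type*} [Group G] [Finite G] [Group H] [Finite H] (e : G ≃ H)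
    (he : ∀ x y : G, Commute x y ↔ Commute (e x) (e y))
    {p q : ℕ} (hp : p.Prime) (hq : q.Prime) (hpq : p ≠ q) :
    (∃ g : G, orderOf g = p * q) ↔ (∃ h : H, orderOf h = p * q) := by
  classical
  rw [graph_key hp hq hpq, graph_key hp hq hpq]
  have h1 : ∀ x, Nat.card {y : G // ∀ z : G, Commute x z → Commute y z} =
      Nat.card {y : H // ∀ z : H, Commute (e x) z → Commute y z} := fun x =>
    Nat.card_congr (e.subtypeEquiv fun y => by
      rw [e.surjective.forall]; simp only [he])
  have h2 : ∀ x, Nat.card {y : G // Commute x y} = Nat.card {y : H // Commute (e x) y} := fun x =>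
    Nat.card_congr (e.subtypeEquiv fun y => he x y)
  rw [e.surjective.exists]
  simp only [h1, h2]

end Cfsg.Agent.S4084
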