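import Cfsg.Statements.S4086
import Cfsg.Agent.Transfer.Basic

set_option autoImplicit false
open Cfsg
open Cfsg.Agent.Transfer

namespace Cfsg.Agent.S4086

/-- For a finite group G the following are equivalent: every non-identity element has prime-power order; whenever two elements generate a cyclic subgroup, one of them is a power of the other (the enhanced power graph of G coincides with its power graph). -/
theorem result {G : Type*} [Group G] [Finite G] :
    (∀ g : G, g ≠ 1 → IsPrimePow (orderOf g)) ↔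
    (∀ x y : G, IsCyclic ↥(Subgroup.closure ({x, y} : Set G)) → (x ∈ Subgroup.zpowers y ∨ y ∈ Subgroup.zpowers x)) := by
  constructor
  · intro h x y hxy
    haveI := hxy
    set K := Subgroup.closure ({x, y} : Set G) with hK
    obtain ⟨c, hc⟩ := IsCyclic.exists_generator (α := K)
    have hx : x ∈ K := Subgroup.subset_closure (Set.mem_insert x _)
    have hy : y ∈ K := Subgroup.subset_closure (Set.mem_insert_of_mem _ rfl)
    have hle : ∀ z ∈ K, z ∈ Subgroup.zpowers (c : G) := by
      intro z hz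
      obtain ⟨i, hi⟩ := Subgroup.mem_zpowers_iff.mp (hc ⟨z, hz⟩)
      exact Subgroup.mem_zpowers_iff.mpr ⟨i, congrArg Subtype.val hi⟩
    by_cases hc1 : (c : G) = 1
    · left
      have := hle x hx
      rw [hc1, Subgroup.zpowers_one_eq_bot, Subgroup.mem_bot] at this
      rw [this]; exact one_mem _
    obtain ⟨r, k, hr, -, hrk⟩ := (isPrimePow_nat_iff _).mp (h c hc1)
    obtain ⟨i, -, hi⟩ := (Nat.dvd_prime_pow hr).mp
      ((orderOf_dvd_of_mem_zpowers (hle x hx)).trans (dvd_of_eq hrk.symm))
    obtain ⟨j, -, hj⟩ := (Nat.dvd_prime_pow hr).mp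
      ((orderOf_dvd_of_mem_zpowers (hle y hy)).trans (dvd_of_eq hrk.symm))
    have key : ∀ (u v : G), u ∈ Subgroup.zpowers (c : G) → v ∈ Subgroup.zpowers (c : G) →
        orderOf u ∣ orderOf v → u ∈ Subgroup.zpowers v := by
      intro u v hu hv hd
      obtain ⟨a, rfl⟩ := (isOfFinOrder_of_finite _).mem_powers_iff_mem_zpowers.mpr hu
      obtain ⟨b, rfl⟩ := (isOfFinOrder_of_finite _).mem_powers_iff_mem_zpowers.mpr hv
      simp only at hd ⊢
      set n := orderOf (c : G) with hn
      have hn0 : 0 < n := orderOf_pos _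
      rw [orderOf_pow, orderOf_pow, ← hn] at hd
      have hg : n.gcd b ∣ n.gcd a := by
        obtain ⟨t, ht⟩ := hd
        refine ⟨t, Nat.eq_of_mul_eq_mul_left
          (Nat.div_pos (Nat.gcd_le_left a hn0) (Nat.gcd_pos_of_pos_left a hn0)) ?_⟩
        calc n / n.gcd a * n.gcd a = n := Nat.div_mul_cancel (Nat.gcd_dvd_left n a)
          _ = n / n.gcd b * n.gcd b := (Nat.div_mul_cancel (Nat.gcd_dvd_left n b)).symm
          _ = n / n.gcd a * (n.gcd b * t) := by rw [ht]; ring
      obtain ⟨d, hd'⟩ := hg.trans (Nat.gcd_dvd_right n a)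
      have hbz : (c : G) ^ n.gcd b ∈ Subgroup.zpowers ((c : G) ^ b) := by
        rw [Subgroup.mem_zpowers_iff]
        refine ⟨Nat.gcdB n b, ?_⟩
        have h1 : ((c : G) ^ (n : ℤ)) ^ Nat.gcdA n b = 1 := by
          rw [zpow_natCast, hn, pow_orderOf_eq_one, one_zpow]
        rw [← zpow_natCast, ← zpow_natCast, ← zpow_mul, Nat.gcd_eq_gcd_ab n b, zpow_add,
          zpow_mul (c : G) (n : ℤ), h1, one_mul]
      rw [hd', pow_mul]
      exact pow_mem hbz d
    rcases le_total i j with hij | hij
    · exact Or.inl (key x y (hle x hx) (hle y hy) (by rw [hi, hj]; exact pow_dvd_pow r hij))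
    · exact Or.inr (key y x (hle y hy) (hle x hx) (by rw [hi, hj]; exact pow_dvd_pow r hij))
  · intro h g hg
    by_contra hnp
    obtain ⟨r, hr, hrd⟩ := Nat.exists_prime_and_dvd (fun e => hg (orderOf_eq_one_iff.mp e))
    have hn0 := (orderOf_pos g).ne'
    obtain ⟨s, hs, hsd, hsr⟩ : ∃ s, s.Prime ∧ s ∣ orderOf g ∧ s ≠ r := by
      by_contra hcon
      push Not at hcon
      exact hnp ((isPrimePow_iff_unique_prime_dvd).mpr ⟨r, ⟨hr, hrd⟩, fun s hs => hcon s hs.1 hs.2⟩)
    set a := g ^ (orderOf g / r) with ha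
    set b := g ^ (orderOf g / s) with hb
    have hoa : orderOf a = r := orderOf_pow_orderOf_div hn0 hrd
    have hob : orderOf b = s := orderOf_pow_orderOf_div hn0 hsd
    have hle : Subgroup.closure ({a, b} : Set G) ≤ Subgroup.zpowers g := by
      rw [Subgroup.closure_le]
      rintro z (rfl | rfl) <;> exact pow_mem (Subgroup.mem_zpowers g) _
    rcases h a b (Subgroup.isCyclic_of_le hle) with h1 | h1
    · exact hsr ((Nat.prime_dvd_prime_iff_eq hr hs).mp
        (hoa ▸ hob ▸ orderOf_dvd_of_mem_zpowers h1)).symm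
    · exact hsr ((Nat.prime_dvd_prime_iff_eq hs hr).mp
        (hoa ▸ hob ▸ orderOf_dvd_of_mem_zpowers h1))

end Cfsg.Agent.S4086
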