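import Cfsg.Statements.S4106
import Cfsg.Agent.Transfer.ClassCount
import Cfsg.Agent.Transfer.Regular

set_option autoImplicit false
open Cfsg
open Cfsg.Agent.Transfer

namespace Cfsg.Agent.S4106

/-- Let G be a finite group, π a set of primes and m the π-part of the order of G. Then the number of conjugacy classes of G consisting of π-elements (elements whose order is divisible only by primes in π) is at most m. -/
theorem result {G : Type*} [Group G] [Finite G]
    (π : Set ℕ) (hπ : ∀ q ∈ π, q.Prime)
    (m : ℕ) (hm : m ∣ Nat.card G) (hmπ : ∀ q : ℕ, q.Prime → q ∣ m → q ∈ π)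
    (hm' : ∀ q ∈ π, ¬ q ∣ Nat.card G / m) :
    Nat.card {C : ConjClasses G // ∀ q : ℕ, q.Prime → (∃ g : G, ConjClasses.mk g = C ∧ q ∣ orderOf g) → q ∈ π} ≤ m := by
  classical
  have key : ∀ (s : Finset ℕ) (K : Subgroup G), (∀ q ∈ s, q.Prime) →
      Nat.card {C : ConjClasses K // ∀ x ∈ C.carrier, ∀ q : ℕ, q.Prime → q ∣ orderOf x → q ∈ s} ≤
        ∏ q ∈ s, q ^ (Nat.card G).factorization q := by
    intro s
    induction s using Finset.induction_on with
    | empty =>
      intro K _
      rw [Finset.prod_empty]
      refine Finite.card_le_one_iff_subsingleton.mpr ⟨fun C D => Subtype.ext ?_⟩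
      obtain ⟨C, hC⟩ := C
      obtain ⟨D, hD⟩ := D
      have h1 : ∀ E : ConjClasses K, (∀ x ∈ E.carrier, ∀ q : ℕ, q.Prime → q ∣ orderOf x → q ∈ (∅ : Finset ℕ)) →
          E = ConjClasses.mk 1 := by
        intro E hE
        induction E using Quotient.inductionOn with
        | h x =>
          have hx1 : x = 1 := orderOf_eq_one_iff.mp (by
            by_contra hne
            exact absurd (hE x ConjClasses.mem_carrier_mk _ (Nat.minFac_prime hne) (Nat.minFac_dvd _))
              (Finset.notMem_empty _))
          rw [hx1]
          rfl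
      exact (h1 C hC).trans (h1 D hD).symm
    | @insert p t hpt ih =>
      intro K hpr
      haveI : Fact p.Prime := ⟨hpr p (Finset.mem_insert_self p t)⟩
      rw [Finset.prod_insert hpt]
      let R := Cfsg.Agent.ClassCount.PClass p K
      let rep : R → K := fun c => Quotient.out c.1
      let T : R → Type _ := fun c => {C : ConjClasses ((Subgroup.centralizer ({rep c} : Set K)).map K.subtype) //
        ∀ x ∈ C.carrier, ∀ q : ℕ, q.Prime → q ∣ orderOf x → q ∈ t}
      let val : (c : R) → T c → K := fun c D => rep c *
        ⟨((Quotient.out D.1 : (Subgroup.centralizer ({rep c} : Set K)).map K.subtype) : G),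
          Subgroup.map_subtype_le _ (Quotient.out D.1).2⟩
      have hsurj : Nat.card {C : ConjClasses K // ∀ x ∈ C.carrier, ∀ q : ℕ, q.Prime → q ∣ orderOf x → q ∈ insert p t} ≤
          Nat.card (Σ c : R, T c) := by
        let f : {C : ConjClasses K // ∀ x ∈ C.carrier, ∀ q : ℕ, q.Prime → q ∣ orderOf x → q ∈ insert p t} → ConjClasses K :=
          Subtype.val
        have hrange : ∀ C : {C : ConjClasses K // ∀ x ∈ C.carrier, ∀ q : ℕ, q.Prime → q ∣ orderOf x → q ∈ insert p t},
            ∃ cd : Σ c : R, T c, ConjClasses.mk (val cd.1 cd.2) = C.1 := by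
          rintro ⟨C, hC⟩
          induction C using Quotient.inductionOn with
          | h g =>
            obtain ⟨a, b, ha, hb, hab, ⟨j, hj⟩, hbc⟩ := exists_parts (p := p) g
            obtain ⟨l, -, hl⟩ := (Nat.dvd_prime_pow (Fact.out : p.Prime)).mp (orderOf_dvd_of_pow_eq_one hj)
            let c : R := ⟨ConjClasses.mk a, fun x hx => by
              obtain ⟨u, hu⟩ := isConj_iff.mp (ConjClasses.mk_eq_mk_iff_isConj.mp
                (ConjClasses.mem_carrier_iff_mk_eq.mp hx)).symm
              exact ⟨l, by rw [← hu, ← MulAut.conj_apply, MulEquiv.orderOf_eq, hl]⟩⟩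
            obtain ⟨u, hu⟩ := isConj_iff.mp (ConjClasses.mk_eq_mk_iff_isConj.mp
              (Quotient.out_eq c.1 : ConjClasses.mk (rep c) = ConjClasses.mk a)).symm
            change u * a * u⁻¹ = rep c at hu
            have hcomm : Commute a b := by
              obtain ⟨i, rfl⟩ := Subgroup.mem_zpowers_iff.mp ha
              obtain ⟨k, rfl⟩ := Subgroup.mem_zpowers_iff.mp hb
              exact Commute.zpow_zpow (Commute.refl g) i k
            have hmem : u * b * u⁻¹ ∈ Subgroup.centralizer ({rep c} : Set K) := by
              rw [Subgroup.mem_centralizer_singleton_iff, ← hu]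
              exact ((Commute.map hcomm (MulAut.conj u).toMonoidHom).symm).eq
            let b' : (Subgroup.centralizer ({rep c} : Set K)).map K.subtype := ⟨_, _, hmem, rfl⟩
            let D : T c := ⟨ConjClasses.mk b', fun x hx q hq hqd => by
              obtain ⟨v, hv⟩ := isConj_iff.mp (ConjClasses.mk_eq_mk_iff_isConj.mp
                (ConjClasses.mem_carrier_iff_mk_eq.mp hx)).symm
              rw [← hv, ← MulAut.conj_apply, MulEquiv.orderOf_eq, ← Subgroup.orderOf_coe] at hqd
              rw [show ((b' : (Subgroup.centralizer ({rep c} : Set K)).map K.subtype) : G) =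
                ((u * b * u⁻¹ : K) : G) from rfl, Subgroup.orderOf_coe, ← MulAut.conj_apply,
                MulEquiv.orderOf_eq] at hqd
              have hqg : q ∈ insert p t := hC g ConjClasses.mem_carrier_mk q hq
                (hqd.trans (orderOf_dvd_of_mem_zpowers hb))
              refine (Finset.mem_insert.mp hqg).resolve_left fun e => ?_
              exact hq.ne_one (Nat.eq_one_of_dvd_coprimes hbc hqd (dvd_of_eq e))⟩
            refine ⟨⟨c, D⟩, ConjClasses.mk_eq_mk_iff_isConj.mpr ?_⟩
            obtain ⟨v, hv⟩ := isConj_iff.mp (ConjClasses.mk_eq_mk_iff_isConj.mp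
              (Quotient.out_eq D.1 : ConjClasses.mk (Quotient.out D.1) = ConjClasses.mk b')).symm
            obtain ⟨w, hw, hwe⟩ := v.2
            have hw' := Subgroup.mem_centralizer_singleton_iff.mp hw
            refine (isConj_iff.mpr ⟨w * u, ?_⟩).symm
            change w * u * g * (w * u)⁻¹ = val c D
            have e2 : (⟨((Quotient.out D.1 : (Subgroup.centralizer ({rep c} : Set K)).map K.subtype) : G),
                Subgroup.map_subtype_le _ (Quotient.out D.1).2⟩ : K) = w * (u * b * u⁻¹) * w⁻¹ := by
              refine Subtype.ext ?_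
              rw [← hv]
              simp only [Subgroup.coe_mul, InvMemClass.coe_inv, ← hwe]
              rfl
            simp only [val, e2]
            rw [hab, ← hu]
            rw [← hu] at hw'
            calc w * u * (a * b) * (w * u)⁻¹ = (w * (u * a * u⁻¹)) * (u * b * u⁻¹) * w⁻¹ := by group
              _ = u * a * u⁻¹ * w * (u * b * u⁻¹) * w⁻¹ := by rw [hw']
              _ = _ := by group
        choose sel hsel using hrange
        refine Nat.card_le_card_of_injective sel fun C D h => Subtype.ext ?_
        rw [← hsel C, ← hsel D, h]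
      refine hsurj.trans ?_
      haveI : Fintype R := Fintype.ofFinite R
      rw [Nat.card_sigma]
      refine (Finset.sum_le_card_nsmul _ _ _ fun c _ => ih ((Subgroup.centralizer ({rep c} : Set K)).map K.subtype)
        fun q hq => hpr q (Finset.mem_insert_of_mem hq)).trans ?_
      rw [smul_eq_mul, Finset.card_univ, ← Nat.card_eq_fintype_card]
      refine Nat.mul_le_mul_right _ ?_
      let P : Sylow p K := Classical.arbitrary _
      refine (Nat.card_le_card_of_surjective _ (Cfsg.Agent.ClassCount.toClass_surjective P)).trans ?_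
      rw [P.card_eq_multiplicity]
      refine Nat.pow_le_pow_right (Fact.out : p.Prime).pos ?_
      exact (Nat.factorization_le_iff_dvd Nat.card_pos.ne' Nat.card_pos.ne').mpr (Subgroup.card_subgroup_dvd_card K) p
  have hm0 : m ≠ 0 := fun e => by rw [e, zero_dvd_iff] at hm; exact Nat.card_pos.ne' hm
  set s := (Nat.card G).primeFactors.filter (· ∈ π) with hs
  have h := key s ⊤ fun q hq => Nat.prime_of_mem_primeFactors (Finset.mem_filter.mp hq).1
  refine le_trans ?_ (h.trans (Nat.le_of_dvd (Nat.pos_of_ne_zero hm0) ?_))
  · refine Nat.card_le_card_of_injective (fun C => ⟨ConjClasses.map (Subgroup.topEquiv (G := G)).symm.toMonoidHom C.1, fun x hx q hq hqd => ?_⟩) ?_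
    · obtain ⟨C, hC⟩ := C
      induction C using Quotient.inductionOn with
      | h g =>
        obtain ⟨u, hu⟩ := isConj_iff.mp (ConjClasses.mk_eq_mk_iff_isConj.mp
          (ConjClasses.mem_carrier_iff_mk_eq.mp hx)).symm
        rw [← hu, ← MulAut.conj_apply, MulEquiv.orderOf_eq, MulEquiv.coe_toMonoidHom, MulEquiv.orderOf_eq] at hqd
        refine Finset.mem_filter.mpr ⟨Nat.mem_primeFactors.mpr ⟨hq, hqd.trans (orderOf_dvd_natCard g),
          Nat.card_pos.ne'⟩, hC q hq ⟨g, rfl, hqd⟩⟩
    · intro C D h
      have h' := congrArg Subtype.val h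
      obtain ⟨C, hC⟩ := C
      obtain ⟨D, hD⟩ := D
      induction C using Quotient.inductionOn with
      | h g => induction D using Quotient.inductionOn with
        | h g' =>
          refine Subtype.ext (ConjClasses.mk_eq_mk_iff_isConj.mpr ?_)
          obtain ⟨w, hw⟩ := isConj_iff.mp (ConjClasses.mk_eq_mk_iff_isConj.mp h')
          exact isConj_iff.mpr ⟨(w : G), congrArg Subtype.val hw⟩
  · rw [← Nat.factorization_le_iff_dvd (Finset.prod_ne_zero_iff.mpr fun q hq => pow_ne_zero _
      (Nat.prime_of_mem_primeFactors (Finset.mem_filter.mp hq).1).ne_zero) hm0]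
    intro r
    rw [Nat.factorization_prod fun q hq => pow_ne_zero _
      (Nat.prime_of_mem_primeFactors (Finset.mem_filter.mp hq).1).ne_zero]
    rw [Finsupp.finsetSum_apply]
    by_cases hr : r ∈ s
    · have hrp : r.Prime := Nat.prime_of_mem_primeFactors (Finset.mem_filter.mp hr).1
      rw [Finset.sum_eq_single r]
      · rw [hrp.factorization_pow, Finsupp.single_eq_same]
        have hnd : ¬ r ∣ Nat.card G / m := hm' r (Finset.mem_filter.mp hr).2
        have hd0 : Nat.card G / m ≠ 0 := fun e => hnd (e ▸ dvd_zero r)
        calc (Nat.card G).factorization r = (m * (Nat.card G / m)).factorization r := by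
              rw [Nat.mul_div_cancel' hm]
          _ ≤ m.factorization r := by
              rw [Nat.factorization_mul hm0 hd0, Finsupp.add_apply,
                Nat.factorization_eq_zero_of_not_dvd hnd, add_zero]
      · intro q hq hne
        rw [(Nat.prime_of_mem_primeFactors (Finset.mem_filter.mp hq).1).factorization_pow,
          Finsupp.single_eq_of_ne hne.symm]
      · exact fun h => absurd hr h
    · rw [Finset.sum_eq_zero]
      · exact Nat.zero_le _
      · intro q hq
        rw [(Nat.prime_of_mem_primeFactors (Finset.mem_filter.mp hq).1).factorization_pow,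
          Finsupp.single_eq_of_ne fun e : r = q => hr (e ▸ hq)]

end Cfsg.Agent.S4106
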