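import Cfsg.Statements.S4108
import Cfsg.Agent.Frob.Kernel

set_option autoImplicit false
open Cfsg
open scoped Pointwise
set_option maxHeartbeats 100000

namespace Cfsg.Agent.S4108

/-- Let G be a finite group, p a prime and N a proper non-trivial normal p-subgroup such that for every x outside N all elements of the coset xN have the same order as x. Then every non-trivial subgroup H of G of order prime to p acts fixed-point-freely on N: NH is a Frobenius group with complement H and kernel N. -/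
theorem result {G : Type*} [Group G] [Finite G] (N : Subgroup G) [N.Normal] (hN1 : N ≠ ⊥) (hN2 : N ≠ ⊤)
    (heq : ∀ x : G, x ∉ N → ∀ n ∈ N, orderOf (x * n) = orderOf x)
    (p : ℕ) [Fact p.Prime] (hNp : IsPGroup p N) :
    ∀ H : Subgroup G, H ≠ ⊥ → (Nat.card H).Coprime p →
      Cfsg.IsFrobeniusComplement (H.subgroupOf (N ⊔ H)) ∧ Cfsg.frobeniusKernel (H.subgroupOf (N ⊔ H)) = (N.subgroupOf (N ⊔ H) : Set ↥(N ⊔ H)) := by
  intro H hH1 hHp
  obtain ⟨k, hk⟩ := IsPGroup.iff_card.mp hNp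
  have hco : (Nat.card H).Coprime (Nat.card N) := hk ▸ hHp.pow_right k
  have hdis : ∀ z, z ∈ H → z ∈ N → z = 1 := fun z h1 h2 =>
    orderOf_eq_one_iff.mp (Nat.eq_one_of_dvd_coprimes hco
      (Subgroup.orderOf_dvd_natCard _ h1) (Subgroup.orderOf_dvd_natCard _ h2))
  set J := N ⊔ H with hJ
  have hHJ : H ≤ J := le_sup_right
  have hNJ : N ≤ J := le_sup_left
  have hdec : ∀ g ∈ J, ∃ n ∈ N, ∃ h ∈ H, g = n * h := by
    intro g hg
    obtain ⟨n, hn, h, hh, he⟩ := Subgroup.mem_sup_of_normal_left.mp hg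
    exact ⟨n, hn, h, hh, he.symm⟩
  have hF : Cfsg.IsFrobeniusComplement (H.subgroupOf J) := by
    refine ⟨?_, ?_, ?_⟩
    · intro h
      rw [Subgroup.subgroupOf_eq_bot, disjoint_iff, inf_eq_left.mpr hHJ] at h
      exact hH1 h
    · intro h
      rw [Subgroup.subgroupOf_eq_top] at h
      obtain ⟨z, hz, hz1⟩ := (Subgroup.ne_bot_iff_exists_ne_one.mp hN1) |>
        fun ⟨z, hz⟩ => (⟨(z : G), z.2, fun e => hz (Subtype.ext e)⟩ : ∃ z, z ∈ N ∧ z ≠ 1)
      exact hz1 (hdis z (h (hNJ hz)) hz)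
    · intro g hg
      rw [Subgroup.eq_bot_iff_forall]
      rintro x ⟨hx1, hx2⟩
      obtain ⟨n, hn, h0, hh0, hge⟩ := hdec g g.2
      obtain ⟨y, hy, hye⟩ := hx2
      have hye' : (g : G) * y * (g : G)⁻¹ = x := by rw [← hye]; rfl
      have hn1 : n ≠ 1 := fun e => hg (by
        rw [Subgroup.mem_subgroupOf, hge, e, one_mul]; exact hh0)
      set z := h0 * (y : G) * h0⁻¹ with hz
      have hzH : z ∈ H := H.mul_mem (H.mul_mem hh0 (Subgroup.mem_subgroupOf.mp hy)) (H.inv_mem hh0)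
      have hxz : (x : G) = n * z * n⁻¹ := by rw [← hye', hge, hz]; group
      have h1 : z⁻¹ * (x : G) = 1 := by
        refine hdis _ (H.mul_mem (H.inv_mem hzH) (Subgroup.mem_subgroupOf.mp hx1)) ?_
        rw [hxz, show z⁻¹ * (n * z * n⁻¹) = (z⁻¹ * n * z⁻¹⁻¹) * n⁻¹ by group]
        exact N.mul_mem (Subgroup.Normal.conj_mem ‹N.Normal› n hn z⁻¹) (N.inv_mem hn)
      have hzx : z = x := inv_mul_eq_one.mp h1
      rw [hzx] at hxz
      have hcomm : Commute (x : G) n := eq_mul_inv_iff_mul_eq.mp hxz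
      by_contra hx
      have hxN : (x : G) ∉ N := fun h => hx (Subtype.ext (hdis _ (Subgroup.mem_subgroupOf.mp hx1) h))
      have he := heq _ hxN n hn
      rw [hcomm.orderOf_mul_eq_mul_orderOf_of_coprime ((hco.coprime_dvd_left
        (Subgroup.orderOf_dvd_natCard _ (Subgroup.mem_subgroupOf.mp hx1))).coprime_dvd_right
        (Subgroup.orderOf_dvd_natCard _ hn))] at he
      exact hn1 (orderOf_eq_one_iff.mp ((Nat.mul_eq_left (orderOf_pos (x : G)).ne').mp he))
  refine ⟨hF, ?_⟩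
  symm
  refine Set.eq_of_subset_of_ncard_le ?_ ?_
  · intro x hx
    by_cases hx1 : x = 1
    · exact Or.inl hx1
    refine Or.inr fun g hg => hx1 ?_
    obtain ⟨y, hy, hye⟩ := hg
    apply Subtype.ext
    have hye' : (g : G) * y * (g : G)⁻¹ = x := by rw [← hye]; rfl
    have hyN : (y : G) ∈ N := by
      have := Subgroup.Normal.conj_mem ‹N.Normal› _ (Subgroup.mem_subgroupOf.mp hx) (g : G)⁻¹
      rw [← hye'] at this
      simpa [mul_assoc] using this
    rw [← hye', hdis _ (Subgroup.mem_subgroupOf.mp hy) hyN]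
    simp
  · rw [← Nat.card_coe_set_eq, Cfsg.Agent.Frob.card_kernel hF, ← Nat.card_coe_set_eq]
    show H.relIndex J ≤ Nat.card ↥(N.subgroupOf J)
    rw [Nat.card_congr (Subgroup.subgroupOfEquivOfLe hNJ).toEquiv, Subgroup.relIndex]
    refine Nat.card_le_card_of_surjective (fun n : N => (QuotientGroup.mk (⟨n, hNJ n.2⟩ : J))) ?_
    intro q
    obtain ⟨⟨g, hg⟩, rfl⟩ := QuotientGroup.mk_surjective q
    obtain ⟨n, hn, h, hh, rfl⟩ := hdec g hg
    refine ⟨⟨n, hn⟩, QuotientGroup.eq.mpr (Subgroup.mem_subgroupOf.mpr ?_)⟩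
    simpa using hh

end Cfsg.Agent.S4108
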