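import Cfsg.Statements.S4116
import Cfsg.Agent.Frob.Basic

set_option autoImplicit false
set_option linter.style.haveILetI false
open Cfsg

open scoped Pointwise

namespace Cfsg.Agent.S4116

/-- Let G be a finite group with a subgroup H whose order is coprime to its index (a Hall subgroup) and which meets each of its conjugates by elements outside N_G(H) trivially. Then every subgroup of G whose order is divisible only by primes dividing the order of H lies in a conjugate of H. -/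
theorem result {G : Type*} [Group G] [Finite G] (H : Subgroup G)
    (hHall : (Nat.card H).Coprime H.index) (hTI : Cfsg.IsTISubset (H : Set G))
    (K : Subgroup G) (hK : ∀ q : ℕ, q.Prime → q ∣ Nat.card K → q ∣ Nat.card H) :
    ∃ g : G, K ≤ H.map (MulAut.conj g).toMonoidHom := by
  classical
  have hti : ∀ {h g : G}, h ∈ H → h ≠ 1 → g⁻¹ * h * g ∈ H → g ∈ Subgroup.normalizer (H : Set G) := by
    intro h g hh h1 hg
    by_contra hn
    refine h1 ?_
    have h2 := hTI g⁻¹ (fun hh' => hn (by simpa using inv_mem hh')) h hh (by simpa using hg)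
    exact h2
  have hpi : ∀ x ∈ Subgroup.normalizer (H : Set G), orderOf x ∣ Nat.card K → x ∈ H := by
    intro x hx hd
    let N := Subgroup.normalizer (H : Set G)
    have hHN : H ≤ N := Subgroup.le_normalizer
    haveI : (H.subgroupOf N).Normal := Subgroup.normal_in_normalizer
    have h1 : orderOf (QuotientGroup.mk' (H.subgroupOf N) ⟨x, hx⟩) ∣ H.index := by
      refine dvd_trans (orderOf_dvd_natCard _) ?_
      rw [← Subgroup.index_eq_card]
      exact Subgroup.relIndex_dvd_index_of_le hHN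
    have h2 : orderOf (QuotientGroup.mk' (H.subgroupOf N) ⟨x, hx⟩) ∣ Nat.card K :=
      ((orderOf_map_dvd _ _).trans (by rw [Subgroup.orderOf_mk])).trans hd
    have h3 : orderOf (QuotientGroup.mk' (H.subgroupOf N) ⟨x, hx⟩) = 1 := by
      by_contra hne
      obtain ⟨q, hq, hqd⟩ := Nat.exists_prime_and_dvd hne
      have := Nat.dvd_gcd (hK q hq (hqd.trans h2)) (hqd.trans h1)
      rw [hHall] at this
      exact hq.not_dvd_one this
    exact Subgroup.mem_subgroupOf.1 ((QuotientGroup.eq_one_iff (⟨x, hx⟩ : N)).1 (orderOf_eq_one_iff.1 h3))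
  have hdvd : ∀ {a : G}, a ∈ K → orderOf a ∣ Nat.card K := fun ha => Subgroup.orderOf_dvd_natCard K ha
  -- every element of `K` lies in a conjugate of `H`
  have hmem : ∀ a ∈ K, a ≠ 1 → ∃ x : G, x⁻¹ * a * x ∈ H := by
    intro a ha ha1
    obtain ⟨q, hq, hqd⟩ := Nat.exists_prime_and_dvd (n := orderOf a) (fun h => ha1 (orderOf_eq_one_iff.1 h))
    haveI := Fact.mk hq
    set b := a ^ (orderOf a / q) with hb
    have hbo : orderOf b = q := by
      rw [hb, orderOf_pow_of_dvd (fun h0 => by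
        have := Nat.div_mul_cancel hqd; rw [h0, zero_mul] at this; exact (orderOf_pos a).ne' this.symm)
        (Nat.div_dvd_of_dvd hqd), Nat.div_div_self hqd (orderOf_pos a).ne']
    obtain ⟨S⟩ := (inferInstance : Nonempty (Sylow q H))
    have hqH : q ∣ Nat.card H := hK q hq (hqd.trans (hdvd ha))
    have hcS : Nat.card ((S : Subgroup H).map H.subtype) = q ^ (Nat.card G).factorization q := by
      rw [Subgroup.card_map_of_injective H.subtype_injective, ← H.card_mul_index,
        Nat.factorization_mul Nat.card_pos.ne' Subgroup.index_ne_zero_of_finite, Finsupp.add_apply,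
        Nat.factorization_eq_zero_of_not_dvd (n := H.index) (fun hd => hq.not_dvd_one (by
          have := Nat.dvd_gcd hqH hd; rwa [hHall] at this)), add_zero]
      exact S.card_eq_multiplicity
    obtain ⟨T, hT⟩ := (IsPGroup.of_card (n := 1) (show Nat.card (Subgroup.zpowers b) = q ^ 1 by
      rw [Nat.card_zpowers, hbo, pow_one])).exists_le_sylow
    obtain ⟨x, hx⟩ := MulAction.exists_smul_eq G (Sylow.ofCard _ hcS) T
    have h1 : b ∈ MulAut.conj x • ((S : Subgroup H).map H.subtype) := by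
      have h2 := hT (Subgroup.mem_zpowers b)
      rw [← hx] at h2
      exact h2
    rw [Cfsg.Agent.Solv.mem_conj_smul] at h1
    obtain ⟨b', -, hb'⟩ := h1
    have hbH : x⁻¹ * b * x ∈ H := hb' ▸ b'.2
    refine ⟨x, hpi _ ?_ ?_⟩
    · refine hti hbH (fun e => ?_) ?_
      · have : b = 1 := calc b = x * (x⁻¹ * b * x) * x⁻¹ := by group
          _ = 1 := by rw [e, mul_one, mul_inv_cancel]
        rw [this, orderOf_one] at hbo; exact hq.ne_one hbo.symm
      · have hc : Commute a b := (Commute.refl a).pow_right _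
        rw [show (x⁻¹ * a * x)⁻¹ * (x⁻¹ * b * x) * (x⁻¹ * a * x) = x⁻¹ * (a⁻¹ * (b * a)) * x by group,
          hc.symm.eq, inv_mul_cancel_left]
        exact hbH
    · rw [show x⁻¹ * a * x = MulAut.conj x⁻¹ a by simp, MulEquiv.orderOf_eq]
      exact hdvd ha
  have hcompl : ∀ x : G, (∃ a ∈ K, a ≠ 1 ∧ x⁻¹ * a * x ∈ H) → ¬ K ≤ MulAut.conj x • H →
      Cfsg.IsFrobeniusComplement ((MulAut.conj x • H).subgroupOf K) := by
    intro x hne hnle
    refine ⟨fun e => ?_, fun e => hnle (Subgroup.subgroupOf_eq_top.1 e), fun g hg => ?_⟩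
    · obtain ⟨a, ha, ha1, hax⟩ := hne
      have h1 : (⟨a, ha⟩ : K) ∈ (MulAut.conj x • H).subgroupOf K := Cfsg.Agent.Solv.mem_conj_smul.2 hax
      rw [e, Subgroup.mem_bot] at h1
      exact ha1 (congrArg Subtype.val h1)
    · rw [eq_bot_iff]
      intro y hy'
      obtain ⟨hy1, hy2⟩ : y ∈ (MulAut.conj x • H).subgroupOf K ∧
          y ∈ MulAut.conj g • (MulAut.conj x • H).subgroupOf K := hy'
      rw [Cfsg.Agent.Solv.mem_conj_smul, Subgroup.mem_subgroupOf, Cfsg.Agent.Solv.mem_conj_smul] at hy2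
      rw [Subgroup.mem_subgroupOf, Cfsg.Agent.Solv.mem_conj_smul] at hy1
      rw [Subgroup.mem_bot]
      by_contra hy
      apply hg
      rw [Subgroup.mem_subgroupOf, Cfsg.Agent.Solv.mem_conj_smul]
      refine hpi _ (hti (g := x⁻¹ * (g : G) * x) hy1 (fun e => hy (Subtype.ext ?_)) ?_) ?_
      · calc (y : G) = x * (x⁻¹ * (y : G) * x) * x⁻¹ := by group
          _ = 1 := by rw [e, mul_one, mul_inv_cancel]
      · have e : (x⁻¹ * (g : G) * x)⁻¹ * (x⁻¹ * (y : G) * x) * (x⁻¹ * (g : G) * x) =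
          x⁻¹ * ((g⁻¹ * y * g : K) : G) * x := by push_cast; group
        rw [e]; exact hy2
      · rw [show x⁻¹ * (g : G) * x = MulAut.conj x⁻¹ (g : G) by simp, MulEquiv.orderOf_eq]
        exact hdvd g.2
  suffices ∃ x : G, K ≤ MulAut.conj x • H by
    obtain ⟨x, hx⟩ := this
    refine ⟨x, fun y hy => ?_⟩
    have := hx hy
    rw [Cfsg.Agent.Solv.mem_conj_smul] at this
    exact ⟨_, this, by simp [MulAut.conj_apply, mul_assoc]⟩
  by_cases hK1 : K = ⊥
  · exact ⟨1, by rw [hK1]; exact bot_le⟩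
  obtain ⟨a, ha, ha1⟩ := K.bot_or_exists_ne_one.resolve_left hK1
  obtain ⟨x, hx⟩ := hmem a ha ha1
  by_contra hall
  push Not at hall
  have hA := hcompl x ⟨a, ha, ha1, hx⟩ (hall x)
  set A := (MulAut.conj x • H).subgroupOf K with hAdef
  obtain ⟨b, hb, hb1⟩ : ∃ b ∈ Cfsg.frobeniusKernel A, b ≠ 1 := by
    by_contra hno
    push Not at hno
    have h1 : Nat.card (Cfsg.frobeniusKernel A) = 1 :=
      Nat.card_eq_one_iff_unique.2 ⟨⟨fun u v => Subtype.ext ((hno u u.2).trans (hno v v.2).symm)⟩, ⟨⟨1, Or.inl rfl⟩⟩⟩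
    rw [Cfsg.Agent.Frob.card_kernel hA] at h1
    exact hA.2.1 (Subgroup.index_eq_one.1 h1)
  obtain ⟨y, hy⟩ := hmem (b : G) b.2 (fun e => hb1 (Subtype.ext e))
  have hB := hcompl y ⟨b, b.2, fun e => hb1 (Subtype.ext e), hy⟩ (hall y)
  set B := (MulAut.conj y • H).subgroupOf K with hBdef
  have hdis : ∀ c : K, c ∉ Cfsg.frobeniusKernel A → c ∈ Cfsg.frobeniusKernel B := by
    intro c hcA
    by_contra hcB
    obtain ⟨hc1, u, hu⟩ := Cfsg.Agent.Frob.not_mem_kernel hcA
    obtain ⟨-, v, hv⟩ := Cfsg.Agent.Frob.not_mem_kernel hcB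
    rw [hAdef, Subgroup.mem_subgroupOf, Cfsg.Agent.Solv.mem_conj_smul] at hu
    rw [hBdef, Subgroup.mem_subgroupOf, Cfsg.Agent.Solv.mem_conj_smul] at hv
    push_cast at hu hv
    set P := x⁻¹ * (u : G)⁻¹ * (v : G) * y with hP
    have hne : x⁻¹ * ((u : G)⁻¹ * (c : G) * (u : G)) * x ≠ 1 := fun e => hc1 (Subtype.ext (by
      calc (c : G) = (u : G) * x * (x⁻¹ * ((u : G)⁻¹ * (c : G) * (u : G)) * x) * ((u : G) * x)⁻¹ := by group
        _ = 1 := by rw [e, mul_one, mul_inv_cancel]))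
    have hPN : P ∈ Subgroup.normalizer (H : Set G) := hti hu hne (by
      have e : P⁻¹ * (x⁻¹ * ((u : G)⁻¹ * (c : G) * (u : G)) * x) * P = y⁻¹ * ((v : G)⁻¹ * (c : G) * (v : G)) * y := by
        rw [hP]; group
      rw [e]; exact hv)
    rcases Cfsg.Agent.Frob.mem_kernel_iff.1 hb with h | h
    · exact hb1 h
    refine h (v⁻¹ * u) ?_
    rw [hAdef, Subgroup.mem_subgroupOf, Cfsg.Agent.Solv.mem_conj_smul]
    push_cast
    have e : x⁻¹ * (((v : G)⁻¹ * (u : G))⁻¹ * (b : G) * ((v : G)⁻¹ * (u : G))) * x = P * (y⁻¹ * (b : G) * y) * P⁻¹ := by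
      rw [hP]; group
    rw [e]
    exact (Subgroup.mem_normalizer_iff.1 hPN _).1 hy
  let emb : ((Cfsg.frobeniusKernel A)ᶜ : Set K) ⊕ ((Cfsg.frobeniusKernel B)ᶜ : Set K) → {c : K // c ≠ 1} :=
    Sum.elim (fun c => ⟨c.1, fun e => c.2 (e ▸ Or.inl rfl)⟩) (fun c => ⟨c.1, fun e => c.2 (e ▸ Or.inl rfl)⟩)
  have hinj : Function.Injective emb := by
    rintro (c | c) (c' | c') e
    · exact congrArg Sum.inl (Subtype.ext (congrArg (fun z : {c : K // c ≠ 1} => z.1) e))
    · have h1 : c.1 = c'.1 := congrArg (fun z : {c : K // c ≠ 1} => z.1) e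
      exact absurd (hdis c.1 c.2) (h1 ▸ c'.2)
    · have h1 : c.1 = c'.1 := congrArg (fun z : {c : K // c ≠ 1} => z.1) e
      exact absurd (hdis c'.1 c'.2) (h1 ▸ c.2)
    · exact congrArg Sum.inr (Subtype.ext (congrArg (fun z : {c : K // c ≠ 1} => z.1) e))
  have h1 := Nat.card_le_card_of_injective emb hinj
  rw [Nat.card_sum] at h1
  have h2 : Nat.card {c : K // c ≠ 1} = Nat.card K - 1 := by
    haveI := Fintype.ofFinite K
    rw [Nat.card_eq_fintype_card, Nat.card_eq_fintype_card, Fintype.card_subtype_compl, Fintype.card_subtype_eq]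
  have h3 := Cfsg.Agent.Frob.card_compl_kernel hA
  have h4 := Cfsg.Agent.Frob.card_compl_kernel hB
  have h5 : 0 < Nat.card K := Nat.card_pos
  omega

end Cfsg.Agent.S4116
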