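import Cfsg.Statements.S4126
import Cfsg.Agent.Transfer.OmegaFour
import Cfsg.Agent.Solv.HallSystem

set_option autoImplicit false
open Cfsg
open Cfsg.Agent.Transfer

namespace Cfsg.Agent.S4126

/-- Let G be a finite group and p a prime. Suppose every element of order p, and when p = 2 also every element of order 4, has a conjugacy class of p-power size. Then G has a normal p-complement. -/
theorem result {G : Type*} [Group G] [Finite G] (p : ℕ) [Fact p.Prime]
    (h : ∀ x : G, (orderOf x = p ∨ (p = 2 ∧ orderOf x = 4)) → ∃ a : ℕ, (Subgroup.centralizer ({x} : Set G)).index = p ^ a) :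
    Cfsg.HasNormalPComplement p G := by
  let P : Sylow p G := Classical.arbitrary _
  refine hasNPC_of_small_control P fun a ha hs g _ => ?_
  by_cases ha1 : a = 1
  · exact ⟨1, one_mem _, by simp [ha1]⟩
  have hidx : ∃ n, (Subgroup.centralizer ({a} : Set G)).index = p ^ n := by
    rcases hs with h1 | ⟨h2, h4⟩
    · exact h a (Or.inl (orderOf_eq_prime h1 ha1))
    · subst h2
      by_cases h22 : a ^ 2 = 1
      · exact h a (Or.inl (orderOf_eq_prime h22 ha1))
      · exact h a (Or.inr ⟨rfl, orderOf_eq_prime_pow (p := 2) (n := 1) (by simpa using h22)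
          (by simpa using h4)⟩)
  obtain ⟨n, hn⟩ := hidx
  obtain ⟨z, hz, c, hc, rfl⟩ := Cfsg.Agent.Solv.mem_mul_of_coprime_index
    (H := (P : Subgroup G)) (K := Subgroup.centralizer ({a} : Set G))
    (by
      rw [hn]
      exact (((Nat.Prime.coprime_iff_not_dvd (Fact.out : p.Prime)).mpr P.not_dvd_index).symm).pow_right n) g
  refine ⟨z, hz, ?_⟩
  calc z * c * a * (z * c)⁻¹ = z * (c * a) * c⁻¹ * z⁻¹ := by group
    _ = z * a * z⁻¹ := by rw [Subgroup.mem_centralizer_singleton_iff.mp hc]; group

end Cfsg.Agent.S4126
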