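import Cfsg.Statements.S4127
import Cfsg.Agent.Transfer.Regular
import Cfsg.Agent.Solv.HallSystem
import Cfsg.Agent.Coprime.AxB

set_option autoImplicit false
open Cfsg
open Cfsg.Agent.Transfer

namespace Cfsg.Agent.S4127

/-- Let G be a finite group, p a prime and p^a the largest power of p dividing the size of any conjugacy class of G. If some element of p-power order has a conjugacy class of size exactly p^a, then G has a normal p-complement. -/
theorem result {G : Type*} [Group G] [Finite G] (p : ℕ) [Fact p.Prime]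
    (a : ℕ) (hmax : ∀ y : G, ¬ p ^ (a + 1) ∣ (Subgroup.centralizer ({y} : Set G)).index)
    (hx : ∃ x : G, (∃ k : ℕ, orderOf x = p ^ k) ∧ (Subgroup.centralizer ({x} : Set G)).index = p ^ a) :
    Cfsg.HasNormalPComplement p G := by
  obtain ⟨x, ⟨k, hk⟩, hxi⟩ := hx
  have hpx : IsPGroup p (Subgroup.zpowers x) := IsPGroup.of_card (by rw [Nat.card_zpowers, hk])
  obtain ⟨P, hP⟩ := hpx.exists_le_sylow
  have hxP : x ∈ (P : Subgroup G) := hP (Subgroup.mem_zpowers x)
  set H := Subgroup.centralizer ({x} : Set G) with hH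
  obtain ⟨R, hR⟩ : ∃ R, R = Subgroup.normalClosure ({x} : Set G) := ⟨_, rfl⟩
  haveI : R.Normal := hR ▸ inferInstance
  have hxR : x ∈ R := hR ▸ Subgroup.subset_normalClosure rfl
  have hRP : R ≤ (P : Subgroup G) := by
    rw [hR, Subgroup.normalClosure, Subgroup.closure_le]
    intro u hu
    rw [Group.mem_conjugatesOfSet_iff] at hu
    obtain ⟨x', hx', hu⟩ := hu
    rw [Set.mem_singleton_iff.mp hx'] at hu
    obtain ⟨g, rfl⟩ := isConj_iff.mp hu
    obtain ⟨z, hz, c, hc, rfl⟩ := Cfsg.Agent.Solv.mem_mul_of_coprime_index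
      (H := (P : Subgroup G)) (K := H) (by
        rw [hxi]
        exact (((Nat.Prime.coprime_iff_not_dvd (Fact.out : p.Prime)).mpr
          P.not_dvd_index).symm).pow_right a) g
    have : z * c * x * (z * c)⁻¹ = z * x * z⁻¹ := by
      calc z * c * x * (z * c)⁻¹ = z * (c * x) * c⁻¹ * z⁻¹ := by group
        _ = z * x * z⁻¹ := by rw [Subgroup.mem_centralizer_singleton_iff.mp hc]; group
    rw [SetLike.mem_coe, this]
    exact mul_mem (mul_mem hz hxP) (inv_mem hz)
  have hreg : ∀ y : ↥H, Nat.Coprime (orderOf y) p →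
      ¬ p ∣ (Subgroup.centralizer ({y} : Set ↥H)).index := by
    intro y hy hd
    have hcomm : Commute x (y : G) := (Subgroup.mem_centralizer_singleton_iff.mp y.2).symm
    have hco : Nat.Coprime (orderOf x) (orderOf (y : G)) := by
      rw [hk, Subgroup.orderOf_coe]; exact (Nat.Coprime.pow_right k hy).symm
    apply hmax (x * y)
    have hle : Subgroup.centralizer ({x * (y : G)} : Set G) ≤
        H ⊓ Subgroup.centralizer ({(y : G)} : Set G) := by
      intro c hc
      rw [Subgroup.mem_centralizer_singleton_iff] at hc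
      have hpw : ∀ n : ℕ, Commute c (x ^ n * (y : G) ^ n) := fun n =>
        hcomm.mul_pow n ▸ (show Commute c (x * y) from hc).pow_right n
      have h1 : Commute c x := by
        obtain ⟨m, hm⟩ := exists_pow_eq_self_of_coprime (x := x) (n := orderOf (y : G)) hco.symm
        have := (hpw (orderOf (y : G)))
        rw [pow_orderOf_eq_one, mul_one] at this
        exact hm ▸ this.pow_right m
      have h2 : Commute c (y : G) := by
        have := h1.inv_right.mul_right (show Commute c (x * y) from hc)
        rwa [inv_mul_cancel_left] at this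
      exact ⟨Subgroup.mem_centralizer_singleton_iff.mpr h1,
        Subgroup.mem_centralizer_singleton_iff.mpr h2⟩
    refine dvd_trans ?_ (Subgroup.index_dvd_of_le hle)
    have e : (Subgroup.centralizer ({y} : Set ↥H)) =
        (Subgroup.centralizer ({(y : G)} : Set G)).subgroupOf H := by
      ext u
      rw [Subgroup.mem_subgroupOf, Subgroup.mem_centralizer_singleton_iff,
        Subgroup.mem_centralizer_singleton_iff]
      exact ⟨fun h => congrArg Subtype.val h, fun h => Subtype.ext h⟩
    rw [← Subgroup.relIndex_mul_index (show H ⊓ Subgroup.centralizer ({(y : G)} : Set G) ≤ H from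
      inf_le_left), hxi, Subgroup.inf_relIndex_left, pow_succ, mul_comm]
    refine mul_dvd_mul ?_ dvd_rfl
    rw [e] at hd
    exact hd
  let P0 : Sylow p ↥H := Classical.arbitrary _
  obtain ⟨hP0n, hP0C⟩ := sylow_normal_of_regular hreg P0
  haveI := hP0n
  obtain ⟨N0, hN0, hN0c, m, hm⟩ := hasNPC_iff.mp (hasNPC_of_regular P0 hP0C)
  have hdisj := (isComplement'_sylow hN0c ⟨m, hm⟩ P0).disjoint
  set D := Subgroup.centralizer (R : Set G) with hD
  have hDH : D ≤ H := by
    intro d hd
    exact Subgroup.mem_centralizer_singleton_iff.mpr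
      (Subgroup.mem_centralizer_iff.mp hd x hxR).symm
  have hND : ∀ y ∈ N0, (y : G) ∈ D := by
    intro y hy
    have hyc : Nat.Coprime (orderOf (y : G)) p := by
      rw [Subgroup.orderOf_coe]; exact (mem_complement_iff hN0 hN0c ⟨m, hm⟩ y).mp hy
    have hRp : IsPGroup p R := P.isPGroup'.to_le hRP
    have := Cfsg.Agent.CoprimeAct.le_centralizer_of_axb hRp hyc
      (Subgroup.normalizer_eq_top_iff.mpr ‹R.Normal› ▸ Subgroup.mem_top _)
      (R := Subgroup.zpowers x) (Subgroup.zpowers_le.mpr hxR)
      (Subgroup.zpowers_le.mpr (Subgroup.mem_centralizer_singleton_iff.mpr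
        (Subgroup.mem_centralizer_singleton_iff.mp y.2).symm)) (by
        rintro r ⟨hr, hrc⟩
        have hrH : r ∈ H := Subgroup.mem_centralizer_singleton_iff.mpr
          (Subgroup.mem_centralizer_iff.mp hrc x (Subgroup.mem_zpowers x)).symm
        have hrp : IsPGroup p (R.subgroupOf H) := hRp.comap_subtype
        obtain ⟨T, hT⟩ := hrp.exists_le_sylow
        haveI := P0.unique_of_normal inferInstance
        rw [Subsingleton.elim T P0] at hT
        have hcm := Subgroup.commute_of_normal_of_disjoint N0 (P0 : Subgroup ↥H) hN0 inferInstance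
          hdisj y ⟨r, hrH⟩ hy (hT (Subgroup.mem_subgroupOf.mpr hr))
        exact Subgroup.mem_centralizer_singleton_iff.mpr (congrArg Subtype.val hcm.eq).symm)
    exact Subgroup.mem_centralizer_iff.mpr fun r hr =>
      Subgroup.mem_centralizer_singleton_iff.mp (this hr)
  refine hasNPC_of (N0.map H.subtype) ⟨?_⟩ ?_ ⟨m + a, ?_⟩
  · rintro _ ⟨y, hy, rfl⟩ g
    have h1 : g * (y : G) * g⁻¹ ∈ D :=
      (inferInstance : D.Normal).conj_mem _ (hND y hy) g
    refine ⟨⟨_, hDH h1⟩, (mem_complement_iff hN0 hN0c ⟨m, hm⟩ _).mpr ?_, rfl⟩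
    rw [← Subgroup.orderOf_coe, Subgroup.coe_mk, ← MulAut.conj_apply, MulEquiv.orderOf_eq,
      Subgroup.orderOf_coe]
    exact (mem_complement_iff hN0 hN0c ⟨m, hm⟩ y).mp hy
  · rwa [← Nat.card_congr (N0.equivMapOfInjective H.subtype H.subtype_injective).toEquiv]
  · rw [Subgroup.index_map_subtype, hm, hxi, pow_add]

end Cfsg.Agent.S4127
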