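import Cfsg.Statements.S4145
import Cfsg.Agent.Transfer.Regular

set_option autoImplicit false
open Cfsg
open Cfsg.Agent.Transfer

namespace Cfsg.Agent.S4145

/-- Let G be a finite group with a cyclic Sylow p-subgroup and H a normal subgroup such that p divides both the order of H and the index of H. Then H has a normal p-complement and G is p-solvable. -/
theorem result {G : Type*} [Group G] [Finite G] (p : ℕ) [Fact p.Prime]
    (P : Sylow p G) (hP : IsCyclic (P : Subgroup G)) (H : Subgroup G) [H.Normal] (h1 : p ∣ Nat.card H) (h2 : p ∣ H.index) :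
    Cfsg.HasNormalPComplement p H ∧ Cfsg.IsPSolvable p G := by
  obtain ⟨⟨z, hzP⟩, hgen⟩ := hP.exists_generator
  have hz : ∀ y ∈ (P : Subgroup G), ∃ i : ℤ, z ^ i = y := by
    intro y hy
    obtain ⟨i, hi⟩ := Subgroup.mem_zpowers_iff.mp (hgen ⟨y, hy⟩)
    exact ⟨i, congrArg Subtype.val hi⟩
  obtain ⟨k, hk⟩ := IsPGroup.iff_card.mp P.isPGroup'
  have hzo : orderOf z = p ^ k := by
    rw [← hk, ← orderOf_eq_card_of_forall_mem_zpowers hgen, ← Subgroup.orderOf_coe]
  set Q := H ⊓ (P : Subgroup G) with hQ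
  have hnd : ¬ p ∣ ((P : Subgroup G).subgroupOf H).index := by
    intro hd
    have e1 : H.relIndex ((P : Subgroup G) ⊔ H) = H.relIndex (P : Subgroup G) :=
      Subgroup.relIndex_sup_right _ _
    have c1 := (H.subgroupOf ((P : Subgroup G) ⊔ H)).card_mul_index
    rw [Nat.card_congr (Subgroup.subgroupOfEquivOfLe (le_sup_right : H ≤ (P : Subgroup G) ⊔ H)).toEquiv] at c1
    change Nat.card ↥H * H.relIndex _ = _ at c1
    rw [e1] at c1
    have c2 := (H.subgroupOf (P : Subgroup G)).card_mul_index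
    have c3 := ((P : Subgroup G).subgroupOf H).card_mul_index
    have ecard : Nat.card ↥(H.subgroupOf (P : Subgroup G)) =
        Nat.card ↥((P : Subgroup G).subgroupOf H) := by
      rw [← Subgroup.inf_subgroupOf_right, Nat.card_congr (Subgroup.subgroupOfEquivOfLe inf_le_right).toEquiv,
        ← Subgroup.inf_subgroupOf_right (P : Subgroup G) H,
        Nat.card_congr (Subgroup.subgroupOfEquivOfLe inf_le_right).toEquiv, inf_comm]
    change _ * H.relIndex (P : Subgroup G) = _ at c2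
    rw [ecard] at c2
    have key : Nat.card ↥((P : Subgroup G) ⊔ H) =
        ((P : Subgroup G).subgroupOf H).index * Nat.card ↥(P : Subgroup G) := by
      rw [← c1, ← c3, ← c2]; ring
    have hdd := Subgroup.card_subgroup_dvd_card ((P : Subgroup G) ⊔ H)
    rw [key, ← (P : Subgroup G).card_mul_index, mul_comm (Nat.card ↥(P : Subgroup G))] at hdd
    exact P.not_dvd_index (hd.trans (Nat.dvd_of_mul_dvd_mul_right Nat.card_pos hdd))
  let PH : Sylow p H := (P.isPGroup'.comap_subtype (K := H)).toSylow hnd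
  have hPH : ∀ v : H, v ∈ (PH : Subgroup H) ↔ (v : G) ∈ (P : Subgroup G) := fun v => Iff.rfl
  -- congruence argument
  have hfix : ∀ y : G, ∀ r : ℤ, y * z * y⁻¹ = z ^ r → (p : ℤ) ∣ r - 1 →
      y ^ p ^ k * z * (y ^ p ^ k)⁻¹ = z := by
    intro y r hyr hr
    have hn : ∀ n : ℕ, y ^ n * z * (y ^ n)⁻¹ = z ^ (r ^ n) := by
      intro n
      induction n with
      | zero => simp
      | succ n ih =>
        calc y ^ (n + 1) * z * (y ^ (n + 1))⁻¹ = y * (y ^ n * z * (y ^ n)⁻¹) * y⁻¹ := by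
              rw [pow_succ']; group
          _ = (y * z * y⁻¹) ^ (r ^ n) := by rw [ih, conj_zpow]
          _ = z ^ (r ^ (n + 1)) := by rw [hyr, ← zpow_mul, pow_succ']
    rw [hn]
    have h1 : ((orderOf z : ℕ) : ℤ) ∣ r ^ p ^ k - 1 := by
      have h2 := dvd_sub_pow_of_dvd_sub (R := ℤ) (a := r) (b := 1) hr k
      rw [one_pow] at h2
      rw [hzo]
      exact (dvd_trans (by push_cast; exact pow_dvd_pow _ k.le_succ) h2)
    calc z ^ (r ^ p ^ k) = z ^ (r ^ p ^ k - 1) * z := by rw [← zpow_add_one]; ring_nf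
      _ = z := by rw [orderOf_dvd_iff_zpow_eq_one.mp h1, one_mul]
  have hQne : ∃ i : ℤ, z ^ i ≠ 1 ∧ z ^ i ∈ Q := by
    obtain ⟨x, hxPH, hx1⟩ : ∃ x ∈ (PH : Subgroup H), x ≠ 1 :=
      Subgroup.bot_or_exists_ne_one _ |>.resolve_left (PH.ne_bot_of_dvd_card h1)
    have hxP : (x : G) ∈ (P : Subgroup G) := (hPH x).mp hxPH
    obtain ⟨i, hi⟩ := hz x hxP
    exact ⟨i, fun e => hx1 (Subtype.ext (hi.symm.trans e)), hi ▸ ⟨x.2, hxP⟩⟩
  -- an element normalizing `P` and centralizing `Q` acts on `P` as a `p`-element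
  have hdvd : ∀ y : G, ∀ r : ℤ, y * z * y⁻¹ = z ^ r → (∀ q ∈ Q, y * q * y⁻¹ = q) →
      (p : ℤ) ∣ r - 1 := by
    intro y r hyr hq
    obtain ⟨i, hi1, hiQ⟩ := hQne
    have h3 := hq _ hiQ
    rw [← conj_zpow, hyr, ← zpow_mul] at h3
    have h4 : ((orderOf z : ℕ) : ℤ) ∣ i * (r - 1) := by
      rw [orderOf_dvd_iff_zpow_eq_one, mul_sub, mul_one, zpow_sub, mul_comm i, h3, mul_inv_cancel]
    by_contra hnd
    refine hi1 (orderOf_dvd_iff_zpow_eq_one.mp (IsCoprime.dvd_of_dvd_mul_right ?_ h4))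
    rw [hzo]
    push_cast
    exact ((Nat.prime_iff_prime_int.mp (Fact.out : p.Prime)).coprime_iff_not_dvd.mpr hnd).pow_left
  -- normalizing elements of `H` centralize `Q`
  have hHQ : ∀ x ∈ H, x ∈ Subgroup.normalizer (Q : Set G) → x ∈ Subgroup.centralizer (Q : Set G) := by
    intro x hxH hxN
    obtain ⟨a, b, ha, hb, hab, ⟨j, hj⟩, hbc⟩ := exists_parts (p := p) x
    have hzH : Subgroup.zpowers x ≤ H ⊓ Subgroup.normalizer (Q : Set G) :=
      Subgroup.zpowers_le.mpr ⟨hxH, hxN⟩
    refine Subgroup.mem_centralizer_iff.mpr fun q hq => ?_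
    rw [hab]
    -- the `p`-part lies in `Q`
    have haQ : a ∈ Q := by
      have haN := hzH ha
      let A : Subgroup H := Subgroup.zpowers (⟨a, haN.1⟩ : H)
      have hA : IsPGroup p A := by
        obtain ⟨l, -, hl⟩ := (Nat.dvd_prime_pow (Fact.out : p.Prime)).mp
          (show orderOf (⟨a, haN.1⟩ : H) ∣ p ^ j by
            rw [← Subgroup.orderOf_coe (⟨a, haN.1⟩ : H)]; exact orderOf_dvd_of_pow_eq_one hj)
        exact IsPGroup.of_card ((Nat.card_zpowers (⟨a, haN.1⟩ : H)).trans hl)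
      have hAN : A ≤ Subgroup.normalizer ((PH : Subgroup H) : Set H) := by
        refine Subgroup.zpowers_le.mpr (Subgroup.mem_normalizer_iff.mpr fun w => ?_)
        have hw : ∀ v : H, v ∈ (PH : Subgroup H) ↔ (v : G) ∈ Q := fun v =>
          ⟨fun h => ⟨v.2, (hPH v).mp h⟩, fun h => (hPH v).mpr h.2⟩
        rw [hw, hw]
        exact Subgroup.mem_normalizer_iff.mp haN.2 w
      have hsup : IsPGroup p ↥(A ⊔ (PH : Subgroup H)) := hA.to_sup_of_normal_right' PH.isPGroup' hAN
      have : (⟨a, haN.1⟩ : H) ∈ (PH : Subgroup H) := by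
        rw [← PH.is_maximal' hsup le_sup_right]
        exact Subgroup.mem_sup_left (Subgroup.mem_zpowers _)
      exact ⟨haN.1, (hPH _).mp this⟩
    have hbN := hzH hb
    -- Frattini inside `(H ⊓ N(Q)) P`
    have hbq : b * q * b⁻¹ = q := by
      set N := Subgroup.normalizer (Q : Set G) with hN
      have hPN : (P : Subgroup G) ≤ N := by
        intro u hu
        refine Subgroup.centralizer_le_normalizer _ (Subgroup.mem_centralizer_iff.mpr fun v hv => ?_)
        obtain ⟨i, rfl⟩ := hz u hu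
        obtain ⟨j, rfl⟩ := hz v hv.2
        exact (Commute.zpow_zpow (Commute.refl z) j i)
      set W := (H ⊓ N) ⊔ (P : Subgroup G) with hW
      have hWN : W ≤ N := sup_le inf_le_right hPN
      let CW := (Subgroup.centralizer (Q : Set G)).subgroupOf W
      haveI : CW.Normal := ⟨fun c hc w => Subgroup.mem_subgroupOf.mpr
        (Subgroup.mem_centralizer_iff.mpr fun v hv => by
          have hv' : (w : G)⁻¹ * v * (w : G) ∈ Q := by
            simpa using (Subgroup.mem_normalizer_iff.mp (inv_mem (hWN w.2)) v).mp hv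
          have := Subgroup.mem_centralizer_iff.mp (Subgroup.mem_subgroupOf.mp hc) _ hv'
          calc v * ((w : G) * c * (w : G)⁻¹) = w * ((w : G)⁻¹ * v * w * c) * (w : G)⁻¹ := by group
            _ = w * c * (w : G)⁻¹ * v := by rw [this]; group)⟩
      let PW : Sylow p W := P.subtype le_sup_right
      have hPC : (PW : Subgroup W) ≤ CW := fun u hu => Subgroup.mem_subgroupOf.mpr
        (Subgroup.mem_centralizer_iff.mpr fun v hv => by
          obtain ⟨i, hi⟩ := hz _ (Subgroup.mem_subgroupOf.mp hu)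
          obtain ⟨j, rfl⟩ := hz v hv.2
          rw [← hi]
          exact (Commute.zpow_zpow (Commute.refl z) j i))
      have hfr := Sylow.normalizer_sup_eq_top' PW hPC
      obtain ⟨c, hc, y, hy, hcy⟩ := Subgroup.mem_sup_of_normal_left.mp
        (show (⟨b, Subgroup.mem_sup_left hbN⟩ : W) ∈ CW ⊔ Subgroup.normalizer ((PW : Subgroup W) : Set W) by
          rw [sup_comm]; exact hfr ▸ Subgroup.mem_top _)
      have hyP : ∀ u ∈ (P : Subgroup G), (y : G) * u * (y : G)⁻¹ ∈ (P : Subgroup G) := fun u hu =>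
        Subgroup.mem_subgroupOf.mp ((Subgroup.mem_normalizer_iff.mp hy
          ⟨u, Subgroup.mem_sup_right hu⟩).mp (Subgroup.mem_subgroupOf.mpr hu))
      -- `y` fixes `P` modulo `H`
      obtain ⟨r, hr⟩ := hz _ (hyP z hzP)
      have hr1 : (p : ℤ) ∣ r - 1 := by
        by_contra hnd
        have hcop : IsCoprime ((orderOf z : ℕ) : ℤ) (r - 1) := by
          rw [hzo]
          push_cast
          exact ((Nat.prime_iff_prime_int.mp (Fact.out : p.Prime)).coprime_iff_not_dvd.mpr hnd).pow_left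
        obtain ⟨u, hu⟩ : ∃ u ∈ H, (y : G) = u ∨ ∃ v ∈ (P : Subgroup G), (y : G) = u * v := by
          obtain ⟨u, hu, v, hv, e⟩ := (Subgroup.mem_sup_of_normal_left (s := H)
            (t := (P : Subgroup G))).mp ((sup_le_sup_right inf_le_left _ : W ≤ _) y.2)
          exact ⟨u, hu, Or.inr ⟨v, hv, e.symm⟩⟩
        obtain ⟨v, hv, hyv⟩ : ∃ v ∈ (P : Subgroup G), (y : G) = u * v := by
          rcases hu.2 with e | h
          · exact ⟨1, one_mem _, by simpa using e⟩
          · exact h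
        have hzr : z ^ (r - 1) ∈ H := by
          obtain ⟨i, rfl⟩ := hz v hv
          rw [zpow_sub, zpow_one, hr, hyv, show u * z ^ i * z * (u * z ^ i)⁻¹ * z⁻¹ =
            u * (z * u⁻¹ * z⁻¹) by group]
          exact mul_mem hu.1 (Subgroup.Normal.conj_mem ‹H.Normal› _ (inv_mem hu.1) z)
        obtain ⟨s, t, hst⟩ := hcop
        have hzH' : z ∈ H := by
          have e : z = (z ^ ((orderOf z : ℕ) : ℤ)) ^ s * (z ^ (r - 1)) ^ t := by
            rw [← zpow_mul, ← zpow_mul, ← zpow_add, mul_comm _ s, mul_comm _ t, hst, zpow_one]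
          rw [e, orderOf_dvd_iff_zpow_eq_one.mp dvd_rfl, one_zpow, one_mul]
          exact zpow_mem hzr t
        refine P.not_dvd_index (dvd_trans h2 (Subgroup.index_dvd_of_le ?_))
        intro u hu'
        obtain ⟨i, rfl⟩ := hz u hu'
        exact zpow_mem hzH' i
      have hyz := hfix y r hr.symm hr1
      -- conjugation by `b` and by `y` agree on `Q`
      have hagree : ∀ v ∈ Q, b * v * b⁻¹ = (y : G) * v * (y : G)⁻¹ := by
        intro v hv
        have hb' : b = (c : G) * y := (congrArg Subtype.val hcy).symm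
        have hv' := (Subgroup.mem_normalizer_iff.mp (hWN y.2) v).mp hv
        have := Subgroup.mem_centralizer_iff.mp (Subgroup.mem_subgroupOf.mp hc) _ hv'
        rw [hb', show (c : G) * y * v * ((c : G) * y)⁻¹ = c * ((y : G) * v * (y : G)⁻¹) * (c : G)⁻¹ by
          group, ← this, mul_inv_cancel_right]
      have hagree' : ∀ n : ℕ, ∀ v ∈ Q, b ^ n * v * (b ^ n)⁻¹ = (y : G) ^ n * v * ((y : G) ^ n)⁻¹ := by
        intro n
        induction n with
        | zero => simp
        | succ n ih =>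
          intro v hv
          have hv' := (Subgroup.mem_normalizer_iff.mp (pow_mem (hWN y.2) n) v).mp hv
          calc b ^ (n + 1) * v * (b ^ (n + 1))⁻¹ = b * (b ^ n * v * (b ^ n)⁻¹) * b⁻¹ := by
                rw [pow_succ']; group
            _ = (y : G) * ((y : G) ^ n * v * ((y : G) ^ n)⁻¹) * (y : G)⁻¹ := by
                rw [ih v hv, hagree _ hv']
            _ = _ := by rw [pow_succ']; group
      have h5 : Commute (b ^ p ^ k) q := by
        have := hagree' (p ^ k) q hq
        obtain ⟨i, rfl⟩ := hz q hq.2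
        refine mul_inv_eq_iff_eq_mul.mp (this.trans ?_)
        rw [← conj_zpow, hyz]
      obtain ⟨m, hm⟩ := exists_pow_eq_self_of_coprime (n := p ^ k) (x := b)
        (Nat.Coprime.pow_left k hbc.symm)
      rw [← hm, (h5.pow_left m).eq, mul_inv_cancel_right]
    have haq : Commute q a := by
      obtain ⟨i, rfl⟩ := hz q hq.2
      obtain ⟨l, rfl⟩ := hz a haQ.2
      exact Commute.zpow_zpow (Commute.refl z) i l
    exact (haq.mul_right (mul_inv_eq_iff_eq_mul.mp hbq).symm).eq
  have hH : Cfsg.HasNormalPComplement p H := by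
    refine hasNPC_of_burnside PH ?_
    intro x hx
    refine Subgroup.mem_centralizer_iff.mpr fun w hw => Subtype.ext ?_
    have hxN : (x : G) ∈ Subgroup.normalizer (Q : Set G) := by
      refine Subgroup.mem_normalizer_iff.mpr fun v => ?_
      constructor
      · intro hv
        exact ⟨Subgroup.Normal.conj_mem ‹H.Normal› v hv.1 x,
          (hPH _).mp ((Subgroup.mem_normalizer_iff.mp hx ⟨v, hv.1⟩).mp ((hPH _).mpr hv.2))⟩
      · intro hv
        have hvH : v ∈ H := by simpa [mul_assoc] using Subgroup.Normal.conj_mem ‹H.Normal› _ hv.1 (x : G)⁻¹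
        exact ⟨hvH, (hPH ⟨v, hvH⟩).mp ((Subgroup.mem_normalizer_iff.mp hx ⟨v, hvH⟩).mpr
          ((hPH _).mpr hv.2))⟩
    exact Subgroup.mem_centralizer_iff.mp (hHQ x x.2 hxN) _ ⟨w.2, (hPH w).mp hw⟩
  refine ⟨hH, ?_⟩
  obtain ⟨K₀, hK₀, hK₀c, hK₀i⟩ := hasNPC_iff.mp hH
  haveI := complement_characteristic hK₀ hK₀c hK₀i
  set K := K₀.map H.subtype with hKdef
  haveI hKn : K.Normal := inferInstance
  have hKc : ¬ p ∣ Nat.card K := by
    rwa [hKdef, ← Nat.card_congr (K₀.equivMapOfInjective H.subtype H.subtype_injective).toEquiv]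
  have hKP : K ⊓ (P : Subgroup G) = ⊥ := by
    refine (Subgroup.disjoint_of_coprime_natCard ?_).eq_bot
    rw [hk]
    exact ((Fact.out : p.Prime).coprime_iff_not_dvd.mpr hKc).symm.pow_right k
  let C₁ : Subgroup G := (Subgroup.centralizer ((H.map (QuotientGroup.mk' K)) : Set (G ⧸ K))).comap
    (QuotientGroup.mk' K)
  haveI hCn : C₁.Normal := by
    haveI : (H.map (QuotientGroup.mk' K)).Normal :=
      Subgroup.Normal.map ‹_› _ (QuotientGroup.mk'_surjective K)
    exact Subgroup.Normal.comap inferInstance _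
  have hC1 : ∀ x : G, x ∈ C₁ ↔ ∀ h ∈ H, (h * x)⁻¹ * (x * h) ∈ K := by
    intro x
    simp only [C₁, Subgroup.mem_comap, Subgroup.mem_centralizer_iff, Subgroup.coe_map,
      Set.forall_mem_image, SetLike.mem_coe, QuotientGroup.mk'_apply]
    refine forall_congr' fun h => forall_congr' fun _ => ?_
    rw [← QuotientGroup.mk_mul, ← QuotientGroup.mk_mul, QuotientGroup.eq]
  have hPC1 : (P : Subgroup G) ≤ C₁ := by
    intro u hu
    rw [hC1]
    intro h hh
    -- modulo `K`, `h` lies in `Q`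
    let PH' : Sylow p H := PH
    obtain ⟨⟨⟨a, ha⟩, ⟨b, hb⟩⟩, e⟩ := (isComplement'_sylow hK₀c hK₀i PH').2 ⟨h, hh⟩
    have he : (a : G) * (b : G) = h := congrArg Subtype.val e
    obtain ⟨i, hi⟩ := hz u hu
    obtain ⟨j, hj⟩ := hz b ((hPH b).mp hb)
    have hcomm : (b : G) * u = u * b := by
      rw [← hi, ← hj]; exact (Commute.zpow_zpow (Commute.refl z) j i)
    have haK : (a : G) ∈ K := ⟨a, ha, rfl⟩
    rw [← he, show ((a : G) * b * u)⁻¹ * (u * ((a : G) * b)) =
      u⁻¹ * ((b : G)⁻¹ * ((a : G)⁻¹ * (u * a * u⁻¹)) * (u * b)) by group,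
      show u * (b : G) = b * u from hcomm.symm,
      show u⁻¹ * ((b : G)⁻¹ * ((a : G)⁻¹ * (u * a * u⁻¹)) * ((b : G) * u)) =
      ((b : G) * u)⁻¹ * ((a : G)⁻¹ * (u * a * u⁻¹)) * ((b : G) * u) by group]
    simpa using hKn.conj_mem _ (mul_mem (inv_mem haK) (hKn.conj_mem _ haK u)) ((b : G) * u)⁻¹
  have hC : Cfsg.HasNormalPComplement p C₁ := by
    let PC : Sylow p C₁ := P.subtype hPC1
    refine hasNPC_of_burnside PC ?_
    intro x hx
    have hxP : ∀ u ∈ (P : Subgroup G), (x : G) * u * (x : G)⁻¹ ∈ (P : Subgroup G) := fun u hu =>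
      Subgroup.mem_subgroupOf.mp ((Subgroup.mem_normalizer_iff.mp hx ⟨u, hPC1 hu⟩).mp
        (Subgroup.mem_subgroupOf.mpr hu))
    have hxN : (x : G) ∈ Subgroup.normalizer ((P : Subgroup G) : Set G) := by
      refine Subgroup.mem_normalizer_iff.mpr fun u => ⟨hxP u, fun hu => ?_⟩
      have hu' : u ∈ C₁ := by simpa [mul_assoc] using hCn.conj_mem _ (hPC1 hu) (x : G)⁻¹
      exact Subgroup.mem_subgroupOf.mp ((Subgroup.mem_normalizer_iff.mp hx ⟨u, hu'⟩).mpr
        (Subgroup.mem_subgroupOf.mpr hu))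
    obtain ⟨a, b, ha, hb, hab, ⟨j, hj⟩, hbc⟩ := exists_parts (p := p) (x : G)
    have hzN : Subgroup.zpowers (x : G) ≤ C₁ ⊓ Subgroup.normalizer ((P : Subgroup G) : Set G) :=
      Subgroup.zpowers_le.mpr ⟨x.2, hxN⟩
    have hbz : b * z * b⁻¹ = z := by
      obtain ⟨r, hr⟩ := hz _ ((Subgroup.mem_normalizer_iff.mp (hzN hb).2 z).mp hzP)
      have hqfix : ∀ q ∈ Q, b * q * b⁻¹ = q := by
        intro q hq
        have h3 := (hC1 b).mp (hzN hb).1 q hq.1
        have h4 : (q * b)⁻¹ * (b * q) = b⁻¹ * (q⁻¹ * (b * q * b⁻¹)) * b := by group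
        rw [h4] at h3
        have h5 : q⁻¹ * (b * q * b⁻¹) ∈ K ⊓ (P : Subgroup G) :=
          ⟨by simpa [mul_assoc] using hKn.conj_mem _ h3 b,
            Subgroup.mul_mem _ (Subgroup.inv_mem _ hq.2) ((Subgroup.mem_normalizer_iff.mp (hzN hb).2 q).mp hq.2)⟩
        rw [hKP, Subgroup.mem_bot, inv_mul_eq_one] at h5
        exact h5.symm
      have h6 : Commute (b ^ p ^ k) z :=
        mul_inv_eq_iff_eq_mul.mp (hfix b r hr.symm (hdvd b r hr.symm hqfix))
      obtain ⟨m, hm⟩ := exists_pow_eq_self_of_coprime (n := p ^ k) (x := b)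
        (Nat.Coprime.pow_left k hbc.symm)
      rw [← hm, (h6.pow_left m).eq, mul_inv_cancel_right]
    have haz : Commute a z := by
      let A : Subgroup G := Subgroup.zpowers a
      have hA : IsPGroup p A := by
        obtain ⟨l, -, hl⟩ := (Nat.dvd_prime_pow (Fact.out : p.Prime)).mp
          (orderOf_dvd_of_pow_eq_one hj)
        exact IsPGroup.of_card ((Nat.card_zpowers a).trans hl)
      have hsup : IsPGroup p ↥(A ⊔ (P : Subgroup G)) :=
        hA.to_sup_of_normal_right' P.isPGroup' (Subgroup.zpowers_le.mpr (hzN ha).2)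
      have haP : a ∈ (P : Subgroup G) := by
        rw [← P.is_maximal' hsup le_sup_right]
        exact Subgroup.mem_sup_left (Subgroup.mem_zpowers _)
      obtain ⟨i, rfl⟩ := hz a haP
      exact (Commute.refl z).zpow_left i
    have hxz : Commute (x : G) z := by
      rw [hab]; exact haz.mul_left (mul_inv_eq_iff_eq_mul.mp hbz)
    refine Subgroup.mem_centralizer_iff.mpr fun w hw => Subtype.ext ?_
    obtain ⟨i, hi⟩ := hz _ (Subgroup.mem_subgroupOf.mp hw)
    simp only [Subgroup.coe_mul, ← hi]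
    exact (hxz.zpow_right i).eq.symm
  obtain ⟨L₀, hL₀, hL₀c, nL, hL₀i⟩ := hasNPC_iff.mp hC
  haveI := complement_characteristic hL₀ hL₀c ⟨nL, hL₀i⟩
  set L := L₀.map C₁.subtype with hLdef
  haveI hLn : L.Normal := inferInstance
  refine ⟨3, ![⊥, L, C₁, ⊤], rfl, rfl, ?_, ?_, ?_⟩
  · refine Fin.monotone_iff_le_succ.mpr fun i => ?_
    fin_cases i <;> simp [hLdef, Subgroup.map_subtype_le]
  · intro i
    fin_cases i
    · exact Subgroup.normal_bot ..
    · exact hLn
    · exact hCn
    · exact Subgroup.normal_top ..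
  · intro i
    fin_cases i
    · refine Or.inr ?_
      simp only [Fin.isValue]
      change ((⊥ : Subgroup G).relIndex L).Coprime p
      rw [Subgroup.relIndex_bot_left, hLdef,
        ← Nat.card_congr (L₀.equivMapOfInjective C₁.subtype C₁.subtype_injective).toEquiv]
      exact ((Fact.out : p.Prime).coprime_iff_not_dvd.mpr hL₀c).symm
    · refine Or.inl ⟨nL, ?_⟩
      change L.relIndex C₁ = p ^ nL
      rw [← hL₀i, Subgroup.relIndex, hLdef, Subgroup.subgroupOf,
        Subgroup.comap_map_eq_self_of_injective C₁.subtype_injective]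
    · refine Or.inr ?_
      change (C₁.relIndex ⊤).Coprime p
      rw [Subgroup.relIndex_top_right]
      exact (((Fact.out : p.Prime).coprime_iff_not_dvd.mpr
        (fun hd => P.not_dvd_index (hd.trans (Subgroup.index_dvd_of_le hPC1)))).symm)

end Cfsg.Agent.S4145
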