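import Cfsg.Statements.S4168
-- import your own Cfsg.Agent.* helpers here

set_option autoImplicit false
open Cfsg

set_option maxHeartbeats 20000
namespace Cfsg.Agent.S4168

/-- Let L be a finite quasisimple group (perfect with L/Z(L) simple). Then every prime dividing the order of the centre Z(L) also divides the order of L/Z(L). -/
theorem result {L : Type*} [Group L] [Finite L] (hL : Cfsg.IsQuasisimple L)
    (p : ℕ) (hp : p.Prime) (hdiv : p ∣ Nat.card (Subgroup.center L)) : p ∣ (Subgroup.center L).index := by
  haveI : Fact p.Prime := ⟨hp⟩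
  obtain ⟨z, hz⟩ := exists_prime_orderOf_dvd_card' p hdiv
  haveI := hL.1
  have hker : commutator L ≤ (MonoidHom.transferCenterPow L).ker := by
    rw [commutator_def, Subgroup.commutator_le]
    intro a _ b _
    rw [MonoidHom.mem_ker, map_commutatorElement, commutatorElement_eq_one_iff_commute]
    exact Subtype.ext (Subgroup.mem_center_iff.1 (MonoidHom.transferCenterPow L b).2 _)
  rw [Group.IsPerfect.commutator_eq_top] at hker
  have h := congrArg Subtype.val (MonoidHom.mem_ker.1 (hker (Subgroup.mem_top (z : L))))
  rw [← hz]
  refine orderOf_dvd_of_pow_eq_one (Subtype.ext ?_)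
  rw [Subgroup.coe_pow, Subgroup.coe_one]
  rw [MonoidHom.transferCenterPow_apply] at h
  exact h

end Cfsg.Agent.S4168
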