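import Cfsg.Statements.S4196
import Cfsg.Agent.Transfer.RealBasic

set_option autoImplicit false
open Cfsg
open scoped commutatorElement


namespace Cfsg.Agent.S4196

/-- A finite group G has elementary abelian Sylow 2-subgroups (commutative with every element squaring to the identity) if and only if every 2-element of G has a Sylow 2-subgroup in its centralizer and is conjugate to its inverse. -/
theorem result {G : Type*} [Group G] [Finite G] (P : Sylow 2 G) :
    (IsMulCommutative (P : Subgroup G) ∧ ∀ x ∈ (P : Subgroup G), x ^ 2 = 1) ↔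
      ∀ x : G, (∃ k : ℕ, orderOf x = 2 ^ k) → (∃ Q : Sylow 2 G, (Q : Subgroup G) ≤ Subgroup.centralizer ({x} : Set G)) ∧ IsConj x x⁻¹ := by
  constructor
  · rintro ⟨hc, hexp⟩ x ⟨k, hk⟩
    have hz : IsPGroup 2 (Subgroup.zpowers x) := IsPGroup.of_card (by rw [Nat.card_zpowers, hk])
    obtain ⟨Q, hQ⟩ := hz.exists_le_sylow
    obtain ⟨g, hg⟩ := MulAction.exists_smul_eq G Q P
    have hxQ := hQ (Subgroup.mem_zpowers x)
    have hgP : ∀ u ∈ (Q : Subgroup G), g * u * g⁻¹ ∈ (P : Subgroup G) := fun u hu => by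
      rw [← hg]; exact ⟨u, hu, by simp⟩
    refine ⟨⟨Q, fun u hu => Subgroup.mem_centralizer_singleton_iff.mpr ?_⟩, ?_⟩
    · haveI := hc
      have h1 : g * u * g⁻¹ * (g * x * g⁻¹) = g * x * g⁻¹ * (g * u * g⁻¹) := congrArg Subtype.val
        (mul_comm' (⟨_, hgP u hu⟩ : ↥(P : Subgroup G)) ⟨_, hgP x hxQ⟩)
      calc u * x = g⁻¹ * (g * u * g⁻¹ * (g * x * g⁻¹)) * g := by group
        _ = x * u := by rw [h1]; group
    · have h2 := hexp _ (hgP x hxQ)
      rw [conj_pow, mul_inv_eq_one, mul_eq_left] at h2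
      rw [show x⁻¹ = x from inv_eq_of_mul_eq_one_right (by rw [← pow_two]; exact h2)]
  · intro h
    have hexp : ∀ x ∈ (P : Subgroup G), x ^ 2 = 1 := by
      intro x hx
      obtain ⟨j, hj⟩ := IsPGroup.iff_orderOf.mp P.isPGroup' ⟨x, hx⟩
      obtain ⟨⟨Q, hQ⟩, hr⟩ := h x ⟨j, by rwa [← Subgroup.orderOf_coe] at hj⟩
      exact Cfsg.Agent.RealBasic.sq_eq_one_of_odd_class hr
        (Cfsg.Agent.RealBasic.index_centralizer_odd hQ)
    refine ⟨⟨⟨fun a b => Subtype.ext ?_⟩⟩, hexp⟩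
    have inv_self : ∀ x ∈ (P : Subgroup G), x⁻¹ = x := fun x hx =>
      inv_eq_of_mul_eq_one_right (by rw [← pow_two]; exact hexp x hx)
    calc (a : G) * b = ((a : G) * b)⁻¹ := (inv_self _ (mul_mem a.2 b.2)).symm
      _ = (b : G) * a := by rw [mul_inv_rev, inv_self _ a.2, inv_self _ b.2]

end Cfsg.Agent.S4196
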