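import Cfsg.Statements.S4238
import Cfsg.Agent.Transfer.OmegaFour
import Cfsg.Agent.Solv.Cores

set_option autoImplicit false
open Cfsg
open Cfsg.Agent.Transfer

namespace Cfsg.Agent.S4238

/-- Let G be a finite group and p a prime. Then G has a normal p-complement if and only if every section K = H/N of G (N a normal subgroup of a subgroup H) whose largest normal subgroup of order prime to p is trivial contains an element whose order equals the exponent of K. -/
theorem result {G : Type*} [Group G] [Finite G] (p : ℕ) [Fact p.Prime] :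
    Cfsg.HasNormalPComplement p G ↔
      ∀ (H : Subgroup G) (N : Subgroup H) [N.Normal], Cfsg.pPrimeCore p (H ⧸ N) = ⊥ →
        ∃ k : H ⧸ N, orderOf k = Monoid.exponent (H ⧸ N) := by
  classical
  constructor
  · intro hG H N _ hcore
    obtain ⟨K, hKn, hKc, hKi⟩ := hasNPC_iff.mp
      (hasNPC_of_surjective _ (QuotientGroup.mk'_surjective N) (hasNPC_subgroup hG H))
    have hK : K = ⊥ := le_bot_iff.mp (hcore ▸ Solv.le_pPrimeCore hKn
      ((Fact.out : p.Prime).coprime_iff_not_dvd.mpr hKc).symm)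
    have hp' : IsPGroup p (H ⧸ N) := by
      obtain ⟨n, hn⟩ := hKi
      rw [hK, Subgroup.index_bot] at hn
      exact IsPGroup.of_card hn
    obtain ⟨k, hk⟩ := Finite.exists_max (fun x : H ⧸ N => orderOf x)
    refine ⟨k, Nat.dvd_antisymm (Monoid.order_dvd_exponent k)
      (Monoid.exponent_dvd.mpr fun x => ?_)⟩
    obtain ⟨i, hi⟩ := IsPGroup.iff_orderOf.mp hp' x
    obtain ⟨j, hj⟩ := IsPGroup.iff_orderOf.mp hp' k
    have := hk x
    rw [hi, hj, Nat.pow_le_pow_iff_right (Fact.out : p.Prime).one_lt] at this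
    rw [hi, hj]
    exact pow_dvd_pow p this
  intro hsec
  refine hasNPC_of_frobCond ?_
  by_contra hbad
  obtain ⟨U, g, hU, hg, hgc, hgC, hminU, hming⟩ : ∃ (U : Subgroup G) (g : G), IsPGroup p U ∧
      g ∈ Subgroup.normalizer (U : Set G) ∧ Nat.Coprime (orderOf g) p ∧
      g ∉ Subgroup.centralizer (U : Set G) ∧
      (∀ W : Subgroup G, W < U → ∀ x : G, x ∈ Subgroup.normalizer (W : Set G) →
        Nat.Coprime (orderOf x) p → x ∈ Subgroup.centralizer (W : Set G)) ∧
      ∀ x ∈ Subgroup.zpowers g, orderOf x < orderOf g → x ∈ Subgroup.centralizer (U : Set G) := by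
    have hex : ∃ n, ∃ U : Subgroup G, Nat.card U = n ∧ IsPGroup p U ∧ ∃ g,
        g ∈ Subgroup.normalizer (U : Set G) ∧ Nat.Coprime (orderOf g) p ∧
        g ∉ Subgroup.centralizer (U : Set G) := by
      simp only [FrobCond, not_forall] at hbad
      obtain ⟨U, hU, g, hg, hgc, hgC⟩ := hbad
      exact ⟨_, U, rfl, hU, g, hg, hgc, hgC⟩
    obtain ⟨U, hUn, hU, g0, hg0⟩ := Nat.find_spec hex
    have hex2 : ∃ m, ∃ g, orderOf g = m ∧ g ∈ Subgroup.normalizer (U : Set G) ∧
        Nat.Coprime (orderOf g) p ∧ g ∉ Subgroup.centralizer (U : Set G) := ⟨_, g0, rfl, hg0⟩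
    obtain ⟨g, hgm, hg, hgc, hgC⟩ := Nat.find_spec hex2
    refine ⟨U, g, hU, hg, hgc, hgC, fun W hW x hx hxc => ?_, fun x hx hlt => ?_⟩
    · by_contra hxC
      refine Nat.find_min hex ?_ ⟨W, rfl, hU.to_le hW.le, x, hx, hxc, hxC⟩
      rw [← hUn]; exact Set.ncard_lt_ncard (SetLike.coe_ssubset_coe.mpr hW)
    · by_contra hxC
      exact Nat.find_min hex2 (hgm ▸ hlt) ⟨x, rfl, (Subgroup.zpowers_le.mpr hg) hx,
        Nat.Coprime.of_dvd_left (orderOf_dvd_of_mem_zpowers hx) hgc, hxC⟩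
  have hU1 : U ≠ ⊥ := by
    rintro rfl
    exact hgC (Subgroup.mem_centralizer_iff.mpr fun u hu => by
      rw [Subgroup.mem_bot.mp hu, one_mul, mul_one])
  have hgne : orderOf g ≠ 1 := fun e => hgC (by rw [orderOf_eq_one_iff.mp e]; exact one_mem _)
  set r := (orderOf g).minFac with hr
  haveI hrp : Fact r.Prime := ⟨Nat.minFac_prime hgne⟩
  have hrg : r ∣ orderOf g := Nat.minFac_dvd _
  have hrp' : Nat.Coprime r p := Nat.Coprime.of_dvd_left hrg hgc
  have hgrC : g ^ r ∈ Subgroup.centralizer (U : Set G) := by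
    refine hming _ (pow_mem (Subgroup.mem_zpowers g) r) ?_
    rw [orderOf_pow_of_dvd hrp.out.ne_zero hrg]
    exact Nat.div_lt_self (orderOf_pos g) hrp.out.one_lt
  -- a maximal invariant proper subgroup over the Frattini subgroup
  have hWex : ∃ W : Subgroup G, (W < U ∧ (frattini U).map U.subtype ≤ W ∧
      g ∈ Subgroup.normalizer (W : Set G)) := by
    refine ⟨(frattini U).map U.subtype, lt_of_le_of_ne (Subgroup.map_subtype_le _) ?_, le_rfl, ?_⟩
    · intro e
      haveI : Nontrivial U := (Subgroup.nontrivial_iff_ne_bot U).mpr hU1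
      obtain ⟨M, hM, -⟩ :=
        (IsCoatomic.eq_top_or_exists_le_coatom (⊥ : Subgroup U)).resolve_left bot_ne_top
      refine hM.1 (eq_top_iff.mpr fun u _ => frattini_le_coatom hM ?_)
      obtain ⟨v, hv, hve⟩ := e.ge u.2
      exact (Subtype.ext hve : v = u) ▸ hv
    · have key : ∀ a ∈ Subgroup.normalizer (U : Set G), ∀ x ∈ (frattini U).map U.subtype,
          a * x * a⁻¹ ∈ (frattini U).map U.subtype := by
        rintro a ha _ ⟨v, hv, rfl⟩
        let φ : U ≃* U :=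
          { toFun := fun u => ⟨a * u * a⁻¹, (Subgroup.mem_normalizer_iff.mp ha u).mp u.2⟩
            invFun := fun u => ⟨a⁻¹ * u * a, by
              simpa using (Subgroup.mem_normalizer_iff.mp (inv_mem ha) u).mp u.2⟩
            left_inv := fun u => Subtype.ext (by simp [mul_assoc])
            right_inv := fun u => Subtype.ext (by simp [mul_assoc])
            map_mul' := fun u w => Subtype.ext (by simp [mul_assoc]) }
        refine ⟨φ v, ?_, rfl⟩
        have := Subgroup.characteristic_iff_map_eq.mp (inferInstance : (frattini U).Characteristic) φ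
        exact this.le ⟨v, hv, rfl⟩
      exact Subgroup.mem_normalizer_iff.mpr fun x => ⟨key g hg x, fun hx => by
        simpa [mul_assoc] using key g⁻¹ (inv_mem hg) _ hx⟩
  obtain ⟨W, hWmax⟩ := (Set.toFinite {W : Subgroup G | W < U ∧ (frattini U).map U.subtype ≤ W ∧
      g ∈ Subgroup.normalizer (W : Set G)}).exists_maximal hWex
  obtain ⟨hWU, hWΦ, hWg⟩ := hWmax.prop
  have hgW : ∀ w ∈ W, w * g = g * w := Subgroup.mem_centralizer_iff.mp (hminU W hWU g hWg hgc)
  have hcoat : ∀ a b : U, ∀ M : Subgroup U, IsCoatom M →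
      a * b * a⁻¹ * b⁻¹ ∈ M ∧ a ^ p ∈ M := by
    intro a b M hM
    obtain ⟨hMc, hMp⟩ := Cfsg.Agent.Solv.pGroup_coatom hU hM
    exact ⟨hMc (Subgroup.commutator_mem_commutator (Subgroup.mem_top a) (Subgroup.mem_top b)), hMp a⟩
  have hΦmem : ∀ x : U, (∀ M : Subgroup U, IsCoatom M → x ∈ M) → x ∈ frattini U := by
    intro x hx
    rw [frattini, Order.radical, ← SetLike.mem_coe]
    simp only [Subgroup.coe_iInf, Set.mem_iInter, SetLike.mem_coe]
    exact hx
  have hcom : ∀ a ∈ U, ∀ b ∈ U, a * b * a⁻¹ * b⁻¹ ∈ W := fun a ha b hb =>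
    hWΦ ⟨_, hΦmem (⟨a, ha⟩ * ⟨b, hb⟩ * (⟨a, ha⟩ : U)⁻¹ * (⟨b, hb⟩ : U)⁻¹)
      (fun M hM => (hcoat _ _ M hM).1), rfl⟩
  have hpow : ∀ a ∈ U, a ^ p ∈ W := fun a ha =>
    hWΦ ⟨_, hΦmem ((⟨a, ha⟩ : U) ^ p) (fun M hM => (hcoat _ ⟨a, ha⟩ M hM).2), rfl⟩
  have hWn : ∀ u ∈ U, ∀ w ∈ W, u * w * u⁻¹ ∈ W := fun u hu w hw => by
    simpa using mul_mem (hcom u hu w (hWU.le hw)) hw
  -- fixed points modulo `W`
  have hfix : ∀ u ∈ U, u⁻¹ * (g * u * g⁻¹) ∈ W → u ∈ W := by
    let C : Subgroup G :=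
      { carrier := {u | u ∈ U ∧ u⁻¹ * (g * u * g⁻¹) ∈ W}
        one_mem' := ⟨one_mem _, by simp⟩
        mul_mem' := fun {a b} ha hb => ⟨mul_mem ha.1 hb.1, by
          have e : (a * b)⁻¹ * (g * (a * b) * g⁻¹) =
              (b⁻¹ * (a⁻¹ * (g * a * g⁻¹)) * b) * (b⁻¹ * (g * b * g⁻¹)) := by group
          rw [e]
          exact mul_mem (by simpa using hWn b⁻¹ (inv_mem hb.1) _ ha.2) hb.2⟩
        inv_mem' := fun {a} ha => ⟨inv_mem ha.1, by
          have e : (a⁻¹)⁻¹ * (g * a⁻¹ * g⁻¹) = (a * (a⁻¹ * (g * a * g⁻¹)) * a⁻¹)⁻¹ := by group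
          rw [e]
          exact inv_mem (hWn a ha.1 _ ha.2)⟩ }
    have hWC : W ≤ C := fun w hw => ⟨hWU.le hw, by
      rw [← hgW w hw, mul_inv_cancel_right, inv_mul_cancel]; exact one_mem _⟩
    intro u hu hfu
    by_contra huW
    have hCn : g ∈ Subgroup.normalizer (C : Set G) := by
      have hgj : ∀ c ∈ C, g * c * g⁻¹ ∈ C := by
        rintro c ⟨hc, hc'⟩
        refine ⟨(Subgroup.mem_normalizer_iff.mp hg c).mp hc, ?_⟩
        have h1 := (Subgroup.mem_normalizer_iff.mp hWg _).mp hc'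
        rw [show (g * c * g⁻¹)⁻¹ * (g * (g * c * g⁻¹) * g⁻¹) =
          g * (c⁻¹ * (g * c * g⁻¹)) * g⁻¹ by group]
        exact h1
      have hmap : C.map (MulAut.conj g).toMonoidHom = C := Subgroup.eq_of_le_of_card_ge
        (by rintro _ ⟨c, hc, rfl⟩; exact hgj c hc)
        (le_of_eq (Nat.card_congr (C.equivMapOfInjective _ (MulAut.conj g).injective).toEquiv))
      refine Subgroup.mem_normalizer_iff.mpr fun c => ⟨hgj c, fun hc => ?_⟩
      obtain ⟨d, hd, hde⟩ := hmap.ge hc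
      exact ((MulAut.conj g).injective hde) ▸ hd
    have hCU : C ≤ U := fun c hc => hc.1
    rcases hCU.eq_or_lt with e | hlt
    · -- trivial action modulo `W`
      refine hgC (Subgroup.mem_centralizer_iff.mpr fun v hv => ?_)
      have h1 := (e.ge hv).2
      have h2 := eq_one_of_shift (y := v) hU hgc (hWU.le h1)
        (show g * v * g⁻¹ = v * (v⁻¹ * (g * v * g⁻¹)) by group)
        (by rw [← hgW _ h1, mul_inv_cancel_right])
      calc v * g = v * (v⁻¹ * (g * v * g⁻¹)) * g := by rw [h2, mul_one]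
        _ = g * v := by group
    · exact huW (hWmax.le_of_ge (show C ∈ {W : Subgroup G | W < U ∧
        (frattini U).map U.subtype ≤ W ∧ g ∈ Subgroup.normalizer (W : Set G)} from
          ⟨hlt, hWΦ.trans hWC, hCn⟩) hWC ⟨hu, hfu⟩)
  -- the section
  set H : Subgroup G := U ⊔ Subgroup.zpowers g with hH
  set N₀ : Subgroup G := W ⊔ Subgroup.zpowers (g ^ r) with hN₀
  have hgrc : ∀ x ∈ H, x * g ^ r = g ^ r * x := by
    intro x hx
    have : H ≤ Subgroup.centralizer ({g ^ r} : Set G) := sup_le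
      (fun u hu => Subgroup.mem_centralizer_singleton_iff.mpr
        (Subgroup.mem_centralizer_iff.mp hgrC u hu))
      (Subgroup.zpowers_le.mpr (Subgroup.mem_centralizer_singleton_iff.mpr (Commute.self_pow g r).eq))
    exact Subgroup.mem_centralizer_singleton_iff.mp (this hx)
  have hHW : H ≤ Subgroup.normalizer (W : Set G) := sup_le
    (fun u hu => Subgroup.mem_normalizer_iff.mpr fun w => ⟨hWn u hu w, fun hw => by
      simpa [mul_assoc] using hWn u⁻¹ (inv_mem hu) _ hw⟩)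
    (Subgroup.zpowers_le.mpr hWg)
  have hgU : Subgroup.zpowers g ≤ Subgroup.normalizer (U : Set G) := Subgroup.zpowers_le.mpr hg
  have hN₀mem : ∀ x ∈ N₀, ∃ w ∈ W, ∃ i : ℤ, x = w * (g ^ r) ^ i := by
    intro x hx
    rw [hN₀, ← SetLike.mem_coe, Subgroup.coe_mul_of_right_le_normalizer_left W _ (by
      refine Subgroup.zpowers_le.mpr (pow_mem hWg r))] at hx
    obtain ⟨w, hw, y, hy, rfl⟩ := hx
    obtain ⟨i, rfl⟩ := Subgroup.mem_zpowers_iff.mp hy
    exact ⟨w, hw, i, rfl⟩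
  have hN₀H : N₀ ≤ H := sup_le (hWU.le.trans le_sup_left)
    ((Subgroup.zpowers_le.mpr (pow_mem (Subgroup.mem_zpowers g) r)).trans le_sup_right)
  set N := N₀.subgroupOf H with hN
  haveI : N.Normal := by
    refine ⟨fun x hx h => Subgroup.mem_subgroupOf.mpr ?_⟩
    obtain ⟨w, hw, i, e⟩ := hN₀mem _ (Subgroup.mem_subgroupOf.mp hx)
    have hc : Commute (h : G) ((g ^ r) ^ i) := (show Commute (h : G) (g ^ r) from hgrc h h.2).zpow_right i
    have e' : (h : G) * x * (h : G)⁻¹ = ((h : G) * w * (h : G)⁻¹) * (g ^ r) ^ i := by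
      rw [e]
      calc (h : G) * (w * (g ^ r) ^ i) * (h : G)⁻¹
          = (h : G) * w * ((g ^ r) ^ i * (h : G)⁻¹) := by group
        _ = (h : G) * w * (h : G)⁻¹ * (g ^ r) ^ i := by rw [← (hc.inv_left).eq]; group
    simp only [Subgroup.coe_mul, InvMemClass.coe_inv]
    rw [e']
    exact Subgroup.mul_mem_sup ((Subgroup.mem_normalizer_iff.mp (hHW h.2) w).mp hw)
      (Subgroup.zpow_mem _ (Subgroup.mem_zpowers _) i)
  have hUN : ∀ u ∈ U, u ∈ N₀ → u ∈ W := by
    intro u hu hun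
    obtain ⟨w, hw, i, e⟩ := hN₀mem u hun
    have h1 : (g ^ r) ^ i = 1 := by
      have hmem : (g ^ r) ^ i ∈ U := by
        rw [show (g ^ r) ^ i = w⁻¹ * u by rw [e]; group]
        exact mul_mem (inv_mem (hWU.le hw)) hu
      obtain ⟨k, hk⟩ := IsPGroup.iff_orderOf.mp hU ⟨_, hmem⟩
      rw [← Subgroup.orderOf_coe] at hk
      exact orderOf_eq_one_iff.mp (Nat.eq_one_of_dvd_coprimes (hgc.pow_right k)
        (orderOf_dvd_of_mem_zpowers (Subgroup.zpow_mem _ (pow_mem (Subgroup.mem_zpowers g) r) i))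
        (dvd_of_eq hk))
    rw [e, h1, mul_one]
    exact hw
  set f := QuotientGroup.mk' N with hf
  have hgH : g ∈ H := le_sup_right (a := U) (Subgroup.mem_zpowers g)
  set gb := f ⟨g, hgH⟩ with hgb
  set Ub := (U.subgroupOf H).map f with hUb
  have hUmem : ∀ u ∈ U, ∀ huH : u ∈ H, f ⟨u, huH⟩ ∈ Ub := fun u hu huH => ⟨⟨u, huH⟩, hu, rfl⟩
  have hK : ∀ k : H ⧸ N, ∃ v ∈ Ub, ∃ i : ℤ, k = v * gb ^ i := by
    intro k
    obtain ⟨⟨x, hx⟩, rfl⟩ := QuotientGroup.mk'_surjective N k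
    have hx' := hx
    rw [hH, ← SetLike.mem_coe, Subgroup.coe_mul_of_right_le_normalizer_left U _ hgU] at hx'
    obtain ⟨u, hu, y, hy, e⟩ := hx'
    obtain ⟨i, rfl⟩ := Subgroup.mem_zpowers_iff.mp hy
    refine ⟨f ⟨u, le_sup_left (b := Subgroup.zpowers g) hu⟩, hUmem u hu _, i, ?_⟩
    rw [hgb, ← map_zpow, ← map_mul]
    exact congrArg f (Subtype.ext e.symm)
  have hUcomm : ∀ a ∈ Ub, ∀ b ∈ Ub, Commute a b := by
    rintro _ ⟨a, ha, rfl⟩ _ ⟨b, hb, rfl⟩
    change f a * f b = f b * f a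
    rw [← map_mul, ← map_mul, QuotientGroup.mk'_eq_mk']
    refine ⟨(a * b)⁻¹ * (b * a), ?_, by group⟩
    refine Subgroup.mem_subgroupOf.mpr (Subgroup.mem_sup_left ?_)
    simp only [Subgroup.coe_mul, InvMemClass.coe_inv]
    have h := hcom _ (inv_mem hb) _ (inv_mem ha)
    simpa [mul_assoc] using h
  have hgbr : gb ^ r = 1 := by
    rw [hgb, ← map_pow]
    exact (QuotientGroup.eq_one_iff _).mpr
      (Subgroup.mem_subgroupOf.mpr (Subgroup.mem_sup_right (Subgroup.mem_zpowers _)))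
  have hUbp : IsPGroup p Ub := (hU.comap_subtype (K := H)).map f
  -- no element of order `r` commutes with a nontrivial element of `Ub`
  have hsep : ∀ v ∈ Ub, ∀ h : H ⧸ N, orderOf h = r → Commute v h → v = 1 := by
    intro v hv h hh hvh
    obtain ⟨u', hu', i, rfl⟩ := hK h
    have hri : ¬ (r : ℤ) ∣ i := by
      rintro ⟨c, rfl⟩
      have h1 : gb ^ ((r : ℤ) * c) = 1 := by rw [zpow_mul, zpow_natCast, hgbr, one_zpow]
      rw [h1, mul_one] at hh
      obtain ⟨k, hk⟩ := IsPGroup.iff_orderOf.mp hUbp ⟨u', hu'⟩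
      rw [← Subgroup.orderOf_coe, hh] at hk
      exact hrp.out.ne_one (Nat.eq_one_of_dvd_coprimes (hrp'.pow_right k) dvd_rfl (dvd_of_eq hk))
    have hvg : Commute v (gb ^ i) := by
      have := (hUcomm v hv u' hu').inv_right.mul_right hvh
      rwa [inv_mul_cancel_left] at this
    obtain ⟨a, b, hab⟩ := (Nat.prime_iff_prime_int.mp hrp.out).coprime_iff_not_dvd.mpr hri
    have hvg1 : Commute v gb := by
      have e : gb = (gb ^ i) ^ b := by
        conv_lhs => rw [← zpow_one gb, ← hab, zpow_add, mul_comm a, zpow_mul, zpow_natCast, hgbr,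
          one_zpow, one_mul, mul_comm b, zpow_mul]
      rw [e]
      exact hvg.zpow_right b
    obtain ⟨⟨u, huH⟩, hu, rfl⟩ := hv
    have hu' : u ∈ U := hu
    have hgu : g * u * g⁻¹ ∈ U := (Subgroup.mem_normalizer_iff.mp hg u).mp hu'
    have h2 : f ((⟨u, huH⟩ : H)⁻¹ * (⟨g, hgH⟩ * ⟨u, huH⟩ * (⟨g, hgH⟩ : H)⁻¹)) = 1 := by
      simp only [map_mul, map_inv, ← hgb]
      rw [← hvg1.eq, mul_inv_cancel_right, inv_mul_cancel]
    have h3 : u⁻¹ * (g * u * g⁻¹) ∈ W := hUN _ (mul_mem (inv_mem hu') hgu)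
      (Subgroup.mem_subgroupOf.mp ((QuotientGroup.eq_one_iff _).mp h2))
    exact (QuotientGroup.eq_one_iff _).mpr
      (Subgroup.mem_subgroupOf.mpr (Subgroup.mem_sup_left (hfix u hu' h3)))
  obtain ⟨v0, hv0, hv01⟩ : ∃ v ∈ Ub, v ≠ 1 := by
    obtain ⟨u, hu, huW⟩ := SetLike.exists_of_lt hWU
    refine ⟨f ⟨u, le_sup_left (b := Subgroup.zpowers g) hu⟩, hUmem u hu _, fun e => huW ?_⟩
    exact hUN u hu (Subgroup.mem_subgroupOf.mp ((QuotientGroup.eq_one_iff _).mp e))
  have hUbord : ∀ v ∈ Ub, v ^ p = 1 := by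
    rintro _ ⟨a, ha, rfl⟩
    rw [← map_pow]
    exact (QuotientGroup.eq_one_iff _).mpr (Subgroup.mem_subgroupOf.mpr
      (Subgroup.mem_sup_left (by simpa using hpow _ ha)))
  have hv0o : orderOf v0 = p := orderOf_eq_prime (hUbord v0 hv0) hv01
  have hgb1 : gb ≠ 1 := by
    intro e
    refine hv01 ?_
    obtain ⟨⟨u, huH⟩, hu, rfl⟩ := hv0
    have hu' : u ∈ U := hu
    have hgu : g * u * g⁻¹ ∈ U := (Subgroup.mem_normalizer_iff.mp hg u).mp hu'
    have h2 : f ((⟨u, huH⟩ : H)⁻¹ * (⟨g, hgH⟩ * ⟨u, huH⟩ * (⟨g, hgH⟩ : H)⁻¹)) = 1 := by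
      simp only [map_mul, map_inv, ← hgb, e]
      simp
    have h3 : u⁻¹ * (g * u * g⁻¹) ∈ W := hUN _ (mul_mem (inv_mem hu') hgu)
      (Subgroup.mem_subgroupOf.mp ((QuotientGroup.eq_one_iff _).mp h2))
    exact (QuotientGroup.eq_one_iff _).mpr
      (Subgroup.mem_subgroupOf.mpr (Subgroup.mem_sup_left (hfix u hu' h3)))
  have hgbo : orderOf gb = r := orderOf_eq_prime hgbr hgb1
  have hUbn : Ub.Normal := by
    refine Subgroup.Normal.map ?_ f (QuotientGroup.mk'_surjective N)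
    rw [Subgroup.normal_subgroupOf_iff_le_normalizer le_sup_left]
    exact sup_le Subgroup.le_normalizer hgU
  -- the core is trivial
  have hcore : Cfsg.pPrimeCore p (H ⧸ N) = ⊥ := by
    obtain ⟨hOn, hOc⟩ := Solv.pPrimeCore_mem (G := H ⧸ N) p
    by_contra hne
    obtain ⟨o, ho, ho1⟩ := (Subgroup.bot_or_exists_ne_one _).resolve_left hne
    have hdisj : Disjoint Ub (Cfsg.pPrimeCore p (H ⧸ N)) := by
      obtain ⟨k, hk⟩ := IsPGroup.iff_card.mp hUbp
      exact Subgroup.disjoint_of_coprime_natCard (hk ▸ hOc.symm.pow_left k)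
    have hco : ∀ v ∈ Ub, Commute v o := fun v hv =>
      Subgroup.commute_of_normal_of_disjoint _ _ hUbn hOn hdisj v o hv ho
    have hor : orderOf o = r := by
      obtain ⟨v, hv, i, rfl⟩ := hK o
      have h1 : orderOf (v * gb ^ i) ∣ p * r := by
        refine orderOf_dvd_of_pow_eq_one ?_
        have hc : Commute v (gb ^ i) := by
          have := (hco v hv)
          have h' := (Commute.refl v).inv_right.mul_right this
          rwa [inv_mul_cancel_left] at h'
        rw [hc.mul_pow, pow_mul, hUbord v hv, one_pow, one_mul, ← zpow_natCast, ← zpow_mul,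
          show i * ((p * r : ℕ) : ℤ) = (r : ℤ) * (i * p) by push_cast; ring, zpow_mul,
          zpow_natCast, hgbr, one_zpow]
      have h2 : orderOf (v * gb ^ i) ∣ r := by
        refine Nat.Coprime.dvd_of_dvd_mul_left ?_ h1
        exact Nat.Coprime.of_dvd_left
          ((Cfsg.pPrimeCore p (H ⧸ N)).orderOf_dvd_natCard ho) hOc
      exact ((Nat.dvd_prime hrp.out).mp h2).resolve_left fun e => ho1 (orderOf_eq_one_iff.mp e)
    exact hv01 (hsep v0 hv0 o hor (hco v0 hv0))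
  obtain ⟨k, hk⟩ := hsec H N hcore
  have hpk : p ∣ orderOf k := hk ▸ hv0o ▸ Monoid.order_dvd_exponent v0
  have hrk : r ∣ orderOf k := hk ▸ hgbo ▸ Monoid.order_dvd_exponent gb
  obtain ⟨a, ha⟩ := hpk
  obtain ⟨b, hb⟩ := hrk
  have hk0 : orderOf k ≠ 0 := (orderOf_pos k).ne'
  have hvo : orderOf (k ^ a) = p := by
    rw [orderOf_pow_of_dvd (fun e => hk0 (by rw [ha, e, mul_zero])) (ha ▸ dvd_mul_left a p), ha,
      Nat.mul_div_cancel _ (Nat.pos_of_ne_zero fun e => hk0 (by rw [ha, e, mul_zero]))]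
  have hho : orderOf (k ^ b) = r := by
    rw [orderOf_pow_of_dvd (fun e => hk0 (by rw [hb, e, mul_zero])) (hb ▸ dvd_mul_left b r), hb,
      Nat.mul_div_cancel _ (Nat.pos_of_ne_zero fun e => hk0 (by rw [hb, e, mul_zero]))]
  have hvU : k ^ a ∈ Ub := by
    obtain ⟨v, hv, i, e⟩ := hK (k ^ a)
    have h1 : QuotientGroup.mk' Ub (k ^ a) = 1 := by
      refine orderOf_eq_one_iff.mp (Nat.eq_one_of_dvd_coprimes hrp'.symm
        ((orderOf_map_dvd _ _).trans (dvd_of_eq hvo)) (orderOf_dvd_of_pow_eq_one ?_))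
      rw [e, map_mul, show QuotientGroup.mk' Ub v = 1 from (QuotientGroup.eq_one_iff v).mpr hv,
        one_mul, ← map_pow, ← zpow_natCast, ← zpow_mul, mul_comm, zpow_mul, zpow_natCast, hgbr,
        one_zpow, map_one]
    exact (QuotientGroup.eq_one_iff _).mp h1
  have h := hsep (k ^ a) hvU (k ^ b) hho ((Commute.refl k).pow_pow a b)
  rw [h, orderOf_one] at hvo
  exact (Fact.out : p.Prime).ne_one hvo.symm

end Cfsg.Agent.S4238
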