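import Cfsg.Statements.S4251
import Cfsg.Agent.Transfer.Frobenius
import Cfsg.Agent.Transfer.Regular

set_option autoImplicit false
open Cfsg
open Cfsg.Agent.Transfer

namespace Cfsg.Agent.S4251

/-- Let P be a Sylow p-subgroup of a finite group G. Call an intersection H = P ∩ Q with a Sylow p-subgroup Q tame when N_P(H) and N_Q(H) are Sylow p-subgroups of N_G(H). If N_G(H)/C_G(H) is a p-group for every nontrivial tame intersection H = P ∩ Q, then G has a normal p-complement. -/
theorem result {G : Type*} [Group G] [Finite G] (p : ℕ) [Fact p.Prime] (P : Sylow p G)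
    (h : ∀ Q : Sylow p G, (P : Subgroup G) ⊓ (Q : Subgroup G) ≠ ⊥ → (¬ p ∣ ((P : Subgroup G) ⊓ Subgroup.normalizer (((P : Subgroup G) ⊓ (Q : Subgroup G) : Subgroup G) : Set G)).relIndex (Subgroup.normalizer (((P : Subgroup G) ⊓ (Q : Subgroup G) : Subgroup G) : Set G)) ∧ ¬ p ∣ ((Q : Subgroup G) ⊓ Subgroup.normalizer (((P : Subgroup G) ⊓ (Q : Subgroup G) : Subgroup G) : Set G)).relIndex (Subgroup.normalizer (((P : Subgroup G) ⊓ (Q : Subgroup G) : Subgroup G) : Set G))) →
      IsPGroup p (Subgroup.normalizer (((P : Subgroup G) ⊓ (Q : Subgroup G) : Subgroup G) : Set G) ⧸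
        (Subgroup.centralizer (((P : Subgroup G) ⊓ (Q : Subgroup G) : Subgroup G) : Set G)).subgroupOf
          (Subgroup.normalizer (((P : Subgroup G) ⊓ (Q : Subgroup G) : Subgroup G) : Set G)))) :
    Cfsg.HasNormalPComplement p G := by
  classical
  refine hasNPC_of_frobCond ?_
  suffices ∀ (n : ℕ) (U : Subgroup G), Nat.card P - Nat.card U = n → IsPGroup p U →
      ∀ g ∈ Subgroup.normalizer (U : Set G), Nat.Coprime (orderOf g) p →
        g ∈ Subgroup.centralizer (U : Set G) from fun U => this _ U rfl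
  intro n
  induction n using Nat.strong_induction_on with
  | _ n IH =>
  intro U hn hU g hg hgc
  by_cases hU1 : U = ⊥
  · refine Subgroup.mem_centralizer_iff.mpr fun u hu => ?_
    rw [hU1, SetLike.mem_coe, Subgroup.mem_bot] at hu
    simp [hu]
  -- larger subgroups
  have IH' : ∀ D : Subgroup G, IsPGroup p D → U < D → ∀ x ∈ Subgroup.normalizer (D : Set G),
      Nat.Coprime (orderOf x) p → x ∈ Subgroup.centralizer (D : Set G) := by
    intro D hD hUD
    refine IH _ ?_ D rfl hD
    obtain ⟨P', hP'⟩ := hD.exists_le_sylow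
    have h1 : Nat.card D ≤ Nat.card P := by
      calc Nat.card D ≤ Nat.card P' := Subgroup.card_le_of_le hP'
        _ = Nat.card P := Nat.card_congr (P'.equiv P).toEquiv
    have h2 : Nat.card U < Nat.card D := Set.ncard_lt_ncard (SetLike.coe_ssubset_coe.mpr hUD)
    omega
  -- move to a well placed conjugate
  set M := Subgroup.normalizer (U : Set G) with hM
  obtain ⟨R, hUR⟩ := (hU.comap_subtype (K := M)).exists_le_sylow
  obtain ⟨P₁, hP₁⟩ := (R.isPGroup'.map M.subtype).exists_le_sylow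
  have hR₁ : ∀ x : M, x ∈ (R : Subgroup M) ↔ (x : G) ∈ (P₁ : Subgroup G) := by
    have he := R.is_maximal' (P₁.isPGroup'.comap_subtype (K := M))
      (fun x hx => hP₁ ⟨x, hx, rfl⟩)
    intro x
    rw [← he]
    rfl
  have hUP₁ : U ≤ (P₁ : Subgroup G) := fun u hu =>
    hP₁ ⟨⟨u, Subgroup.le_normalizer hu⟩, hUR hu, rfl⟩
  obtain ⟨a, ha⟩ := MulAction.exists_smul_eq G P P₁
  have hP₁eq : ∀ x, x ∈ (P₁ : Subgroup G) ↔ a⁻¹ * x * a ∈ (P : Subgroup G) := by
    intro x
    rw [← ha]
    constructor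
    · rintro ⟨y, hy, rfl⟩
      simp only [MulDistribMulAction.toMonoidEnd_apply, MulDistribMulAction.toMonoidHom_apply,
        MulAut.smul_def, MulAut.conj_apply]
      rwa [show a⁻¹ * (a * y * a⁻¹) * a = y by group]
    · exact fun hy => ⟨_, hy, by simp [mul_assoc]⟩
  -- `M ⧸ U` has a normal complement
  let U' := U.subgroupOf M
  haveI : U'.Normal := Subgroup.normal_in_normalizer
  have hMU : Cfsg.HasNormalPComplement p (M ⧸ U') := by
    refine hasNPC_of_frobCond ?_
    intro D hD x hx hxc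
    by_cases hD1 : D = ⊥
    · refine Subgroup.mem_centralizer_iff.mpr fun u hu => ?_
      rw [hD1, SetLike.mem_coe, Subgroup.mem_bot] at hu
      simp [hu]
    set E := (D.comap (QuotientGroup.mk' U')).map M.subtype with hE
    have hEp : IsPGroup p E :=
      (hD.comap_of_ker_isPGroup _ (by rw [QuotientGroup.ker_mk']; exact hU.comap_subtype)).map _
    have hUE : U < E := by
      refine lt_of_le_of_ne (fun u hu => ⟨⟨u, Subgroup.le_normalizer hu⟩, ?_, rfl⟩) fun e => hD1 ?_
      · rw [SetLike.mem_coe, Subgroup.mem_comap, QuotientGroup.mk'_apply,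
          (QuotientGroup.eq_one_iff _).mpr (show (⟨u, Subgroup.le_normalizer hu⟩ : M) ∈ U' from hu)]
        exact one_mem _
      · rw [eq_bot_iff]
        intro d hd
        obtain ⟨m, rfl⟩ := QuotientGroup.mk'_surjective U' d
        have : (m : G) ∈ U := e ▸ ⟨m, hd, rfl⟩
        exact Subgroup.mem_bot.mpr ((QuotientGroup.eq_one_iff m).mpr this)
    obtain ⟨y, rfl⟩ := QuotientGroup.mk'_surjective U' x
    obtain ⟨b, c, hb, hc, hbc, ⟨j, hj⟩, hcc⟩ := exists_parts (p := p) y
    have hb1 : QuotientGroup.mk' U' b = 1 := by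
      obtain ⟨i, hi⟩ := Subgroup.mem_zpowers_iff.mp hb
      refine orderOf_eq_one_iff.mp (Nat.eq_one_of_dvd_coprimes (Nat.Coprime.pow_right j hxc) ?_
        (orderOf_dvd_of_pow_eq_one (by rw [← map_pow, hj, map_one])))
      rw [← hi, map_zpow]
      exact orderOf_dvd_of_mem_zpowers (Subgroup.zpow_mem _ (Subgroup.mem_zpowers _) _)
    have hyc : QuotientGroup.mk' U' y = QuotientGroup.mk' U' c := by
      rw [hbc, map_mul, hb1, one_mul]
    rw [hyc] at hx ⊢
    have hmem : ∀ m : M, (m : G) ∈ E ↔ QuotientGroup.mk' U' m ∈ D := fun m =>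
      ⟨fun ⟨m', hm', e⟩ => (Subtype.ext e : m' = m) ▸ hm', fun h => ⟨m, h, rfl⟩⟩
    have hcE : (c : G) ∈ Subgroup.normalizer (E : Set G) := by
      refine Subgroup.mem_normalizer_iff.mpr fun v => ?_
      constructor
      · rintro ⟨m, hm, rfl⟩
        exact (hmem (c * m * c⁻¹)).mpr (by
          rw [map_mul, map_mul, map_inv]; exact (Subgroup.mem_normalizer_iff.mp hx _).mp hm)
      · rintro ⟨m, hm, e⟩
        have hm' : v = ((c⁻¹ * m * c : M) : G) := by
          simp only [Subgroup.coe_mul, InvMemClass.coe_inv]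
          rw [show (m : G) = c * v * (c : G)⁻¹ from e]; group
        rw [hm']
        refine (hmem _).mpr ?_
        rw [map_mul, map_mul, map_inv]
        simpa using (Subgroup.mem_normalizer_iff.mp (inv_mem hx) _).mp hm
    have hcent := Subgroup.mem_centralizer_iff.mp
      (IH' E hEp hUE c hcE (by rwa [Subgroup.orderOf_coe]))
    refine Subgroup.mem_centralizer_iff.mpr fun d hd => ?_
    obtain ⟨m, rfl⟩ := QuotientGroup.mk'_surjective U' d
    have h' := hcent m ((hmem m).mpr hd)
    rw [← map_mul, ← map_mul]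
    exact congrArg _ (Subtype.ext h')
  -- the intersection with the conjugate Sylow subgroup
  have hgM : g ∈ M := hg
  set D := (P₁ : Subgroup G) ⊓ (P₁ : Subgroup G).map (MulAut.conj g).toMonoidHom ⊓ M with hD
  have hUD : U ≤ D := by
    refine le_inf (le_inf hUP₁ fun u hu => ⟨g⁻¹ * u * g, hUP₁ ?_, by simp [mul_assoc]⟩)
      Subgroup.le_normalizer
    simpa using (Subgroup.mem_normalizer_iff.mp (inv_mem hgM) u).mp hu
  rcases hUD.eq_or_lt with hDU | hDU
  · -- a tame intersection
    have key : (P₁ : Subgroup G) ⊓ ((g • P₁ : Sylow p G) : Subgroup G) = U := by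
      refine le_antisymm ?_ (le_inf hUP₁ fun u hu => ((hUD hu).1.2))
      by_contra hne
      have hlt : U < (P₁ : Subgroup G) ⊓ ((g • P₁ : Sylow p G) : Subgroup G) :=
        lt_of_le_not_ge (le_inf hUP₁ fun u hu => (hUD hu).1.2) hne
      have h2 := lt_inf_normalizer (P₁.isPGroup'.to_le inf_le_left) hlt
      exact h2.not_ge fun x hx => hDU.ge ⟨⟨hx.1.1, hx.1.2⟩, hx.2⟩
    have hQ := h (a⁻¹ • g • P₁) ?_ ?_
    all_goals
      have hsub : (P : Subgroup G) ⊓ ((a⁻¹ • g • P₁ : Sylow p G) : Subgroup G) =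
          U.map (MulAut.conj a⁻¹).toMonoidHom := by
        rw [← key, Subgroup.map_inf _ _ _ (MulAut.conj a⁻¹).injective]
        congr 1
        have e : a⁻¹ • P₁ = P := by rw [← ha, inv_smul_smul]
        conv_lhs => rw [← e]
        rfl
    rotate_left
    · rw [hsub]
      exact fun e => hU1 ((Subgroup.map_eq_bot_iff_of_injective _ (MulAut.conj a⁻¹).injective).mp e)
    · rw [hsub]
      have hNa : Subgroup.normalizer ((U.map (MulAut.conj a⁻¹).toMonoidHom : Subgroup G) : Set G) =
          M.map (MulAut.conj a⁻¹).toMonoidHom :=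
        (Subgroup.map_equiv_normalizer_eq _ (MulAut.conj a⁻¹)).symm
      rw [hNa]
      have hrel : ∀ S : Subgroup G, S.map (MulAut.conj a).toMonoidHom ≤ ⊤ → ∀ T : Subgroup G,
          T.map (MulAut.conj a⁻¹).toMonoidHom = S →
          (S ⊓ M.map (MulAut.conj a⁻¹).toMonoidHom).relIndex (M.map (MulAut.conj a⁻¹).toMonoidHom) =
            (T.subgroupOf M).index := by
        intro S _ T hT
        rw [← hT, ← Subgroup.map_inf _ _ _ (MulAut.conj a⁻¹).injective,
          Subgroup.relIndex_map_map_of_injective _ _ (MulAut.conj a⁻¹).injective,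
          Subgroup.inf_relIndex_right]
        rfl
      have hRidx : ((P₁ : Subgroup G).subgroupOf M).index = (R : Subgroup M).index := by
        congr 1; ext x; exact (hR₁ x).symm
      refine ⟨?_, ?_⟩
      · rw [hrel _ le_top (P₁ : Subgroup G) (congrArg Sylow.toSubgroup (show a⁻¹ • P₁ = P by
          rw [← ha, inv_smul_smul])), hRidx]
        exact R.not_dvd_index
      · rw [hrel ((a⁻¹ • g • P₁ : Sylow p G) : Subgroup G) le_top ((g • P₁ : Sylow p G) : Subgroup G) rfl]
        have e : (((g • P₁ : Sylow p G) : Subgroup G).subgroupOf M) =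
            (((⟨g, hgM⟩ : M) • R : Sylow p M) : Subgroup M) := by
          ext x
          constructor
          · rintro ⟨y, hy, e⟩
            have hy' : y = g⁻¹ * x * g := by
              rw [show (x : G) = g * y * g⁻¹ from e.symm]; group
            exact ⟨⟨y, by rw [hy']; exact mul_mem (mul_mem (inv_mem hgM) x.2) hgM⟩, (hR₁ _).mpr hy,
              Subtype.ext e⟩
          · rintro ⟨y, hy, e⟩
            exact ⟨y, (hR₁ y).mp hy, congrArg Subtype.val e⟩
        rw [e]
        exact ((⟨g, hgM⟩ : M) • R).not_dvd_index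
    rw [hsub] at hQ
    have hg' : (MulAut.conj a⁻¹) g ∈
        Subgroup.normalizer ((U.map (MulAut.conj a⁻¹).toMonoidHom : Subgroup G) : Set G) := by
      rw [← show _ = Subgroup.normalizer _ from Subgroup.map_equiv_normalizer_eq _ (MulAut.conj a⁻¹)]
      exact ⟨g, hg, rfl⟩
    obtain ⟨k, hk⟩ := hQ (QuotientGroup.mk ⟨_, hg'⟩)
    rw [← QuotientGroup.mk_pow, QuotientGroup.eq_one_iff, Subgroup.mem_subgroupOf,
      SubmonoidClass.coe_pow, ← map_pow] at hk
    have hgk : g ^ p ^ k ∈ Subgroup.centralizer (U : Set G) := Subgroup.mem_centralizer_iff.mpr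
      fun u hu => (MulAut.conj a⁻¹).injective (by
        rw [map_mul, map_mul]; exact Subgroup.mem_centralizer_iff.mp hk _ ⟨u, hu, rfl⟩)
    obtain ⟨m, hm⟩ := exists_pow_eq_self_of_coprime (n := p ^ k) (x := g)
      (Nat.Coprime.pow_left k hgc.symm)
    rw [← hm]
    exact pow_mem hgk m
  · -- `g` normalizes a larger subgroup
    obtain ⟨K, hKn, hKc, hKi⟩ := hasNPC_iff.mp hMU
    have hgK : QuotientGroup.mk' U' ⟨g, hgM⟩ ∈ K := (mem_complement_iff hKn hKc hKi _).mpr
      (Nat.Coprime.of_dvd_left (orderOf_map_dvd _ _) (by simpa [← Subgroup.orderOf_coe] using hgc))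
    have hDp : IsPGroup p D := P₁.isPGroup'.to_le (inf_le_left.trans inf_le_left)
    have hRbar : IsPGroup p ((R : Subgroup M).map (QuotientGroup.mk' U')) := R.isPGroup'.map _
    have hconj : ∀ d ∈ D, d⁻¹ * (g⁻¹ * d * g) ∈ U := by
      rintro d ⟨⟨hd1, y, hy, hdy⟩, hdM⟩
      have hy' : y = g⁻¹ * d * g := by
        rw [show d = g * y * g⁻¹ from hdy.symm]; group
      set c : M := (⟨d, hdM⟩ : M)⁻¹ * ((⟨g, hgM⟩ : M)⁻¹ * ⟨d, hdM⟩ * ⟨g, hgM⟩) with hcdef
      have h1 : QuotientGroup.mk' U' c ∈ (R : Subgroup M).map (QuotientGroup.mk' U') := by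
        refine ⟨c, mul_mem (inv_mem ((hR₁ _).mpr hd1)) ((hR₁ _).mpr ?_), rfl⟩
        simp only [Subgroup.coe_mul, InvMemClass.coe_inv]
        rw [← hy']; exact hy
      have h2 : QuotientGroup.mk' U' c ∈ K := by
        rw [show c = ((⟨d, hdM⟩ : M)⁻¹ * (⟨g, hgM⟩ : M)⁻¹ * ⟨d, hdM⟩) * ⟨g, hgM⟩ by rw [hcdef]; group,
          map_mul, map_mul, map_mul, map_inv, map_inv]
        exact mul_mem (by simpa using hKn.conj_mem _ (inv_mem hgK) (QuotientGroup.mk' U' ⟨d, hdM⟩)⁻¹) hgK
      obtain ⟨i, hi⟩ := IsPGroup.iff_orderOf.mp hRbar ⟨_, h1⟩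
      rw [← Subgroup.orderOf_coe] at hi
      have h3 := orderOf_eq_one_iff.mp (Nat.eq_one_of_dvd_coprimes
        (Nat.Coprime.pow_right i ((mem_complement_iff hKn hKc hKi _).mp h2)) dvd_rfl (dvd_of_eq hi))
      exact (QuotientGroup.eq_one_iff c).mp h3
    have hgD : g ∈ Subgroup.normalizer (D : Set G) := by
      refine inv_mem_iff.mp ?_
      have hmap : D.map (MulAut.conj g⁻¹).toMonoidHom = D := by
        refine Subgroup.eq_of_le_of_card_ge ?_ (le_of_eq (Nat.card_congr
          (D.equivMapOfInjective _ (MulAut.conj g⁻¹).injective).toEquiv))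
        rintro _ ⟨d, hd, rfl⟩
        simp only [MulEquiv.coe_toMonoidHom, MulAut.conj_apply, inv_inv]
        rw [show g⁻¹ * d * g = d * (d⁻¹ * (g⁻¹ * d * g)) by group]
        exact mul_mem hd (hUD (hconj d hd))
      refine Subgroup.mem_normalizer_iff.mpr fun d => ⟨fun hd => hmap.le ⟨d, hd, rfl⟩, fun hd => ?_⟩
      obtain ⟨e, he, hee⟩ := hmap.ge hd
      exact ((MulAut.conj g⁻¹).injective hee) ▸ he
    exact Subgroup.centralizer_le hUD (IH' D hDp hDU g hgD hgc)

end Cfsg.Agent.S4251
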