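import Cfsg.Statements.S4260
import Cfsg.Agent.Transfer.Basic

set_option autoImplicit false
open Cfsg
open Cfsg.Agent.Transfer

namespace Cfsg.Agent.S4260

/-- Let H be a Hall subgroup of a finite group G (the order of H is coprime to its index) such that x^[G : H] lies in H for every x in G. Then H is normal in G. -/
theorem result {G : Type*} [Group G] [Finite G] (H : Subgroup G) (hHall : (Nat.card H).Coprime H.index)
    (hexp : ∀ x : G, x ^ H.index ∈ H) : H.Normal := by
  refine ⟨fun h hh g => ?_⟩
  refine Cfsg.Agent.Transfer.mem_of_prime_parts H _ fun y hy _ => ?_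
  have hdvd : orderOf y ∣ Nat.card H := by
    refine (orderOf_dvd_of_mem_zpowers hy).trans ?_
    rw [show g * h * g⁻¹ = MulAut.conj g h from rfl, MulEquiv.orderOf_eq]
    exact H.orderOf_dvd_natCard hh
  obtain ⟨m, hm⟩ := exists_pow_eq_self_of_coprime (x := y) (n := H.index)
    (Nat.Coprime.coprime_dvd_left hdvd hHall).symm
  exact hm ▸ pow_mem (hexp y) m

end Cfsg.Agent.S4260
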