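import Cfsg.Statements.S4269

set_option autoImplicit false
open Cfsg
open scoped commutatorElement

namespace Cfsg.Agent.S4269

/-- Let G be a finite group, V an abelian normal subgroup and H a subgroup with HV = G. Then H is pronormal in G (H and gHg⁻¹ are conjugate inside the subgroup they generate, for every g) if and only if every H-invariant subgroup U of V satisfies U = N_U(H)·[H, U], that is, U is the join of U ∩ N_G(H) and the commutator subgroup [H, U]. -/
theorem result {G : Type*} [Group G] [Finite G]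
    (V : Subgroup G) [V.Normal] (hV : IsMulCommutative ↥V) (H : Subgroup G) (hHV : H ⊔ V = ⊤) :
    Cfsg.IsPronormal H ↔
      ∀ U : Subgroup G, U ≤ V → (∀ h ∈ H, U.map (MulAut.conj h).toMonoidHom = U) →
        U = (U ⊓ Subgroup.normalizer (H : Set G)) ⊔ ⁅H, U⁆ := by
  have comm : ∀ a ∈ V, ∀ b ∈ V, a * b = b * a := fun a ha b hb =>
    congrArg Subtype.val (hV.is_comm.comm (⟨a, ha⟩ : V) ⟨b, hb⟩)
  have hconj : ∀ (g a : G), a ∈ V → g * a * g⁻¹ ∈ V := fun g a ha =>
    Subgroup.Normal.conj_mem ‹V.Normal› a ha g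
  have hcomV : ∀ (g a : G), a ∈ V → ⁅g, a⁆ ∈ V := fun g a ha => by
    rw [commutatorElement_def]; exact V.mul_mem (hconj g a ha) (V.inv_mem ha)
  constructor
  · intro hp U hUV hinv
    have hU : ∀ h ∈ H, ∀ u ∈ U, h * u * h⁻¹ ∈ U := by
      intro h hh u hu
      rw [← hinv h hh]
      exact ⟨u, hu, by simp [MulAut.conj_apply]⟩
    have hcU : ⁅H, U⁆ ≤ U := by
      rw [Subgroup.commutator_le]
      intro h hh u hu
      rw [commutatorElement_def]; exact U.mul_mem (hU h hh u hu) (U.inv_mem hu)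
    refine le_antisymm ?_ (sup_le inf_le_left hcU)
    intro u hu
    obtain ⟨x, hx, hxe⟩ := hp u
    have hHn : H ≤ Subgroup.normalizer ((⁅H, U⁆ : Subgroup G) : Set G) := by
      have key : ∀ h ∈ H, ∀ a ∈ ⁅H, U⁆, h * a * h⁻¹ ∈ ⁅H, U⁆ := by
        intro h hh
        have hle : ⁅H, U⁆ ≤ (⁅H, U⁆).comap (MulAut.conj h).toMonoidHom := by
          rw [Subgroup.commutator_le]
          intro a ha b hb
          rw [Subgroup.mem_comap, map_commutatorElement]
          exact Subgroup.commutator_mem_commutator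
            (by simpa [MulAut.conj_apply] using H.mul_mem (H.mul_mem hh ha) (H.inv_mem hh))
            (by simpa [MulAut.conj_apply] using hU h hh b hb)
        intro a ha
        simpa [MulAut.conj_apply] using hle ha
      intro h hh
      rw [Subgroup.mem_normalizer_iff]
      intro a
      exact ⟨key h hh a, fun ha => by
        simpa [mul_assoc] using key h⁻¹ (H.inv_mem hh) _ ha⟩
    have hJ : H ⊔ H.map (MulAut.conj u).toMonoidHom ≤ ⁅H, U⁆ ⊔ H := by
      refine sup_le le_sup_right ?_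
      rintro _ ⟨y, hy, rfl⟩
      have h1 : ⁅y⁻¹, u⁆ ∈ ⁅H, U⁆ := Subgroup.commutator_mem_commutator (H.inv_mem hy) hu
      have h2 := (⁅H, U⁆ ⊔ H).mul_mem (Subgroup.mem_sup_right hy) (Subgroup.mem_sup_left h1)
      simpa [commutatorElement_def, MulAut.conj_apply, mul_assoc] using h2
    have hx2 := hJ hx
    rw [← SetLike.mem_coe, Subgroup.coe_mul_of_right_le_normalizer_left _ _ hHn] at hx2
    obtain ⟨w, hw, h, hh, rfl⟩ := hx2
    have hwU : w ∈ U := hcU hw
    have hn : w⁻¹ * u ∈ Subgroup.normalizer (H : Set G) := by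
      rw [Subgroup.mem_normalizer_iff]
      intro y
      constructor
      · intro hy
        have h1 : MulAut.conj u y ∈ H.map (MulAut.conj u).toMonoidHom := ⟨y, hy, rfl⟩
        rw [hxe] at h1
        obtain ⟨z, hz, hze⟩ := h1
        simp [MulAut.conj_apply, mul_assoc] at hze
        have : w⁻¹ * u * y * (w⁻¹ * u)⁻¹ = h * z * h⁻¹ := by
          calc w⁻¹ * u * y * (w⁻¹ * u)⁻¹ = w⁻¹ * (u * (y * u⁻¹)) * w := by group
            _ = h * z * h⁻¹ := by rw [← hze]; group
        rw [this]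
        exact H.mul_mem (H.mul_mem hh hz) (H.inv_mem hh)
      · intro hy
        have h1 : w * h * (h⁻¹ * (w⁻¹ * u * y * (w⁻¹ * u)⁻¹) * h) * (w * h)⁻¹
            ∈ H.map (MulAut.conj (w * h)).toMonoidHom :=
          ⟨_, H.mul_mem (H.mul_mem (H.inv_mem hh) hy) hh, rfl⟩
        rw [← hxe] at h1
        obtain ⟨z, hz, hze⟩ := h1
        have : z = y := by
          have h2 : u * z * u⁻¹ = u * y * u⁻¹ := by
            refine hze.trans ?_; group
          simpa using h2
        exact this ▸ hz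
    have : u = w * (w⁻¹ * u) := by group
    rw [this]
    exact Subgroup.mul_mem _ (Subgroup.mem_sup_right hw)
      (Subgroup.mem_sup_left ⟨U.mul_mem (U.inv_mem hwU) hu, hn⟩)
  · intro crit g
    have hg : g ∈ V ⊔ H := by rw [sup_comm, hHV]; trivial
    rw [← SetLike.mem_coe, Subgroup.normal_mul V H] at hg
    obtain ⟨v, hv, h0, hh0, rfl⟩ := hg
    set J := H ⊔ H.map (MulAut.conj (v * h0)).toMonoidHom with hJdef
    have hHJ : H ≤ J := le_sup_left
    let U : Subgroup G :=
      { carrier := {u | u ∈ V ∧ ∀ h ∈ H, ⁅h, u⁆ ∈ J}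
        one_mem' := ⟨V.one_mem, fun h _ => by simp [commutatorElement_def]⟩
        mul_mem' := by
          rintro a b ⟨ha, ha'⟩ ⟨hb, hb'⟩
          refine ⟨V.mul_mem ha hb, fun h hh => ?_⟩
          have : ⁅h, a * b⁆ = ⁅h, a⁆ * ⁅h, b⁆ := by
            have e : ⁅h, a * b⁆ = ⁅h, a⁆ * (a * ⁅h, b⁆ * a⁻¹) := by
              simp only [commutatorElement_def]; group
            rw [e, comm a ha _ (hcomV h b hb)]; group
          rw [this]; exact J.mul_mem (ha' h hh) (hb' h hh)
        inv_mem' := by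
          rintro a ⟨ha, ha'⟩
          refine ⟨V.inv_mem ha, fun h hh => ?_⟩
          have : ⁅h, a⁻¹⁆ = ⁅h, a⁆⁻¹ := by
            have e : ⁅h, a⁻¹⁆ = a⁻¹ * ⁅h, a⁆⁻¹ * a := by
              simp only [commutatorElement_def]; group
            rw [e, comm a⁻¹ (V.inv_mem ha) _ (V.inv_mem (hcomV h a ha))]; group
          rw [this]; exact J.inv_mem (ha' h hh) }
    have hUV : U ≤ V := fun u hu => hu.1
    have hUc : ∀ k ∈ H, ∀ u ∈ U, k * u * k⁻¹ ∈ U := by
      intro k hk u hu
      refine ⟨hconj k u hu.1, fun h hh => ?_⟩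
      have : ⁅h, k * u * k⁻¹⁆ = k * ⁅k⁻¹ * h * k, u⁆ * k⁻¹ := by
        simp only [commutatorElement_def]; group
      rw [this]
      exact J.mul_mem (J.mul_mem (hHJ hk)
        (hu.2 _ (H.mul_mem (H.mul_mem (H.inv_mem hk) hh) hk))) (J.inv_mem (hHJ hk))
    have hinv : ∀ h ∈ H, U.map (MulAut.conj h).toMonoidHom = U := by
      intro h hh
      refine le_antisymm ?_ ?_
      · rintro _ ⟨u, hu, rfl⟩
        exact hUc h hh u hu
      · intro u hu
        exact ⟨h⁻¹ * u * h, by simpa using hUc h⁻¹ (H.inv_mem hh) u hu,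
          by simp [MulAut.conj_apply, mul_assoc]⟩
    have hvU : v ∈ U := by
      refine ⟨hv, fun h hh => ?_⟩
      have h1 : MulAut.conj (v * h0) (h0⁻¹ * h⁻¹ * h0) ∈ J :=
        Subgroup.mem_sup_right ⟨_, H.mul_mem (H.mul_mem (H.inv_mem hh0) (H.inv_mem hh)) hh0, rfl⟩
      have : ⁅h, v⁆ = h * MulAut.conj (v * h0) (h0⁻¹ * h⁻¹ * h0) := by
        simp only [commutatorElement_def, MulAut.conj_apply]; group
      rw [this]; exact J.mul_mem (hHJ hh) h1
    have hcJ : ⁅H, U⁆ ≤ J := Subgroup.commutator_le.mpr fun h hh u hu => hu.2 h hh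
    have hcU : ⁅H, U⁆ ≤ U := by
      rw [Subgroup.commutator_le]
      intro h hh u hu
      rw [commutatorElement_def]; exact U.mul_mem (hUc h hh u hu) (U.inv_mem hu)
    have hnorm : U ⊓ Subgroup.normalizer (H : Set G) ≤
        Subgroup.normalizer ((⁅H, U⁆ : Subgroup G) : Set G) := by
      intro n hn
      rw [Subgroup.mem_normalizer_iff]
      intro a
      constructor
      · intro ha
        rw [comm n (hUV hn.1) a (hUV (hcU ha))]
        simpa using ha
      · intro ha
        have e := comm n⁻¹ (V.inv_mem (hUV hn.1)) _ (hUV (hcU ha))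
        have : a = n⁻¹ * (n * a * n⁻¹) * n := by group
        rw [this, e]
        simpa using ha
    have hv2 : v ∈ ⁅H, U⁆ ⊔ (U ⊓ Subgroup.normalizer (H : Set G)) := by
      rw [sup_comm, ← crit U hUV hinv]; exact hvU
    rw [← SetLike.mem_coe, Subgroup.coe_mul_of_right_le_normalizer_left _ _ hnorm] at hv2
    obtain ⟨w, hw, n, hn, rfl⟩ := hv2
    refine ⟨w, hcJ hw, ?_⟩
    have hnH := Subgroup.mem_normalizer_iff.mp hn.2
    ext y
    constructor
    · rintro ⟨z, hz, rfl⟩
      exact ⟨n * (h0 * z * h0⁻¹) * n⁻¹,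
        (hnH _).mp (H.mul_mem (H.mul_mem hh0 hz) (H.inv_mem hh0)),
        by simp [MulAut.conj_apply, mul_assoc]⟩
    · rintro ⟨z, hz, rfl⟩
      refine ⟨h0⁻¹ * (n⁻¹ * z * n) * h0,
        H.mul_mem (H.mul_mem (H.inv_mem hh0) ((hnH _).mpr (by simpa [mul_assoc] using hz))) hh0,
        by simp [MulAut.conj_apply, mul_assoc]⟩

end Cfsg.Agent.S4269
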