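import Cfsg.Statements.S4337
import Cfsg.Agent.Char.Integral
-- import your own Cfsg.Agent.* helpers here

set_option autoImplicit false
open Cfsg

namespace Cfsg.Agent.S4337

/-- In a finite symmetric group, any three transpositions generate a solvable subgroup. -/
theorem result (n : ℕ) (a b c : Equiv.Perm (Fin n))
    (ha : a.IsSwap) (hb : b.IsSwap) (hc : c.IsSwap) :
    Group.IsSolvable (Subgroup.closure ({a, b, c} : Set (Equiv.Perm (Fin n)))) := by
  classical
  have small : ∀ s : Finset (Fin n), s.card ≤ 4 → ∀ K : Subgroup (Equiv.Perm (Fin n)),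
      (∀ g ∈ K, ∀ x, x ∉ s → g x = x) → Group.IsSolvable K := by
    intro s hs K hK
    haveI : Group.IsSolvable (Equiv.Perm s) := by
      have hc : Nat.card (Equiv.Perm s) = (s.card).factorial := by
        rw [Nat.card_perm, Nat.card_eq_fintype_card, Fintype.card_coe]
      obtain ⟨i, j, hij⟩ : ∃ i j, (s.card).factorial = 2 ^ i * 3 ^ j := by
        interval_cases s.card
        · exact ⟨0, 0, rfl⟩
        · exact ⟨0, 0, rfl⟩
        · exact ⟨1, 0, rfl⟩
        · exact ⟨1, 1, rfl⟩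
        · exact ⟨3, 1, rfl⟩
      exact Cfsg.Agent.Char.isSolvable_of_card_eq_pow_mul_pow _ Nat.prime_two Nat.prime_three (hc.trans hij)
    haveI : Group.IsSolvable (Equiv.Perm.ofSubtype : Equiv.Perm s →* Equiv.Perm (Fin n)).range :=
      Group.isSolvable_of_surjective (MonoidHom.rangeRestrict_surjective _)
    have hle : K ≤ (Equiv.Perm.ofSubtype : Equiv.Perm s →* Equiv.Perm (Fin n)).range := by
      intro g hg
      rw [Equiv.Perm.mem_range_ofSubtype_iff]
      intro x hx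
      by_contra hxs
      exact (Equiv.Perm.mem_support.1 hx) (hK g hg x hxs)
    exact Group.isSolvable_of_isSolvable_injective (Subgroup.inclusion_injective hle)
  obtain ⟨a₁, a₂, hane, rfl⟩ := ha
  obtain ⟨b₁, b₂, hbne, rfl⟩ := hb
  obtain ⟨c₁, c₂, hcne, rfl⟩ := hc
  have hfix : ∀ (s : Finset (Fin n)) (S : Set (Equiv.Perm (Fin n))),
      (∀ g ∈ S, ∀ x, x ∉ s → g x = x) → ∀ g ∈ Subgroup.closure S, ∀ x, x ∉ s → g x = x := by
    intro s S hS g hg
    induction hg using Subgroup.closure_induction with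
    | mem g hg => exact hS g hg
    | one => intro x _; rfl
    | mul g h _ _ ihg ihh => intro x hx; rw [Equiv.Perm.mul_apply, ihh x hx, ihg x hx]
    | inv g _ ihg => intro x hx; conv_lhs => rw [← ihg x hx]
                     simp
  have hswap : ∀ (u v x : Fin n) (s : Finset (Fin n)), u ∈ s → v ∈ s → x ∉ s → Equiv.swap u v x = x :=
    fun u v x s hu hv hx => Equiv.swap_apply_of_ne_of_ne (fun e => hx (e ▸ hu)) (fun e => hx (e ▸ hv))
  have central : ∀ u₁ u₂ v₁ v₂ w₁ w₂ : Fin n,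
      Commute (Equiv.swap u₁ u₂) (Equiv.swap v₁ v₂) → Commute (Equiv.swap u₁ u₂) (Equiv.swap w₁ w₂) →
      Group.IsSolvable (Subgroup.closure
        ({Equiv.swap u₁ u₂, Equiv.swap v₁ v₂, Equiv.swap w₁ w₂} : Set (Equiv.Perm (Fin n)))) := by
    intro u₁ u₂ v₁ v₂ w₁ w₂ h1 h2
    let L := Subgroup.closure ({Equiv.swap v₁ v₂, Equiv.swap w₁ w₂} : Set (Equiv.Perm (Fin n)))
    haveI : Group.IsSolvable L := by
      refine small {v₁, v₂, w₁, w₂} Finset.card_le_four L (hfix _ _ ?_)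
      rintro g (rfl | rfl) x hx
      · exact hswap _ _ x _ (by simp) (by simp) hx
      · exact hswap _ _ x _ (by simp) (by simp) hx
    let Z := Subgroup.zpowers (Equiv.swap u₁ u₂)
    haveI : Group.IsSolvable Z := Group.isSolvable_of_comm (IsCyclic.commGroup (α := Z)).mul_comm
    have hcm : ∀ g ∈ L, Commute (Equiv.swap u₁ u₂) g := by
      intro g hg
      induction hg using Subgroup.closure_induction with
      | mem g hg => rcases hg with rfl | rfl <;> assumption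
      | one => exact Commute.one_right _
      | mul g h _ _ ihg ihh => exact ihg.mul_right ihh
      | inv g _ ihg => exact ihg.inv_right
    let f : Z × L →* Equiv.Perm (Fin n) := MonoidHom.noncommCoprod Z.subtype L.subtype (fun z g => by
      obtain ⟨k, hk⟩ := Subgroup.mem_zpowers_iff.1 z.2
      show Commute (z : Equiv.Perm (Fin n)) g
      rw [← hk]
      exact (hcm g g.2).zpow_left k)
    haveI : Group.IsSolvable f.range := Group.isSolvable_of_surjective f.rangeRestrict_surjective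
    have hle : Subgroup.closure ({Equiv.swap u₁ u₂, Equiv.swap v₁ v₂, Equiv.swap w₁ w₂} : Set (Equiv.Perm (Fin n))) ≤ f.range := by
      rw [Subgroup.closure_le]
      rintro g (rfl | rfl | rfl)
      · exact ⟨(⟨_, Subgroup.mem_zpowers _⟩, 1), by simp [f]⟩
      · exact ⟨(1, ⟨Equiv.swap v₁ v₂, Subgroup.subset_closure (by simp)⟩), by simp [f]⟩
      · exact ⟨(1, ⟨Equiv.swap w₁ w₂, Subgroup.subset_closure (by simp)⟩), by simp [f]⟩
    exact Group.isSolvable_of_isSolvable_injective (Subgroup.inclusion_injective hle)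
  have comm : ∀ u₁ u₂ v₁ v₂ : Fin n, u₁ ≠ v₁ → u₁ ≠ v₂ → u₂ ≠ v₁ → u₂ ≠ v₂ →
      Commute (Equiv.swap u₁ u₂) (Equiv.swap v₁ v₂) := by
    intro u₁ u₂ v₁ v₂ h1 h2 h3 h4
    refine Equiv.Perm.Disjoint.commute fun x => ?_
    by_cases hx : x = u₁ ∨ x = u₂
    · exact Or.inr (Equiv.swap_apply_of_ne_of_ne (by rcases hx with rfl | rfl <;> assumption)
        (by rcases hx with rfl | rfl <;> assumption))
    · push Not at hx
      exact Or.inl (Equiv.swap_apply_of_ne_of_ne hx.1 hx.2)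
  by_cases h4 : ({a₁, a₂, b₁, b₂, c₁, c₂} : Finset (Fin n)).card ≤ 4
  · refine small _ h4 _ (hfix _ _ ?_)
    rintro g (rfl | rfl | rfl) x hx
    · exact hswap _ _ x _ (by simp) (by simp) hx
    · exact hswap _ _ x _ (by simp) (by simp) hx
    · exact hswap _ _ x _ (by simp) (by simp) hx
  -- when the six points are not covered by four, one swap is disjoint from the two others
  have meet : ∀ u₁ u₂ v₁ v₂ : Fin n, (u₁ ≠ v₁ ∧ u₁ ≠ v₂ ∧ u₂ ≠ v₁ ∧ u₂ ≠ v₂) ∨
      ({u₁, u₂, v₁, v₂} : Finset (Fin n)).card ≤ 3 := by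
    intro u₁ u₂ v₁ v₂
    by_cases h : u₁ ≠ v₁ ∧ u₁ ≠ v₂ ∧ u₂ ≠ v₁ ∧ u₂ ≠ v₂
    · exact Or.inl h
    right
    rcases (by tauto : u₁ = v₁ ∨ u₁ = v₂ ∨ u₂ = v₁ ∨ u₂ = v₂) with rfl | rfl | rfl | rfl
    · exact (Finset.card_le_card (t := {u₁, u₂, v₂}) (by intro x; simp; tauto)).trans Finset.card_le_three
    · exact (Finset.card_le_card (t := {u₁, u₂, v₁}) (by intro x; simp; tauto)).trans Finset.card_le_three
    · exact (Finset.card_le_card (t := {u₁, u₂, v₂}) (by intro x; simp)).trans Finset.card_le_three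
    · exact (Finset.card_le_card (t := {u₁, u₂, v₁}) (by intro x; simp; tauto)).trans Finset.card_le_three
  have chain : ∀ u₁ u₂ v₁ v₂ w₁ w₂ : Fin n, ({v₁, v₂, u₁, u₂} : Finset (Fin n)).card ≤ 3 →
      ({v₁, v₂, w₁, w₂} : Finset (Fin n)).card ≤ 3 → v₁ ≠ v₂ →
      ({u₁, u₂, v₁, v₂, w₁, w₂} : Finset (Fin n)).card ≤ 4 := by
    intro u₁ u₂ v₁ v₂ w₁ w₂ h1 h2 hne
    have hu : ({u₁, u₂, v₁, v₂, w₁, w₂} : Finset (Fin n)) =
        ({v₁, v₂, u₁, u₂} : Finset (Fin n)) ∪ {v₁, v₂, w₁, w₂} := by ext x; simp; tauto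
    have hi : 2 ≤ (({v₁, v₂, u₁, u₂} : Finset (Fin n)) ∩ {v₁, v₂, w₁, w₂}).card := by
      refine le_of_eq_of_le (Finset.card_pair hne).symm (Finset.card_le_card ?_)
      intro x; simp; tauto
    have := Finset.card_union_add_card_inter ({v₁, v₂, u₁, u₂} : Finset (Fin n)) {v₁, v₂, w₁, w₂}
    rw [hu]
    omega
  have hperm : ∀ u v w : Equiv.Perm (Fin n), ({u, v, w} : Set (Equiv.Perm (Fin n))) = {v, u, w} :=
    fun u v w => Set.insert_comm u v {w}
  rcases meet a₁ a₂ b₁ b₂ with hab | hab <;> rcases meet a₁ a₂ c₁ c₂ with hac | hac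
  · exact central _ _ _ _ _ _ (comm _ _ _ _ hab.1 hab.2.1 hab.2.2.1 hab.2.2.2) (comm _ _ _ _ hac.1 hac.2.1 hac.2.2.1 hac.2.2.2)
  all_goals rcases meet b₁ b₂ c₁ c₂ with hbc | hbc
  · rw [hperm]
    exact central _ _ _ _ _ _ (comm _ _ _ _ hab.1 hab.2.1 hab.2.2.1 hab.2.2.2).symm (comm _ _ _ _ hbc.1 hbc.2.1 hbc.2.2.1 hbc.2.2.2)
  · refine absurd ((Finset.card_le_card ?_).trans (chain a₁ a₂ c₁ c₂ b₁ b₂
      ((Finset.card_le_card ?_).trans hac) ((Finset.card_le_card ?_).trans hbc) hcne)) h4 <;>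
      (intro x; simp; tauto)
  · rw [Set.pair_comm (Equiv.swap b₁ b₂) (Equiv.swap c₁ c₂), hperm]
    exact central _ _ _ _ _ _ (comm _ _ _ _ hac.1 hac.2.1 hac.2.2.1 hac.2.2.2).symm (comm _ _ _ _ hbc.1 hbc.2.1 hbc.2.2.1 hbc.2.2.2).symm
  · refine absurd ((Finset.card_le_card ?_).trans (chain a₁ a₂ b₁ b₂ c₁ c₂
      ((Finset.card_le_card ?_).trans hab) hbc hbne)) h4 <;> (intro x; simp <;> tauto)
  all_goals
    refine absurd ((Finset.card_le_card ?_).trans (chain b₁ b₂ a₁ a₂ c₁ c₂ hab hac hane)) h4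
    intro x; simp; tauto

end Cfsg.Agent.S4337
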