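import Cfsg.Statements.S4341
import Cfsg.Agent.H7.SylowCount

set_option autoImplicit false
open Cfsg

namespace Cfsg.Agent.S4341

/-- Let K be a normal subgroup of a finite group G, p a prime and P a Sylow p-subgroup of G; let N be the normalizer of P ∩ K inside the subgroup PK. Then the number of Sylow p-subgroups of G equals the product of the numbers of Sylow p-subgroups of G/K, of K, and of N/(P ∩ K). (The normality of P ∩ K in N, which always holds, is assumed as a hypothesis so that the quotient can be formed.) -/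
theorem result {G : Type*} [Group G] [Finite G]
    (p : ℕ) [Fact p.Prime] (K : Subgroup G) [K.Normal] (P : Sylow p G) (N : Subgroup G)
    (hN : N = ((P : Subgroup G) ⊔ K) ⊓ Subgroup.normalizer (((P : Subgroup G) ⊓ K : Subgroup G) : Set G))
    [hn : (((P : Subgroup G) ⊓ K).subgroupOf N).Normal] :
    Nat.card (Sylow p G) =
      Nat.card (Sylow p (G ⧸ K)) * Nat.card (Sylow p K) * Nat.card (Sylow p (N ⧸ ((P : Subgroup G) ⊓ K).subgroupOf N)) := by
  open Cfsg.Agent.H7 in
  set M := Subgroup.normalizer (((P : Subgroup G) ⊓ K : Subgroup G) : Set G) with hM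
  set Nn := Subgroup.normalizer ((P : Subgroup G) : Set G) with hNn
  have hPM : (P : Subgroup G) ≤ M := by
    intro g hg
    rw [hM, Subgroup.mem_normalizer_iff]
    intro h
    constructor
    · intro hh
      exact ⟨(P : Subgroup G).mul_mem ((P : Subgroup G).mul_mem hg hh.1) ((P : Subgroup G).inv_mem hg),
        Subgroup.Normal.conj_mem ‹K.Normal› h hh.2 g⟩
    · intro hh
      refine ⟨?_, ?_⟩
      · have := (P : Subgroup G).mul_mem ((P : Subgroup G).mul_mem ((P : Subgroup G).inv_mem hg) hh.1) hg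
        rwa [show g⁻¹ * (g * h * g⁻¹) * g = h by group] at this
      · have := Subgroup.Normal.conj_mem ‹K.Normal› _ hh.2 g⁻¹
        simpa [mul_assoc] using this
  have hPN : (P : Subgroup G) ≤ N := hN ▸ le_inf le_sup_left hPM
  have hNnM : Nn ≤ M := by
    intro g hg
    rw [hNn, Subgroup.mem_normalizer_iff] at hg
    rw [hM, Subgroup.mem_normalizer_iff]
    intro h
    constructor
    · intro hh
      exact ⟨(hg h).mp hh.1, Subgroup.Normal.conj_mem ‹K.Normal› h hh.2 g⟩
    · intro hh
      refine ⟨(hg h).mpr hh.1, ?_⟩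
      have := Subgroup.Normal.conj_mem ‹K.Normal› _ hh.2 g⁻¹
      simpa [mul_assoc] using this
  have hPn : (P : Subgroup G) ≤ Subgroup.normalizer ((M ⊓ K : Subgroup G) : Set G) := by
    intro g hg
    rw [Subgroup.mem_normalizer_iff]
    intro h
    have hgM := hPM hg
    constructor
    · intro hh
      exact ⟨M.mul_mem (M.mul_mem hgM hh.1) (M.inv_mem hgM),
        Subgroup.Normal.conj_mem ‹K.Normal› h hh.2 g⟩
    · intro hh
      refine ⟨?_, ?_⟩
      · have := M.mul_mem (M.mul_mem (M.inv_mem hgM) hh.1) hgM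
        simpa [mul_assoc] using this
      · have := Subgroup.Normal.conj_mem ‹K.Normal› _ hh.2 g⁻¹
        simpa [mul_assoc] using this
  have hNeq : N = (M ⊓ K) ⊔ (P : Subgroup G) := by
    subst hN
    refine le_antisymm ?_ (sup_le (le_inf (inf_le_right.trans le_sup_right) inf_le_left) hPN)
    rintro x ⟨hx1, hx2⟩
    change x ∈ (P : Subgroup G) ⊔ K at hx1
    rw [sup_comm, ← SetLike.mem_coe, Subgroup.normal_mul K (P : Subgroup G)] at hx1
    obtain ⟨k, hk, q, hq, rfl⟩ := hx1
    exact Subgroup.mul_mem_sup ⟨(M.mul_mem_cancel_right (hPM hq)).mp hx2, hk⟩ hq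
  have hquot : Nat.card (Sylow p (N ⧸ ((P : Subgroup G) ⊓ K).subgroupOf N)) = Nn.relIndex N := by
    rw [Cfsg.Agent.H7.card_sylow_quotient (((P : Subgroup G) ⊓ K).subgroupOf N) (P.subtype hPN),
      ← Cfsg.Agent.H7.card_sylow_subgroup P hPN, Sylow.card_eq_index_normalizer (P.subtype hPN)]
    congr 3
    apply sup_eq_left.mpr
    intro x hx
    rw [Sylow.coe_subtype, Subgroup.mem_subgroupOf]
    exact (Subgroup.mem_subgroupOf.mp hx).1
  rw [hquot, Cfsg.Agent.H7.card_sylow_quotient K P, Cfsg.Agent.H7.card_sylow_normal K P,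
    Sylow.card_eq_index_normalizer P, ← Sylow.coe_coe P]
  set X := Subgroup.normalizer (((P : Subgroup G) ⊔ K : Subgroup G) : Set G) with hX
  have hXeq : X = K ⊔ Nn := Cfsg.Agent.H7.sylow_sup_normalizer K P
  have e1 : Nn.relIndex X = Nn.relIndex K := by
    rw [hXeq]
    refine Cfsg.Agent.H7.relIndex_sup_of_le_normalizer le_rfl ?_
    rw [Subgroup.normalizer_eq_top]; exact le_top
  have e2 : Nn.relIndex N = Nn.relIndex (M ⊓ K) := by
    rw [hNeq]
    exact Cfsg.Agent.H7.relIndex_sup_of_le_normalizer Subgroup.le_normalizer hPn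
  have e3 : Nn.relIndex K = Nn.relIndex (M ⊓ K) * M.relIndex K := by
    rw [← Subgroup.inf_relIndex_right Nn K,
      ← Subgroup.relIndex_mul_relIndex (Nn ⊓ K) (M ⊓ K) K (inf_le_inf_right _ hNnM) inf_le_right,
      Subgroup.inf_relIndex_right M K, ← Subgroup.inf_relIndex_right Nn (M ⊓ K),
      ← inf_assoc, inf_eq_left.mpr hNnM]
  rw [← Subgroup.relIndex_mul_index (show Nn ≤ X from hXeq ▸ le_sup_right), e1, e2, e3]
  ring

end Cfsg.Agent.S4341
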