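import Cfsg.Statements.S4343
-- import your own Cfsg.Agent.* helpers here

set_option autoImplicit false
open Cfsg

namespace Cfsg.Agent.S4343

/-- Let S be a finite non-abelian simple group and p a prime dividing its order. If S has fewer than p² Sylow p-subgroups, then its Sylow p-subgroups have order p. -/
theorem result {S : Type*} [Group S] [Finite S]
    [IsSimpleGroup S] (hS : ¬ IsMulCommutative S) (p : ℕ) [Fact p.Prime] (hp : p ∣ Nat.card S)
    (hn : Nat.card (Sylow p S) < p ^ 2) (P : Sylow p S) : Nat.card P = p := by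
  classical
  have hp' : p.Prime := Fact.out
  have hPbot : (P : Subgroup S) ≠ ⊥ := P.ne_bot_of_dvd_card hp
  -- no Sylow subgroup is normal
  have hnn : ∀ Q : Sylow p S, ¬ (Q : Subgroup S).Normal := by
    intro Q hQ
    rcases hQ.eq_bot_or_eq_top with h | h
    · exact Q.ne_bot_of_dvd_card hp h
    · have hG : IsPGroup p S := (h ▸ Q.isPGroup' : IsPGroup p (⊤ : Subgroup S)).of_equiv Subgroup.topEquiv
      haveI : Nontrivial S := IsSimpleGroup.toNontrivial
      haveI := hG.center_nontrivial
      rcases (inferInstance : (Subgroup.center S).Normal).eq_bot_or_eq_top with h' | h'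
      · exact (Subgroup.nontrivial_iff_ne_bot _).1 inferInstance h'
      · exact hS ⟨⟨fun a b => (Subgroup.mem_center_iff.1 (h' ▸ Subgroup.mem_top b : b ∈ Subgroup.center S) a)⟩⟩
  -- distinct Sylow subgroups meet in index p
  have hidx : ∀ Q R : Sylow p S, Q ≠ R → (R : Subgroup S).relIndex Q = p := by
    intro Q R hne
    have he : (Subgroup.normalizer ((R : Subgroup S) : Set S)).relIndex Q = (R : Subgroup S).relIndex Q := by
      rw [← Subgroup.inf_relIndex_right, inf_comm]
      conv_lhs => arg 1; change (Q : Subgroup S) ⊓ Subgroup.normalizer (R : Set S)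
      rw [Q.isPGroup'.inf_normalizer_sylow R, inf_comm, Subgroup.inf_relIndex_right]
    have hle : (R : Subgroup S).relIndex Q < p ^ 2 := by
      refine lt_of_le_of_lt ?_ hn
      rw [← he, Sylow.card_eq_index_normalizer R, ← Subgroup.relIndex_top_right]
      exact Subgroup.relIndex_le_of_le_right le_top (by rw [Subgroup.relIndex_top_right]; exact Subgroup.index_ne_zero_of_finite)
    obtain ⟨k, hk⟩ := (Q.isPGroup').index ((R : Subgroup S).subgroupOf Q)
    change (R : Subgroup S).relIndex Q = p ^ k at hk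
    rw [hk] at hle ⊢
    have hk2 : k < 2 := (Nat.pow_lt_pow_iff_right hp'.one_lt).1 hle
    interval_cases k
    · exfalso
      refine hne (Sylow.ext ?_)
      exact (Q.3 R.isPGroup' (Subgroup.relIndex_eq_one.1 (by simpa using hk))).symm
    · simp
  -- Brodkey: abelian Sylow subgroups, a minimal intersection is contained in all of them
  have hint : ∀ D : Subgroup S, (∀ R : Sylow p S, D ≤ R) → D = ⊥ := by
    intro D hD
    have hN : (⨅ R : Sylow p S, (R : Subgroup S)).Normal := by
      refine ⟨fun x hx g => ?_⟩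
      rw [Subgroup.mem_iInf] at hx ⊢
      intro R
      have h := hx (g⁻¹ • R)
      rw [Sylow.smul_def, Sylow.pointwise_smul_def] at h
      have h' := Subgroup.smul_mem_pointwise_smul x (MulAut.conj g) _ h
      simpa [smul_smul] using h'
    rcases hN.eq_bot_or_eq_top with h | h
    · exact le_bot_iff.1 (h ▸ le_iInf hD)
    · exact absurd (top_le_iff.1 (h ▸ iInf_le (fun R : Sylow p S => (R : Subgroup S)) P))
        (fun e => hnn P (by rw [e]; infer_instance))
  have hsub : ∀ Q R : Sylow p S, Q ≠ R → ((R : Subgroup S).subgroupOf Q).Normal := by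
    intro Q R hne
    refine Subgroup.normal_of_index_eq_minFac_card ?_
    rw [show ((R : Subgroup S).subgroupOf Q).index = p from hidx Q R hne]
    obtain ⟨k, hk⟩ := IsPGroup.iff_card.1 Q.isPGroup'
    have hk0 : k ≠ 0 := by
      rintro rfl
      exact Q.ne_bot_of_dvd_card hp ((Q : Subgroup S).eq_bot_of_card_eq (by simpa using hk))
    rw [hk, Nat.pow_minFac hk0, hp'.minFac_eq]
  have hcommu : ∀ Q : Sylow p S, ∀ a ∈ Q, ∀ b ∈ Q, a * b = b * a := by
    intro Q a ha b hb
    have : a * b * a⁻¹ * b⁻¹ = 1 := by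
      refine (Subgroup.mem_bot).1 (hint (Subgroup.zpowers (a * b * a⁻¹ * b⁻¹)) (fun R => ?_) ▸ Subgroup.mem_zpowers _)
      rw [Subgroup.zpowers_le]
      by_cases hne : Q = R
      · subst hne; exact mul_mem (mul_mem (mul_mem ha hb) (inv_mem ha)) (inv_mem hb)
      · haveI := hsub Q R hne
        haveI : Fact p.Prime := ⟨hp'⟩
        have hc : IsCyclic ((Q : Subgroup S) ⧸ (R : Subgroup S).subgroupOf Q) :=
          isCyclic_of_prime_card (p := p) (by rw [← Subgroup.index_eq_card]; exact hidx Q R hne)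
        have h := (IsCyclic.commGroup (α := (Q : Subgroup S) ⧸ (R : Subgroup S).subgroupOf Q)).mul_comm
          (QuotientGroup.mk ⟨a, ha⟩) (QuotientGroup.mk ⟨b, hb⟩)
        have h2 := QuotientGroup.eq.1 h.symm
        simpa [Subgroup.mem_subgroupOf, mul_assoc] using
          (inferInstance : ((R : Subgroup S).subgroupOf Q).Normal).conj_mem _ h2 (⟨b, hb⟩ * ⟨a, ha⟩)
    calc a * b = a * b * a⁻¹ * b⁻¹ * (b * a) := by group
      _ = b * a := by rw [this, one_mul]
  obtain ⟨g, hg⟩ : ∃ R : Sylow p S, P ≠ R := by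
    by_contra! hall
    haveI : Subsingleton (Sylow p S) := ⟨fun x y => (hall x).symm.trans (hall y)⟩
    exact hnn P (P.normal_of_subsingleton)
  haveI : Fintype (Sylow p S) := Fintype.ofFinite _
  obtain ⟨⟨A, B⟩, hAB, hmin⟩ := Finset.exists_min_image
    ((Finset.univ : Finset (Sylow p S × Sylow p S)).filter fun x => x.1 ≠ x.2)
    (fun x => Nat.card ((x.1 : Subgroup S) ⊓ (x.2 : Subgroup S) : Subgroup S)) ⟨(P, g), by simp [hg]⟩
  simp only [Finset.mem_filter, Finset.mem_univ, true_and] at hAB hmin
  set D : Subgroup S := (A : Subgroup S) ⊓ B with hDdef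
  have hD : D = ⊥ := by
    refine hint D fun R => ?_
    let H := Subgroup.centralizer (D : Set S)
    have hAH : (A : Subgroup S) ≤ H := fun a ha d hd => hcommu A d hd.1 a ha
    have hBH : (B : Subgroup S) ≤ H := fun a ha d hd => hcommu B d hd.2 a ha
    have hRp : IsPGroup p ((R : Subgroup S).subgroupOf H) :=
      R.isPGroup'.comap_subtype
    obtain ⟨T, hT⟩ := hRp.exists_le_sylow
    obtain ⟨h, rfl⟩ := MulAction.exists_smul_eq H (A.subtype hAH) T
    let B' : Sylow p S := (h : S) • B
    have hmemB' : ∀ x : S, x ∈ (B' : Subgroup S) ↔ (h : S)⁻¹ * x * h ∈ (B : Subgroup S) := by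
      intro x
      show x ∈ (((h : S) • B : Sylow p S) : Subgroup S) ↔ _
      rw [Sylow.smul_def, Sylow.pointwise_smul_def, Subgroup.mem_pointwise_smul_iff_inv_smul_mem]
      simp [mul_assoc]
    have hmemA : ∀ x : H, x ∈ (h • A.subtype hAH : Sylow p H) → (h : S)⁻¹ * x * h ∈ (A : Subgroup S) := by
      intro x hx
      have hx' : x ∈ (h • A.subtype hAH : Sylow p H).toSubgroup := hx
      rw [Sylow.smul_def, Sylow.pointwise_smul_def, Subgroup.mem_pointwise_smul_iff_inv_smul_mem] at hx'
      simpa [Subgroup.mem_subgroupOf, mul_assoc] using hx'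
    have hfix : ∀ d ∈ D, (h : S)⁻¹ * d * h = d := by
      intro d hd
      rw [mul_assoc, h.2 d hd, inv_mul_cancel_left]
    have hDB' : D ≤ (B' : Subgroup S) := fun d hd => by
      rw [hmemB', hfix d hd]; exact hd.2
    by_cases hRB : R = B'
    · rw [hRB]; exact hDB'
    have hle : (R : Subgroup S) ⊓ B' ≤ D := by
      rintro x ⟨hxR, hxB⟩
      have hxB' := (hmemB' x).1 hxB
      have hxH : x ∈ H := by
        have e : x = h * ((h : S)⁻¹ * x * h) * (h : S)⁻¹ := by group
        rw [e]
        exact mul_mem (mul_mem h.2 (hBH hxB')) (inv_mem h.2)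
      have hxA := hmemA ⟨x, hxH⟩ (hT (Subgroup.mem_subgroupOf.2 hxR))
      have e : x = (h : S)⁻¹ * x * h := by
        have hd : (h : S)⁻¹ * x * h ∈ D := ⟨hxA, hxB'⟩
        have := hfix _ hd
        calc x = (h : S) * ((h : S)⁻¹ * x * h) * (h : S)⁻¹ := by group
          _ = (h : S) * ((h : S)⁻¹ * ((h : S)⁻¹ * x * h) * h) * (h : S)⁻¹ := by rw [this]
          _ = _ := by group
      rw [e]; exact ⟨hxA, hxB'⟩
    have heq : (R : Subgroup S) ⊓ B' = D := Subgroup.eq_of_le_of_card_ge hle (hmin (R, B') hRB)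
    exact heq ▸ inf_le_left
  have h := Subgroup.card_mul_index ((B : Subgroup S).subgroupOf A)
  rw [show ((B : Subgroup S).subgroupOf A).index = p from hidx A B hAB] at h
  have hbot : (B : Subgroup S).subgroupOf A = ⊥ := by
    rw [← Subgroup.inf_subgroupOf_left, ← hDdef, hD, Subgroup.bot_subgroupOf]
  rw [hbot, Subgroup.card_bot, one_mul] at h
  exact (Nat.card_congr (Sylow.equiv P A).toEquiv).trans h.symm

end Cfsg.Agent.S4343
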