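import Cfsg.Statements.S4345
import Cfsg.Agent.Solv.Hall
import Mathlib

set_option autoImplicit false
open Cfsg
open scoped Pointwise

namespace Cfsg.Agent.S4345

theorem split2 (N p l : ℕ) (hN : N ≠ 0) (hp : p.Prime) (hl : l.Prime) (hne : p ≠ l) :
    ∃ m n : ℕ, N = m * n ∧ m.Coprime n ∧ m = p ^ N.factorization p * l ^ N.factorization l ∧
      ∀ d : ℕ, d ∣ m → ∀ M : ℕ, d ∣ M → M ≠ 0 → d ∣ p ^ M.factorization p * l ^ M.factorization l := by
  have hcop : (p ^ N.factorization p).Coprime (l ^ N.factorization l) :=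
    Nat.Coprime.pow _ _ ((Nat.coprime_primes hp hl).2 hne)
  have hd : p ^ N.factorization p * l ^ N.factorization l ∣ N :=
    hcop.mul_dvd_of_dvd_of_dvd (Nat.ordProj_dvd _ _) (Nat.ordProj_dvd _ _)
  refine ⟨_, N / (p ^ N.factorization p * l ^ N.factorization l), (Nat.mul_div_cancel' hd).symm, ?_, rfl, ?_⟩
  · obtain ⟨c, hc⟩ := hd
    have hc0 : 0 < p ^ N.factorization p * l ^ N.factorization l :=
      Nat.mul_pos (pow_pos hp.pos _) (pow_pos hl.pos _)
    rw [Nat.div_eq_of_eq_mul_right hc0 hc]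
    refine Nat.Coprime.mul_left (Nat.Coprime.pow_left _ (hp.coprime_iff_not_dvd.2 fun h => ?_))
      (Nat.Coprime.pow_left _ (hl.coprime_iff_not_dvd.2 fun h => ?_))
    · have h2 : p ^ (N.factorization p + 1) ∣ N := by
        conv_rhs => rw [hc]
        exact (pow_succ p _).symm ▸ mul_dvd_mul (dvd_mul_right _ _) h
      exact absurd ((hp.pow_dvd_iff_le_factorization hN).1 h2) (by omega)
    · have h2 : l ^ (N.factorization l + 1) ∣ N := by
        conv_rhs => rw [hc]
        exact (pow_succ l _).symm ▸ mul_dvd_mul (dvd_mul_left _ _) h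
      exact absurd ((hl.pow_dvd_iff_le_factorization hN).1 h2) (by omega)
  · intro d hdm M hdM hM
    obtain ⟨⟨d₁, h₁⟩, ⟨d₂, h₂⟩, rfl⟩ := Nat.dvd_mul.1 hdm |>.elim fun a ha =>
      ha.elim fun b hb => (⟨⟨a, hb.1⟩, ⟨b, hb.2.1⟩, hb.2.2.symm⟩ :
        ∃ (a : {a // a ∣ p ^ N.factorization p}) (b : {b // b ∣ l ^ N.factorization l}), d = a.1 * b.1)
    obtain ⟨i, -, rfl⟩ := (Nat.dvd_prime_pow hp).1 h₁
    obtain ⟨j, -, rfl⟩ := (Nat.dvd_prime_pow hl).1 h₂
    exact mul_dvd_mul (pow_dvd_pow p ((hp.pow_dvd_iff_le_factorization hM).1 ((dvd_mul_right _ _).trans hdM)))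
      (pow_dvd_pow l ((hl.pow_dvd_iff_le_factorization hM).1 ((dvd_mul_left _ _).trans hdM)))

/-- Let G be a finite solvable group and p, ℓ primes. Then the largest power of ℓ dividing the number of Sylow p-subgroups of G is congruent to 1 modulo p. -/
theorem result {G : Type*} [Group G] [Finite G]
    (hG : Group.IsSolvable G) (p ℓ : ℕ) [Fact p.Prime] (hℓ : ℓ.Prime) :
    ℓ ^ (Nat.card (Sylow p G)).factorization ℓ ≡ 1 [MOD p] := by
  classical
  haveI := hG
  have hp : p.Prime := Fact.out
  by_cases hne : p = ℓ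
  · subst hne
    have h : ¬ p ∣ Nat.card (Sylow p G) := fun hd => by
      have h1 := (card_sylow_modEq_one p G).symm.trans (Nat.modEq_zero_iff_dvd.2 hd)
      exact hp.one_lt.ne' (Nat.dvd_one.1 (Nat.modEq_zero_iff_dvd.1 h1))
    rw [Nat.factorization_eq_zero_of_not_dvd h, pow_zero]
  let P : Sylow p G := Classical.arbitrary _
  set M := Subgroup.normalizer ((P : Subgroup G) : Set G) with hMd
  obtain ⟨m, n, hmn, hcop, hm, hmd⟩ := split2 (Nat.card G) p ℓ Nat.card_pos.ne' hp hℓ hne
  obtain ⟨m', n', hmn', hcop', hm', hmd'⟩ := split2 (Nat.card M) p ℓ Nat.card_pos.ne' hp hℓ hne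
  obtain ⟨H, hH, hdom⟩ := Cfsg.Agent.Solv.hall_exists_dominating hmn hcop
  obtain ⟨K, hK, hdom'⟩ := Cfsg.Agent.Solv.hall_exists_dominating hmn' hcop'
  have hvp : (Nat.card M).factorization p = (Nat.card G).factorization p := by
    refine le_antisymm ((Nat.factorization_le_iff_dvd Nat.card_pos.ne' Nat.card_pos.ne').2
      (Subgroup.card_subgroup_dvd_card M) p) ?_
    rw [← hp.pow_dvd_iff_le_factorization Nat.card_pos.ne', ← P.card_eq_multiplicity]
    exact Subgroup.card_dvd_of_le Subgroup.le_normalizer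
  have hvl : (Nat.card M).factorization ℓ ≤ (Nat.card G).factorization ℓ :=
    (Nat.factorization_le_iff_dvd Nat.card_pos.ne' Nat.card_pos.ne').2 (Subgroup.card_subgroup_dvd_card M) ℓ
  have hKc : (Nat.card (K.map M.subtype)).Coprime n := by
    rw [← Nat.card_congr (K.equivMapOfInjective M.subtype M.subtype_injective).toEquiv, hK]
    refine Nat.Coprime.coprime_dvd_left ?_ hcop
    rw [hm, hm', hvp]
    exact mul_dvd_mul_left _ (pow_dvd_pow ℓ hvl)
  obtain ⟨g, hg⟩ := hdom _ hKc
  -- the Sylow subgroup lies in the Hall subgroup of its normalizer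
  have hPK : (P : Subgroup G) ≤ K.map M.subtype := by
    obtain ⟨x, hx⟩ := hdom' ((P : Subgroup G).subgroupOf M) (by
      rw [Nat.card_congr (Subgroup.subgroupOfEquivOfLe Subgroup.le_normalizer).toEquiv, P.card_eq_multiplicity]
      refine Nat.Coprime.coprime_dvd_left ?_ hcop'
      rw [hm', hvp]
      exact dvd_mul_right _ _)
    intro y hy
    have hyM : y ∈ M := Subgroup.le_normalizer hy
    have hy' : x⁻¹ * (⟨y, hyM⟩ : M) * x ∈ (P : Subgroup G).subgroupOf M := by
      have : ((P : Subgroup G).subgroupOf M).Normal := Subgroup.normal_in_normalizer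
      simpa using this.conj_mem _ (show (⟨y, hyM⟩ : M) ∈ (P : Subgroup G).subgroupOf M from hy) x⁻¹
    refine ⟨_, hx (Subgroup.smul_mem_pointwise_smul _ (MulAut.conj x) _ hy'), ?_⟩
    simp [mul_assoc]
  let P' : Sylow p G := g • P
  have hP'H : (P' : Subgroup G) ≤ H := by
    refine le_trans ?_ hg
    rw [show (P' : Subgroup G) = MulAut.conj g • (P : Subgroup G) from rfl]
    exact Subgroup.pointwise_smul_le_pointwise_smul_iff.2 hPK
  let PH : Sylow p H := P'.subtype hP'H
  set NH := Subgroup.normalizer ((PH : Subgroup H) : Set H) with hNH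
  have hNHc : Nat.card NH = Nat.card K := by
    have e1 : NH.map H.subtype = H ⊓ Subgroup.normalizer ((P' : Subgroup G) : Set G) := by
      have := Subgroup.subgroupOf_normalizer_eq hP'H
      rw [hNH, show (PH : Subgroup H) = (P' : Subgroup G).subgroupOf H from rfl, ← this,
        Subgroup.subgroupOf_map_subtype, inf_comm]
    rw [Nat.card_congr (NH.equivMapOfInjective H.subtype H.subtype_injective).toEquiv, e1]
    have hN' : Subgroup.normalizer ((P' : Subgroup G) : Set G) = MulAut.conj g • M := by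
      rw [show (P' : Subgroup G) = MulAut.conj g • (P : Subgroup G) from rfl]
      exact (Subgroup.map_equiv_normalizer_eq (P : Subgroup G) (MulAut.conj g)).symm
    rw [hN']
    apply le_antisymm
    · rw [hK]
      refine Nat.le_of_dvd (by rw [hm']; exact Nat.mul_pos (pow_pos hp.pos _) (pow_pos hℓ.pos _)) ?_
      rw [hm']
      refine hmd _ (hH ▸ Subgroup.card_dvd_of_le inf_le_left) _ ?_ Nat.card_pos.ne'
      rw [← Cfsg.Agent.Solv.card_conj_smul g M]
      exact Subgroup.card_dvd_of_le inf_le_right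
    · rw [Nat.card_congr (K.equivMapOfInjective M.subtype M.subtype_injective).toEquiv,
        ← Cfsg.Agent.Solv.card_conj_smul g (K.map M.subtype)]
      exact Nat.le_of_dvd Nat.card_pos (Subgroup.card_dvd_of_le
        (le_inf hg (Subgroup.pointwise_smul_le_pointwise_smul_iff.2 (Subgroup.map_subtype_le K))))
  have hi := NH.card_mul_index
  rw [show NH.index = Nat.card (Sylow p H) from (Sylow.card_eq_index_normalizer PH).symm, hNHc, hK, hH, hm, hm', hvp,
    show (Nat.card G).factorization ℓ = (Nat.card M).factorization ℓ +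
      ((Nat.card G).factorization ℓ - (Nat.card M).factorization ℓ) by omega, pow_add, mul_assoc] at hi
  have h2 := Nat.eq_of_mul_eq_mul_left (pow_pos hp.pos _) hi
  have h3 := Nat.eq_of_mul_eq_mul_left (pow_pos hℓ.pos _) h2
  have hv : (Nat.card (Sylow p G)).factorization ℓ =
      (Nat.card G).factorization ℓ - (Nat.card M).factorization ℓ := by
    have h := M.card_mul_index
    rw [show M.index = Nat.card (Sylow p G) from (Sylow.card_eq_index_normalizer P).symm] at h
    rw [← h, Nat.factorization_mul Nat.card_pos.ne' Nat.card_pos.ne', Finsupp.add_apply]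
    omega
  rw [hv, ← h3]
  exact card_sylow_modEq_one p H

end Cfsg.Agent.S4345
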