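import Cfsg.Statements.S4346
import Mathlib.GroupTheory.Sylow
import Mathlib.GroupTheory.IndexNormal
import Mathlib.GroupTheory.Transfer
import Mathlib.GroupTheory.Perm.Cycle.Type
import Mathlib.GroupTheory.SpecificGroups.Cyclic
import Mathlib.Tactic.NormNum.Prime
import Mathlib.Tactic.Group
import Mathlib.Tactic.IntervalCases
import Mathlib.Combinatorics.Enumerative.DoubleCounting

set_option autoImplicit false
open Cfsg

namespace Cfsg.Agent.S4346
open Subgroup MulAction

universe u
variable {G : Type u} [Group G] [Finite G]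

/-- Sylow subgroups of a subgroup containing one Sylow subgroup. -/
theorem card_sylow_overgroup {p : ℕ} [Fact p.Prime] (H : Subgroup G) (a : Sylow p G)
    (ha : (a : Subgroup G) ≤ H) :
    Nat.card {b : Sylow p G // (b : Subgroup G) ≤ H} = Nat.card (Sylow p H) := by
  refine Nat.card_eq_of_bijective (fun b => b.1.subtype b.2) ⟨fun b c h => Subtype.ext (Sylow.subtype_injective h), fun Q => ?_⟩
  obtain ⟨b, hb⟩ := (Q.isPGroup'.map H.subtype).exists_le_sylow
  have h1 : Nat.card ((Q : Subgroup H).map H.subtype) = Nat.card (Q : Subgroup H) :=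
    Subgroup.card_map_of_injective H.subtype_injective
  have h2 : Nat.card (a : Subgroup G) = Nat.card (Q : Subgroup H) := by
    have h := (a.subtype ha).card_eq_multiplicity
    rw [← Q.card_eq_multiplicity, Sylow.coe_subtype, Nat.card_congr (Subgroup.subgroupOfEquivOfLe ha).toEquiv] at h
    exact h
  have h3 : (Q : Subgroup H).map H.subtype = b := Subgroup.eq_of_le_of_card_ge hb (by
    rw [h1, ← h2, a.card_eq_multiplicity, b.card_eq_multiplicity])
  refine ⟨⟨b, h3 ▸ Subgroup.map_subtype_le _⟩, ?_⟩
  refine Sylow.ext ?_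
  rw [Sylow.coe_subtype]
  show (b : Subgroup G).subgroupOf H = _
  rw [← h3]
  exact Subgroup.comap_map_eq_self_of_injective H.subtype_injective _

instance : Fact (Nat.Prime 3) := ⟨Nat.prime_three⟩

/-- The conjugation action on the Sylow subgroups is faithful. -/
def Faith (G : Type u) [Group G] : Prop := ∀ g : G, (∀ b : Sylow 3 G, g • b = b) → g = 1

omit [Finite G] in
theorem fix_iff (g : G) (b : Sylow 3 G) : g • b = b ↔ g ∈ normalizer ((b : Subgroup G) : Set G) :=
  Sylow.smul_eq_iff_mem_normalizer

theorem mem_of_fix {x : G} (hx : ∃ k, orderOf x = 3 ^ k) {b : Sylow 3 G} (h : x • b = b) :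
    x ∈ (b : Subgroup G) := by
  obtain ⟨k, hk⟩ := hx
  have hz : IsPGroup 3 (zpowers x) := IsPGroup.of_card (by rw [Nat.card_zpowers, hk])
  have h2 : x ∈ zpowers x ⊓ normalizer ((b : Subgroup G) : Set G) := ⟨mem_zpowers x, (fix_iff x b).1 h⟩
  exact ((hz.inf_normalizer_sylow b).le h2).2

omit [Finite G] in
theorem fix_of_mem {x : G} {b : Sylow 3 G} (h : x ∈ (b : Subgroup G)) : x • b = b :=
  (fix_iff x b).2 (le_normalizer h)

omit [Finite G] in
theorem orderOf_mem {x : G} {b : Sylow 3 G} (h : x ∈ (b : Subgroup G)) : ∃ k, orderOf x = 3 ^ k := by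
  obtain ⟨k, hk⟩ := IsPGroup.iff_orderOf.1 b.isPGroup' ⟨x, h⟩
  exact ⟨k, by rw [← hk, ← Subgroup.orderOf_coe]⟩

omit [Finite G] in
theorem fix_pow {g : G} {b : Sylow 3 G} (h : g • b = b) (n : ℕ) : g ^ n • b = b :=
  (fix_iff _ b).2 (Subgroup.pow_mem _ ((fix_iff g b).1 h) n)

/-- Collinearity: the intersection has index three. -/
def Coll (a b : Sylow 3 G) : Prop :=
  b ≠ a ∧ 3 * Nat.card ((a : Subgroup G) ⊓ b : Subgroup G) = Nat.card (a : Subgroup G)

theorem card_sylow_eq (a b : Sylow 3 G) : Nat.card (a : Subgroup G) = Nat.card (b : Subgroup G) := by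
  rw [a.card_eq_multiplicity, b.card_eq_multiplicity]

theorem coll_symm {a b : Sylow 3 G} (h : Coll a b) : Coll b a :=
  ⟨h.1.symm, by rw [inf_comm, h.2]; exact card_sylow_eq a b⟩

theorem orbit_mul (a b : Sylow 3 G) :
    Nat.card (orbit (a : Subgroup G) b) * Nat.card ((a : Subgroup G) ⊓ b : Subgroup G) = Nat.card (a : Subgroup G) := by
  have e : stabilizer (a : Subgroup G) b = ((a : Subgroup G) ⊓ b).subgroupOf a := by
    ext y
    rw [Subgroup.mem_subgroupOf, mem_stabilizer_iff]
    exact ⟨fun h => ⟨y.2, mem_of_fix (orderOf_mem y.2) h⟩, fun h => fix_of_mem h.2⟩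
  rw [← Nat.card_congr (Subgroup.subgroupOfEquivOfLe (inf_le_left : (a : Subgroup G) ⊓ b ≤ a)).toEquiv, ← e,
    Nat.card_coe_set_eq, ← index_stabilizer, Subgroup.index_mul_card]

theorem coll_iff {a b : Sylow 3 G} (hab : b ≠ a) : Coll a b ↔ Nat.card (orbit (a : Subgroup G) b) = 3 := by
  have h := orbit_mul a b
  refine ⟨fun hc => ?_, fun hc => ⟨hab, by rw [hc] at h; exact h⟩⟩
  exact Nat.eq_of_mul_eq_mul_right Nat.card_pos (h.trans hc.2.symm)

theorem coll_normal {a b : Sylow 3 G} (h : Coll a b) {y : G} (hy : y ∈ (a : Subgroup G)) {x : G}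
    (hx : x ∈ (a : Subgroup G) ⊓ b) : y * x * y⁻¹ ∈ (a : Subgroup G) ⊓ b := by
  set S := ((a : Subgroup G) ⊓ b).subgroupOf a with hS
  have hi : S.index = 3 := by
    have h1 := S.index_mul_card
    rw [Nat.card_congr (Subgroup.subgroupOfEquivOfLe (inf_le_left : (a : Subgroup G) ⊓ b ≤ a)).toEquiv, ← h.2] at h1
    exact Nat.eq_of_mul_eq_mul_right Nat.card_pos h1
  haveI : S.Normal := by
    refine Subgroup.normal_of_index_eq_minFac_card ?_
    obtain ⟨n, hn⟩ := a.isPGroup'.exists_card_eq
    have hd := S.index_dvd_card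
    rw [hi, hn] at hd
    rcases n with _ | n
    · simp at hd
    · rw [hi, hn, Nat.pow_minFac (Nat.succ_ne_zero n), Nat.Prime.minFac_eq Nat.prime_three]
  exact (inferInstance : S.Normal).conj_mem ⟨x, hx.1⟩ hx ⟨y, hy⟩

theorem coll_eq {a b c : Sylow 3 G} (hab : Coll a b) (hc : c ≠ a) (hD : (a : Subgroup G) ⊓ b ≤ c) :
    Coll a c ∧ (a : Subgroup G) ⊓ c = (a : Subgroup G) ⊓ b := by
  have hle : (a : Subgroup G) ⊓ b ≤ (a : Subgroup G) ⊓ c := le_inf inf_le_left hD
  have hd := Subgroup.card_dvd_of_le hle
  have h3 := orbit_mul a c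
  obtain ⟨k, hk⟩ := a.isPGroup'.card_orbit c
  have hk0 : k ≠ 0 := by
    rintro rfl
    have hs := (Nat.card_eq_one_iff_unique.1 (show Nat.card (orbit (a : Subgroup G) c) = 1 by simpa using hk)).1
    refine hc (Sylow.ext (a.is_maximal' c.isPGroup' fun y hy => mem_of_fix (orderOf_mem hy) ?_))
    exact congrArg Subtype.val (hs.elim ⟨y • c, ⟨y, hy⟩, rfl⟩ ⟨c, mem_orbit_self c⟩)
  obtain ⟨m, hm⟩ := hd
  rw [hk, ← hab.2, hm] at h3
  have hpos : 0 < Nat.card ((a : Subgroup G) ⊓ b : Subgroup G) := Nat.card_pos
  have h4 : 3 ^ k * m = 3 := Nat.eq_of_mul_eq_mul_left hpos (by rw [mul_left_comm, h3]; exact mul_comm _ _)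
  obtain ⟨j, rfl⟩ := Nat.exists_eq_succ_of_ne_zero hk0
  rw [pow_succ, mul_comm (3 ^ j) 3, mul_assoc] at h4
  have h5 : 3 ^ j * m = 1 := Nat.eq_of_mul_eq_mul_left (by norm_num : 0 < 3) (h4.trans (mul_one 3).symm)
  have hm1 : m = 1 := Nat.eq_one_of_mul_eq_one_left h5
  rw [hm1, mul_one] at hm
  have he := Subgroup.eq_of_le_of_card_ge hle hm.le
  exact ⟨⟨hc, by rw [← he, hab.2]⟩, he.symm⟩

/-- No proper triangles. -/
theorem triangle {a b c : Sylow 3 G} (hab : Coll a b) (hac : Coll a c) (hbc : Coll b c) :
    (a : Subgroup G) ⊓ b = (a : Subgroup G) ⊓ c := by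
  suffices h : (a : Subgroup G) ⊓ b ≤ c from (coll_eq hab hac.1 h).2.symm
  intro y hy
  by_cases he : (a : Subgroup G) ⊓ c = (b : Subgroup G) ⊓ c
  · have h1 : (a : Subgroup G) ⊓ c ≤ b := he.le.trans inf_le_left
    have := (coll_eq hac hab.1 h1).2
    exact (this.le hy).2
  refine mem_of_fix (orderOf_mem hy.1) ((fix_iff y c).2 ?_)
  have hsup : ((a : Subgroup G) ⊓ c) ⊔ ((b : Subgroup G) ⊓ c) = c := by
    set W := ((a : Subgroup G) ⊓ c) ⊔ ((b : Subgroup G) ⊓ c)
    have hW : W ≤ c := sup_le inf_le_right inf_le_right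
    refine Subgroup.eq_of_le_of_card_ge hW ?_
    have hd1 := Subgroup.card_dvd_of_le (le_sup_left : (a : Subgroup G) ⊓ c ≤ W)
    have hd2 := Subgroup.card_dvd_of_le hW
    have hc3 : 3 * Nat.card ((a : Subgroup G) ⊓ c : Subgroup G) = Nat.card (c : Subgroup G) := hac.2.trans (card_sylow_eq a c)
    obtain ⟨m, hm⟩ := hd1
    rw [← hc3, hm, mul_comm 3] at hd2
    have hm3 : m ∣ 3 := Nat.dvd_of_mul_dvd_mul_left Nat.card_pos hd2
    rcases (Nat.dvd_prime Nat.prime_three).1 hm3 with rfl | rfl
    · rw [mul_one] at hm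
      have e1 := Subgroup.eq_of_le_of_card_ge (le_sup_left : (a : Subgroup G) ⊓ c ≤ W) hm.le
      have hbc3 : 3 * Nat.card ((b : Subgroup G) ⊓ c : Subgroup G) = Nat.card (c : Subgroup G) := hbc.2.trans (card_sylow_eq b c)
      refine absurd (Subgroup.eq_of_le_of_card_ge (e1.symm.le.trans' le_sup_right : (b : Subgroup G) ⊓ c ≤ (a : Subgroup G) ⊓ c) ?_).symm he
      omega
    · rw [hm, ← hc3, mul_comm]
  have key : ∀ z : G, z ∈ (c : Subgroup G) → ∀ w : G, w ∈ (a : Subgroup G) → w ∈ (b : Subgroup G) → w * z * w⁻¹ ∈ (c : Subgroup G) := by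
    intro z hz w hwa hwb
    have hle : (c : Subgroup G) ≤ (c : Subgroup G).comap (MulAut.conj w).toMonoidHom := by
      rw [← hsup]
      refine sup_le (fun u hu => ?_) (fun u hu => ?_)
      · exact Subgroup.mem_sup_left (coll_normal hac hwa hu)
      · exact Subgroup.mem_sup_right (coll_normal hbc hwb hu)
    exact hle hz
  rw [Subgroup.mem_normalizer_iff]
  refine fun z => ⟨fun hz => key z hz y hy.1 hy.2, fun hz => ?_⟩
  have := key _ hz y⁻¹ (inv_mem hy.1) (inv_mem hy.2)
  simpa [mul_assoc] using this

section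
variable (hn : Nat.card (Sylow 3 G) = 22)
include hn

theorem orbit_card (a b : Sylow 3 G) (hab : b ≠ a) :
    Nat.card (orbit (a : Subgroup G) b) = 3 ∨ Nat.card (orbit (a : Subgroup G) b) = 9 := by
  obtain ⟨k, hk⟩ := a.isPGroup'.card_orbit b
  have hsub : orbit (a : Subgroup G) b ⊆ {a}ᶜ := by
    rintro c ⟨y, rfl⟩ (h : (y : G) • b = a)
    apply hab
    exact MulAction.injective (y : G) (h.trans (fix_of_mem y.2).symm)
  have h21 : Nat.card (orbit (a : Subgroup G) b) ≤ 21 := by
    refine le_trans (Nat.card_mono (Set.toFinite _) hsub) ?_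
    have := Set.ncard_add_ncard_compl ({a} : Set (Sylow 3 G))
    rw [Set.ncard_singleton, hn] at this
    rw [Nat.card_coe_set_eq]; omega
  rcases k with _ | _ | _ | k
  · exfalso
    have hs := (Nat.card_eq_one_iff_unique.1 (show Nat.card (orbit (a : Subgroup G) b) = 1 by simpa using hk)).1
    refine hab (Sylow.ext (a.is_maximal' b.isPGroup' fun y hy => mem_of_fix (orderOf_mem hy) ?_))
    exact congrArg Subtype.val (hs.elim ⟨y • b, ⟨y, hy⟩, rfl⟩ ⟨b, mem_orbit_self b⟩)
  · left; simpa using hk
  · right; simpa using hk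
  · have : 27 ≤ 3 ^ (k + 1 + 1 + 1) := le_trans (by norm_num) (Nat.pow_le_pow_right (by norm_num) (Nat.le_add_left 3 k))
    omega

variable (hf : Faith G)
include hf

omit hn in
theorem no_common {a b : Sylow 3 G} (h3 : Nat.card (a : Subgroup G) ≠ 3) (hab : Coll a b) :
    ∃ c : Sylow 3 G, ¬ (a : Subgroup G) ⊓ b ≤ c := by
  by_contra! h
  have hbot : (a : Subgroup G) ⊓ b = ⊥ :=
    (Subgroup.eq_bot_iff_forall _).2 fun x hx => hf x fun c => fix_of_mem (h c hx)
  have := hab.2
  rw [hbot, Subgroup.card_bot, mul_one] at this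
  exact h3 this.symm

theorem no_case_large (a₀ : Sylow 3 G) (h3 : Nat.card (a₀ : Subgroup G) ≠ 3) : False := by
  classical
  haveI := Fintype.ofFinite (Sylow 3 G)
  have h3' : ∀ a : Sylow 3 G, Nat.card (a : Subgroup G) ≠ 3 := fun a => card_sylow_eq a a₀ ▸ h3
  let K : Sylow 3 G → Finset (Sylow 3 G) := fun a => Finset.univ.filter fun b => Coll a b
  let R : Sylow 3 G → Finset (Sylow 3 G) := fun a => Finset.univ.filter fun b => b ≠ a ∧ ¬ Coll a b
  have hK : ∀ a b, b ∈ K a ↔ Coll a b := fun a b => by simp [K]
  have h21 : ∀ a, (K a).card + (R a).card = 21 := by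
    intro a
    have : K a ∪ R a = Finset.univ.erase a := by
      ext b; simp only [K, R, Finset.mem_union, Finset.mem_filter, Finset.mem_univ, true_and, Finset.mem_erase, and_true]
      exact ⟨fun h => h.elim (fun h => h.1) (fun h => h.1), fun h => by by_cases hc : Coll a b <;> simp [hc, h]⟩
    rw [← Finset.card_union_of_disjoint, this, Finset.card_erase_of_mem (Finset.mem_univ a), Finset.card_univ,
      ← Nat.card_eq_fintype_card, hn]
    exact Finset.disjoint_left.2 fun b hb hb' => (Finset.mem_filter.1 hb').2.2 ((hK a b).1 hb)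
  have hmod : ∀ (a : Sylow 3 G) (P : Sylow 3 G → Prop) (m : ℕ),
      (∀ b, P b → ∀ y ∈ (a : Subgroup G), P (y • b)) → (∀ b, P b → Nat.card (orbit (a : Subgroup G) b) = m) →
      m ∣ (Finset.univ.filter fun b => P b).card := by
    intro a P m hP hm
    let O : Sylow 3 G → Finset (Sylow 3 G) := fun b => (Set.toFinite (orbit (a : Subgroup G) b)).toFinset
    rw [Finset.card_eq_sum_card_fiberwise (f := O) (t := (Finset.univ.filter fun b => P b).image O) (fun b hb => Finset.mem_image_of_mem O hb)]
    refine Finset.dvd_sum fun o ho => ?_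
    obtain ⟨b, hb, rfl⟩ := Finset.mem_image.1 ho
    rw [Finset.mem_filter] at hb
    have : (Finset.univ.filter fun b => P b).filter (fun c => O c = O b) = O b := by
      ext c
      simp only [Finset.mem_filter, Finset.mem_univ, true_and, O, Set.Finite.toFinset_inj, Set.Finite.mem_toFinset]
      refine ⟨fun h => h.2 ▸ mem_orbit_self c, fun h => ⟨?_, orbit_eq_iff.2 h⟩⟩
      obtain ⟨⟨y, hy⟩, rfl⟩ := h
      exact hP b hb.2 y hy
    rw [this]
    refine dvd_of_eq ?_
    rw [← hm b hb.2, Nat.card_coe_set_eq, Set.ncard_eq_toFinset_card]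
  have hinvC : ∀ a b : Sylow 3 G, Coll a b → ∀ y ∈ (a : Subgroup G), Coll a (y • b) := by
    intro a b h y hy
    have hne : (y • b : Sylow 3 G) ≠ a := fun e => h.1 (MulAction.injective y (e.trans (fix_of_mem hy).symm))
    rw [coll_iff hne]
    have : orbit (a : Subgroup G) (y • b) = orbit (a : Subgroup G) b := orbit_eq_iff.2 ⟨⟨y, hy⟩, rfl⟩
    rw [this, ← coll_iff h.1]; exact h
  have hd : ∀ a, (K a).card = 3 ∨ (K a).card = 12 ∨ (K a).card = 21 := by
    intro a
    have h1 : 3 ∣ (K a).card := hmod a (fun b => Coll a b) 3 (hinvC a) fun b hb => (coll_iff hb.1).1 hb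
    have h2 : 9 ∣ (R a).card := by
      have key := hmod a (fun b => b ≠ a ∧ ¬ Coll a b) 9 (fun b hb y hy =>
        ⟨fun e => hb.1 (MulAction.injective y (e.trans (fix_of_mem hy).symm)), fun h => hb.2 (by
          have := hinvC a _ h y⁻¹ (inv_mem hy)
          rwa [inv_smul_smul] at this)⟩) fun b hb => (orbit_card hn a b hb.1).resolve_left (mt (coll_iff hb.1).2 hb.2)
      convert key using 4
    have := h21 a
    omega
  by_cases htr : ∀ a b c : Sylow 3 G, Coll a b → Coll a c → (a : Subgroup G) ⊓ b = (a : Subgroup G) ⊓ c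
  · let L : Sylow 3 G → Finset (Sylow 3 G) := fun a => insert a (K a)
    have hL : ∀ a b, b ∈ L a → L b = L a := by
      intro a b hb
      rcases Finset.mem_insert.1 hb with rfl | hb
      · rfl
      rw [hK] at hb
      have hba := coll_symm hb
      ext c
      simp only [L, Finset.mem_insert, hK]
      constructor
      · rintro (rfl | hc)
        · exact Or.inr hb
        · by_cases hca : c = a
          · exact Or.inl hca
          have he := htr b a c hba hc
          refine Or.inr (coll_eq hb hca ?_).1
          rw [inf_comm, he]; exact inf_le_right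
      · rintro (rfl | hc)
        · exact Or.inr hba
        · by_cases hcb : c = b
          · exact Or.inl hcb
          have he := htr a b c hb hc
          refine Or.inr (coll_eq hba hcb ?_).1
          rw [inf_comm, he]; exact inf_le_right
    have hLc : ∀ a, (L a).card = (K a).card + 1 := fun a => Finset.card_insert_of_notMem fun h => ((hK a a).1 h).1 rfl
    rcases hd a₀ with h | h | h
    all_goals
      have hconst : ∀ a, (K a).card = (K a₀).card := by
        intro a
        obtain ⟨g, hg⟩ := MulAction.exists_smul_eq G a₀ a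
        have hmap : ∀ (g : G) (b c : Sylow 3 G), Coll b c → Coll (g • b) (g • c) := by
          intro g b c hbc
          refine ⟨fun e => hbc.1 (MulAction.injective g e), ?_⟩
          simp only [Sylow.smul_def, Sylow.pointwise_smul_def]
          rw [← Subgroup.smul_inf, Nat.card_congr (Subgroup.equivSMul (MulAut.conj g) _).symm.toEquiv,
            Nat.card_congr (Subgroup.equivSMul (MulAut.conj g) _).symm.toEquiv]
          exact hbc.2
        have e : K a = (K a₀).image (g • ·) := by
          ext c
          simp only [Finset.mem_image, hK]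
          refine ⟨fun hc => ⟨g⁻¹ • c, ?_, smul_inv_smul g c⟩, ?_⟩
          · have := hmap g⁻¹ a c hc
            rwa [← hg, inv_smul_smul] at this
          · rintro ⟨b, hb, rfl⟩
            exact hg ▸ hmap g a₀ b hb
        rw [e, Finset.card_image_of_injective _ (MulAction.injective g)]
    · have hdvd : 4 ∣ 22 := by
        have := Finset.card_eq_sum_card_fiberwise (f := L) (s := (Finset.univ : Finset (Sylow 3 G))) (t := Finset.univ.image L) (fun b hb => Finset.mem_image_of_mem L hb)
        rw [Finset.card_univ, ← Nat.card_eq_fintype_card, hn] at this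
        rw [this]
        refine Finset.dvd_sum fun o ho => ?_
        obtain ⟨b, -, rfl⟩ := Finset.mem_image.1 ho
        have e : (Finset.univ : Finset (Sylow 3 G)).filter (fun c => L c = L b) = L b := by
          ext c
          simp only [Finset.mem_filter, Finset.mem_univ, true_and]
          exact ⟨fun h => h ▸ Finset.mem_insert_self _ _, fun h => hL b c h⟩
        rw [e, hLc, hconst, h]
      norm_num at hdvd
    · have hdvd : 13 ∣ 22 := by
        have := Finset.card_eq_sum_card_fiberwise (f := L) (s := (Finset.univ : Finset (Sylow 3 G))) (t := Finset.univ.image L) (fun b hb => Finset.mem_image_of_mem L hb)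
        rw [Finset.card_univ, ← Nat.card_eq_fintype_card, hn] at this
        rw [this]
        refine Finset.dvd_sum fun o ho => ?_
        obtain ⟨b, -, rfl⟩ := Finset.mem_image.1 ho
        have e : (Finset.univ : Finset (Sylow 3 G)).filter (fun c => L c = L b) = L b := by
          ext c
          simp only [Finset.mem_filter, Finset.mem_univ, true_and]
          exact ⟨fun h => h ▸ Finset.mem_insert_self _ _, fun h => hL b c h⟩
        rw [e, hLc, hconst, h]
      norm_num at hdvd
    · have hR := h21 a₀
      have hall : ∀ b, b ≠ a₀ → Coll a₀ b := fun b hb => by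
        by_contra hc
        have : b ∈ R a₀ := by simp [R, hb, hc]
        have := Finset.card_pos.2 ⟨b, this⟩
        omega
      haveI : Nontrivial (Sylow 3 G) := Finite.one_lt_card_iff_nontrivial.1 (by omega)
      obtain ⟨b, hb⟩ := exists_ne a₀
      obtain ⟨c, hc⟩ := no_common hf h3 (hall b hb)
      by_cases hca : c = a₀
      · exact hc (hca ▸ inf_le_left)
      · exact hc ((htr a₀ b c (hall b hb) (hall c hca)).le.trans inf_le_right)
  · push Not at htr
    obtain ⟨a, b, c, hb, hc, hne⟩ := htr
    let Ls : Finset (Sylow 3 G) := Finset.univ.filter fun e => Coll a e ∧ (a : Subgroup G) ⊓ e = (a : Subgroup G) ⊓ b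
    have hLs : ∀ e, e ∈ Ls ↔ Coll a e ∧ (a : Subgroup G) ⊓ e = (a : Subgroup G) ⊓ b := fun e => by simp [Ls]
    have hsub : Ls ⊆ K a := fun e he => (hK a e).2 ((hLs e).1 he).1
    have horb : (Set.toFinite (orbit (a : Subgroup G) b)).toFinset ⊆ Ls := by
      intro e he
      rw [Set.Finite.mem_toFinset] at he
      obtain ⟨⟨y, hy⟩, rfl⟩ := he
      rw [hLs]
      refine ⟨hinvC a b hb y hy, ?_⟩
      refine (coll_eq hb (hinvC a b hb y hy).1 ?_).2
      intro x hx
      show x ∈ ((y • b : Sylow 3 G) : Subgroup G)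
      rw [Sylow.smul_def, Sylow.pointwise_smul_def, Subgroup.mem_pointwise_smul_iff_inv_smul_mem]
      have := coll_normal hb (inv_mem hy) hx
      show (MulAut.conj y)⁻¹ • x ∈ (b : Subgroup G)
      rw [← map_inv, MulAut.smul_def, MulAut.conj_apply]
      exact this.2
    have hk3 : 3 ≤ Ls.card := by
      refine le_trans (le_of_eq ?_) (Finset.card_le_card horb)
      rw [← Set.ncard_eq_toFinset_card, ← Nat.card_coe_set_eq, (coll_iff hb.1).1 hb]
    have hkd : Ls.card < (K a).card := Finset.card_lt_card ⟨hsub, fun h => hne ((hLs c).1 (h ((hK a c).2 hc))).2.symm⟩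
    rcases hd a with h | h | h
    · omega
    · let S : Sylow 3 G → Finset (Sylow 3 G) := fun e => K e \ insert a Ls
      have hSR : ∀ e ∈ Ls, S e ⊆ R a := by
        intro e he x hx
        obtain ⟨he1, he2⟩ := (hLs e).1 he
        simp only [S, Finset.mem_sdiff, Finset.mem_insert, hK, not_or] at hx
        simp only [R, Finset.mem_filter, Finset.mem_univ, true_and]
        refine ⟨hx.2.1, fun hax => hx.2.2 ((hLs x).2 ⟨hax, ?_⟩)⟩
        rw [← triangle he1 hax hx.1, he2]
      have hK12 : ∀ e, Coll a e → (K e).card = 12 := by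
        intro e he
        rcases hd e with h' | h' | h'
        · exfalso
          -- the line through `a` and `e` is all of `K e`
          have hor := (coll_iff (coll_symm he).1).1 (coll_symm he)
          have hK' : (Set.toFinite (orbit (e : Subgroup G) a)).toFinset = K e := by
            refine Finset.eq_of_subset_of_card_le (fun x hx => ?_) ?_
            · rw [Set.Finite.mem_toFinset] at hx
              obtain ⟨⟨y, hy⟩, rfl⟩ := hx
              exact (hK e _).2 (hinvC e a (coll_symm he) y hy)
            · rw [h', ← Set.ncard_eq_toFinset_card, ← Nat.card_coe_set_eq, hor]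
          obtain ⟨g, hg⟩ := MulAction.exists_smul_eq G a e
          have e12 : (K e).card = (K a).card := by
            have hmap : ∀ (g : G) (b c : Sylow 3 G), Coll b c → Coll (g • b) (g • c) := by
              intro g b c hbc
              refine ⟨fun e => hbc.1 (MulAction.injective g e), ?_⟩
              simp only [Sylow.smul_def, Sylow.pointwise_smul_def]
              rw [← Subgroup.smul_inf, Nat.card_congr (Subgroup.equivSMul (MulAut.conj g) _).symm.toEquiv,
                Nat.card_congr (Subgroup.equivSMul (MulAut.conj g) _).symm.toEquiv]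
              exact hbc.2
            refine le_antisymm (Finset.card_le_card_of_injOn (g⁻¹ • ·) (fun x hx => ?_) (MulAction.injective _).injOn)
              (Finset.card_le_card_of_injOn (g • ·) (fun x hx => ?_) (MulAction.injective _).injOn)
            · have := hmap g⁻¹ e x ((hK e x).1 hx)
              rw [← hg, inv_smul_smul] at this
              exact (hK a _).2 this
            · exact (hK e _).2 (hg ▸ hmap g a x ((hK a x).1 hx))
          omega
        · exact h'
        · exfalso
          have hR := h21 e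
          by_cases hce : c = e
          · subst hce
            have hbe : b ≠ c := fun h => hne (h ▸ rfl)
            have hcb : Coll c b := by
              by_contra hcb
              have : b ∈ R c := by simp [R, hbe, hcb]
              have := Finset.card_pos.2 ⟨b, this⟩
              omega
            exact hne (triangle hb hc (coll_symm hcb))
          · have hec : Coll e c := by
              by_contra hec
              have : c ∈ R e := by simp [R, hce, hec]
              have := Finset.card_pos.2 ⟨c, this⟩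
              omega
            have h1 := triangle he hc hec
            by_cases hbe : b = e
            · exact hne (hbe ▸ h1)
            · have heb : Coll e b := by
                by_contra heb
                have : b ∈ R e := by simp [R, hbe, heb]
                have := Finset.card_pos.2 ⟨b, this⟩
                omega
              exact hne ((triangle he hb heb).symm.trans h1)
      have hSc : ∀ e ∈ Ls, 12 - Ls.card ≤ (S e).card := by
        intro e he
        have h1 : (K e).card ≤ (S e).card + ((insert a Ls).erase e).card := by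
          refine le_trans (Finset.card_le_card (t := S e ∪ (insert a Ls).erase e) fun x hx => ?_) (Finset.card_union_le _ _)
          by_cases hxi : x ∈ insert a Ls
          · exact Finset.mem_union_right _ (Finset.mem_erase.2 ⟨((hK e x).1 hx).1, hxi⟩)
          · exact Finset.mem_union_left _ (Finset.mem_sdiff.2 ⟨hx, hxi⟩)
        rw [Finset.card_erase_of_mem (Finset.mem_insert_of_mem he), Finset.card_insert_of_notMem (fun h => ((hLs a).1 h).1.1 rfl),
          hK12 e ((hLs e).1 he).1] at h1
        omega
      have hdis : (Ls : Set (Sylow 3 G)).PairwiseDisjoint S := by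
        intro e he e' he' hee
        rw [Function.onFun, Finset.disjoint_left]
        intro x hx hx'
        obtain ⟨he1, he2⟩ := (hLs e).1 he
        obtain ⟨he1', he2'⟩ := (hLs e').1 he'
        simp only [S, Finset.mem_sdiff, Finset.mem_insert, hK, not_or] at hx hx'
        have hee' : Coll e e' ∧ (e : Subgroup G) ⊓ e' = (e : Subgroup G) ⊓ a := by
          refine coll_eq (coll_symm he1) (Ne.symm hee) ?_
          rw [inf_comm, he2, ← he2']; exact inf_le_right
        have h1 := triangle hee'.1 hx.1 hx'.1
        have hDx : (a : Subgroup G) ⊓ e ≤ x := by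
          rw [inf_comm, ← hee'.2, h1]; exact inf_le_right
        obtain ⟨hax, hax'⟩ := coll_eq he1 hx.2.1 hDx
        exact hx.2.2 ((hLs x).2 ⟨hax, hax'.trans he2⟩)
      have hsum : Ls.card * (12 - Ls.card) ≤ (R a).card := by
        refine le_trans ?_ (Finset.card_le_card (Finset.biUnion_subset.2 hSR))
        rw [Finset.card_biUnion hdis, ← smul_eq_mul]
        exact Finset.card_nsmul_le_sum _ _ _ hSc
      have := h21 a
      have hk11 : Ls.card ≤ 11 := by omega
      interval_cases hh : Ls.card <;> omega
    · have hR := h21 a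
      by_cases hcb : Coll b c
      · exact hne (triangle hb hc hcb)
      have hbne : c ≠ b := fun h => hne (h ▸ rfl)
      obtain ⟨g, hg⟩ := MulAction.exists_smul_eq G a b
      have hmap : ∀ (g : G) (b c : Sylow 3 G), Coll b c → Coll (g • b) (g • c) := by
        intro g b c hbc
        refine ⟨fun e => hbc.1 (MulAction.injective g e), ?_⟩
        simp only [Sylow.smul_def, Sylow.pointwise_smul_def]
        rw [← Subgroup.smul_inf, Nat.card_congr (Subgroup.equivSMul (MulAut.conj g) _).symm.toEquiv,
          Nat.card_congr (Subgroup.equivSMul (MulAut.conj g) _).symm.toEquiv]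
        exact hbc.2
      have hga : g⁻¹ • c ≠ a := fun e => hbne (by rw [inv_smul_eq_iff] at e; exact e.trans hg)
      have hcol : Coll a (g⁻¹ • c) := by
        by_contra hc'
        have : g⁻¹ • c ∈ R a := by simp [R, hga, hc']
        have := Finset.card_pos.2 ⟨_, this⟩
        omega
      have := hmap g _ _ hcol
      rw [hg, smul_inv_smul] at this
      exact hcb this


variable (h3 : ∀ a : Sylow 3 G, Nat.card (a : Subgroup G) = 3)
include h3

omit hn hf in
theorem exponent_three {a : Sylow 3 G} {y : G} (hy : y ∈ (a : Subgroup G)) : y ^ 3 = 1 := by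
  have := pow_card_eq_one' (x := (⟨y, hy⟩ : (a : Subgroup G)))
  rw [h3] at this
  exact congrArg Subtype.val this

omit hn hf in
theorem inf_bot {a b : Sylow 3 G} (hab : b ≠ a) : (a : Subgroup G) ⊓ b = ⊥ := by
  rcases (Nat.dvd_prime Nat.prime_three).1 (h3 a ▸ Subgroup.card_dvd_of_le (inf_le_left : (a : Subgroup G) ⊓ b ≤ a)) with h | h
  · exact Subgroup.card_eq_one.1 h
  · have h1 := Subgroup.eq_of_le_of_card_ge (inf_le_left : (a : Subgroup G) ⊓ b ≤ a) (by rw [h, h3])
    exact absurd (Sylow.ext (Subgroup.eq_of_le_of_card_ge (h1 ▸ inf_le_right : (a : Subgroup G) ≤ b) (by rw [h3, h3])).symm) hab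

omit hn hf in
theorem orbit_three {a b : Sylow 3 G} (hab : b ≠ a) : Nat.card (orbit (a : Subgroup G) b) = 3 := by
  have h := orbit_mul a b
  rwa [inf_bot h3 hab, Subgroup.card_bot, mul_one, h3] at h

omit hn hf in
theorem eq_one_of_fix_two {a b : Sylow 3 G} (hab : b ≠ a) {y : G} (hy : y ∈ (a : Subgroup G)) (hb : y • b = b) : y = 1 := by
  have : y ∈ (a : Subgroup G) ⊓ b := ⟨hy, mem_of_fix (orderOf_mem hy) hb⟩
  rwa [inf_bot h3 hab, Subgroup.mem_bot] at this

theorem toPerm_injective : Function.Injective (MulAction.toPermHom G (Sylow 3 G)) :=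
  (injective_iff_map_eq_one _).2 fun g hg => hf g fun c => congrArg (fun e : Equiv.Perm (Sylow 3 G) => e c) hg

/-- The number of fixed points of an element of prime order. -/
theorem fixed_mod {g : G} {q : ℕ} (hq : q.Prime) (hg : orderOf g = q) :
    22 % q = Nat.card {c : Sylow 3 G // g • c = c} % q := by
  haveI := Fact.mk hq
  have h := (IsPGroup.of_card (p := q) (n := 1) (G := zpowers g) (by rw [Nat.card_zpowers, hg, pow_one])).card_modEq_card_fixedPoints (Sylow 3 G)
  rw [hn] at h
  refine h.trans ?_
  refine congrArg (· % q) (Nat.card_congr (Equiv.subtypeEquivRight fun c => ⟨fun h => h ⟨g, mem_zpowers g⟩, fun h w => ?_⟩))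
  obtain ⟨i, hi⟩ := Subgroup.mem_zpowers_iff.1 w.2
  show (w : G) • c = c
  rw [← hi]
  exact (fix_iff _ c).2 (Subgroup.zpow_mem _ ((fix_iff g c).1 h) i)

theorem fixed_lt {g : G} (hg : g ≠ 1) : Nat.card {c : Sylow 3 G // g • c = c} < 22 := by
  classical
  haveI := Fintype.ofFinite (Sylow 3 G)
  obtain ⟨c, hc⟩ : ∃ c : Sylow 3 G, g • c ≠ c := by
    by_contra! h; exact hg (hf g h)
  rw [← hn, Nat.card_eq_fintype_card, Nat.card_eq_fintype_card]
  exact Fintype.card_subtype_lt (x := c) hc

/-- A five-element fixes seven points. -/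
theorem fixed_seven {g : G} (hg : orderOf g = 5) : Nat.card {c : Sylow 3 G // g • c = c} = 7 ∧
    ∀ a : Sylow 3 G, g • a = a → ∀ y ∈ (a : Subgroup G), g * y = y * g := by
  classical
  haveI := Fintype.ofFinite (Sylow 3 G)
  have hcomm : ∀ a : Sylow 3 G, g • a = a → ∀ y ∈ (a : Subgroup G), g * y = y * g := by
    intro a ha y hy
    haveI : IsCyclic (a : Subgroup G) := isCyclic_of_prime_card (h3 a)
    have hgN := (fix_iff g a).1 ha
    have h1 : orderOf ((a : Subgroup G).normalizerMonoidHom ⟨g, hgN⟩) ∣ 5 :=
      (orderOf_map_dvd _ _).trans (dvd_of_eq (by rw [← Subgroup.orderOf_coe]; exact hg))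
    have h2 : orderOf ((a : Subgroup G).normalizerMonoidHom ⟨g, hgN⟩) ∣ 2 := by
      refine (_root_.orderOf_dvd_natCard _).trans (dvd_of_eq ?_)
      rw [IsCyclic.card_mulAut, h3, Nat.totient_prime Nat.prime_three]
    have h : (⟨g, hgN⟩ : normalizer ((a : Subgroup G) : Set G)) ∈ (a : Subgroup G).normalizerMonoidHom.ker :=
      orderOf_eq_one_iff.1 (Nat.dvd_one.1 (Nat.dvd_gcd h1 h2))
    rw [normalizerMonoidHom_ker] at h
    exact (Subgroup.mem_centralizer_iff.1 h y hy).symm
  refine ⟨?_, hcomm⟩
  have hm := fixed_mod hn hf h3 Nat.prime_five hg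
  have hlt := fixed_lt hn hf h3 (g := g) (fun e => by rw [e, orderOf_one] at hg; omega)
  have hpos : Nat.card {c : Sylow 3 G // g • c = c} ≠ 0 := fun e => by rw [e] at hm; norm_num at hm
  obtain ⟨⟨a, ha⟩⟩ := (Nat.card_ne_zero.1 hpos).1
  let X : SubMulAction (a : Subgroup G) (Sylow 3 G) :=
    { carrier := {c | g • c = c}
      smul_mem' := by
        intro y c hc
        show g • (y : G) • c = (y : G) • c
        rw [smul_smul, hcomm a ha y y.2, ← smul_smul, show g • c = c from hc] }
  have hmod := a.isPGroup'.card_modEq_card_fixedPoints X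
  have hone : Nat.card (fixedPoints (a : Subgroup G) X) = 1 := by
    refine Nat.card_eq_one_iff_unique.2 ⟨⟨fun u v => ?_⟩, ⟨⟨⟨a, ha⟩, fun y => Subtype.ext (fix_of_mem y.2)⟩⟩⟩
    have : ∀ u : fixedPoints (a : Subgroup G) X, ((u : X) : Sylow 3 G) = a := fun u =>
      Sylow.ext (a.is_maximal' ((u : X) : Sylow 3 G).isPGroup' fun y hy =>
        mem_of_fix (orderOf_mem hy) (congrArg Subtype.val (u.2 ⟨y, hy⟩)))
    exact Subtype.ext (Subtype.ext ((this u).trans (this v).symm))
  rw [hone] at hmod
  have e : Nat.card X = Nat.card {c : Sylow 3 G // g • c = c} := rfl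
  rw [e] at hmod
  have hmod' : Nat.card {c : Sylow 3 G // g • c = c} % 3 = 1 := hmod
  omega

/-- The case of Sylow subgroups of order three. -/
theorem no_case_three (hdesc : ∀ M : Subgroup G, M.Normal → ¬ 3 ∣ M.index → M = ⊤) : False := by
  classical
  haveI := Fact.mk Nat.prime_two
  haveI : Fact (Nat.Prime 5) := ⟨Nat.prime_five⟩
  haveI : Fact (Nat.Prime 7) := ⟨by norm_num⟩
  haveI : Fact (Nat.Prime 11) := ⟨by norm_num⟩
  haveI := Fintype.ofFinite (Sylow 3 G)
  haveI := Fintype.ofFinite G
  -- all elements act as even permutations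
  have heven : ∀ g : G, Equiv.Perm.sign (MulAction.toPermHom G (Sylow 3 G) g) = 1 := by
    intro g
    let sg : G →* ℤˣ := Equiv.Perm.sign.comp (MulAction.toPermHom G (Sylow 3 G))
    have hker : ¬ 3 ∣ sg.ker.index := by
      intro h
      have : sg.ker.index ∣ 2 := by
        rw [Subgroup.index_ker]
        exact (Subgroup.card_subgroup_dvd_card _).trans (dvd_of_eq (by rw [Nat.card_eq_fintype_card]; rfl))
      have := h.trans this
      norm_num at this
    exact MonoidHom.mem_ker.1 (hdesc _ inferInstance hker ▸ Subgroup.mem_top g : g ∈ sg.ker)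
  have hinv2 : ∀ g : G, orderOf g = 2 → (22 - Nat.card {c : Sylow 3 G // g • c = c}) % 4 = 0 := by
    intro g hg
    set σ := MulAction.toPermHom G (Sylow 3 G) g with hσ
    have hσ2 : orderOf σ = 2 := by rw [hσ, orderOf_injective _ (toPerm_injective hn hf h3), hg]
    obtain ⟨m, hm⟩ := Equiv.Perm.cycleType_prime_order (σ := σ) (hσ2 ▸ Nat.prime_two)
    rw [hσ2] at hm
    have hmov : σ.support.card = 2 * (m + 1) := by
      rw [← Equiv.Perm.sum_cycleType, hm, Multiset.sum_replicate, smul_eq_mul, mul_comm]
    have hs := heven g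
    rw [← hσ, Equiv.Perm.sign_of_cycleType, hm, Multiset.sum_replicate, Multiset.card_replicate, smul_eq_mul,
      neg_one_pow_eq_one_iff_even (by decide)] at hs
    obtain ⟨r, hr⟩ := hs
    have hfix : Nat.card {c : Sylow 3 G // g • c = c} + σ.support.card = 22 := by
      rw [← hn, Nat.card_eq_fintype_card, Fintype.card_subtype, Nat.card_eq_fintype_card, ← Finset.card_univ]
      have : σ.support = Finset.univ.filter fun c : Sylow 3 G => ¬ g • c = c := by
        ext c; simp [Equiv.Perm.mem_support, σ]
      rw [this]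
      exact Finset.card_filter_add_card_filter_not _
    omega
  -- the orbits of a Sylow subgroup as blocks
  let O : Sylow 3 G → Sylow 3 G → Finset (Sylow 3 G) := fun a b => (Set.toFinite (orbit (a : Subgroup G) b)).toFinset
  let Bl : Sylow 3 G → Finset (Finset (Sylow 3 G)) := fun a => (Finset.univ.erase a).image (O a)
  have hBl : ∀ a, (Bl a).card = 7 := by
    intro a
    have h := Finset.card_eq_sum_card_fiberwise (f := O a) (s := Finset.univ.erase a) (t := Bl a) (fun b hb => Finset.mem_image_of_mem _ hb)
    rw [Finset.card_erase_of_mem (Finset.mem_univ a), Finset.card_univ, ← Nat.card_eq_fintype_card, hn] at h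
    rw [Finset.sum_congr rfl (g := fun _ => 3), Finset.sum_const, smul_eq_mul] at h
    · omega
    intro o ho
    obtain ⟨b, hb, rfl⟩ := Finset.mem_image.1 ho
    rw [Finset.mem_erase] at hb
    have e : (Finset.univ.erase a).filter (fun c => O a c = O a b) = O a b := by
      ext c
      simp only [Finset.mem_filter, Finset.mem_erase, Finset.mem_univ, and_true, O, Set.Finite.toFinset_inj, Set.Finite.mem_toFinset]
      refine ⟨fun h => h.2 ▸ mem_orbit_self c, fun h => ⟨?_, orbit_eq_iff.2 h⟩⟩
      rintro rfl
      obtain ⟨y, hy⟩ := h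
      exact hb.1 (MulAction.injective (y : G) (hy.trans (fix_of_mem y.2).symm))
    rw [e, ← Set.ncard_eq_toFinset_card, ← Nat.card_coe_set_eq, orbit_three h3 hb.1]
  -- block permutation representation
  have hmapO : ∀ a : Sylow 3 G, ∀ g : G, g • a = a → ∀ b, (O a b).image (g • ·) = O a (g • b) := by
    intro a g hg b
    have hgN := (fix_iff g a).1 hg
    ext c
    simp only [Finset.mem_image, O, Set.Finite.mem_toFinset]
    constructor
    · rintro ⟨d, ⟨y, rfl⟩, rfl⟩
      refine ⟨⟨g * y * g⁻¹, (Subgroup.mem_normalizer_iff.1 hgN y).1 y.2⟩, ?_⟩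
      show (g * y * g⁻¹) • g • b = g • (y : G) • b
      rw [smul_smul, smul_smul, inv_mul_cancel_right]
    · rintro ⟨y, rfl⟩
      refine ⟨(g⁻¹ * y * g) • b, ⟨⟨g⁻¹ * y * g, ?_⟩, rfl⟩, ?_⟩
      · refine (Subgroup.mem_normalizer_iff.1 hgN _).2 ?_
        simpa [mul_assoc] using y.2
      · show g • (g⁻¹ * y * g) • b = (y : G) • g • b
        rw [smul_smul, smul_smul, mul_assoc, mul_inv_cancel_left]
  let ρ : (a : Sylow 3 G) → normalizer ((a : Subgroup G) : Set G) →* Equiv.Perm (Bl a) := fun a =>
    { toFun := fun g => Equiv.ofBijective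
        (fun o => ⟨o.1.image ((g : G) • ·), by
          obtain ⟨b, hb, e⟩ := Finset.mem_image.1 o.2
          rw [← e, hmapO a g ((fix_iff _ a).2 g.2) b]
          refine Finset.mem_image_of_mem _ (Finset.mem_erase.2 ⟨fun h => (Finset.mem_erase.1 hb).1 (MulAction.injective (g : G) (h.trans ((fix_iff _ a).2 g.2).symm)), Finset.mem_univ _⟩)⟩)
        (Finite.injective_iff_bijective.1 fun o o' h => Subtype.ext (Finset.image_injective (MulAction.injective (g : G)) (congrArg Subtype.val h)))
      map_one' := Equiv.ext fun o => Subtype.ext (by simp)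
      map_mul' := fun g h => Equiv.ext fun o => Subtype.ext (by
        show o.1.image (((g * h : _) : G) • ·) = (o.1.image ((h : G) • ·)).image ((g : G) • ·)
        rw [Finset.image_image]
        congr 1
        funext c
        exact mul_smul _ _ _) }
  have hρfix : ∀ (a : Sylow 3 G) (g : normalizer ((a : Subgroup G) : Set G)), ρ a g = 1 → ∀ b, b ≠ a → (g : G) • b ∈ orbit (a : Subgroup G) b := by
    intro a g hg b hb
    have h1 : O a b ∈ Bl a := Finset.mem_image_of_mem _ (Finset.mem_erase.2 ⟨hb, Finset.mem_univ _⟩)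
    have h2 : (O a b).image ((g : G) • ·) = O a b := congrArg (fun e : Equiv.Perm (Bl a) => (e ⟨_, h1⟩).1) hg
    have h3' : (g : G) • b ∈ (O a b).image ((g : G) • ·) := Finset.mem_image_of_mem _ (by simp [O])
    rw [h2] at h3'
    simpa [O] using h3'
  have hNle : ∀ (a : Sylow 3 G) (q : ℕ), q.Prime → q ∣ Nat.card (normalizer ((a : Subgroup G) : Set G)) → q ≤ 7 := by
    intro a q hq hqN
    by_contra! h7
    haveI := Fact.mk hq
    obtain ⟨g, hg⟩ := exists_prime_orderOf_dvd_card' q hqN
    have h1 : ρ a g = 1 := by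
      rw [← orderOf_eq_one_iff]
      have d1 : orderOf (ρ a g) ∣ q := hg ▸ orderOf_map_dvd _ g
      rcases (Nat.dvd_prime hq).1 d1 with h | h
      · exact h
      · exfalso
        have d2 : q ∣ (7 : ℕ).factorial := by
          rw [← h]
          refine (_root_.orderOf_dvd_natCard _).trans (dvd_of_eq ?_)
          rw [Nat.card_perm, Nat.card_eq_fintype_card, Fintype.card_coe, hBl a]
        exact absurd (hq.dvd_factorial.1 d2) (by omega)
    have hg1 : (g : G) = 1 := by
      refine hf _ fun b => ?_
      by_cases hb : b = a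
      · rw [hb]; exact (fix_iff _ a).2 g.2
      have hq' : IsPGroup q (zpowers (g : G)) := IsPGroup.of_card (n := 1) (by rw [Nat.card_zpowers, Subgroup.orderOf_coe, hg, pow_one])
      obtain ⟨k, hk⟩ := hq'.card_orbit b
      have hle : Nat.card (orbit (zpowers (g : G)) b) ≤ 3 := by
        refine le_trans (Nat.card_mono (Set.toFinite _) ?_) (orbit_three h3 hb).le
        rintro _ ⟨⟨w, hw⟩, rfl⟩
        obtain ⟨i, rfl⟩ := Subgroup.mem_zpowers_iff.1 hw
        have : ρ a (g ^ i) = 1 := by rw [map_zpow, h1, one_zpow]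
        simpa using hρfix a (g ^ i) this b hb
      rcases k with _ | k
      · have hs := (Nat.card_eq_one_iff_unique.1 (show Nat.card (orbit (zpowers (g : G)) b) = 1 by simpa using hk)).1
        exact congrArg Subtype.val (hs.elim ⟨(g : G) • b, ⟨(g : G), mem_zpowers _⟩, rfl⟩ ⟨b, mem_orbit_self b⟩)
      · have : q ≤ q ^ (k + 1) := Nat.le_self_pow (by omega) q
        omega
    rw [← Subgroup.orderOf_coe, hg1, orderOf_one] at hg
    omega
  have hG : ∀ a : Sylow 3 G, Nat.card G = 22 * Nat.card (normalizer ((a : Subgroup G) : Set G)) := fun a => by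
    rw [← hn, a.card_eq_index_normalizer]
    exact ((normalizer ((a : Subgroup G) : Set G)).index_mul_card).symm
  obtain ⟨a₀⟩ := (inferInstance : Nonempty (Sylow 3 G))
  have h11N : ∀ a : Sylow 3 G, ¬ 11 ∣ Nat.card (normalizer ((a : Subgroup G) : Set G)) := fun a h => by
    have := hNle a 11 (by norm_num) h; omega
  obtain ⟨Q⟩ := (inferInstance : Nonempty (Sylow 11 G))
  have hQ : ∀ R : Sylow 11 G, Nat.card (R : Subgroup G) = 11 := by
    intro R
    obtain ⟨n, hn11⟩ := R.isPGroup'.exists_card_eq
    have hdiv := (R : Subgroup G).card_subgroup_dvd_card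
    rw [hn11, hG a₀, mul_comm] at hdiv
    have h22 : 11 ^ n ∣ 22 := ((Nat.Prime.coprime_iff_not_dvd (by norm_num)).2 (h11N a₀)).pow_left n |>.dvd_of_dvd_mul_left hdiv
    have hd : 11 ∣ Nat.card G := hG a₀ ▸ Dvd.dvd.mul_right (by norm_num) _
    rw [hn11]
    rcases n with _ | _ | n
    · exfalso
      rw [← (R : Subgroup G).index_mul_card, hn11, pow_zero, mul_one] at hd
      exact R.not_dvd_index hd
    · rfl
    · have := Nat.le_of_dvd (by norm_num) h22
      have : 121 ≤ 11 ^ (n + 1 + 1) := le_trans (by norm_num) (Nat.pow_le_pow_right (by norm_num) (Nat.le_add_left 2 n))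
      omega
  have hQfree : ∀ (R : Sylow 11 G) (c : Sylow 3 G), ∀ q ∈ (R : Subgroup G), q • c = c → q = 1 := by
    intro R c q hq hc
    by_contra h1
    apply h11N c
    have ho : orderOf q = 11 := by
      have := pow_card_eq_one' (x := (⟨q, hq⟩ : (R : Subgroup G)))
      rw [hQ] at this
      exact orderOf_eq_prime (congrArg Subtype.val this) h1
    rw [← ho]
    exact Subgroup.orderOf_dvd_natCard _ ((fix_iff q c).1 hc)
  have hQinv : ∀ (R : Sylow 11 G) (g : G), (∀ q ∈ (R : Subgroup G), g * q = q * g) → 11 ∣ Nat.card {c : Sylow 3 G // g • c = c} := by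
    intro R g hg
    let X : SubMulAction (R : Subgroup G) (Sylow 3 G) :=
      { carrier := {c | g • c = c}
        smul_mem' := by
          intro y c hc
          show g • (y : G) • c = (y : G) • c
          rw [smul_smul, hg y y.2, ← smul_smul, show g • c = c from hc] }
    have hmod := R.isPGroup'.card_modEq_card_fixedPoints X
    haveI : IsEmpty (fixedPoints (R : Subgroup G) X) := ⟨fun u => by
      haveI : Nontrivial (R : Subgroup G) := Finite.one_lt_card_iff_nontrivial.1 (by rw [hQ]; norm_num)
      obtain ⟨q, hq⟩ := exists_ne (1 : (R : Subgroup G))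
      exact hq (Subtype.ext (hQfree R _ q q.2 (congrArg Subtype.val (u.2 q))))⟩
    rw [Nat.card_of_isEmpty (α := fixedPoints (R : Subgroup G) X)] at hmod
    exact (Nat.modEq_zero_iff_dvd.1 hmod)
  have hCQ : ∀ R : Sylow 11 G, ∀ g : G, (∀ q ∈ (R : Subgroup G), g * q = q * g) → g ∈ (R : Subgroup G) := by
    intro R
    set W := Subgroup.centralizer ((R : Subgroup G) : Set G) with hW
    suffices hW11 : W ≤ (R : Subgroup G) from fun g hg => hW11 (Subgroup.mem_centralizer_iff.2 fun q hq => (hg q hq).symm)
    have hRW : (R : Subgroup G) ≤ W := fun q hq => Subgroup.mem_centralizer_iff.2 fun q' hq' => by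
      haveI : IsCyclic (R : Subgroup G) := isCyclic_of_prime_card (hQ R)
      letI := IsCyclic.commGroup (α := (R : Subgroup G))
      exact congrArg Subtype.val (mul_comm (⟨q', hq'⟩ : (R : Subgroup G)) ⟨q, hq⟩)
    have hp : IsPGroup 11 W := by
      refine IsPGroup.of_card (n := (Nat.card W).primeFactorsList.length) ?_
      refine Nat.eq_prime_pow_of_unique_prime_dvd Nat.card_pos.ne' fun {r} hr hrW => ?_
      by_contra hne
      haveI := Fact.mk hr
      obtain ⟨g, hg⟩ := exists_prime_orderOf_dvd_card' r hrW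
      rw [← Subgroup.orderOf_coe] at hg
      have hgq : ∀ q ∈ (R : Subgroup G), (g : G) * q = q * g := fun q hq => (Subgroup.mem_centralizer_iff.1 g.2 q hq).symm
      have hd := hQinv R g hgq
      have hg1 : (g : G) ≠ 1 := fun e => by rw [e, orderOf_one] at hg; exact hr.one_lt.ne hg
      have hlt := fixed_lt hn hf h3 hg1
      have hm := fixed_mod hn hf h3 hr hg
      have hrG : r ∣ 22 * Nat.card (normalizer ((a₀ : Subgroup G) : Set G)) := hG a₀ ▸ hg ▸ orderOf_dvd_natCard _
      have hr7 : r ≤ 7 := by
        rcases (Nat.Prime.dvd_mul hr).1 hrG with h | h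
        · have hmem := Nat.mem_divisors.2 ⟨h, (by norm_num : (22 : ℕ) ≠ 0)⟩
          rw [show Nat.divisors 22 = {1, 2, 11, 22} by decide +kernel] at hmem
          simp only [Finset.mem_insert, Finset.mem_singleton] at hmem
          rcases hmem with e | e | e | e
          · exact absurd e hr.one_lt.ne'
          · omega
          · exact absurd e hne
          · rw [e] at hr; norm_num at hr
        · exact hNle a₀ r hr h
      obtain ⟨k, hk⟩ := hd
      have hk2 : k < 2 := by omega
      interval_cases r <;> first | (norm_num at hr; done) | skip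
      · have := hinv2 g hg
        omega
      · obtain ⟨c, hc⟩ := ((IsPGroup.of_card (p := 3) (n := 1) (G := zpowers (g : G)) (by rw [Nat.card_zpowers, hg, pow_one]))).exists_le_sylow
        have hgc : (g : G) ∈ (c : Subgroup G) := hc (mem_zpowers _)
        have h1 : Nat.card {d : Sylow 3 G // (g : G) • d = d} = 1 := by
          refine Nat.card_eq_one_iff_unique.2 ⟨⟨fun u v => Subtype.ext ?_⟩, ⟨⟨c, fix_of_mem hgc⟩⟩⟩
          have : ∀ u : {d : Sylow 3 G // (g : G) • d = d}, u.1 = c := fun u => by
            by_contra hu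
            exact hg1 (eq_one_of_fix_two h3 hu hgc u.2)
          rw [this u, this v]
        omega
      all_goals omega
    exact (R.is_maximal' hp hRW).le
  have h5NQ : ∀ R : Sylow 11 G, ¬ 5 ∣ Nat.card (normalizer ((R : Subgroup G) : Set G)) := by
    intro R h
    obtain ⟨g, hg⟩ := exists_prime_orderOf_dvd_card' 5 h
    rw [← Subgroup.orderOf_coe] at hg
    have h7 := (fixed_seven hn hf h3 hg).1
    have hinj : Function.Injective (fun w : {c : Sylow 3 G // (g : G) • c = c} × (R : Subgroup G) => (w.2 : G) • w.1.1) := by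
      rintro ⟨⟨d, hd⟩, q⟩ ⟨⟨d', hd'⟩, q'⟩ h'
      simp only at h'
      have e : d' = ((q' : G)⁻¹ * q) • d := by rw [mul_smul, h', inv_smul_smul]
      set w := (q' : G)⁻¹ * q with hw
      have hwR : w ∈ (R : Subgroup G) := mul_mem (inv_mem q'.2) q.2
      have hgw : (g : G) * w * (g : G)⁻¹ ∈ (R : Subgroup G) := (Subgroup.mem_normalizer_iff.1 g.2 w).1 hwR
      have hfix : (w⁻¹ * ((g : G) * w * (g : G)⁻¹)) • d = d := by
        have : ((g : G) * w * (g : G)⁻¹) • d = w • d := by
          calc _ = (g : G) • w • ((g : G)⁻¹ • d) := by rw [smul_smul, smul_smul, mul_assoc]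
            _ = w • d := by rw [inv_smul_eq_iff.2 hd.symm, ← e, hd']
        rw [mul_smul, this, inv_smul_smul]
      have h1 := hQfree R d _ (mul_mem (inv_mem hwR) hgw) hfix
      by_cases hw1 : w = 1
      · have hqq : q = q' := Subtype.ext (inv_mul_eq_one.1 hw1).symm
        subst hqq
        rw [hw1, one_smul] at e
        subst e
        rfl
      · exfalso
        have hcw : Commute (g : G) w := mul_inv_eq_iff_eq_mul.1 (inv_mul_eq_one.1 h1).symm
        have hgR : (g : G) ∈ (R : Subgroup G) := by
          refine hCQ R g fun x hx => ?_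
          haveI : IsCyclic (R : Subgroup G) := isCyclic_of_prime_card (hQ R)
          obtain ⟨k, hk⟩ : (⟨x, hx⟩ : (R : Subgroup G)) ∈ zpowers (⟨w, hwR⟩ : (R : Subgroup G)) :=
            mem_zpowers_of_prime_card (hQ R) (fun e' => hw1 (congrArg Subtype.val e'))
          have hk' : w ^ k = x := congrArg Subtype.val hk
          rw [← hk']
          exact (hcw.zpow_right k).eq
        have := Subgroup.orderOf_dvd_natCard _ hgR
        rw [hg, hQ] at this
        norm_num at this
    have := Nat.card_le_card_of_injective _ hinj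
    rw [Nat.card_prod, h7, hQ, hn] at this
    omega
  have hm2 : ∀ R : Sylow 11 G, Nat.card (normalizer ((R : Subgroup G) : Set G)) = 22 := by
    intro R
    haveI : IsCyclic (R : Subgroup G) := isCyclic_of_prime_card (hQ R)
    have hker : (R : Subgroup G).normalizerMonoidHom.ker = (R : Subgroup G).subgroupOf _ := by
      rw [normalizerMonoidHom_ker]
      refine le_antisymm ?_ fun g hg => ?_
      · intro g hg
        exact hCQ R g fun q hq => (Subgroup.mem_centralizer_iff.1 hg q hq).symm
      refine Subgroup.mem_centralizer_iff.2 fun q hq => ?_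
      letI := IsCyclic.commGroup (α := (R : Subgroup G))
      exact congrArg Subtype.val (mul_comm (⟨q, hq⟩ : (R : Subgroup G)) ⟨_, hg⟩)
    have h10 : (R : Subgroup G).normalizerMonoidHom.ker.index ∣ 10 := by
      rw [Subgroup.index_ker]
      refine (Subgroup.card_subgroup_dvd_card _).trans (dvd_of_eq ?_)
      rw [IsCyclic.card_mulAut, hQ, Nat.totient_prime (by norm_num)]
    have hc : Nat.card (normalizer ((R : Subgroup G) : Set G)) = (R : Subgroup G).normalizerMonoidHom.ker.index * 11 := by
      rw [← Subgroup.index_mul_card (R : Subgroup G).normalizerMonoidHom.ker]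
      congr 1
      rw [hker, Nat.card_congr (Subgroup.subgroupOfEquivOfLe (le_normalizer)).toEquiv, hQ]
    have h5 := h5NQ R
    rw [hc] at h5 ⊢
    generalize hI : (R : Subgroup G).normalizerMonoidHom.ker.index = i at h10 h5 hc
    have hile := Nat.le_of_dvd (by norm_num) h10
    interval_cases i <;> first | omega | skip
    · exfalso
      have hC : normalizer ((R : Subgroup G) : Set G) ≤ centralizer ((R : Subgroup G) : Set G) := by
        intro g hg
        have : (⟨g, hg⟩ : normalizer ((R : Subgroup G) : Set G)) ∈ (R : Subgroup G).normalizerMonoidHom.ker := by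
          rw [Subgroup.index_eq_one.1 hI]; trivial
        rw [normalizerMonoidHom_ker] at this
        exact this
      have hi := (MonoidHom.ker_transferSylow_isComplement' R hC).symm.index_eq_card
      rw [hQ] at hi
      have := hdesc _ inferInstance (by rw [hi]; norm_num)
      rw [this, Subgroup.index_top] at hi
      norm_num at hi
  -- the centralizer of a Sylow three-subgroup
  have hC2 : ∀ a : Sylow 3 G, Nat.card G = 44 * Nat.card (centralizer ((a : Subgroup G) : Set G)) := by
    intro a
    haveI : IsCyclic (a : Subgroup G) := isCyclic_of_prime_card (h3 a)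
    have h2 : (a : Subgroup G).normalizerMonoidHom.ker.index ∣ 2 := by
      rw [Subgroup.index_ker]
      refine (Subgroup.card_subgroup_dvd_card _).trans (dvd_of_eq ?_)
      rw [IsCyclic.card_mulAut, h3, Nat.totient_prime Nat.prime_three]
    have hk : Nat.card (a : Subgroup G).normalizerMonoidHom.ker = Nat.card (centralizer ((a : Subgroup G) : Set G)) := by
      rw [normalizerMonoidHom_ker]
      exact Nat.card_congr (Subgroup.subgroupOfEquivOfLe (centralizer_le_normalizer _)).toEquiv
    rw [hG a, ← Subgroup.index_mul_card (a : Subgroup G).normalizerMonoidHom.ker, hk]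
    rcases (Nat.dvd_prime Nat.prime_two).1 h2 with h | h
    · exfalso
      -- the Sylow subgroup is central in its normalizer
      have hC : normalizer ((a : Subgroup G) : Set G) ≤ centralizer ((a : Subgroup G) : Set G) := by
        intro g hg
        have : (⟨g, hg⟩ : normalizer ((a : Subgroup G) : Set G)) ∈ (a : Subgroup G).normalizerMonoidHom.ker := by
          rw [Subgroup.index_eq_one.1 h]; trivial
        rw [normalizerMonoidHom_ker] at this
        exact this
      set K := (MonoidHom.transferSylow a hC).ker with hK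
      have hKi : K.index = 3 := (MonoidHom.ker_transferSylow_isComplement' a hC).symm.index_eq_card.trans (h3 a)
      have hQK : ∀ R : Sylow 11 G, (R : Subgroup G) ≤ K := by
        intro R q hq
        have h3' : q ^ 3 ∈ K := hKi ▸ Subgroup.pow_index_mem K q
        have hord : orderOf q ∣ 11 := hQ R ▸ Subgroup.orderOf_dvd_natCard _ hq
        obtain ⟨m, hm⟩ := exists_pow_eq_self_of_coprime (Nat.Coprime.coprime_dvd_right hord (by norm_num : Nat.Coprime 3 11))
        exact hm ▸ Subgroup.pow_mem _ h3' m
      have hn11 : ¬ 3 ∣ Nat.card (Sylow 11 G) := by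
        intro h'
        apply MonoidHom.not_dvd_card_ker_transferSylow a hC
        refine h'.trans ?_
        have e := card_sylow_overgroup K Q (hQK Q)
        rw [Nat.card_congr (Equiv.subtypeUnivEquiv hQK)] at e
        obtain ⟨Q1⟩ := (inferInstance : Nonempty (Sylow 11 K))
        rw [e, Q1.card_eq_index_normalizer]
        exact Subgroup.index_dvd_card _
      obtain ⟨R, hR⟩ := a.isPGroup'.nonempty_fixed_point_of_prime_not_dvd_card (Sylow 11 G) hn11
      have hle : (a : Subgroup G) ≤ normalizer ((R : Subgroup G) : Set G) := fun y hy => Sylow.smul_eq_iff_mem_normalizer.1 (hR ⟨y, hy⟩)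
      have := Subgroup.card_dvd_of_le hle
      rw [h3, hm2] at this
      norm_num at this
    · rw [h]; ring
  -- the possible orders
  set C := centralizer ((a₀ : Subgroup G) : Set G) with hCdef
  have hCN : C ≤ normalizer ((a₀ : Subgroup G) : Set G) := centralizer_le_normalizer _
  let σ : C →* Equiv.Perm (Bl a₀) := (ρ a₀).comp (Subgroup.inclusion hCN)
  have hσker : ∀ g : C, σ g = 1 → (g : G) ∈ (a₀ : Subgroup G) := by
    intro g hg
    have hga : (g : G) • a₀ = a₀ := (fix_iff _ _).2 (hCN g.2)
    refine mem_of_fix ?_ hga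
    have h1 : (g : G) ^ 3 = 1 := by
      refine hf _ fun b => ?_
      by_cases hb : b = a₀
      · rw [hb]; exact fix_pow hga 3
      obtain ⟨⟨y, hy⟩, hyb⟩ := hρfix a₀ (Subgroup.inclusion hCN g) hg b hb
      have hyb' : y • b = (g : G) • b := hyb
      have hc : Commute y (g : G) := Subgroup.mem_centralizer_iff.1 g.2 y hy
      have : ∀ n : ℕ, (g : G) ^ n • b = y ^ n • b := by
        intro n
        induction n with
        | zero => simp
        | succ n ih =>
          rw [pow_succ', mul_smul, ih, smul_smul, ← (hc.pow_left n).eq, ← smul_smul, ← hyb', smul_smul, ← pow_succ]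
      rw [this, exponent_three h3 hy, one_smul]
    obtain ⟨k, -, hk⟩ := (Nat.dvd_prime_pow Nat.prime_three (m := 1)).1 (show orderOf (g : G) ∣ 3 ^ 1 by rw [pow_one]; exact orderOf_dvd_of_pow_eq_one h1)
    exact ⟨k, hk⟩
  have haC : (a₀ : Subgroup G) ≤ C := by
    intro y hy
    haveI : IsCyclic (a₀ : Subgroup G) := isCyclic_of_prime_card (h3 a₀)
    letI := IsCyclic.commGroup (α := (a₀ : Subgroup G))
    exact Subgroup.mem_centralizer_iff.2 fun z hz => congrArg Subtype.val (mul_comm (⟨z, hz⟩ : (a₀ : Subgroup G)) ⟨y, hy⟩)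
  have hkereq : Nat.card σ.ker = 3 := by
    refine Eq.trans ?_ (h3 a₀)
    refine Nat.card_congr ⟨fun g => ⟨g.1.1, hσker g.1 g.2⟩, fun y => ⟨⟨y, haC y.2⟩, ?_⟩, fun _ => rfl, fun _ => rfl⟩
    rw [MonoidHom.mem_ker]
    refine Equiv.ext fun o => Subtype.ext ?_
    obtain ⟨b, -, e⟩ := Finset.mem_image.1 o.2
    show o.1.image ((y : G) • ·) = o.1
    rw [← e, hmapO a₀ y (fix_of_mem y.2) b]
    simp only [O, Set.Finite.toFinset_inj]
    exact orbit_eq_iff.2 ⟨y, rfl⟩
  set k := σ.ker.index with hk
  have hCk : Nat.card C = 3 * k := by rw [← Subgroup.index_mul_card σ.ker, hkereq, mul_comm]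
  have hk5040 : k ∣ 5040 := by
    rw [hk, Subgroup.index_ker]
    refine (Subgroup.card_subgroup_dvd_card _).trans (dvd_of_eq ?_)
    rw [Nat.card_perm, Nat.card_eq_fintype_card, Fintype.card_coe, hBl a₀]
    rfl
  have hk3 : ¬ 3 ∣ k := by
    rintro ⟨j, hj⟩
    apply a₀.not_dvd_index
    have h1 := (a₀ : Subgroup G).index_mul_card
    rw [h3, hC2 a₀, hCk, hj] at h1
    exact ⟨44 * j, Nat.eq_of_mul_eq_mul_right (by norm_num : 0 < 3) (by linarith)⟩
  have hn11 : Nat.card (Sylow 11 G) = 6 * k := by
    have h1 := (normalizer ((Q : Subgroup G) : Set G)).index_mul_card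
    have h1' : Nat.card (Sylow 11 G) * 22 = 44 * (3 * k) := by
      rw [← hCk, ← hC2 a₀, ← hm2 Q, Q.card_eq_index_normalizer]
      exact h1
    omega
  have hmod11 : k % 11 = 2 := by
    have := card_sylow_modEq_one 11 G
    rw [hn11] at this
    have e : (6 * k) % 11 = 1 := this
    omega
  have hk560 : k ∈ Nat.divisors 560 := by
    refine Nat.mem_divisors.2 ⟨?_, by norm_num⟩
    exact ((((Nat.Prime.coprime_iff_not_dvd Nat.prime_three).2 hk3).symm.pow_right 2).dvd_of_dvd_mul_left (hk5040.trans (by norm_num : 5040 ∣ 3 ^ 2 * 560)))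
  have hcases : k = 2 ∨ k = 35 ∨ k = 112 := by
    have : ∀ x ∈ Nat.divisors 560, x % 11 = 2 → x = 2 ∨ x = 35 ∨ x = 112 := by decide +kernel
    exact this k hk560 hmod11
  rcases hcases with hk2 | hk35 | hk112
  · -- a group of order 264
    have hcardG : Nat.card G = 264 := by rw [hC2 a₀, hCk, hk2]
    have hC6 : ∀ a : Sylow 3 G, Nat.card (centralizer ((a : Subgroup G) : Set G)) = 6 := fun a => by
      have := hC2 a; omega
    have hgen3 : ∀ a : Sylow 3 G, ∃ x : G, x ∈ (a : Subgroup G) ∧ orderOf x = 3 := fun a => by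
      obtain ⟨x, hx⟩ := exists_prime_orderOf_dvd_card' (G := (a : Subgroup G)) 3 (dvd_of_eq (h3 a).symm)
      exact ⟨x, x.2, by rw [Subgroup.orderOf_coe]; exact hx⟩
    choose X hX hXo using hgen3
    have hz : ∀ a : Sylow 3 G, ∃ z : G, orderOf z = 2 ∧ Commute (X a) z := fun a => by
      obtain ⟨z, hz⟩ := exists_prime_orderOf_dvd_card' (G := centralizer ((a : Subgroup G) : Set G)) 2 (by rw [hC6]; norm_num)
      exact ⟨z, by rw [Subgroup.orderOf_coe]; exact hz, Subgroup.mem_centralizer_iff.1 z.2 _ (hX a)⟩
    choose Z hZo hZc using hz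
    have hgen11 : ∀ R : Sylow 11 G, ∃ x : G, x ∈ (R : Subgroup G) ∧ orderOf x = 11 := fun R => by
      obtain ⟨x, hx⟩ := exists_prime_orderOf_dvd_card' (G := (R : Subgroup G)) 11 (by rw [hQ])
      exact ⟨x, x.2, by rw [Subgroup.orderOf_coe]; exact hx⟩
    choose Y hY hYo using hgen11
    haveI := Fintype.ofFinite (Sylow 11 G)
    let F : ℕ → Finset G := fun d => Finset.univ.filter fun g => orderOf g = d
    have hXinj : ∀ (a b : Sylow 3 G) (i j : Fin 2), X a ^ ((i : ℕ) + 1) = X b ^ ((j : ℕ) + 1) → a = b ∧ i = j := by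
      intro a b i j h
      have hab : a = b := by
        by_contra hne
        have h1 : X a ^ ((i : ℕ) + 1) = 1 := by
          refine eq_one_of_fix_two h3 (Ne.symm hne) (pow_mem (hX a) _) ?_
          rw [h]; exact fix_of_mem (pow_mem (hX b) _)
        have := orderOf_dvd_of_pow_eq_one h1
        rw [hXo] at this
        have := Nat.le_of_dvd (by omega) this
        omega
      subst hab
      refine ⟨rfl, Fin.ext ?_⟩
      have := pow_injOn_Iio_orderOf (show (i : ℕ) + 1 < orderOf (X a) by rw [hXo]; omega) (show (j : ℕ) + 1 < orderOf (X a) by rw [hXo]; omega) h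
      omega
    have h44 : 44 ≤ (F 3).card := by
      have h := Finset.card_le_card_of_injOn (s := (Finset.univ : Finset (Sylow 3 G × Fin 2))) (t := F 3) (fun w => X w.1 ^ ((w.2 : ℕ) + 1))
        (fun w _ => by
          simp only [F, Finset.coe_filter, Finset.mem_univ, true_and, Set.mem_setOf_eq]
          obtain ⟨a, i⟩ := w
          rw [orderOf_pow' _ (Nat.succ_ne_zero _), hXo]
          fin_cases i <;> norm_num)
        (fun w _ w' _ h => Prod.ext (hXinj _ _ _ _ h).1 (hXinj _ _ _ _ h).2)
      rw [Finset.card_univ, Fintype.card_prod, Fintype.card_fin, ← Nat.card_eq_fintype_card, hn] at h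
      exact h
    have h66 : 44 ≤ (F 6).card := by
      have h := Finset.card_le_card_of_injOn (s := (Finset.univ : Finset (Sylow 3 G × Fin 2))) (t := F 6) (fun w => X w.1 ^ ((w.2 : ℕ) + 1) * Z w.1)
        (fun w _ => by
          simp only [F, Finset.coe_filter, Finset.mem_univ, true_and, Set.mem_setOf_eq]
          obtain ⟨a, i⟩ := w
          rw [((hZc a).pow_left _).orderOf_mul_eq_mul_orderOf_of_coprime] <;>
            rw [orderOf_pow' _ (Nat.succ_ne_zero _), hXo, hZo] <;> fin_cases i <;> norm_num)
        (fun w _ w' _ h => by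
          have key : ∀ w : Sylow 3 G × Fin 2, (X w.1 ^ ((w.2 : ℕ) + 1) * Z w.1) ^ 4 = X w.1 ^ ((w.2 : ℕ) + 1) := fun w => by
            have hx3 : X w.1 ^ 3 = 1 := exponent_three h3 (hX w.1)
            have hz2 : Z w.1 ^ 2 = 1 := orderOf_dvd_iff_pow_eq_one.1 (dvd_of_eq (hZo w.1))
            rw [((hZc w.1).pow_left _).mul_pow, ← pow_mul, mul_comm _ 4, pow_mul, show (4 : ℕ) = 3 + 1 from rfl, pow_succ (X w.1), hx3, one_mul,
              show (3 : ℕ) + 1 = 2 * 2 from rfl, pow_mul (Z w.1), hz2, one_pow, mul_one]
          have h' := congrArg (· ^ 4) h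
          simp only [key] at h'
          exact Prod.ext (hXinj _ _ _ _ h').1 (hXinj _ _ _ _ h').2)
      rw [Finset.card_univ, Fintype.card_prod, Fintype.card_fin, ← Nat.card_eq_fintype_card, hn] at h
      exact h
    have hYinj : ∀ R R' : Sylow 11 G, ∀ q : G, q ≠ 1 → q ∈ (R : Subgroup G) → q ∈ (R' : Subgroup G) → R = R' := by
      intro R R' q hq h h'
      refine Sylow.ext ?_
      have hle : ∀ S : Sylow 11 G, q ∈ (S : Subgroup G) → zpowers q = S := fun S hS => by
        refine Subgroup.eq_of_le_of_card_ge (zpowers_le.2 hS) ?_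
        rw [hQ, Nat.card_zpowers]
        have h1 := Subgroup.orderOf_dvd_natCard _ hS
        rw [hQ] at h1
        rcases (Nat.dvd_prime (by norm_num)).1 h1 with e | e
        · exact absurd (orderOf_eq_one_iff.1 e) hq
        · exact e.ge
      exact (hle R h).symm.trans (hle R' h')
    have h120 : 120 ≤ (F 11).card := by
      have h := Finset.card_le_card_of_injOn (s := (Finset.univ : Finset (Sylow 11 G × Fin 10))) (t := F 11) (fun w => Y w.1 ^ ((w.2 : ℕ) + 1))
        (fun w _ => by
          simp only [F, Finset.coe_filter, Finset.mem_univ, true_and, Set.mem_setOf_eq]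
          rw [orderOf_pow' _ (Nat.succ_ne_zero _), hYo]
          obtain ⟨R, i⟩ := w
          fin_cases i <;> norm_num)
        (fun w _ w' _ h => by
          have hne : Y w.1 ^ ((w.2 : ℕ) + 1) ≠ 1 := fun e => by
            have := orderOf_dvd_of_pow_eq_one e
            rw [hYo] at this
            have := Nat.le_of_dvd (by omega) this
            omega
          have hR : w.1 = w'.1 := hYinj _ _ _ hne (pow_mem (hY _) _) ((show Y w.1 ^ ((w.2 : ℕ) + 1) = Y w'.1 ^ ((w'.2 : ℕ) + 1) from h) ▸ pow_mem (hY _) _)
          refine Prod.ext hR (Fin.ext ?_)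
          simp only at h
          rw [← hR] at h
          have := pow_injOn_Iio_orderOf (show (w.2 : ℕ) + 1 < orderOf (Y w.1) by rw [hYo]; omega) (show (w'.2 : ℕ) + 1 < orderOf (Y w.1) by rw [hYo]; omega) h
          omega)
      have e : Fintype.card (Sylow 11 G) = 12 := by rw [← Nat.card_eq_fintype_card, hn11, hk2]
      simpa [e] using h
    -- involutions inverting elements of order eleven
    have hu : ∀ (R : Sylow 11 G) (u : G), u ∈ normalizer ((R : Subgroup G) : Set G) → u ∉ (R : Subgroup G) → orderOf u = 2 := by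
      intro R u hu hu'
      have h22 : orderOf u ∣ 22 := hm2 R ▸ Subgroup.orderOf_dvd_natCard _ hu
      have hcases : orderOf u = 1 ∨ orderOf u = 2 ∨ orderOf u = 11 ∨ orderOf u = 22 := by
        have := Nat.mem_divisors.2 ⟨h22, (by norm_num : (22 : ℕ) ≠ 0)⟩
        rw [show Nat.divisors 22 = {1, 2, 11, 22} by decide +kernel] at this
        simpa using this
      have h11 : ∀ v : G, v ∈ normalizer ((R : Subgroup G) : Set G) → orderOf v = 11 → v ∈ (R : Subgroup G) := by
        intro v hv hvo
        have hz : IsPGroup 11 (zpowers v) := IsPGroup.of_card (n := 1) (by rw [Nat.card_zpowers, hvo, pow_one])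
        exact ((hz.inf_normalizer_sylow R).le ⟨mem_zpowers v, hv⟩).2
      rcases hcases with h | h | h | h
      · exact absurd (by rw [orderOf_eq_one_iff.1 h]; exact one_mem _) hu'
      · exact h
      · exact absurd (h11 u hu h) hu'
      · exfalso
        refine hu' (hCQ R u fun q hq => ?_)
        have hu2 : orderOf (u ^ 2) = 11 := by rw [orderOf_pow' _ (by norm_num), h]; norm_num
        have he : zpowers (u ^ 2) = (R : Subgroup G) :=
          Subgroup.eq_of_le_of_card_ge (zpowers_le.2 (h11 _ (pow_mem hu 2) hu2)) (by rw [hQ, Nat.card_zpowers, hu2])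
        obtain ⟨i, rfl⟩ := Subgroup.mem_zpowers_iff.1 (he.symm ▸ hq : q ∈ zpowers (u ^ 2))
        exact ((Commute.self_pow u 2).zpow_right i).eq
    let U : Finset G := F 2
    have hU : 132 ≤ 2 * U.card := by
      have hd := Finset.sum_card_bipartiteAbove_eq_sum_card_bipartiteBelow (fun (R : Sylow 11 G) (u : G) => u ∈ normalizer ((R : Subgroup G) : Set G))
        (s := (Finset.univ : Finset (Sylow 11 G))) (t := U)
      have hlow : 132 ≤ ∑ R : Sylow 11 G, (Finset.bipartiteAbove (fun (R : Sylow 11 G) (u : G) => u ∈ normalizer ((R : Subgroup G) : Set G)) U R).card := by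
        have e : Fintype.card (Sylow 11 G) = 12 := by rw [← Nat.card_eq_fintype_card, hn11, hk2]
        refine le_trans ?_ (Finset.card_nsmul_le_sum _ _ 11 fun R _ => ?_)
        · rw [Finset.card_univ, e]; rfl
        · have hset : (Finset.univ.filter fun g : G => g ∈ normalizer ((R : Subgroup G) : Set G) ∧ g ∉ (R : Subgroup G)) ⊆
              Finset.bipartiteAbove (fun (R : Sylow 11 G) (u : G) => u ∈ normalizer ((R : Subgroup G) : Set G)) U R := by
            intro g hg
            simp only [Finset.mem_filter, Finset.mem_univ, true_and] at hg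
            simp only [Finset.bipartiteAbove, Finset.mem_filter, U, F, Finset.mem_univ, true_and]
            exact ⟨hu R g hg.1 hg.2, hg.1⟩
          refine le_trans ?_ (Finset.card_le_card hset)
          have h1 := Finset.card_filter_add_card_filter_not (s := Finset.univ.filter fun g : G => g ∈ normalizer ((R : Subgroup G) : Set G)) (fun g => g ∈ (R : Subgroup G))
          rw [Finset.filter_filter, Finset.filter_filter, ← Fintype.card_subtype, ← Fintype.card_subtype, ← Nat.card_eq_fintype_card] at h1
          have h2 : Nat.card {g : G // g ∈ normalizer ((R : Subgroup G) : Set G) ∧ g ∈ (R : Subgroup G)} = 11 :=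
            (Nat.card_congr (Equiv.subtypeEquivRight fun g => ⟨fun h => h.2, fun h => ⟨le_normalizer h, h⟩⟩)).trans (hQ R)
          rw [h2] at h1
          have h3 : Fintype.card {g : G // g ∈ normalizer ((R : Subgroup G) : Set G)} = 22 := by rw [← Nat.card_eq_fintype_card]; exact hm2 R
          rw [← Fintype.card_subtype] at *
          omega
      have hup : ∀ u ∈ U, (Finset.bipartiteBelow (fun (R : Sylow 11 G) (u : G) => u ∈ normalizer ((R : Subgroup G) : Set G)) Finset.univ u).card ≤ 2 := by
        intro u hu2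
        simp only [U, F, Finset.mem_filter, Finset.mem_univ, true_and] at hu2
        set S := Finset.bipartiteBelow (fun (R : Sylow 11 G) (u : G) => u ∈ normalizer ((R : Subgroup G) : Set G)) Finset.univ u with hS
        by_contra! h
        obtain ⟨R, R₁, R₂, hR, hR₁, hR₂, hne1, hne2, hne⟩ := Finset.two_lt_card_iff.1 h
        simp only [hS, Finset.bipartiteBelow, Finset.mem_filter, Finset.mem_univ, true_and] at hR hR₁ hR₂
        have hfree : ∀ R' : Sylow 11 G, R' ≠ R → ∀ y ∈ (R : Subgroup G), y • R' = R' → y = 1 := by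
          intro R' hne' y hy hfix
          by_contra h1
          have hyo : orderOf y = 11 := by
            rcases (Nat.dvd_prime (by norm_num)).1 (hQ R ▸ Subgroup.orderOf_dvd_natCard _ hy) with e | e
            · exact absurd (orderOf_eq_one_iff.1 e) h1
            · exact e
          have hz : IsPGroup 11 (zpowers y) := IsPGroup.of_card (n := 1) (by rw [Nat.card_zpowers, hyo, pow_one])
          exact hne' (hYinj R' R y h1 ((hz.inf_normalizer_sylow R').le ⟨mem_zpowers y, Sylow.smul_eq_iff_mem_normalizer.1 hfix⟩).2 hy)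
        have htrans : R₂ ∈ orbit (R : Subgroup G) R₁ := by
          have e : Fintype.card (Sylow 11 G) = 12 := by rw [← Nat.card_eq_fintype_card, hn11, hk2]
          have hsub : orbit (R : Subgroup G) R₁ ⊆ {R}ᶜ := by
            rintro _ ⟨y, rfl⟩ (h' : (y : G) • R₁ = R)
            exact hne1 (MulAction.injective (y : G) (h'.trans (Sylow.smul_eq_iff_mem_normalizer.2 (le_normalizer y.2)).symm)).symm
          have hc : (orbit (R : Subgroup G) R₁).ncard = 11 := by
            rw [← Nat.card_coe_set_eq, Nat.card_congr (orbitEquivQuotientStabilizer (R : Subgroup G) R₁)]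
            have hb : stabilizer (R : Subgroup G) R₁ = ⊥ := (Subgroup.eq_bot_iff_forall _).2 fun y hy => Subtype.ext (hfree R₁ hne1.symm y y.2 hy)
            rw [hb, ← Subgroup.index_eq_card, Subgroup.index_bot, hQ]
          have := Set.eq_of_subset_of_ncard_le hsub (by
            have := Set.ncard_add_ncard_compl ({R} : Set (Sylow 11 G))
            rw [Set.ncard_singleton, Nat.card_eq_fintype_card, e] at this
            omega) (Set.toFinite _)
          rw [this]; exact fun e' => hne2 e'.symm
        obtain ⟨⟨y, hy⟩, hyR⟩ := htrans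
        have hyR' : y • R₁ = R₂ := hyR
        have hy1 : y ≠ 1 := fun e => hne (by rw [← hyR', e, one_smul])
        have huy : u * y ∉ (R : Subgroup G) := fun h' => by
          have : u ∈ (R : Subgroup G) := by simpa using mul_mem h' (inv_mem hy)
          have := Subgroup.orderOf_dvd_natCard _ this
          rw [hu2, hQ] at this
          norm_num at this
        have h2 := hu R (u * y) (mul_mem hR (le_normalizer hy)) huy
        have h2' : u * y * (u * y) = 1 := by rw [← pow_two, ← h2, pow_orderOf_eq_one]
        have huu : u * u = 1 := by rw [← pow_two, ← hu2, pow_orderOf_eq_one]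
        have huy' : u * y = y⁻¹ * u := by
          rw [eq_inv_mul_iff_mul_eq]
          calc y * (u * y) = u * (u * y * (u * y)) := by rw [← mul_assoc u, ← mul_assoc u u, huu, one_mul, ← mul_assoc]
            _ = u := by rw [h2', mul_one]
        have h1' : u • R₁ = R₁ := Sylow.smul_eq_iff_mem_normalizer.2 hR₁
        have h2'' : u • R₂ = R₂ := Sylow.smul_eq_iff_mem_normalizer.2 hR₂
        rw [← hyR', smul_smul, huy', ← smul_smul, h1', inv_smul_eq_iff, smul_smul] at h2''
        have := hfree R₁ hne1.symm (y * y) (mul_mem hy hy) h2''.symm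
        have := orderOf_dvd_of_pow_eq_one (show y ^ 2 = 1 by rw [pow_two]; exact this)
        have h11 := hQ R ▸ Subgroup.orderOf_dvd_natCard _ hy
        exact hy1 (orderOf_eq_one_iff.1 (Nat.dvd_one.1 (Nat.dvd_gcd this h11)))
      have := le_trans hlow (hd.le.trans (Finset.sum_le_card_nsmul _ _ 2 hup))
      rw [smul_eq_mul, mul_comm] at this
      exact this
    have htot : (F 11).card + (F 3).card + (F 6).card + U.card ≤ Fintype.card G := by
      have hdisj : ∀ d e : ℕ, d ≠ e → Disjoint (F d) (F e) := fun d e hde => Finset.disjoint_filter.2 fun g _ h1 h2 => hde (h1.symm.trans h2)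
      rw [← Finset.card_union_of_disjoint (hdisj _ _ (by norm_num)),
        ← Finset.card_union_of_disjoint (Finset.disjoint_union_left.2 ⟨hdisj _ _ (by norm_num), hdisj _ _ (by norm_num)⟩),
        ← Finset.card_union_of_disjoint (Finset.disjoint_union_left.2 ⟨Finset.disjoint_union_left.2 ⟨hdisj _ _ (by norm_num), hdisj _ _ (by norm_num)⟩, hdisj _ _ (by norm_num)⟩)]
      exact Finset.card_le_univ _
    rw [← Nat.card_eq_fintype_card, hcardG] at htot
    omega
  · -- commuting elements of orders five and seven
    have hC105 : Nat.card C = 105 := by rw [hCk, hk35]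
    obtain ⟨R⟩ := (inferInstance : Nonempty (Sylow 7 C))
    have hR7 : Nat.card (R : Subgroup C) = 7 := by
      rw [R.card_eq_multiplicity, hC105]
      have : (105 : ℕ).factorization 7 = 1 := by
        rw [Nat.factorization_def _ (by norm_num : Nat.Prime 7)]; decide +kernel
      rw [this, pow_one]
    have hRn : (R : Subgroup C).Normal := by
      rw [← Subgroup.normalizer_eq_top_iff, ← Subgroup.index_eq_one]
      have h1 : Nat.card (Sylow 7 C) % 7 = 1 := card_sylow_modEq_one 7 C
      rw [R.card_eq_index_normalizer] at h1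
      have h3d : 3 ∣ Nat.card (normalizer ((R : Subgroup C) : Set C)) := by
        have hle : (a₀ : Subgroup G).subgroupOf C ≤ normalizer ((R : Subgroup C) : Set C) := by
          refine le_trans ?_ (centralizer_le_normalizer _)
          intro y hy
          exact Subgroup.mem_centralizer_iff.2 fun z _ => Subtype.ext (Subgroup.mem_centralizer_iff.1 z.2 y hy).symm
        have := Subgroup.card_dvd_of_le hle
        rwa [Nat.card_congr (Subgroup.subgroupOfEquivOfLe haC).toEquiv, h3] at this
      have h7d : 7 ∣ Nat.card (normalizer ((R : Subgroup C) : Set C)) := (dvd_of_eq hR7.symm).trans (Subgroup.card_dvd_of_le le_normalizer)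
      have h21 : 21 ∣ Nat.card (normalizer ((R : Subgroup C) : Set C)) := Nat.Coprime.mul_dvd_of_dvd_of_dvd (by norm_num : Nat.Coprime 3 7) h3d h7d
      obtain ⟨t, ht⟩ := h21
      have h2 := (normalizer ((R : Subgroup C) : Set C)).index_mul_card
      rw [hC105, ht] at h2
      generalize (normalizer ((R : Subgroup C) : Set C)).index = i at h1 h2 ⊢
      have h5 : i * t = 5 := by linarith
      have hi : i ∣ 5 := Dvd.intro t h5
      rcases (Nat.dvd_prime Nat.prime_five).1 hi with rfl | rfl
      · rfl
      · norm_num at h1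
    obtain ⟨g, hg⟩ := exists_prime_orderOf_dvd_card' (G := C) 5 (by rw [hC105]; norm_num)
    obtain ⟨w, hw⟩ := exists_prime_orderOf_dvd_card' (G := (R : Subgroup C)) 7 (by rw [hR7])
    haveI : IsCyclic (R : Subgroup C) := isCyclic_of_prime_card hR7
    have hgR : g ∈ normalizer ((R : Subgroup C) : Set C) := by rw [Subgroup.normalizer_eq_top_iff.2 hRn]; trivial
    have hgw : g * w = w * g := by
      have h1 : orderOf ((R : Subgroup C).normalizerMonoidHom ⟨g, hgR⟩) ∣ 5 :=
        (orderOf_map_dvd _ _).trans (dvd_of_eq (by rw [← Subgroup.orderOf_coe]; exact hg))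
      have h2 : orderOf ((R : Subgroup C).normalizerMonoidHom ⟨g, hgR⟩) ∣ 6 := by
        refine (_root_.orderOf_dvd_natCard _).trans (dvd_of_eq ?_)
        rw [IsCyclic.card_mulAut, hR7, Nat.totient_prime (by norm_num)]
      have h : (⟨g, hgR⟩ : normalizer ((R : Subgroup C) : Set C)) ∈ (R : Subgroup C).normalizerMonoidHom.ker :=
        orderOf_eq_one_iff.1 (Nat.dvd_one.1 (Nat.dvd_gcd h1 h2))
      rw [normalizerMonoidHom_ker] at h
      exact (Subgroup.mem_centralizer_iff.1 h w w.2).symm
    set g' := (g : G) with hg'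
    set w' := ((w : C) : G) with hw'
    have hgo : orderOf g' = 5 := by rw [hg', Subgroup.orderOf_coe]; exact hg
    have hwo : orderOf w' = 7 := by rw [hw', Subgroup.orderOf_coe, Subgroup.orderOf_coe]; exact hw
    have hcm : g' * w' = w' * g' := congrArg Subtype.val hgw
    have hw1 : w' ≠ 1 := fun e => by rw [e, orderOf_one] at hwo; omega
    have h7 := (fixed_seven hn hf h3 hgo).1
    -- the seven fixed points of `g'` are fixed by `w'`
    let X : SubMulAction (zpowers w') (Sylow 3 G) :=
      { carrier := {c | g' • c = c}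
        smul_mem' := by
          intro y c hc
          obtain ⟨i, hi⟩ := Subgroup.mem_zpowers_iff.1 y.2
          show g' • (y : G) • c = (y : G) • c
          rw [← hi, smul_smul, ((show Commute g' w' from hcm).zpow_right i).eq, ← smul_smul, show g' • c = c from hc] }
    have hz : IsPGroup 7 (zpowers w') := IsPGroup.of_card (n := 1) (by rw [Nat.card_zpowers, hwo, pow_one])
    have hmod := hz.card_modEq_card_fixedPoints X
    have hXc : Nat.card X = 7 := h7
    rw [hXc] at hmod
    have haX : (⟨a₀, (fix_iff _ _).2 (hCN g.2)⟩ : X) ∈ fixedPoints (zpowers w') X := fun y =>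
      Subtype.ext ((fix_iff _ a₀).2 (hCN (Subgroup.zpowers_le.2 (w : C).2 y.2)))
    have hpos : 0 < Nat.card (fixedPoints (zpowers w') X) := Nat.card_pos_iff.2 ⟨⟨⟨_, haX⟩⟩, inferInstance⟩
    have hle7 : Nat.card (fixedPoints (zpowers w') X) ≤ 7 := hXc ▸ Nat.card_le_card_of_injective _ Subtype.val_injective
    have h0 : Nat.card (fixedPoints (zpowers w') X) % 7 = 0 := hmod.symm.trans rfl
    have heq : Nat.card (fixedPoints (zpowers w') X) = 7 := by omega
    have hge : 7 ≤ Nat.card {c : Sylow 3 G // w' • c = c} := by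
      rw [← heq]
      refine Nat.card_le_card_of_injective (fun u => ⟨u.1.1, congrArg Subtype.val (u.2 ⟨w', mem_zpowers _⟩)⟩) ?_
      intro u v h
      exact Subtype.ext (Subtype.ext (congrArg (fun z : {c : Sylow 3 G // w' • c = c} => z.1) h))
    -- and form a union of orbits of the Sylow subgroup
    let Y : SubMulAction (a₀ : Subgroup G) (Sylow 3 G) :=
      { carrier := {c | w' • c = c}
        smul_mem' := by
          intro y c hc
          show w' • (y : G) • c = (y : G) • c
          rw [smul_smul, ← Subgroup.mem_centralizer_iff.1 (w : C).2 y y.2, ← smul_smul, show w' • c = c from hc] }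
    have hmod3 := a₀.isPGroup'.card_modEq_card_fixedPoints Y
    have hone : Nat.card (fixedPoints (a₀ : Subgroup G) Y) = 1 := by
      refine Nat.card_eq_one_iff_unique.2 ⟨⟨fun u v => ?_⟩, ⟨⟨⟨a₀, (fix_iff _ _).2 (hCN (w : C).2)⟩, fun y => Subtype.ext (fix_of_mem y.2)⟩⟩⟩
      have : ∀ u : fixedPoints (a₀ : Subgroup G) Y, ((u : Y) : Sylow 3 G) = a₀ := fun u =>
        Sylow.ext (a₀.is_maximal' ((u : Y) : Sylow 3 G).isPGroup' fun y hy =>
          mem_of_fix (orderOf_mem hy) (congrArg Subtype.val (u.2 ⟨y, hy⟩)))
      exact Subtype.ext (Subtype.ext ((this u).trans (this v).symm))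
    rw [hone] at hmod3
    have h3' : Nat.card {c : Sylow 3 G // w' • c = c} % 3 = 1 := hmod3
    have hm7 := fixed_mod hn hf h3 (by norm_num : Nat.Prime 7) hwo
    have := fixed_lt hn hf h3 hw1
    omega
  · -- an odd block transposition
    have hC336 : Nat.card C = 336 := by rw [hCk, hk112]
    obtain ⟨R⟩ := (inferInstance : Nonempty (Sylow 2 C))
    have hR16 : Nat.card (R : Subgroup C) = 16 := by
      rw [R.card_eq_multiplicity, hC336]
      have : (336 : ℕ).factorization 2 = 4 := by
        rw [Nat.factorization_def _ Nat.prime_two]; decide +kernel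
      rw [this]; rfl
    have hinj : Function.Injective (σ.comp (R : Subgroup C).subtype) := by
      refine (injective_iff_map_eq_one _).2 fun r hr => ?_
      have h1 : ((r : C) : G) ^ 3 = 1 := exponent_three h3 (hσker r hr)
      have h2 : orderOf r ∣ 16 := hR16 ▸ _root_.orderOf_dvd_natCard r
      have h1' : orderOf r ∣ 3 := orderOf_dvd_of_pow_eq_one (Subtype.ext (Subtype.ext h1))
      exact orderOf_eq_one_iff.1 (Nat.dvd_one.1 (Nat.dvd_gcd h1' h2))
    have hfac : (Nat.card (Equiv.Perm (Bl a₀))).factorization 2 = 4 := by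
      rw [Nat.card_perm, Nat.card_eq_fintype_card, Fintype.card_coe, hBl a₀, Nat.factorization_def _ Nat.prime_two]
      decide +kernel
    let R' : Sylow 2 (Equiv.Perm (Bl a₀)) := Sylow.ofCard (σ.comp (R : Subgroup C).subtype).range (by
      rw [← Nat.card_congr (MonoidHom.ofInjective hinj).toEquiv, hR16, hfac]; rfl)
    obtain ⟨o, o', hoo⟩ : ∃ o o' : Bl a₀, o ≠ o' := by
      have : 1 < Fintype.card (Bl a₀) := by rw [Fintype.card_coe, hBl a₀]; norm_num
      exact Fintype.exists_pair_of_one_lt_card this
    obtain ⟨T, hT⟩ := (IsPGroup.of_card (p := 2) (n := 1) (G := zpowers (Equiv.swap o o')) (by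
      rw [Nat.card_zpowers, pow_one]
      exact orderOf_eq_prime (by rw [pow_two, Equiv.swap_mul_self]) fun e => hoo (Equiv.swap_eq_one_iff.1 e))).exists_le_sylow
    obtain ⟨τ, hτ⟩ := MulAction.exists_smul_eq (Equiv.Perm (Bl a₀)) T R'
    have hmem : τ * Equiv.swap o o' * τ⁻¹ ∈ (R' : Subgroup (Equiv.Perm (Bl a₀))) := by
      rw [← hτ]
      exact Subgroup.smul_mem_pointwise_smul _ (MulAut.conj τ) _ (hT (mem_zpowers _))
    rw [← Equiv.swap_apply_apply] at hmem
    obtain ⟨r, hr⟩ := hmem
    set i := τ o
    set j := τ o'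
    have hij : i ≠ j := fun e => hoo (τ.injective e)
    have hr' : σ (r : C) = Equiv.swap i j := hr
    have hr2 : r * r = 1 := hinj (by rw [map_mul, hr, Equiv.swap_mul_self, map_one])
    set h := ((r : C) : G) with hh
    have hhh : h * h = 1 := congrArg (fun z : (R : Subgroup C) => ((z : C) : G)) hr2
    have hha : h • a₀ = a₀ := (fix_iff _ _).2 (hCN (r : C).2)
    have hblock : ∀ o : Bl a₀, (σ (r : C) o).1 = o.1.image (h • ·) := fun o => rfl
    have hsupp : (MulAction.toPermHom G (Sylow 3 G) h).support = i.1 ∪ j.1 := by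
      ext b
      rw [Equiv.Perm.mem_support, Finset.mem_union]
      show h • b ≠ b ↔ _
      by_cases hb : b = a₀
      · subst hb
        refine iff_of_false (fun e => e hha) ?_
        rintro (hm | hm)
        · obtain ⟨d, hd, e⟩ := Finset.mem_image.1 i.2
          rw [← e, Set.Finite.mem_toFinset] at hm
          obtain ⟨y, hy⟩ := hm
          exact (Finset.mem_erase.1 hd).1 (MulAction.injective (y : G) (hy.trans (fix_of_mem y.2).symm))
        · obtain ⟨d, hd, e⟩ := Finset.mem_image.1 j.2
          rw [← e, Set.Finite.mem_toFinset] at hm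
          obtain ⟨y, hy⟩ := hm
          exact (Finset.mem_erase.1 hd).1 (MulAction.injective (y : G) (hy.trans (fix_of_mem y.2).symm))
      let ob : Bl a₀ := ⟨O a₀ b, Finset.mem_image_of_mem _ (Finset.mem_erase.2 ⟨hb, Finset.mem_univ _⟩)⟩
      have hbob : b ∈ ob.1 := by simp [ob, O]
      have huniq : ∀ o : Bl a₀, b ∈ o.1 → o = ob := by
        intro o ho
        obtain ⟨d, -, e⟩ := Finset.mem_image.1 o.2
        refine Subtype.ext ?_
        rw [← e] at ho ⊢
        simp only [O, Set.Finite.mem_toFinset] at ho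
        simp only [ob, O, Set.Finite.toFinset_inj]
        exact (orbit_eq_iff.2 ho).symm
      have hiff : (b ∈ i.1 ∨ b ∈ j.1) ↔ σ (r : C) ob ≠ ob := by
        rw [hr', Equiv.swap_apply_ne_self_iff]
        refine ⟨fun h' => ⟨hij, h'.imp (fun h' => (huniq i h').symm) (fun h' => (huniq j h').symm)⟩, fun h' => ?_⟩
        rcases h'.2 with e | e
        · exact Or.inl (e ▸ hbob)
        · exact Or.inr (e ▸ hbob)
      rw [hiff]
      refine ⟨fun hne e => hne ?_, fun hne e => hne (huniq _ ?_)⟩
      · have h1 : h • b ∈ ob.1.image (h • ·) := Finset.mem_image_of_mem _ hbob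
        rw [← hblock, e] at h1
        simp only [ob, O, Set.Finite.mem_toFinset] at h1
        obtain ⟨⟨y, hy⟩, hyb⟩ := h1
        have hyb' : y • b = h • b := hyb
        have hc : y * h = h * y := Subgroup.mem_centralizer_iff.1 (r : C).2 y hy
        have h2 : (y * y) • b = b := by
          rw [← smul_smul, hyb', smul_smul, hc, ← smul_smul, hyb', smul_smul, hhh, one_smul]
        have h3' := eq_one_of_fix_two h3 hb (mul_mem hy hy) h2
        have : y = 1 := by
          calc y = y * (y * y) := by rw [h3', mul_one]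
            _ = y ^ 3 := by rw [pow_succ, pow_two, mul_assoc]
            _ = 1 := exponent_three h3 hy
        rw [← hyb', this, one_smul]
      · rw [hblock]
        exact e ▸ Finset.mem_image_of_mem _ hbob
    have hcard3 : ∀ o : Bl a₀, o.1.card = 3 := by
      intro o
      obtain ⟨d, hd, e⟩ := Finset.mem_image.1 o.2
      rw [← e, ← Set.ncard_eq_toFinset_card, ← Nat.card_coe_set_eq, orbit_three h3 (Finset.mem_erase.1 hd).1]
    have hdisj : Disjoint i.1 j.1 := by
      rw [Finset.disjoint_left]
      intro c hc hc'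
      obtain ⟨d, -, e⟩ := Finset.mem_image.1 i.2
      obtain ⟨d', -, e'⟩ := Finset.mem_image.1 j.2
      apply hij
      refine Subtype.ext ?_
      rw [← e] at hc ⊢
      rw [← e'] at hc' ⊢
      simp only [O, Set.Finite.mem_toFinset] at hc hc'
      simp only [O, Set.Finite.toFinset_inj]
      exact (orbit_eq_iff.2 hc).symm.trans (orbit_eq_iff.2 hc')
    have hho : orderOf h = 2 := by
      refine orderOf_eq_prime (by rw [pow_two]; exact hhh) fun e => hij ?_
      have : (r : (R : Subgroup C)) = 1 := Subtype.ext (Subtype.ext e)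
      rw [this] at hr'
      exact Equiv.swap_eq_one_iff.1 (hr'.symm.trans (map_one σ))
    have h22 := hinv2 h hho
    have hfix : Nat.card {c : Sylow 3 G // h • c = c} + 6 = 22 := by
      rw [← hn, Nat.card_eq_fintype_card, Fintype.card_subtype, Nat.card_eq_fintype_card, ← Finset.card_univ,
        show (6 : ℕ) = (MulAction.toPermHom G (Sylow 3 G) h).support.card by rw [hsupp, Finset.card_union_of_disjoint hdisj, hcard3, hcard3]]
      have : (MulAction.toPermHom G (Sylow 3 G) h).support = Finset.univ.filter fun c : Sylow 3 G => ¬ h • c = c := by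
        ext c; simp [Equiv.Perm.mem_support]
      rw [this]
      exact Finset.card_filter_add_card_filter_not _
    omega

end

theorem sylow_three_not_twentytwo : ∀ n : ℕ, ∀ (G : Type u) [Group G] [Finite G],
    Nat.card G = n → Faith G → Nat.card (Sylow 3 G) ≠ 22 := by
  intro n
  induction n using Nat.strong_induction_on with
  | _ n ih =>
    intro G _ _ hcard hf hn
    obtain ⟨a⟩ := (inferInstance : Nonempty (Sylow 3 G))
    by_cases h3 : Nat.card (a : Subgroup G) = 3
    swap
    · exact no_case_large hn hf a h3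
    refine no_case_three hn hf (fun b => card_sylow_eq b a ▸ h3) fun M hM h5 => ?_
    by_contra htop
    have hall : ∀ b : Sylow 3 G, (b : Subgroup G) ≤ M := by
      intro b x hx
      have h : x ^ M.index ∈ M := Subgroup.pow_index_mem M x
      obtain ⟨k, hk⟩ := orderOf_mem hx
      have hco : Nat.Coprime M.index (orderOf x) :=
        hk ▸ Nat.Coprime.pow_right _ ((Nat.Prime.coprime_iff_not_dvd Nat.prime_three).2 h5).symm
      obtain ⟨m, hm⟩ := exists_pow_eq_self_of_coprime hco
      exact hm ▸ Subgroup.pow_mem _ h m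
    have hlt : Nat.card M < n := by
      rw [← hcard]
      have := M.index_mul_card
      have h1 : M.index ≠ 1 := fun e => htop (Subgroup.index_eq_one.1 e)
      have h0 : M.index ≠ 0 := Subgroup.index_ne_zero_of_finite
      have : 0 < Nat.card M := Nat.card_pos
      nlinarith [Nat.two_le_iff M.index |>.2 ⟨h0, h1⟩]
    refine ih _ hlt M rfl ?_ ?_
    · intro g hg
      refine Subtype.ext (hf (g : G) fun b => (fix_iff _ b).2 ?_)
      have hgb := (fix_iff g (b.subtype (hall b))).1 (hg _)
      rw [Subgroup.mem_normalizer_iff]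
      intro h
      constructor
      · intro hh
        exact (Subgroup.mem_normalizer_iff.1 hgb ⟨h, hall b hh⟩).1 hh
      · intro hh
        have hM' : h ∈ M := by
          have := M.mul_mem (M.mul_mem (M.inv_mem g.2) (hall b hh)) g.2
          simpa [mul_assoc] using this
        exact (Subgroup.mem_normalizer_iff.1 hgb ⟨h, hM'⟩).2 hh
    · rw [← hn, ← card_sylow_overgroup M a (hall a)]
      exact Nat.card_congr (Equiv.subtypeUnivEquiv hall)

/-- No finite group has exactly 22 Sylow 3-subgroups. -/
theorem result {G : Type*} [Group G] [Finite G] : Nat.card (Sylow 3 G) ≠ 22 := by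
  intro hn
  let f := MulAction.toPermHom G (Sylow 3 G)
  have hs := f.rangeRestrict_surjective
  have hbij : Function.Bijective (Sylow.mapSurjective hs : Sylow 3 G → Sylow 3 f.range) := by
    refine ⟨fun a b h => ?_, Sylow.mapSurjective_surjective hs 3⟩
    have h' := congrArg (fun P : Sylow 3 f.range => (P : Subgroup f.range)) h
    simp only [Sylow.coe_mapSurjective] at h'
    refine (Sylow.ext ((a.is_maximal' b.isPGroup' fun x hx => ?_))).symm
    refine mem_of_fix (orderOf_mem hx) ?_
    have hm : f.rangeRestrict x ∈ (b : Subgroup G).map f.rangeRestrict := h' ▸ Subgroup.mem_map_of_mem _ hx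
    obtain ⟨y, hy, hyx⟩ := hm
    have e : f y = f x := congrArg Subtype.val hyx
    have e' : y • b = x • b := congrArg (fun σ : Equiv.Perm (Sylow 3 G) => σ b) e
    rw [← e']; exact fix_of_mem hy
  refine sylow_three_not_twentytwo _ f.range rfl (fun r hr => ?_) (by rw [← Nat.card_eq_of_bijective _ hbij, hn])
  obtain ⟨g, rfl⟩ := hs r
  refine Subtype.ext (Equiv.ext fun b => ?_)
  show g • b = b
  refine hbij.1 (Sylow.ext ?_)
  have h := congrArg (fun P : Sylow 3 f.range => (P : Subgroup f.range)) (hr (Sylow.mapSurjective hs b))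
  simp only [Sylow.smul_def, Sylow.pointwise_smul_def, Sylow.coe_mapSurjective] at h
  simp only [Sylow.smul_def, Sylow.pointwise_smul_def, Sylow.coe_mapSurjective]
  rw [← h]
  ext z
  simp only [Subgroup.mem_map, Subgroup.mem_pointwise_smul_iff_inv_smul_mem]
  constructor
  · rintro ⟨u, hu, rfl⟩
    exact ⟨_, hu, by simp [mul_assoc]⟩
  · rintro ⟨u, hu, hz⟩
    refine ⟨g * u * g⁻¹, by simpa [mul_assoc] using hu, ?_⟩
    simp only [map_mul, map_inv, hz]
    simp [mul_assoc]

end Cfsg.Agent.S4346
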