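import Cfsg.Statements.S4376
import Cfsg.Agent.H7.OrderType.Data

set_option autoImplicit false
open Cfsg

namespace Cfsg.Agent.S4376

/-- There are finite groups G and H having the same number of elements of each order (the same order type) with G solvable and H not solvable. -/
theorem result :
    ∃ (G : Type) (_ : Group G) (_ : Finite G) (H : Type) (_ : Group H) (_ : Finite H),
      Group.IsSolvable G ∧ ¬ Group.IsSolvable H ∧ ∀ n : ℕ, Nat.card {g : G // orderOf g = n} = Nat.card {h : H // orderOf h = n} := by
  open Cfsg.Agent.OrderType in
  exact ⟨(Blk.list 84 listG).G, inferInstance, inferInstance, (Blk.list 84 listH).G, inferInstance,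
    inferInstance, listG_solvable, listH_not_solvable,
    Blk.order_type (by norm_num) _ _ counts_eq⟩

end Cfsg.Agent.S4376
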