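import Cfsg.Statements.S4387
import Cfsg.Agent.Transfer.OmegaFour

set_option autoImplicit false
open Pointwise
open Cfsg
open Cfsg.Agent.Transfer

namespace Cfsg.Agent.S4387

/-- Let G be a non-trivial finite group in which any two maximal subgroups are conjugate. Then G is cyclic of prime-power order. -/
theorem result {G : Type*} [Group G] [Finite G] [Nontrivial G]
    (h : ∀ M N : Subgroup G, IsCoatom M → IsCoatom N → ∃ g : G, N = MulAut.conj g • M) :
    IsCyclic G ∧ IsPrimePow (Nat.card G) := by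
  classical
  obtain ⟨M, hM, -⟩ :=
    (IsCoatomic.eq_top_or_exists_le_coatom (⊥ : Subgroup G)).resolve_left bot_ne_top
  obtain ⟨x, hx⟩ : ∃ x : G, ∀ a : G, a * x * a⁻¹ ∉ M := by
    by_contra hcon
    push Not at hcon
    exact hM.1 (Cfsg.Agent.Transfer.eq_top_of_conj_cover M hcon)
  have htop : Subgroup.zpowers x = ⊤ := by
    rcases IsCoatomic.eq_top_or_exists_le_coatom (Subgroup.zpowers x) with ht | ⟨N, hN, hxN⟩
    · exact ht
    exfalso
    obtain ⟨g, hg⟩ := h M N hM hN
    obtain ⟨m, hm, e⟩ := (hg ▸ hxN (Subgroup.mem_zpowers x) : x ∈ MulAut.conj g • M)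
    exact hx g⁻¹ (by rw [← e]; simpa [mul_assoc] using hm)
  haveI hcyc : IsCyclic G := isCyclic_iff_exists_zpowers_eq_top.mpr ⟨x, htop⟩
  refine ⟨hcyc, ?_⟩
  letI : CommGroup G := IsCyclic.commGroup
  by_contra hnp
  have huniq : ∀ N : Subgroup G, IsCoatom N → N = M := by
    intro N hN
    obtain ⟨g, hg⟩ := h M N hM hN
    rw [hg]
    ext y
    constructor
    · rintro ⟨m, hm, rfl⟩
      simpa [mul_comm g m] using hm
    · intro hy
      exact ⟨y, hy, by simp [mul_comm g y]⟩
  have hall : ∀ y : G, IsPrimePow (orderOf y) → y ∈ M := by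
    intro y hy
    rcases IsCoatomic.eq_top_or_exists_le_coatom (Subgroup.zpowers y) with ht | ⟨N, hN, hyN⟩
    · exfalso
      apply hnp
      have : orderOf y = Nat.card G := by rw [← Nat.card_zpowers, ht, Subgroup.card_top]
      exact this ▸ hy
    · exact huniq N hN ▸ hyN (Subgroup.mem_zpowers y)
  exact hM.1 (eq_top_iff.mpr fun y _ =>
    Cfsg.Agent.Transfer.mem_of_prime_parts M y fun z _ hz => hall z hz)

end Cfsg.Agent.S4387
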