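import Cfsg.Statements.S4558
import Cfsg.Agent.Char.Integral

set_option autoImplicit false
open Cfsg

namespace Cfsg.Agent.S4558

/-- Let χ be a character of the finite group G and g an element of p-power order for the prime p. If χ g = 0, then p divides the degree of χ. -/
theorem result {G : Type*} [Group G] [Finite G] (p : ℕ) [Fact p.Prime] (χ : G → ℂ) (hχ : Cfsg.IsCharacter G χ) (g : G) (hg : ∃ j : ℕ, orderOf g = p ^ j) (h0 : χ g = 0) : p ∣ Cfsg.charDegree χ := by
  classical
  obtain ⟨j, hj⟩ := hg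
  obtain ⟨n, ρ, rfl⟩ := hχ
  obtain ⟨b, ω, hb, hω⟩ := Char.exists_eigenbasis ρ g (isOfFinOrder_of_finite g)
  have hsum : ∑ i, ω i = 0 := by
    rw [← h0, Representation.character, Char.trace_of_eigenbasis _ b ω hb]
  have hn : Cfsg.charDegree ρ.character = n := by
    simp [Cfsg.charDegree, Representation.char_one]
  rw [hn]
  let R := integralClosure ℤ ℂ
  have key : ∀ s : Finset (Fin (Module.finrank ℂ (Fin n → ℂ))), ∀ w : _ → R,
      ∃ r : R, (∑ i ∈ s, w i) ^ p ^ j = ∑ i ∈ s, w i ^ p ^ j + (p : R) * r := by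
    intro s w
    induction s using Finset.induction_on with
    | empty => exact ⟨0, by simp [zero_pow (pow_ne_zero j (Fact.out : p.Prime).ne_zero)]⟩
    | @insert a s ha ih =>
      obtain ⟨r, hr⟩ := ih
      rw [Finset.sum_insert ha, Finset.sum_insert ha]
      obtain ⟨r', hr'⟩ := exists_add_pow_prime_pow_eq (Fact.out : p.Prime) (w a) (∑ i ∈ s, w i) j
      exact ⟨r + w a * (∑ i ∈ s, w i) * r', by rw [hr', hr]; ring⟩
  have hωR : ∀ i, ω i ∈ R := fun i => Char.isIntegral_rootOfUnity (orderOf_pos g) (hω i)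
  obtain ⟨r, hr⟩ := key Finset.univ (fun i => ⟨ω i, hωR i⟩)
  have h' : ((∑ i, ω i) ^ p ^ j : ℂ) = ∑ i, ω i ^ p ^ j + (p : ℂ) * (r : ℂ) := by
    have := congrArg (fun z : R => (z : ℂ)) hr
    simpa using this
  rw [hsum, zero_pow (pow_ne_zero j (Fact.out : p.Prime).ne_zero)] at h'
  have hω' : ∀ i, ω i ^ p ^ j = 1 := fun i => by rw [← hj]; exact hω i
  simp only [hω', Finset.sum_const, Finset.card_univ, Fintype.card_fin,
    Module.finrank_fin_fun, nsmul_eq_mul, mul_one] at h'
  have hint : IsIntegral ℤ ((n : ℂ) / p) := by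
    have hp0 : (p : ℂ) ≠ 0 := Nat.cast_ne_zero.2 (Fact.out : p.Prime).ne_zero
    have e : (n : ℂ) / p = -(r : ℂ) := by
      rw [div_eq_iff hp0]
      linear_combination -h'
    rw [e]
    exact (r.2 : IsIntegral ℤ (r : ℂ)).neg
  exact Char.nat_dvd_of_isIntegral (Fact.out : p.Prime).ne_zero hint

end Cfsg.Agent.S4558
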