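import Cfsg.Statements.S4566
import Mathlib
import Cfsg.Agent.Char.Irr

set_option autoImplicit false
open Cfsg

namespace Cfsg.Agent.S4566

/-- Let N be a central subgroup of the finite group G, ψ a faithful irreducible (hence degree-one) character of N, and χ an irreducible character of G whose restriction to N contains ψ. If g ∈ G and some x ∈ G has commutator x⁻¹ g⁻¹ x g in N but different from 1, then χ g = 0. -/
theorem result {G : Type*} [Group G] [Fintype G] (N : Subgroup G) [Fintype N] (hN : N ≤ Subgroup.center G) (ψ : Cfsg.IrrCharacter ↥N) (hfaith : ∀ n : ↥N, (ψ : ↥N → ℂ) n = (ψ : ↥N → ℂ) 1 → n = 1) (χ : Cfsg.IrrCharacter G) (hover : Cfsg.classInner (fun n : ↥N => (χ : G → ℂ) n) (ψ : ↥N → ℂ) ≠ 0) (g x : G) (hcomm : x⁻¹ * g⁻¹ * x * g ∈ N) (hne : x⁻¹ * g⁻¹ * x * g ≠ 1) : (χ : G → ℂ) g = 0 := by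
  haveI := hN
  set z := x⁻¹ * g⁻¹ * x * g with hz
  obtain ⟨n, ρ, hρ, hchar⟩ := χ.2
  haveI := hρ
  have hscal : ∀ m : N, ∃ c : ℂ, ρ m = c • LinearMap.id := fun m =>
    Char.exists_smul_id_of_commute ρ _ fun y => by
      rw [← map_mul, ← map_mul, Subgroup.mem_center_iff.1 (hN m.2) y]
  choose c hc using hscal
  have hpos : (n : ℂ) ≠ 0 := by
    have := Char.finrank_pos_of_isIrreducible ρ
    simp at this
    exact_mod_cast (Nat.ne_of_gt (by simpa using this))
  have hmul : ∀ (y : G) (m : N), (χ : G → ℂ) (y * m) = c m * (χ : G → ℂ) y := by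
    intro y m
    rw [← hchar]
    simp only [Representation.character]
    rw [map_mul, hc, mul_smul_comm, map_smul, smul_eq_mul]
    rfl
  have hone : ∀ m : N, (χ : G → ℂ) m = c m * n := by
    intro m
    have h1 := hmul 1 m
    rw [one_mul] at h1
    rw [h1, ← hchar, ρ.char_one]
    simp
  have hzinv : x⁻¹ * g * x = g * ((⟨z, hcomm⟩ : N)⁻¹ : N) := by
    show x⁻¹ * g * x = g * z⁻¹
    rw [hz]; group
  have h1 : (χ : G → ℂ) g = c ((⟨z, hcomm⟩ : N)⁻¹) * (χ : G → ℂ) g := by
    rw [← hmul, ← hzinv]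
    simpa using ((Char.irr_isClassFunction χ) g x⁻¹).symm
  by_contra hg0
  have hc1 : c ((⟨z, hcomm⟩ : N)⁻¹) = 1 := (mul_eq_right₀ hg0).1 h1.symm
  let f : N →* ℂ :=
    { toFun := c
      map_one' := by
        have := hone 1
        rw [Subgroup.coe_one, ← hchar, ρ.char_one] at this
        simp at this
        exact (mul_eq_right₀ hpos).1 this.symm
      map_mul' := fun a b => by
        have h := hmul a b
        rw [← Subgroup.coe_mul, hone, hone] at h
        exact mul_right_cancel₀ hpos (by rw [h]; ring) }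
  have hres : (fun m : N => (χ : G → ℂ) m) = (n : ℂ) • fun m : N => f m := by
    funext m
    simp [hone, f, mul_comm]
  rw [hres, Char.classInner_smul_left] at hover
  have hψ : (fun m : N => f m) = (ψ : N → ℂ) := by
    by_contra hh
    exact (right_ne_zero_of_mul hover)
      (Char.classInner_irr_of_ne (χ := ⟨_, Char.isIrrCharacter_hom f⟩) (ψ := ψ)
        fun e => hh (congrArg Subtype.val e))
  have h2 : ((⟨z, hcomm⟩ : N)⁻¹) = 1 := by
    refine hfaith _ ?_
    rw [← hψ]
    show f _ = f 1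
    rw [map_one]
    exact hc1
  rw [inv_eq_one] at h2
  exact hne (congrArg Subtype.val h2)

end Cfsg.Agent.S4566
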