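import Cfsg.Statements.S4797
import Mathlib
import Cfsg.Agent.CharLead.Kernel

set_option autoImplicit false
open Cfsg

namespace Cfsg.Agent.S4797

/-- The codegree of an irreducible complex character χ of a finite group G is [G : ker χ] / χ(1), where ker χ is the set of elements at which χ takes the value χ(1). A non-trivial finite group is perfect if and only if no irreducible complex character of it has prime codegree. -/
theorem result {G : Type*} [Group G] [Finite G] [Nontrivial G] : commutator G = ⊤ ↔ ∀ χ : Cfsg.IrrCharacter G, ¬ ((Nat.card G / (Nat.card {g : G // (χ : G → ℂ) g = (χ : G → ℂ) 1} * Cfsg.charDegree (χ : G → ℂ)))).Prime := by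
  classical
  haveI := Fintype.ofFinite G
  choose d hd using fun χ : Cfsg.IrrCharacter G => Char.irr_degree_dvd_card χ
  have hdeg : ∀ χ : Cfsg.IrrCharacter G, Cfsg.charDegree (χ : G → ℂ) = d χ := fun χ => by
    simp [Cfsg.charDegree, (hd χ).2.2]
  have hker : ∀ χ : Cfsg.IrrCharacter G,
      Nat.card {g : G // (χ : G → ℂ) g = (χ : G → ℂ) 1} = Nat.card (CharLead.irrKer χ) :=
    fun χ => Nat.card_congr (Equiv.subtypeEquivRight fun g => (CharLead.mem_irrKer χ g).symm)
  have hco : ∀ χ : Cfsg.IrrCharacter G, Nat.card G / (Nat.card {g : G // (χ : G → ℂ) g = (χ : G → ℂ) 1}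
      * Cfsg.charDegree (χ : G → ℂ)) = (CharLead.irrKer χ).index / d χ := by
    intro χ
    rw [hker, hdeg, ← Nat.div_div_eq_div_mul, ← (CharLead.irrKer χ).card_mul_index,
      Nat.mul_div_cancel_left _ Nat.card_pos]
  simp only [hco]
  constructor
  · intro hperf χ hprime
    haveI := CharLead.irrKer_normal χ
    set r := (CharLead.irrKer χ).index / d χ with hr
    haveI := Fact.mk hprime
    obtain ⟨ψ, hψ, he⟩ := CharLead.isIrrCharacter_descend (CharLead.irrKer χ) χ.2
      fun g hg => (CharLead.mem_irrKer χ g).1 hg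
    obtain ⟨m, hmpos, hm, hm1⟩ := Char.irr_degree_dvd_card ⟨ψ, hψ⟩
    have hdm : d χ = m := by
      have h1 := he 1
      rw [map_one, (hd χ).2.2, show ψ 1 = m from hm1] at h1
      exact_mod_cast h1
    have hQ : Nat.card (G ⧸ CharLead.irrKer χ) = m * r := by
      rw [hr, ← hdm, ← Subgroup.index_eq_card, Nat.mul_div_cancel']
      rw [hdm, Subgroup.index_eq_card]; exact hm
    have hsq : m ^ 2 ≤ Nat.card (G ⧸ CharLead.irrKer χ) := by
      choose e he2 using fun η : Cfsg.IrrCharacter (G ⧸ CharLead.irrKer χ) => Char.irr_apply_one η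
      have h := Char.sum_irr_sq (G := (G ⧸ CharLead.irrKer χ))
      simp only [(he2 _).2] at h
      have h' : ∑ η : Cfsg.IrrCharacter (G ⧸ CharLead.irrKer χ), e η ^ 2 = Nat.card (G ⧸ CharLead.irrKer χ) := by exact_mod_cast h
      have hem : e ⟨ψ, hψ⟩ = m := by
        have := (he2 ⟨ψ, hψ⟩).2
        rw [hm1] at this
        exact_mod_cast this.symm
      rw [← h', ← hem]
      exact Finset.single_le_sum (f := fun η => e η ^ 2) (fun _ _ => Nat.zero_le _) (Finset.mem_univ _)
    have hperfQ : commutator (G ⧸ CharLead.irrKer χ) = ⊤ := by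
      rw [commutator_def, ← Subgroup.map_top_of_surjective _ (QuotientGroup.mk'_surjective _),
        ← Subgroup.map_commutator, ← commutator_def, hperf]
    obtain ⟨R⟩ := (inferInstance : Nonempty (Sylow r (G ⧸ CharLead.irrKer χ)))
    have hmr : m ≤ r := Nat.le_of_mul_le_mul_left (by rw [← hQ, ← sq]; exact hsq) hmpos
    haveI : IsMulCommutative (G ⧸ CharLead.irrKer χ) → False := by
      intro hc
      have hbot : commutator (G ⧸ CharLead.irrKer χ) = ⊥ := by
        rw [commutator_def, Subgroup.commutator_eq_bot_iff_le_centralizer]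
        intro a _ b _
        exact hc.is_comm.comm b a
      have h1 : Nat.card (G ⧸ CharLead.irrKer χ) = 1 := by
        rw [← Subgroup.card_top (G := (G ⧸ CharLead.irrKer χ)), ← hperfQ, hbot, Subgroup.card_bot]
      rw [hQ] at h1
      exact hprime.ne_one (Nat.eq_one_of_mul_eq_one_left h1)
    rcases hmr.eq_or_lt with rfl | hlt
    · exact this (IsPGroup.isMulCommutative_of_card_eq_prime_sq (by rw [hQ, sq]))
    have hnd : ¬ r ∣ m := fun h => absurd (Nat.le_of_dvd hmpos h) (by omega)
    have hRcard : Nat.card (R : Subgroup (G ⧸ CharLead.irrKer χ)) = r := by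
      rw [R.card_eq_multiplicity, hQ, Nat.factorization_mul hmpos.ne' hprime.ne_zero]
      simp [Nat.factorization_eq_zero_of_not_dvd hnd, hprime.factorization_self]
    have hindex : (R : Subgroup (G ⧸ CharLead.irrKer χ)).index = m := by
      have := (R : Subgroup (G ⧸ CharLead.irrKer χ)).card_mul_index
      rw [hRcard, hQ, mul_comm m r] at this
      exact Nat.eq_of_mul_eq_mul_left hprime.pos this
    have hn1 : Nat.card (Sylow r (G ⧸ CharLead.irrKer χ)) = 1 := by
      have h1 := card_sylow_modEq_one r (G ⧸ CharLead.irrKer χ)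
      have h2 : Nat.card (Sylow r (G ⧸ CharLead.irrKer χ)) ≤ m :=
        Nat.le_of_dvd hmpos (hindex ▸ R.card_dvd_index)
      have h3 : 0 < Nat.card (Sylow r (G ⧸ CharLead.irrKer χ)) := Nat.card_pos
      rw [Nat.ModEq, Nat.mod_eq_of_lt (by omega), Nat.one_mod_eq_one.2 hprime.ne_one] at h1
      exact h1
    haveI : Subsingleton (Sylow r (G ⧸ CharLead.irrKer χ)) := (Nat.card_eq_one_iff_unique.1 hn1).1
    haveI hRn : (R : Subgroup (G ⧸ CharLead.irrKer χ)).Normal := R.normal_of_subsingleton
    haveI : IsCyclic (R : Subgroup (G ⧸ CharLead.irrKer χ)) := isCyclic_of_prime_card hRcard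
    haveI : Finite (R : Subgroup (G ⧸ CharLead.irrKer χ)) := inferInstance
    -- conjugation on a cyclic group of prime order has abelian image
    have hcent : (R : Subgroup (G ⧸ CharLead.irrKer χ)) ≤ Subgroup.center (G ⧸ CharLead.irrKer χ) := by
      have hker : (⊤ : Subgroup (G ⧸ CharLead.irrKer χ)) ≤ (MulAut.conjNormal (H := (R : Subgroup (G ⧸ CharLead.irrKer χ)))).ker := by
        rw [← hperfQ, commutator_def, Subgroup.commutator_le]
        intro a _ b _
        rw [MonoidHom.mem_ker, map_commutatorElement, commutatorElement_eq_one_iff_commute]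
        apply MulEquiv.ext
        intro u
        obtain ⟨i, hi⟩ := MonoidHom.map_cyclic ((MulAut.conjNormal a : MulAut (R : Subgroup (G ⧸ CharLead.irrKer χ))).toMonoidHom)
        obtain ⟨j, hj⟩ := MonoidHom.map_cyclic ((MulAut.conjNormal b : MulAut (R : Subgroup (G ⧸ CharLead.irrKer χ))).toMonoidHom)
        have hi' : ∀ w, (MulAut.conjNormal a : MulAut (R : Subgroup (G ⧸ CharLead.irrKer χ))) w = w ^ i := hi
        have hj' : ∀ w, (MulAut.conjNormal b : MulAut (R : Subgroup (G ⧸ CharLead.irrKer χ))) w = w ^ j := hj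
        show (MulAut.conjNormal a) ((MulAut.conjNormal b : MulAut (R : Subgroup (G ⧸ CharLead.irrKer χ))) u)
          = (MulAut.conjNormal b) ((MulAut.conjNormal a : MulAut (R : Subgroup (G ⧸ CharLead.irrKer χ))) u)
        rw [hj' u, hi' u, map_zpow, map_zpow, hi', hj', ← zpow_mul, ← zpow_mul, mul_comm]
      intro u hu
      rw [Subgroup.mem_center_iff]
      intro g
      have := congrArg Subtype.val (MulEquiv.congr_fun (MonoidHom.mem_ker.1 (hker (Subgroup.mem_top g))) ⟨u, hu⟩)
      rw [MulAut.conjNormal_apply] at this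
      calc g * u = (g * u * g⁻¹) * g := by group
        _ = u * g := by rw [this]; rfl
    -- transfer into the centre
    obtain ⟨⟨u, hu⟩, hu1⟩ := exists_prime_orderOf_dvd_card' r (dvd_of_eq hRcard.symm : r ∣ Nat.card (R : Subgroup (G ⧸ CharLead.irrKer χ)))
    have hT1 : u ^ (Subgroup.center (G ⧸ CharLead.irrKer χ)).index = 1 := by
      letI : CommGroup (Subgroup.center (G ⧸ CharLead.irrKer χ)) :=
        { (inferInstance : Group (Subgroup.center (G ⧸ CharLead.irrKer χ))) with
          mul_comm := fun a b => Subtype.ext ((Subgroup.mem_center_iff.1 b.2 a)) }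
      have : (⊤ : Subgroup (G ⧸ CharLead.irrKer χ)) ≤ (MonoidHom.transferCenterPow (G ⧸ CharLead.irrKer χ)).ker := by
        rw [← hperfQ]
        exact Abelianization.commutator_subset_ker _
      exact congrArg Subtype.val (MonoidHom.mem_ker.1 (this (Subgroup.mem_top u)))
    have hdvd : (Subgroup.center (G ⧸ CharLead.irrKer χ)).index ∣ m :=
      hindex ▸ Subgroup.index_dvd_of_le hcent
    rw [← Subgroup.orderOf_coe] at hu1
    exact hnd (((hu1 ▸ orderOf_dvd_of_pow_eq_one hT1) : r ∣ _).trans hdvd)
  · intro hall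
    by_contra hne
    have h1 : Nat.card (Abelianization G) ≠ 1 := by
      intro h
      apply hne
      rw [← Subgroup.index_eq_one, Subgroup.index_eq_card]
      exact h
    haveI : Finite (Abelianization G) := inferInstanceAs (Finite (G ⧸ commutator G))
    obtain ⟨q, hq, hqd⟩ := Nat.exists_prime_and_dvd h1
    haveI := Fact.mk hq
    obtain ⟨x, hx⟩ := exists_prime_orderOf_dvd_card' q hqd
    haveI : HasEnoughRootsOfUnity ℂ (Monoid.exponent (Abelianization G)) := inferInstance
    obtain ⟨φ, hφ⟩ := CommGroup.exists_apply_ne_one_of_hasEnoughRootsOfUnity (Abelianization G) ℂ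
      (show x ≠ 1 from fun h => hq.ne_one (by rw [← hx, h, orderOf_one]))
    -- compose with a power map so that the image has prime order
    have hcyc : IsCyclic φ.range := inferInstance
    obtain ⟨s, hs, hsd⟩ := Nat.exists_prime_and_dvd (show Nat.card φ.range ≠ 1 from fun h => hφ (by
      have := Subgroup.eq_bot_of_card_eq _ h
      exact (Subgroup.mem_bot.1 (this ▸ MonoidHom.mem_range.2 ⟨x, rfl⟩ : φ x ∈ (⊥ : Subgroup ℂˣ)))))
    let f : G →* φ.range := φ.rangeRestrict.comp Abelianization.of
    have hfs : Function.Surjective f :=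
      φ.rangeRestrict_surjective.comp (fun y => QuotientGroup.mk'_surjective _ y)
    let t := Nat.card φ.range / s
    letI : CommGroup φ.range := inferInstance
    let g : G →* ℂ := ((Units.coeHom ℂ).comp φ.range.subtype).comp ((powMonoidHom t).comp f)
    refine hall ⟨fun y => g y, Char.isIrrCharacter_hom g⟩ ?_
    have hd1 : d ⟨fun y => g y, Char.isIrrCharacter_hom g⟩ = 1 := by
      have h := (hd ⟨fun y => g y, Char.isIrrCharacter_hom g⟩).2.2
      simp only [map_one] at h
      exact_mod_cast h.symm
    rw [hd1, Nat.div_one]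
    have hk : CharLead.irrKer ⟨fun y => g y, Char.isIrrCharacter_hom g⟩
        = ((powMonoidHom t).comp f).ker := by
      ext y
      rw [CharLead.mem_irrKer, MonoidHom.mem_ker]
      show g y = g 1 ↔ _
      rw [map_one]
      simp [g]
      exact ⟨fun h => Subtype.ext (Units.ext (by simpa using h)), fun h => by simpa using congrArg (fun w : φ.range => ((w : ℂˣ) : ℂ)) h⟩
    rw [hk, Subgroup.index_ker, ← MonoidHom.map_range, f.range_eq_top_of_surjective hfs,
      ← MonoidHom.range_eq_map, IsCyclic.card_powMonoidHom_range]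
    have ht : t ∣ Nat.card φ.range := Nat.div_dvd_of_dvd hsd
    rw [Nat.gcd_eq_right ht, Nat.div_div_self hsd Nat.card_pos.ne']
    exact hs

end Cfsg.Agent.S4797
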