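import Cfsg.Statements.S4808
import Mathlib
import Cfsg.Agent.CharLead.Kernel

set_option autoImplicit false
open Cfsg

namespace Cfsg.Agent.S4808

/-- The codegree of an irreducible complex character χ of a finite group G is [G : ker χ] / χ(1), where ker χ is the set of elements at which χ takes the value χ(1). A prime divides the order of G if and only if it divides the codegree of some irreducible complex character of G. -/
theorem result {G : Type*} [Group G] [Finite G] (p : ℕ) (hp : p.Prime) : p ∣ Nat.card G ↔ ∃ χ : Cfsg.IrrCharacter G, p ∣ (Nat.card G / (Nat.card {g : G // (χ : G → ℂ) g = (χ : G → ℂ) 1} * Cfsg.charDegree (χ : G → ℂ))) := by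
  classical
  haveI := Fintype.ofFinite G
  haveI := Fact.mk hp
  choose d hd using fun χ : Cfsg.IrrCharacter G => Char.irr_degree_dvd_card χ
  have hdeg : ∀ χ : Cfsg.IrrCharacter G, Cfsg.charDegree (χ : G → ℂ) = d χ := fun χ => by
    simp [Cfsg.charDegree, (hd χ).2.2]
  have hker : ∀ χ : Cfsg.IrrCharacter G,
      Nat.card {g : G // (χ : G → ℂ) g = (χ : G → ℂ) 1} = Nat.card (CharLead.irrKer χ) :=
    fun χ => Nat.card_congr (Equiv.subtypeEquivRight fun g => (CharLead.mem_irrKer χ g).symm)
  have hdvd : ∀ χ : Cfsg.IrrCharacter G, d χ ∣ (CharLead.irrKer χ).index := by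
    intro χ
    haveI := CharLead.irrKer_normal χ
    obtain ⟨ψ, hψ, he⟩ := CharLead.isIrrCharacter_descend (CharLead.irrKer χ) χ.2
      fun g hg => (CharLead.mem_irrKer χ g).1 hg
    obtain ⟨m, -, hm, hm1⟩ := Char.irr_degree_dvd_card ⟨ψ, hψ⟩
    have h1 := he 1
    rw [map_one, (hd χ).2.2, show ψ 1 = m from hm1] at h1
    rw [Subgroup.index_eq_card, show d χ = m by exact_mod_cast h1]
    exact hm
  have hco : ∀ χ : Cfsg.IrrCharacter G, Nat.card G / (Nat.card {g : G // (χ : G → ℂ) g = (χ : G → ℂ) 1}
      * Cfsg.charDegree (χ : G → ℂ)) = (CharLead.irrKer χ).index / d χ := by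
    intro χ
    rw [hker, hdeg, ← Nat.div_div_eq_div_mul, ← (CharLead.irrKer χ).card_mul_index,
      Nat.mul_div_cancel_left _ Nat.card_pos]
  simp only [hco]
  constructor
  · intro hpG
    by_contra hcon
    push Not at hcon
    suffices key : ∀ n : ℕ, ∀ K : Subgroup G, K.Normal → K.index = n → ¬ p ∣ n by
      exact key _ ⊥ inferInstance Subgroup.index_bot hpG
    intro n
    induction n using Nat.strong_induction_on with
    | _ n ih =>
      intro K hK hn hpn
      have hsum : (∑ χ ∈ Finset.univ.filter (fun χ : Cfsg.IrrCharacter G => K ≤ CharLead.irrKer χ),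
          d χ ^ 2) = n := by
        have := CharLead.sum_sq_quotient K
        simp only [(hd _).2.2, hn] at this
        exact_mod_cast this
      have hS : ∀ χ : Cfsg.IrrCharacter G, K = CharLead.irrKer χ → p ∣ d χ ^ 2 := by
        intro χ h
        have h1 : p ∣ d χ * ((CharLead.irrKer χ).index / d χ) := by
          rw [Nat.mul_div_cancel' (hdvd χ), ← h, hn]; exact hpn
        exact ((hp.dvd_mul.1 h1).resolve_right (hcon χ)).pow two_ne_zero
      have hne : ∀ L : Subgroup G, L.Normal → K < L → ¬ p ∣ L.index := fun L hL hKL =>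
        ih _ (by rw [← hn]; exact Subgroup.index_strictAnti hKL) L hL rfl
      by_cases hKtop : K = ⊤
      · rw [hKtop, Subgroup.index_top] at hn
        exact hp.ne_one (Nat.dvd_one.1 (hn ▸ hpn))
      obtain ⟨N, hN⟩ := (Set.toFinite {L : Subgroup G | L.Normal ∧ K < L}).exists_minimal
        ⟨⊤, inferInstance, lt_top_iff_ne_top.2 hKtop⟩
      by_cases huniq : ∀ L : Subgroup G, L.Normal → K < L → N ≤ L
      · haveI := hN.1.1
        rw [← Finset.sum_filter_add_sum_filter_not (Finset.univ.filter
          (fun χ : Cfsg.IrrCharacter G => K ≤ CharLead.irrKer χ)) (fun χ => N ≤ CharLead.irrKer χ)] at hsum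
        have hA : (∑ χ ∈ (Finset.univ.filter (fun χ : Cfsg.IrrCharacter G => K ≤ CharLead.irrKer χ)).filter
            (fun χ => N ≤ CharLead.irrKer χ), d χ ^ 2) = N.index := by
          have h := CharLead.sum_sq_quotient N
          simp only [(hd _).2.2] at h
          rw [Finset.filter_filter, Finset.filter_congr (q := fun χ => N ≤ CharLead.irrKer χ)
            fun χ _ => ⟨fun hh => hh.2, fun hh => ⟨hN.1.2.le.trans hh, hh⟩⟩]
          exact_mod_cast h
        have hB : p ∣ ∑ χ ∈ (Finset.univ.filter (fun χ : Cfsg.IrrCharacter G => K ≤ CharLead.irrKer χ)).filter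
            (fun χ => ¬ N ≤ CharLead.irrKer χ), d χ ^ 2 := by
          refine Finset.dvd_sum fun χ hχ => hS χ ?_
          simp only [Finset.mem_filter, Finset.mem_univ, true_and] at hχ
          by_contra hne'
          exact hχ.2 (huniq _ (CharLead.irrKer_normal χ) (lt_of_le_of_ne hχ.1 hne'))
        rw [hA] at hsum
        exact hne N hN.1.1 hN.1.2 ((Nat.dvd_add_left hB).1 (hsum ▸ hpn))
      · push Not at huniq
        obtain ⟨L, hL, hKL, hNL⟩ := huniq
        haveI := hN.1.1
        have hmeet : K = N ⊓ L := by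
          refine (le_inf hN.1.2.le hKL.le).eq_of_not_lt fun hlt => hNL ?_
          exact (hN.2 (y := N ⊓ L) ⟨inferInstance, hlt⟩ inf_le_left).trans inf_le_right
        have h1 : K.index ∣ N.index * L.index := by
          have h2 : (N ⊓ L).relIndex N * N.index = (N ⊓ L).index :=
            Subgroup.relIndex_mul_index inf_le_left
          rw [hmeet, ← h2, mul_comm, Subgroup.inf_relIndex_left]
          exact Nat.mul_dvd_mul_left _ (Subgroup.relIndex_dvd_index_of_normal L N)
        rcases hp.dvd_mul.1 ((hn ▸ hpn : p ∣ K.index).trans h1) with h | h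
        · exact hne N hN.1.1 hN.1.2 h
        · exact hne L hL hKL h
  · rintro ⟨χ, hχ⟩
    exact hχ.trans ((Nat.div_dvd_of_dvd (hdvd χ)).trans (Subgroup.index_dvd_card _))

end Cfsg.Agent.S4808
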