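import Cfsg.Statements.S4856
import Mathlib
import Cfsg.Agent.CharLead.Basic
import Cfsg.Agent.Char.Irr

set_option autoImplicit false
open Cfsg

namespace Cfsg.Agent.S4856

/-- For an element z of a finite group G, the number of pairs (x, y) of elements with x y x⁻¹ y⁻¹ = z equals the order of G times the sum over the irreducible characters χ of χ(z)/χ(1). -/
theorem result {G : Type*} [Group G] [Finite G] (z : G) : (Nat.card {xy : G × G // xy.1 * xy.2 * xy.1⁻¹ * xy.2⁻¹ = z} : ℂ) = (Nat.card G : ℂ) * ∑ᶠ χ : Cfsg.IrrCharacter G, (χ : G → ℂ) z / (χ : G → ℂ) 1 := by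
  classical
  haveI := Fintype.ofFinite G
  rw [finsum_eq_sum_of_fintype]
  let w : G → ℕ := fun a => Nat.card (Subgroup.centralizer ({a} : Set G))
  let P : G → Prop := fun x => IsConj x⁻¹ (x⁻¹ * z)
  let N : G → ℕ := fun a => Nat.card {p : G × G // IsConj a p.1 ∧ IsConj a⁻¹ p.2 ∧ p.1 * p.2 = z}
  have h0 : (Nat.card G : ℂ) ≠ 0 := by exact_mod_cast Nat.card_pos.ne'
  have hw : ∀ a, (Nat.card {x : G // IsConj a x} : ℂ) * (w a : ℂ) = Nat.card G := fun a => by
    exact_mod_cast CharLead.card_class_mul_card_centralizer a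
  have hconjinv : ∀ a x : G, IsConj a x → IsConj a⁻¹ x⁻¹ := by
    intro a x h
    obtain ⟨u, rfl⟩ := isConj_iff.1 h
    exact isConj_iff.2 ⟨u, by group⟩
  -- the fibre over the first coordinate
  have hfib : ∀ x : G, Nat.card {y : G // x * y * x⁻¹ * y⁻¹ = z} = if P x then w x else 0 := by
    intro x
    split_ifs with hP
    · obtain ⟨y₀, hy₀⟩ := isConj_iff.1 hP
      refine Nat.card_congr ((Equiv.mulLeft y₀⁻¹).subtypeEquiv fun y => ?_)
      simp only [Equiv.coe_mulLeft, Subgroup.mem_centralizer_singleton_iff]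
      constructor
      · intro hy
        have h : y * x⁻¹ * y⁻¹ = y₀ * x⁻¹ * y₀⁻¹ := by rw [hy₀, ← hy]; group
        calc y₀⁻¹ * y * x = y₀⁻¹ * (y * x⁻¹ * y⁻¹)⁻¹ * y := by group
          _ = x * (y₀⁻¹ * y) := by rw [h]; group
      · intro hy
        calc x * y * x⁻¹ * y⁻¹ = x * (y₀ * ((y₀⁻¹ * y) * x)⁻¹⁻¹ * 1) * (x⁻¹ * x⁻¹) * y⁻¹ := by group
          _ = x * (y₀ * (x * (y₀⁻¹ * y))⁻¹⁻¹ * 1) * (x⁻¹ * x⁻¹) * y⁻¹ := by rw [hy]
          _ = x * y₀ * (x * (y₀⁻¹ * y)) * x⁻¹ * x⁻¹ * y⁻¹ := by group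
          _ = x * y₀ * ((y₀⁻¹ * y) * x) * x⁻¹ * x⁻¹ * y⁻¹ := by rw [hy]
          _ = x * (y * x⁻¹ * y⁻¹) := by group
          _ = x * (y₀ * x⁻¹ * y₀⁻¹) := by
            congr 1
            calc y * x⁻¹ * y⁻¹ = y₀ * ((y₀⁻¹ * y) * x⁻¹ * (y₀⁻¹ * y)⁻¹) * y₀⁻¹ := by group
              _ = y₀ * x⁻¹ * y₀⁻¹ := by
                have hc : Commute (y₀⁻¹ * y) x⁻¹ := (show Commute (y₀⁻¹ * y) x from hy).inv_right
                rw [hc.eq]; group
          _ = z := by rw [hy₀]; group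
    · haveI : IsEmpty {y : G // x * y * x⁻¹ * y⁻¹ = z} :=
        ⟨fun y => hP (isConj_iff.2 ⟨y, (show (y : G) * x⁻¹ * (y : G)⁻¹
          = x⁻¹ * (x * y * x⁻¹ * (y : G)⁻¹) by group).trans (congrArg (x⁻¹ * ·) y.2)⟩)⟩
      exact Nat.card_of_isEmpty
  have hcount : (Nat.card {xy : G × G // xy.1 * xy.2 * xy.1⁻¹ * xy.2⁻¹ = z})
      = ∑ x : G, if P x then w x else 0 := by
    rw [Nat.card_congr (Equiv.subtypeProdEquivSigmaSubtype (fun a b : G => a * b * a⁻¹ * b⁻¹ = z)),
      Nat.card_sigma]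
    exact Finset.sum_congr rfl fun x _ => hfib x
  have hN : ∀ a : G, N a = ∑ x : G, if IsConj a x ∧ P x then 1 else 0 := by
    intro a
    rw [Finset.sum_boole, Nat.cast_id, ← Fintype.card_subtype, ← Nat.card_eq_fintype_card]
    refine Nat.card_congr
      { toFun := fun p => ⟨p.1.1, p.2.1, ?_⟩
        invFun := fun x => ⟨(x.1, x.1⁻¹ * z), x.2.1, (hconjinv a _ x.2.1).trans x.2.2,
          mul_inv_cancel_left _ _⟩
        left_inv := fun p => by
          apply Subtype.ext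
          apply Prod.ext
          · rfl
          · show p.1.1⁻¹ * z = p.1.2
            exact inv_mul_eq_iff_eq_mul.2 p.2.2.2.symm
        right_inv := fun x => rfl }
    show IsConj p.1.1⁻¹ (p.1.1⁻¹ * z)
    rw [show p.1.1⁻¹ * z = p.1.2 from inv_mul_eq_iff_eq_mul.2 p.2.2.2.symm]
    exact ((hconjinv a _ p.2.1).symm).trans p.2.2.1
  have hmain : (∑ a : G, (N a : ℂ) * w a * w a)
      = (Nat.card G : ℂ) * ∑ x : G, ((if P x then w x else 0 : ℕ) : ℂ) := by
    have h1 : ∀ a, (N a : ℂ) * w a * w a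
        = ∑ x : G, ((if P x then w x else 0 : ℕ) : ℂ) * (if IsConj x a then (w x : ℂ) else 0) := by
      intro a
      rw [hN, Nat.cast_sum, Finset.sum_mul, Finset.sum_mul]
      refine Finset.sum_congr rfl fun x _ => ?_
      by_cases hx : IsConj a x
      · rw [if_pos hx.symm]
        have : w a = w x := CharLead.card_centralizer_eq_of_isConj hx
        by_cases hP : P x
        · rw [if_pos (show IsConj a x ∧ P x from ⟨hx, hP⟩), if_pos hP, this]; push_cast; ring
        · rw [if_neg (fun h : IsConj a x ∧ P x => hP h.2), if_neg hP]; simp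
      · rw [if_neg (fun h : IsConj x a => hx h.symm),
          if_neg (fun h : IsConj a x ∧ P x => hx h.1)]
        simp
    simp only [h1]
    rw [Finset.sum_comm, Finset.mul_sum]
    refine Finset.sum_congr rfl fun x _ => ?_
    rw [← Finset.mul_sum, mul_comm]
    congr 1
    rw [← Finset.sum_filter, Finset.sum_const, nsmul_eq_mul, ← hw x,
      Nat.card_eq_fintype_card (α := {a : G // IsConj x a}), Fintype.card_subtype]
  have hinv : ∀ a : G, Nat.card {x : G // IsConj a⁻¹ x} = Nat.card {x : G // IsConj a x} := by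
    intro a
    refine Nat.card_congr ((Equiv.inv G).subtypeEquiv fun x => ?_)
    simp only [Equiv.inv_apply]
    exact ⟨fun h => by simpa using hconjinv _ _ h, fun h => by simpa using hconjinv _ _ h⟩
  have hsum : (∑ a : G, (N a : ℂ) * w a * w a)
      = (Nat.card G : ℂ) ^ 2 * (starRingEnd ℂ)
          (∑ χ : Cfsg.IrrCharacter G, (χ : G → ℂ) z / (χ : G → ℂ) 1) := by
    have h1 : ∀ a : G, (N a : ℂ) * w a * w a = (Nat.card G : ℂ) * ∑ χ : Cfsg.IrrCharacter G,
        (χ : G → ℂ) a * (starRingEnd ℂ) ((χ : G → ℂ) a) * (starRingEnd ℂ) ((χ : G → ℂ) z)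
          / (χ : G → ℂ) 1 := by
      intro a
      simp only [N]
      rw [CharLead.classMul_formula, hinv]
      simp only [Char.irr_apply_inv]
      generalize (∑ χ : Cfsg.IrrCharacter G, (χ : G → ℂ) a * (starRingEnd ℂ) ((χ : G → ℂ) a)
        * (starRingEnd ℂ) ((χ : G → ℂ) z) / (χ : G → ℂ) 1) = S
      have := hw a
      generalize (Nat.card {x : G // IsConj a x} : ℂ) = A at this ⊢
      rw [← this]
      have hA : A ≠ 0 := by rintro rfl; rw [zero_mul] at this; exact h0 this.symm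
      have hwa : (w a : ℂ) ≠ 0 := by exact_mod_cast (Nat.card_pos.ne' : w a ≠ 0)
      field_simp
    simp only [h1, ← Finset.mul_sum]
    rw [sq, mul_assoc]
    congr 1
    rw [Finset.sum_comm, map_sum, Finset.mul_sum]
    refine Finset.sum_congr rfl fun χ _ => ?_
    have hχ := Char.classInner_irr_self χ
    simp only [Cfsg.classInner] at hχ
    rw [inv_mul_eq_one₀ h0] at hχ
    obtain ⟨d, -, hd⟩ := Char.irr_apply_one χ
    rw [map_div₀, hd, Complex.conj_natCast, mul_div_assoc', hχ, Finset.sum_mul, Finset.sum_div]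
  rw [hcount, Nat.cast_sum]
  have hreal : (starRingEnd ℂ) (∑ x : G, ((if P x then w x else 0 : ℕ) : ℂ))
      = ∑ x : G, ((if P x then w x else 0 : ℕ) : ℂ) := by
    rw [map_sum]; simp only [Complex.conj_natCast]
  rw [hmain] at hsum
  rw [sq, mul_assoc] at hsum
  have h3 := mul_left_cancel₀ h0 hsum
  rw [← hreal, h3, map_mul, Complex.conj_conj, Complex.conj_natCast]

end Cfsg.Agent.S4856
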