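import Cfsg.Statements.S4916
import Cfsg.Agent.Blocks.SectionApp
import Cfsg.Agent.Blocks.WeakOrth
import Cfsg.Agent.Blocks.DefectNumber

set_option autoImplicit false
set_option linter.all false
open Cfsg

namespace Cfsg.Agent.S4916

/-- Let G be a finite group, p a prime and M a maximal ideal of the algebraic integers containing p. Then the principal character is the only irreducible character of degree prime to p in the principal p-block of G if and only if p does not divide the order of G. -/
theorem result {G : Type*} [Group G] [Finite G] (p : ℕ) [Fact p.Prime] (M : Ideal Cfsg.AlgInt) (hM : Cfsg.IsPModular p M) : (∀ χ : Cfsg.IrrCharacter G, χ ∈ Cfsg.principalBlock M G → ¬ p ∣ Cfsg.charDegree (χ : G → ℂ) → (χ : G → ℂ) = fun _ => (1 : ℂ)) ↔ ¬ p ∣ Nat.card G := by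
  classical
  haveI := Fintype.ofFinite G
  have hfun : (Agent.Char.oneIrr G : G → ℂ) = fun _ => (1 : ℂ) :=
    funext fun g => Agent.Char.oneIrr_apply g
  have hone := Agent.Blocks.one_mem_principal (G := G) hM
  constructor
  · intro h hdvd
    obtain ⟨x, hx⟩ := exists_prime_orderOf_dvd_card' (G := G) p hdvd
    have h0 := Agent.Blocks.sum_eq_zero_of_singular hM
      (Agent.Blocks.idem_block_mem hM (Agent.Blocks.principal_isPBlock (G := G) M))
      (g := x) (t := (1 : G)) (by rw [hx]) (by rw [orderOf_one]; exact hM.1.not_dvd_one)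
    rw [← Finset.add_sum_erase _ _ ((Set.Finite.mem_toFinset _).2 hone)] at h0
    have hsum : Cfsg.MemLocalIdeal M (∑ χ ∈ (Cfsg.principalBlock M G).toFinite.toFinset.erase
        (Agent.Char.oneIrr G), (χ : G → ℂ) x * (starRingEnd ℂ) ((χ : G → ℂ) 1)) := by
      refine Agent.Blocks.li_sum hM _ fun χ hχ => ?_
      obtain ⟨hne, hmem⟩ := Finset.mem_erase.1 hχ
      have hd : p ∣ Cfsg.charDegree (χ : G → ℂ) := by
        by_contra hnd
        exact hne (Subtype.ext ((h χ ((Set.Finite.mem_toFinset _).1 hmem) hnd).trans hfun.symm))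
      rw [(Agent.Blocks.irr_charDegree χ).1, Complex.conj_natCast, mul_comm]
      exact Agent.Blocks.li_mul hM ((Agent.Blocks.li_natCast_iff hM _).2 hd)
        ((Agent.Blocks.mem_locRing hM).1 (Agent.Blocks.algInt_mem_locRing hM (Agent.Char.isCharacter_isIntegral (Agent.Char.isCharacter_of_isIrrCharacter χ.2) x)))
    have h2 := congrArg (fun z => z - ((Agent.Char.oneIrr G : G → ℂ) x
      * (starRingEnd ℂ) ((Agent.Char.oneIrr G : G → ℂ) 1))) h0
    simp only [add_sub_cancel_left, Agent.Char.oneIrr_apply, map_one, mul_one, zero_sub] at h2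
    rw [h2] at hsum
    have := Agent.Blocks.li_neg hsum
    rw [neg_neg] at this
    exact Agent.Blocks.not_li_one hM this
  · intro hp χ hχ _
    have hA : Agent.Blocks.idem ({Agent.Char.oneIrr G} : Set (Cfsg.IrrCharacter G))
        ∈ Agent.Blocks.intAlg hM G := by
      intro g
      show Cfsg.MemLocalRing M (Cfsg.blockCoeff _ g)
      rw [Cfsg.blockCoeff, finsum_mem_singleton, Agent.Char.oneIrr_apply, Agent.Char.oneIrr_apply, map_one,
        mul_one, mul_one]
      exact Agent.Blocks.inv_natCast_lr hM hp
    have h1 := Agent.Blocks.isBlockUnion_of_mem hM hA (Agent.Char.oneIrr G) rfl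
    rw [hfun] at h1
    have h2 : χ = Agent.Char.oneIrr G := h1 hχ
    rw [h2, hfun]

end Cfsg.Agent.S4916
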