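import Cfsg.Statements.S4996
import Cfsg.Agent.S0868
import Cfsg.Agent.CharLead.Equiv
-- import your own Cfsg.Agent.* helpers here

set_option autoImplicit false
open Cfsg

open scoped ComplexConjugate

namespace Cfsg.Agent.S4996

theorem galois_uniform {G : Type*} [Group G] [Finite G] (σ : algebraicClosure ℚ ℂ →ₐ[ℚ] ℂ) :
    ∃ k : ℕ, k.Coprime (Nat.card G) ∧ ∀ (χ : Cfsg.IrrCharacter G) (g : G)
      (hK : (χ : G → ℂ) g ∈ algebraicClosure ℚ ℂ), σ ⟨_, hK⟩ = (χ : G → ℂ) (g ^ k) := by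
  classical
  set N := Nat.card G
  have hN : 0 < N := Nat.card_pos
  let K := algebraicClosure ℚ ℂ
  obtain ⟨ζ, hζ⟩ : ∃ ζ : ℂ, IsPrimitiveRoot ζ N := ⟨_, Complex.isPrimitiveRoot_exp N hN.ne'⟩
  have hrootK : ∀ z : ℂ, z ^ N = 1 → z ∈ K := fun z hz =>
    mem_algebraicClosure_iff'.2 (IsIntegral.of_pow hN (by rw [hz]; exact isIntegral_one))
  have hζK : ζ ∈ K := hrootK ζ hζ.pow_eq_one
  haveI : NeZero N := ⟨hN.ne'⟩
  have hσζ : IsPrimitiveRoot (σ ⟨ζ, hζK⟩) N := by
    have : IsPrimitiveRoot (⟨ζ, hζK⟩ : K) N :=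
      IsPrimitiveRoot.of_map_of_injective (f := K.val) hζ K.val.injective
    exact this.map_of_injective (RingHom.injective σ.toRingHom)
  obtain ⟨k, -, hkcop, hk⟩ := (hζ.isPrimitiveRoot_iff).1 hσζ
  refine ⟨k, hkcop, fun χ g hK => ?_⟩
  obtain ⟨d, ρ, hρ, he⟩ := χ.2
  obtain ⟨b, ω, hb, hω⟩ := Cfsg.Agent.Char.exists_eigenbasis ρ g (isOfFinOrder_of_finite g)
  have hωN : ∀ i, ω i ^ N = 1 := fun i => by
    obtain ⟨m, hm⟩ := orderOf_dvd_natCard g
    rw [show N = orderOf g * m from hm, pow_mul, hω i, one_pow]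
  have hg : (χ : G → ℂ) g = ∑ i, ω i := by
    rw [← he]; exact Cfsg.Agent.Char.trace_of_eigenbasis _ b ω hb
  have hgk : (χ : G → ℂ) (g ^ k) = ∑ i, ω i ^ k := by
    rw [← he]
    show LinearMap.trace ℂ _ (ρ (g ^ k)) = _
    rw [map_pow]
    have hpow : ∀ (m : ℕ) i, (ρ g ^ m) (b i) = ω i ^ m • b i := by
      intro m i
      induction m with
      | zero => simp
      | succ m ih => rw [pow_succ', Module.End.mul_apply, ih, map_smul, hb, smul_smul, ← pow_succ]
    exact Cfsg.Agent.Char.trace_of_eigenbasis _ b _ fun i => hpow k i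
  have hsum : (⟨(χ : G → ℂ) g, hK⟩ : K) = ∑ i, (⟨ω i, hrootK _ (hωN i)⟩ : K) :=
    Subtype.ext (by push_cast; exact hg)
  rw [hgk, hsum, map_sum]
  refine Finset.sum_congr rfl fun i _ => ?_
  obtain ⟨j, -, hj⟩ := hζ.eq_pow_of_pow_eq_one (hωN i)
  have : (⟨ω i, hrootK _ (hωN i)⟩ : K) = ⟨ζ, hζK⟩ ^ j := Subtype.ext (by push_cast; exact hj.symm)
  rw [this, map_pow, ← hk, ← hj, ← pow_mul, ← pow_mul, mul_comm]

/-- Let N be a normal subgroup of the finite group G and χ an irreducible complex character of G. Then the restriction of χ to N is not irreducible if and only if χ vanishes on some whole coset Nx of N in G. -/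
theorem result {G : Type*} [Group G] [Finite G] (N : Subgroup G) [N.Normal] (χ : Cfsg.IrrCharacter G) : ¬ Cfsg.IsIrrCharacter ↥N (fun n : ↥N => (χ : G → ℂ) n) ↔ ∃ x : G, ∀ n : ↥N, (χ : G → ℂ) ((n : G) * x) = 0 := by
  classical
  haveI := Fintype.ofFinite G
  haveI := Fintype.ofFinite N
  constructor
  swap
  · rintro ⟨x, hx⟩ hirr
    have h := (Cfsg.Agent.S0868.result N (χ : G → ℂ) χ.2 hirr (χ : G → ℂ) χ.2 _ rfl).2.2 rfl
    have h1 := congrFun h x
    simp [hx] at h1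
  intro hnirr
  by_contra hall
  push Not at hall
  have hchar := Cfsg.Agent.Char.isCharacter_of_isIrrCharacter χ.2
  obtain ⟨S, c, -, -, he⟩ := Cfsg.Agent.S0868.avg_expand N (χ : G → ℂ) (χ : G → ℂ) hchar χ.2 χ.2
  set A : G → ℂ := fun g => (Nat.card N : ℂ)⁻¹ * ∑ n : N, (χ : G → ℂ) ((n : G) * g) * conj ((χ : G → ℂ) ((n : G) * g)) with hA
  set r : G → ℝ := fun g => (Nat.card N : ℝ)⁻¹ * ∑ n : N, ‖(χ : G → ℂ) ((n : G) * g)‖ ^ 2 with hr
  have hAr : ∀ g, A g = (r g : ℂ) := fun g => by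
    simp only [hA, hr]
    push_cast
    simp only [Complex.mul_conj']
  have hNpos : (0 : ℝ) < Nat.card N := by exact_mod_cast Nat.card_pos
  have hrpos : ∀ g, 0 < r g := fun g => by
    obtain ⟨m, hm⟩ := hall g
    exact mul_pos (inv_pos.2 hNpos) (Finset.sum_pos' (fun _ _ => sq_nonneg _)
      ⟨m, Finset.mem_univ _, pow_pos (norm_pos_iff.2 hm) 2⟩)
  have hr1 : r 1 ≠ 1 := by
    intro h1
    refine hnirr (Cfsg.Agent.Char.isIrrCharacter_of_inner_self
      (Cfsg.Agent.Char.isCharacter_comp hchar N.subtype) ?_)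
    have h := hAr 1
    rw [h1] at h
    simpa [hA, Cfsg.classInner] using h
  have hsum : ∑ g : G, r g = (Nat.card G : ℝ) := by
    have h := Cfsg.Agent.Char.classInner_irr_self χ
    simp only [Cfsg.classInner] at h
    rw [inv_mul_eq_iff_eq_mul₀ (by exact_mod_cast Nat.card_pos.ne'), mul_one] at h
    have hsq : ∑ g : G, ‖(χ : G → ℂ) g‖ ^ 2 = (Nat.card G : ℝ) := by
      apply Complex.ofReal_injective
      push_cast
      rw [← h]
      exact Finset.sum_congr rfl fun a _ => (Complex.mul_conj' _).symm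
    simp only [hr]
    rw [← Finset.mul_sum, Finset.sum_comm]
    have hsh : ∀ n : N, ∑ g : G, ‖(χ : G → ℂ) ((n : G) * g)‖ ^ 2 = (Nat.card G : ℝ) := fun n =>
      (Fintype.sum_equiv (Equiv.mulLeft (n : G)) _ _ fun g => rfl).trans hsq
    simp only [hsh, Finset.sum_const, Finset.card_univ, nsmul_eq_mul, ← Nat.card_eq_fintype_card]
    rw [inv_mul_cancel_left₀ hNpos.ne']
  have hexp : ∀ g, A g = ∑ ξ ∈ S, (c ξ : ℂ) * (ξ : G → ℂ) g := fun g => by
    have h := congrFun he g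
    simpa using h
  have hξint : ∀ (ξ : Cfsg.IrrCharacter G) g, IsIntegral ℤ ((ξ : G → ℂ) g) := fun ξ g =>
    Cfsg.Agent.Char.isCharacter_isIntegral (Cfsg.Agent.Char.isCharacter_of_isIrrCharacter ξ.2) g
  have hAint : ∀ g, IsIntegral ℤ (A g) := fun g => by
    rw [hexp]
    exact IsIntegral.sum _ fun ξ _ => (show IsIntegral ℤ ((c ξ : ℕ) : ℂ) by simpa using isIntegral_algebraMap (R := ℤ) (A := ℂ) (x := (c ξ : ℤ))).mul (hξint ξ g)
  have hmem : ∀ (ξ : Cfsg.IrrCharacter G) g, (ξ : G → ℂ) g ∈ algebraicClosure ℚ ℂ := fun ξ g =>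
    mem_algebraicClosure_iff'.2 (hξint ξ g).tower_top
  set P : ℂ := ∏ g : G, A g with hP
  have hPint : IsIntegral ℤ P := IsIntegral.prod _ fun g _ => hAint g
  have hPK : P ∈ algebraicClosure ℚ ℂ := mem_algebraicClosure_iff'.2 hPint.tower_top
  have hfix : ∀ σ : algebraicClosure ℚ ℂ →ₐ[ℚ] ℂ, σ ⟨P, hPK⟩ = P := by
    intro σ
    obtain ⟨k, hk, hσ⟩ := galois_uniform (G := G) σ
    have e : (⟨P, hPK⟩ : algebraicClosure ℚ ℂ) =
        ∏ g : G, ∑ ξ ∈ S, (c ξ : algebraicClosure ℚ ℂ) * ⟨_, hmem ξ g⟩ := by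
      apply Subtype.ext
      push_cast
      exact Finset.prod_congr rfl fun g _ => hexp g
    rw [e, map_prod]
    simp only [map_sum, map_mul, map_natCast, hσ, ← hexp]
    exact Fintype.prod_equiv (powCoprime (G := G) hk.symm) _ _ fun g => rfl
  have hQ : IsIntegral ℚ P := hPint.tower_top
  have hroots : ∀ β ∈ (minpoly ℚ P).aroots ℂ, β = P := by
    intro β hβ
    rw [Polynomial.mem_aroots] at hβ
    obtain ⟨σ, hσ⟩ := IntermediateField.exists_algHom_of_splits_of_aeval (E := algebraicClosure ℚ ℂ) (F := ℚ) (K := ℂ)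
      (x := (⟨P, hPK⟩ : algebraicClosure ℚ ℂ)) (y := β)
      (fun x => ⟨IntermediateField.isIntegral_iff.2 (mem_algebraicClosure_iff'.1 x.2), IsAlgClosed.splits _⟩)
      (by rw [IntermediateField.minpoly_eq]; exact hβ.2)
    exact hσ.symm.trans (hfix σ)
  have hsep : (minpoly ℚ P).Separable := (minpoly.irreducible hQ).separable
  have hnd : ((minpoly ℚ P).aroots ℂ).Nodup := Polynomial.nodup_roots hsep.map
  have hcard : ((minpoly ℚ P).aroots ℂ).card = (minpoly ℚ P).natDegree :=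
    IsAlgClosed.card_aroots_eq_natDegree
  have hle : ((minpoly ℚ P).aroots ℂ).card ≤ 1 := by
    rw [← Multiset.toFinset_card_of_nodup hnd]
    exact Finset.card_le_one.2 fun a ha b hb => by
      rw [hroots a (Multiset.mem_toFinset.1 ha), hroots b (Multiset.mem_toFinset.1 hb)]
  have hdeg1 : (minpoly ℚ P).natDegree = 1 := by
    have := minpoly.natDegree_pos hQ
    omega
  obtain ⟨q, hq⟩ := minpoly.natDegree_eq_one_iff.1 hdeg1
  have hq' : (q : ℂ) = P := hq
  obtain ⟨m, hm⟩ := Cfsg.Agent.Char.exists_int_of_isIntegral (q := q) (hq' ▸ hPint)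
  have hge : (1 : ℝ) ≤ ∏ g : G, r g := by
    have h1 : ((m : ℝ) : ℂ) = ((∏ g : G, r g : ℝ) : ℂ) := by
      push_cast
      rw [← Finset.prod_congr rfl (fun g _ => hAr g), ← hP, ← hq', hm]
      push_cast
      rfl
    have h2 := Complex.ofReal_injective h1
    have hpos : 0 < ∏ g : G, r g := Finset.prod_pos fun g _ => hrpos g
    rw [← h2] at hpos ⊢
    have : (0 : ℤ) < m := by exact_mod_cast hpos
    exact_mod_cast this
  have hlog : ∑ g : G, Real.log (r g) < ∑ g : G, (r g - 1) :=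
    Finset.sum_lt_sum (fun g _ => Real.log_le_sub_one_of_pos (hrpos g))
      ⟨1, Finset.mem_univ _, Real.log_lt_sub_one_of_pos (hrpos 1) hr1⟩
  rw [Finset.sum_sub_distrib, hsum, ← Real.log_prod (fun g _ => (hrpos g).ne')] at hlog
  simp [Nat.card_eq_fintype_card] at hlog
  have := Real.log_nonneg hge
  linarith

end Cfsg.Agent.S4996
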