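import Cfsg.Statements.S5011
import Mathlib

set_option autoImplicit false
open Cfsg

namespace Cfsg.Agent.S5011

/-- Let G be a finite non-abelian simple group and ρ an irreducible complex representation of G on a space of dimension greater than one (irreducible in the sense that the only subspaces invariant under every ρ(x) are 0 and the whole space). Then for every non-identity element g of G, the centralizer of g does not act irreducibly: there is a non-zero proper subspace invariant under ρ(c) for every c commuting with g. -/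
theorem result {G : Type*} [Group G] [Finite G] [IsSimpleGroup G]
    (hG : ¬ IsMulCommutative G) {V : Type*} [AddCommGroup V] [Module ℂ V] [FiniteDimensional ℂ V]
    (ρ : Representation ℂ G V)
    (hirr : ∀ W : Submodule ℂ V, (∀ x : G, ∀ v ∈ W, ρ x v ∈ W) → W = ⊥ ∨ W = ⊤)
    (hdim : 1 < Module.finrank ℂ V) (g : G) (hg : g ≠ 1) :
    ∃ W : Submodule ℂ V, W ≠ ⊥ ∧ W ≠ ⊤ ∧ ∀ c ∈ Subgroup.centralizer ({g} : Set G), ∀ v ∈ W, ρ c v ∈ W := by
  by_contra hcon
  push Not at hcon
  haveI : Nontrivial V := Module.finrank_pos_iff.1 (by omega : 0 < Module.finrank ℂ V)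
  obtain ⟨μ, hμ⟩ := Module.End.exists_eigenvalue (ρ g : Module.End ℂ V)
  have hcomm : ∀ c ∈ Subgroup.centralizer ({g} : Set G),
      ∀ v ∈ Module.End.eigenspace (ρ g : Module.End ℂ V) μ,
        ρ c v ∈ Module.End.eigenspace (ρ g : Module.End ℂ V) μ := by
    intro c hc v hv
    rw [Module.End.mem_eigenspace_iff] at hv ⊢
    rw [Subgroup.mem_centralizer_singleton_iff] at hc
    rw [← Module.End.mul_apply, ← map_mul, ← hc, map_mul, Module.End.mul_apply, hv, map_smul]
  have htop : Module.End.eigenspace (ρ g : Module.End ℂ V) μ = ⊤ := by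
    by_contra hne
    obtain ⟨c, hc, v, hv, hcv⟩ := hcon _ hμ hne
    exact hcv (hcomm c hc v hv)
  have hscal : ∀ v, ρ g v = μ • v := fun v =>
    Module.End.mem_eigenspace_iff.1 (htop ▸ Submodule.mem_top)
  have hcent : ∀ x, ρ (x * g * x⁻¹ * g⁻¹) = 1 := by
    intro x
    have h1 : ρ (x * g) = ρ (g * x) := by
      apply LinearMap.ext
      intro v
      rw [map_mul, map_mul, Module.End.mul_apply, Module.End.mul_apply, hscal, hscal, map_smul]
    rw [show x * g * x⁻¹ * g⁻¹ = (x * g) * (g * x)⁻¹ by group, map_mul, h1, ← map_mul,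
      mul_inv_cancel, map_one]
  rcases Subgroup.Normal.eq_bot_or_eq_top (inferInstance : (MonoidHom.ker ρ).Normal) with hk | hk
  · have hgc : g ∈ Subgroup.center G := by
      rw [Subgroup.mem_center_iff]
      intro x
      have h1 : x * g * x⁻¹ * g⁻¹ ∈ (⊥ : Subgroup G) := hk ▸ hcent x
      rw [Subgroup.mem_bot] at h1
      calc x * g = (x * g * x⁻¹ * g⁻¹) * (g * x) := by group
        _ = g * x := by rw [h1, one_mul]
    rcases Subgroup.Normal.eq_bot_or_eq_top (inferInstance : (Subgroup.center G).Normal) with hz | hz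
    · exact hg (Subgroup.mem_bot.1 (hz ▸ hgc))
    · exact hG ⟨⟨fun a b => Subgroup.mem_center_iff.1 (hz ▸ Subgroup.mem_top b) a⟩⟩
  · obtain ⟨v, hv⟩ := exists_ne (0 : V)
    rcases hirr (ℂ ∙ v) (fun x w hw => by
      rw [show ρ x = 1 from (hk ▸ Subgroup.mem_top x : x ∈ MonoidHom.ker ρ), Module.End.one_apply]
      exact hw) with h | h
    · exact hv (Submodule.span_singleton_eq_bot.1 h)
    · have := finrank_span_singleton (K := ℂ) hv
      rw [h, finrank_top] at this
      omega

end Cfsg.Agent.S5011
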