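import Cfsg.Statements.S5125
import Cfsg.Agent.Fus.Normal

set_option autoImplicit false
open Cfsg Cfsg.FusionSystem

namespace Cfsg.Agent.S5125

/-- Let F be a saturated fusion system over a finite p-group S and Q a subgroup strongly closed in F. If Q has a subgroup Q₁ that is normal in F, with Q/Q₁ abelian and Aut_F(Q₁) a p-group, then Q is normal in F. -/
theorem result {Ω : Type*} [Group Ω] {S : Subgroup Ω} [Finite S] (p : ℕ) [Fact p.Prime] (hS : IsPGroup p S) (F : Cfsg.FusionSystem S) (hF : F.IsSaturated p) (Q Q₁ : Subgroup Ω) (hQ : F.StronglyClosed Q) (hQ₁Q : Q₁ ≤ Q) (hQ₁ : F.IsNormal Q₁) (hab : ⁅Q, Q⁆ ≤ Q₁) (hAut : IsPGroup p ↥(F.autGroup Q₁)) : F.IsNormal Q := by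
  have hQ₁sc := Fus.stronglyClosed_of_normal hQ₁
  have hQ₁S := hQ₁.1
  have : Finite Q₁ := Fus.finite_le hQ₁S
  have hnormS : normalizerIn S Q₁ = S := Fus.normalizerIn_eq_self fun s hs x hx => Fus.conj_le_of_stronglyClosed hQ₁sc hs hx
  have hFN : F.IsFullyNormalized Q₁ := by
    refine ⟨hQ₁S, fun R hR => ?_⟩
    rw [hnormS]
    exact Subgroup.card_le_of_le inf_le_left
  have hA : F.autGroup Q₁ = autInducedBy S Q₁ := by
    obtain ⟨k, hk⟩ := IsPGroup.iff_card.1 hAut
    refine (Subgroup.eq_of_le_of_card_ge (Fus.autInducedBy_le_autGroup hQ₁S le_rfl) ?_).symm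
    rw [(Fus.isFullyAutomized_iff.1 (Fus.fullyNormalized_props hS hF hFN).2).2, hk,
      Nat.Prime.factorization_pow Fact.out, Finsupp.single_eq_same]
  have : Group.IsNilpotent S := hS.isNilpotent
  let U : ℕ → Subgroup Ω := fun i => (Subgroup.upperCentralSeries S i).map S.subtype
  have hUm : Monotone U := fun i j h => Subgroup.map_mono (Subgroup.upperCentralSeries_mono S h)
  let c := Group.nilpotencyClass S
  have hUtop : U c = S := by
    simp only [U, c]
    rw [Subgroup.upperCentralSeries_nilpotencyClass, ← MonoidHom.range_eq_map, Subgroup.range_subtype]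
  have hUn : ∀ i, ∀ s ∈ S, ∀ x ∈ U i, s * x * s⁻¹ ∈ U i := by
    rintro i s hs _ ⟨x, hx, rfl⟩
    exact ⟨_, (inferInstance : (Subgroup.upperCentralSeries S i).Normal).conj_mem x hx ⟨s, hs⟩, rfl⟩
  let C : ℕ → Subgroup Ω := fun i => if i ≤ c then Q₁ ⊓ U i else Q
  refine Fus.isNormal_of_series hS hF hQ (c + 1) C (by simp [C, U]) (by simp [C]) ?_ ?_ ?_
  · intro i j hij
    simp only [C]
    split_ifs <;> first | exact inf_le_inf_left _ (hUm hij) | exact inf_le_left.trans hQ₁Q | exact le_rfl | omega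
  · intro i hi
    have e : C i = Q₁ ⊓ U i := if_pos (by omega : i ≤ c)
    suffices h : ∀ φ ∈ F.Hom (Q₁ ⊓ U i), φ.range = Q₁ ⊓ U i by rw [e]; exact h
    intro φ hφ
    have : Finite ↥(Q₁ ⊓ U i) := Fus.finite_le (inf_le_left.trans hQ₁S)
    refine Fus.range_eq_of_stronglyClosed (F := F) ?_ hφ
    refine ⟨inf_le_left.trans hQ₁S, fun R hR χ hχ x => ⟨hQ₁sc.2 R (hR.trans inf_le_left) χ hχ x, ?_⟩⟩
    obtain ⟨α, hα, hα'⟩ := Fus.extProp_of_normal hQ₁ R (hR.trans inf_le_left) χ hχ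
    rw [hA, Fus.mem_autInducedBy] at hα
    obtain ⟨s, hs, hs'⟩ := hα
    rw [← hα', hs']
    exact hUn i s hs _ (hR x.2).2
  · intro i hi x hx y hy
    simp only [C] at hx ⊢
    rw [if_pos (by omega : i ≤ c)]
    rcases Nat.lt_or_ge i c with h | h
    · rw [if_pos (by omega : i + 1 ≤ c)] at hx
      refine ⟨Q₁.mul_mem (Q₁.inv_mem hx.1) (Fus.conj_le_of_stronglyClosed hQ₁sc (hQ.1 hy) hx.1), ?_⟩
      obtain ⟨u, hu, rfl⟩ := hx.2
      exact ⟨_, Subgroup.mem_upperCentralSeries_succ_iff.1 ((Subgroup.upperCentralSeries S (i + 1)).inv_mem hu) ⟨y, hQ.1 hy⟩,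
        by simp [commutatorElement_def, mul_assoc]⟩
    · rw [if_neg (by omega : ¬ i + 1 ≤ c)] at hx
      have h1 : x⁻¹ * (y * x * y⁻¹) ∈ Q₁ := by
        have := hab (Subgroup.commutator_mem_commutator (Q.inv_mem hx) hy)
        simpa [commutatorElement_def, mul_assoc] using this
      exact ⟨h1, (show i = c by omega) ▸ hUtop.symm ▸ hQ₁S h1⟩

end Cfsg.Agent.S5125
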