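import Cfsg.Statements.S5223
import Cfsg.Agent.Fus.Normal

set_option autoImplicit false
open Cfsg Cfsg.FusionSystem

namespace Cfsg.Agent.S5223

/-- Let F be a saturated fusion system over a finite p-group S. Suppose there are subgroups Q₀ = S, Q₁, …, Qₙ = 1 (not required to be nested) such that for each i < n the focal subgroup of Qᵢ (generated by the elements x⁻¹φ(x), x ∈ Qᵢ, φ a map of F defined on the cyclic group generated by x) lies in Qᵢ₊₁. Then F is the inner fusion system of S. -/
theorem result {Ω : Type*} [Group Ω] {S : Subgroup Ω} [Finite S] (p : ℕ) [Fact p.Prime] (hS : IsPGroup p S) (F : Cfsg.FusionSystem S) (hF : F.IsSaturated p) (n : ℕ) (Q : Fin (n + 1) → Subgroup Ω) (hQ0 : Q 0 = S) (hQn : Q (Fin.last n) = ⊥) (hstep : ∀ i : Fin n, Subgroup.closure {y : Ω | ∃ x ∈ Q i.castSucc, ∃ φ ∈ F.Hom (Subgroup.zpowers x), y = x⁻¹ * φ ⟨x, Subgroup.mem_zpowers x⟩} ≤ Q i.succ) : ∀ P : Subgroup Ω, F.Hom P = (Cfsg.innerFusionSystem S).Hom P := by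
  have hFi : F = innerFusionSystem S := by
    refine Fus.eq_inner_iff (Fus.alperin_le hS hF _ fun P hP => ?_)
    have hPS : P ≤ S := hP.elim (fun e => e.le) fun e => e.1.1
    have hA : IsPGroup p (F.autGroup P) := by
      rintro ⟨γ, hγ⟩
      have : Finite P := Fus.finite_le hPS
      let M : ℕ → Subgroup Ω := fun i => Nat.rec S (fun j prev => prev ⊓ Q ⟨min (j + 1) n, by omega⟩) i
      have hMQ : ∀ i ≤ n, M i ≤ Q ⟨min i n, by omega⟩ := by
        intro i hi
        cases i with
        | zero => exact (by simp [M, hQ0] : M 0 ≤ Q ⟨min 0 n, by omega⟩)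
        | succ j => exact inf_le_right
      have hkey : ∀ i < n, ∀ x : P, (x : Ω) ∈ M i → (x : Ω)⁻¹ * (γ x : Ω) ∈ Q ⟨min (i + 1) n, by omega⟩ := by
        intro i hi x hx
        have e : (⟨min (i + 1) n, by omega⟩ : Fin (n + 1)) = (⟨i, hi⟩ : Fin n).succ := Fin.ext (by simp; omega)
        have e0 : (⟨min i n, by omega⟩ : Fin (n + 1)) = (⟨i, hi⟩ : Fin n).castSucc := Fin.ext (by simp; omega)
        rw [e]
        refine hstep ⟨i, hi⟩ (Subgroup.subset_closure ⟨x, ?_, _,
          Fus.restrict_mem ((Fus.mem_autGroup hPS).1 hγ) (Subgroup.zpowers_le.2 x.2), rfl⟩)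
        have := hMQ i hi.le hx
        rwa [e0] at this
      have hinv : ∀ i ≤ n, ∀ x : P, (x : Ω) ∈ M i → (γ x : Ω) ∈ M i := by
        intro i
        induction i with
        | zero => intro _ x _; exact hPS (γ x).2
        | succ j ih =>
          intro hj x hx
          refine ⟨ih (by omega) x hx.1, ?_⟩
          have := Subgroup.mul_mem _ hx.2 (hkey j (by omega) x hx.1)
          simpa using this
      have hMn : M n = ⊥ := by
        refine le_bot_iff.1 ((hMQ n le_rfl).trans ?_)
        simp only [min_self]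
        exact hQn.le
      obtain ⟨k, hk⟩ := Fus.exists_pow_eq_one_of_stab (hS.to_le hPS) (fun i => (M (n - i)).subgroupOf P)
        (by simp [hMn]) n (by simp [M, hPS]) (γ := γ) (fun i _ x hx => hinv (n - i) (by omega) x hx) (fun i hi x hx => by
          have h2 : n - i = (n - (i + 1)) + 1 := by omega
          show (x : Ω)⁻¹ * (γ x : Ω) ∈ M (n - i)
          rw [h2]
          exact ⟨(M _).mul_mem ((M _).inv_mem hx) (hinv _ (by omega) x hx), hkey _ (by omega) x hx⟩)
      exact ⟨k, Subtype.ext hk⟩
    rcases hP with rfl | hP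
    · obtain ⟨k, hk⟩ := IsPGroup.iff_card.1 hA
      have : Finite P := ‹Finite P›
      have e : autInducedBy P P = F.autGroup P :=
        Subgroup.eq_of_le_of_card_ge (Fus.autInducedBy_le_autGroup le_rfl le_rfl)
          (by rw [(Fus.isFullyAutomized_iff.1 (Fus.fullyNormalized_props hS hF Fus.isFullyNormalized_top).2).2, hk,
            Nat.Prime.factorization_pow Fact.out, Finsupp.single_eq_same])
      rw [← e]
      exact Fus.autInducedBy_le_autGroup le_rfl le_rfl
    · exact (Fus.no_essential_of_pGroup hA hP).elim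
  intro P
  rw [hFi]

end Cfsg.Agent.S5223
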