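import Cfsg.Statements.S5226
import Cfsg.Agent.Fus.Normal

set_option autoImplicit false
open Cfsg

namespace Cfsg.Agent.S5226

/-- Let F be a saturated fusion system over a finite p-group S and Q a subgroup of S. Then Q is normal in F (F equals the normalizer system of Q) if and only if Q is strongly closed in F and admits a central series 1 = Q₀ ≤ Q₁ ≤ ⋯ ≤ Qₙ = Q ([Qᵢ₊₁, Q] ≤ Qᵢ) all of whose proper terms are weakly closed in F. -/
theorem result {Ω : Type*} [Group Ω] {S : Subgroup Ω} [Finite S] (p : ℕ) [Fact p.Prime] (hS : IsPGroup p S) (F : Cfsg.FusionSystem S) (hF : F.IsSaturated p) (Q : Subgroup Ω) : F.IsNormal Q ↔ F.StronglyClosed Q ∧ ∃ (n : ℕ) (C : Fin (n + 1) → Subgroup Ω), C 0 = ⊥ ∧ C (Fin.last n) = Q ∧ Monotone C ∧ (∀ i : Fin n, ⁅C i.succ, Q⁆ ≤ C i.castSucc) ∧ ∀ i : Fin n, F.WeaklyClosed (C i.castSucc) := by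
  constructor
  · intro hQ
    refine ⟨Fus.stronglyClosed_of_normal hQ, ?_⟩
    obtain ⟨n, C, h0, hn, hm, hsc, hcomm⟩ := Fus.exists_series_of_extProp hS hQ.1 (Fus.extProp_of_normal hQ)
    refine ⟨n, fun i => C i, h0, hn, fun i j h => hm h, fun i => ?_,
      fun i => ⟨(hsc _).1, fun φ hφ => Fus.range_eq_of_stronglyClosed (hsc _) hφ⟩⟩
    rw [Subgroup.commutator_le]
    intro a ha b hb
    have hb' : b ∈ Q := hb
    have h1 := hcomm i i.2 _ ((C (i + 1)).inv_mem ha) b hb'
    simpa [commutatorElement_def, mul_assoc] using h1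
  · rintro ⟨hQ, n, C, hC0, hCn, hCm, hcomm, hcl⟩
    refine Fus.isNormal_of_series hS hF hQ n (fun i => C ⟨min i n, by omega⟩) ?_ ?_ ?_ ?_ ?_
    · simpa using hC0
    · simp only [min_self]; exact hCn
    · exact fun i j h => hCm (by show min i n ≤ min j n; omega)
    · intro i hi
      have e : (⟨min i n, by omega⟩ : Fin (n + 1)) = (⟨i, hi⟩ : Fin n).castSucc := Fin.ext (by simp; omega)
      have h := (hcl ⟨i, hi⟩).2
      rw [← e] at h
      exact h
    · intro i hi x hx y hy
      have e1 : (⟨min i n, by omega⟩ : Fin (n + 1)) = (⟨i, hi⟩ : Fin n).castSucc := Fin.ext (by simp; omega)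
      have e2 : (⟨min (i + 1) n, by omega⟩ : Fin (n + 1)) = (⟨i, hi⟩ : Fin n).succ := Fin.ext (by simp; omega)
      simp only [e1]
      simp only [e2] at hx
      have := hcomm ⟨i, hi⟩ (Subgroup.commutator_mem_commutator ((C _).inv_mem hx) hy)
      simpa [commutatorElement_def, mul_assoc] using this

end Cfsg.Agent.S5226
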