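import Cfsg.Statements.S5301
import Cfsg.Agent.Fus.Normal

set_option autoImplicit false
universe u
open Cfsg Cfsg.FusionSystem

namespace Cfsg.Agent.S5301

/-- Let F be a saturated fusion system over a finite p-group S. If for every subgroup P of S that is fully normalized, centric and radical in F the automorphism group that F induces on P has a normal Sylow p-subgroup, then S is normal in F. -/
theorem result {Ω : Type u} [Group Ω] {S : Subgroup Ω} [Finite S] (p : ℕ) [Fact p.Prime] (hS : IsPGroup p S)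
    (F : Cfsg.FusionSystem S) (hF : F.IsSaturated p)
    (hcl : ∀ P : Subgroup Ω, F.IsFullyNormalized P → F.IsCentric P → F.IsRadical p P →
      ∃ R : Sylow p ↥(F.autGroup P), (R : Subgroup ↥(F.autGroup P)).Normal) :
    F.IsNormal S := by
  refine Fus.isNormal_of_generators hS hF fun P hP => ?_
  rcases hP with rfl | hP
  · exact ⟨le_rfl, fun α _ x _ => (α x).2⟩
  exfalso
  have hrad := Fus.essential_isRadical hS hP
  obtain ⟨R, hR⟩ := hcl P hP.2.1 hP.1 hrad
  have : Finite P := Fus.finite_le hP.1.1
  obtain ⟨-, T, hT⟩ := (Fus.fullyNormalized_props hS hF hP.2.1).2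
  have hRT : (R : Subgroup (F.autGroup P)) = T := by
    have := Sylow.unique_of_normal R hR
    rw [Subsingleton.elim R T]
  have hPS : P < S := by
    refine lt_of_le_of_ne hP.1.1 fun e => ?_
    obtain ⟨-, -, hn, E, hd, -⟩ := hP
    have h0 := (Fus.isFullyAutomized_iff.1 (Fus.fullyNormalized_props hS hF (Fus.isFullyNormalized_top (F := F))).2).2
    subst e
    have hIT : ((Inn ↥P).subgroupOf (F.autGroup P)) = (T : Subgroup (F.autGroup P)) := by
      rw [hT, Fus.inn_eq_autInducedBy]
    have hni := T.not_dvd_index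
    rw [← hIT] at hni
    exact hni hd
  obtain ⟨g, hg, hgP⟩ := SetLike.exists_of_lt (Fus.lt_normalizerIn' hS hPS)
  refine Fus.conjAut_not_mem_inn hP.1 hg hgP ?_
  rw [← hrad.2]
  refine ⟨⟨Fus.conjAut hg, Fus.autInducedBy_le_autGroup hP.1.1 le_rfl (Fus.conjAut_mem hg)⟩, ?_, rfl⟩
  refine Solv.le_pCore hR R.isPGroup' ?_
  rw [hRT, hT]
  exact Fus.conjAut_mem hg

end Cfsg.Agent.S5301
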