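import Cfsg.Statements.S5521
import Cfsg.Agent.M24.Orders

set_option autoImplicit false
open Cfsg

namespace Cfsg.Agent.S5521

open scoped Pointwise


/-- The Mathieu group M₂₄ in its natural action on the 24 coordinate positions of the binary Golay code has minimal base size exactly 7: every set of at most 6 positions is fixed pointwise by some non-identity element of M₂₄, while some set of 7 positions is fixed pointwise only by the identity. -/
theorem result :
    (∀ B : Finset Cfsg.GolayPt, B.card ≤ 6 → ∃ g ∈ Cfsg.M24, g ≠ 1 ∧ ∀ b ∈ B, g b = b) ∧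
    (∃ B : Finset Cfsg.GolayPt, B.card = 7 ∧ ∀ g ∈ Cfsg.M24, (∀ b ∈ B, g b = b) → g = 1) := by
  classical
  constructor
  · intro B hB
    obtain ⟨C, hBC, hC⟩ := Finset.exists_superset_card_eq hB
      (show 6 ≤ Fintype.card Cfsg.GolayPt by decide +kernel)
    obtain ⟨x, hx⟩ := Finset.card_pos.1 (by omega : 0 < C.card)
    have h5 : ((Cfsg.Agent.M24.base.take 5).map Cfsg.Agent.M24.pt).toFinset.card = 5 := by decide +kernel
    obtain ⟨g, hg, hgC⟩ := Cfsg.Agent.M24.exists_map_finset (s := ((Cfsg.Agent.M24.base.take 5).map Cfsg.Agent.M24.pt).toFinset)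
      (t := C.erase x) h5.le (by rw [h5, Finset.card_erase_of_mem hx, hC])
    have hcard : Nat.card (Cfsg.Agent.M24.stab 5) = 48 := by
      rw [Cfsg.Agent.M24.card_stab_succ (by norm_num), Cfsg.Agent.M24.card_stab_succ (by norm_num), Cfsg.Agent.M24.stab_seven]
      simp only [Nat.card_unique, mul_one]
      decide +kernel
    have h := Nat.card_congr (MulAction.orbitProdStabilizerEquivGroup (Cfsg.Agent.M24.stab 5) (g⁻¹ x))
    rw [Nat.card_prod, hcard] at h
    have hle : Nat.card (MulAction.orbit (Cfsg.Agent.M24.stab 5) (g⁻¹ x)) ≤ 24 := by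
      have : Nat.card Cfsg.GolayPt = 24 := by rw [Nat.card_eq_fintype_card]; decide +kernel
      exact this ▸ Nat.card_le_card_of_injective _ Subtype.val_injective
    have hne : MulAction.stabilizer (Cfsg.Agent.M24.stab 5) (g⁻¹ x) ≠ ⊥ := by
      intro e
      rw [e, Subgroup.card_bot, mul_one] at h
      omega
    obtain ⟨v, hv⟩ := Subgroup.ne_bot_iff_exists_ne_one.1 hne
    obtain ⟨hv1, hv2⟩ := (Cfsg.Agent.M24.mem_stab (by norm_num : 5 ≤ 7)).1 v.1.2
    refine ⟨g * v.1.1 * g⁻¹, Cfsg.M24.mul_mem (Cfsg.M24.mul_mem hg hv1) (Cfsg.M24.inv_mem hg),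
      fun e => hv (Subtype.ext (Subtype.ext (by rwa [mul_inv_eq_one, mul_eq_left] at e))), fun b hb => ?_⟩
    have hfix : ∀ c ∈ C, v.1.1 (g⁻¹ c) = g⁻¹ c := by
      intro c hc
      by_cases hcx : c = x
      · subst hcx; exact v.2
      · have : c ∈ g • ((Cfsg.Agent.M24.base.take 5).map Cfsg.Agent.M24.pt).toFinset := hgC ▸ Finset.mem_erase.2 ⟨hcx, hc⟩
        obtain ⟨w, hw, rfl⟩ := Finset.mem_smul_finset.1 this
        obtain ⟨i, hi, rfl⟩ := List.mem_map.1 (List.mem_toFinset.1 hw)
        simp [hv2 i hi]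
    rw [Equiv.Perm.mul_apply, Equiv.Perm.mul_apply, hfix b (hBC hb)]
    simp
  · refine ⟨(Cfsg.Agent.M24.base.map Cfsg.Agent.M24.pt).toFinset, by decide +kernel, fun g hg h => Cfsg.Agent.M24.eq_one_of_base hg fun b hb => ?_⟩
    exact h _ (List.mem_toFinset.2 (List.mem_map_of_mem hb))

end Cfsg.Agent.S5521
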