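import Cfsg.Statements.S5885


set_option autoImplicit false
open Cfsg

namespace Cfsg.Agent.S5885
open scoped Pointwise

/-- Let n be an odd positive integer such that every primitive permutation group of degree n contains the alternating group (so the symmetric and alternating groups are the only primitive groups of degree n). Let G be a finite group, M a maximal subgroup of G of index n, and H a maximal subgroup of M. Then H is a second maximal subgroup of G: H is maximal in every maximal subgroup K of G containing H. -/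
theorem result {G : Type*} [Group G]
    [Finite G] (n : ℕ) (hodd : Odd n)
    (hA : ∀ P : Subgroup (Equiv.Perm (Fin n)), MulAction.IsPreprimitive P (Fin n) → alternatingGroup (Fin n) ≤ P)
    (M : Subgroup G) (hM : IsCoatom M) (hn : M.index = n) (H : Subgroup G) (hHM : H ≤ M)
    (hmax : IsCoatom (H.subgroupOf M)) (K : Subgroup G) (hK : IsCoatom K) (hHK : H ≤ K) :
    IsCoatom (H.subgroupOf K) := by
  classical
  -- the action on the cosets of `M`
  have hcard : Nat.card (G ⧸ M) = n := hn
  haveI : Fintype (G ⧸ M) := Fintype.ofFinite _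
  haveI : Nontrivial (G ⧸ M) := by
    rw [← not_subsingleton_iff_nontrivial]
    intro h
    exact hM.1 (Subgroup.index_eq_one.1 (le_antisymm (Finite.card_le_one_iff_subsingleton.2 h) Nat.card_pos))
  let a : G ⧸ M := QuotientGroup.mk 1
  have hmem : ∀ g : G, g ∈ M ↔ g • a = a := by
    intro g
    rw [← MulAction.mem_stabilizer_iff, MulAction.stabilizer_quotient]
  have hprimG : MulAction.IsPreprimitive G (G ⧸ M) := by
    rw [← MulAction.isCoatom_stabilizer_iff_preprimitive G a, MulAction.stabilizer_quotient]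
    exact hM
  let e : G ⧸ M ≃ Fin n := (Finite.equivFin (G ⧸ M)).trans (finCongr hcard)
  let φ : G →* Equiv.Perm (Fin n) := e.permCongrHom.toMonoidHom.comp (MulAction.toPermHom G (G ⧸ M))
  have hφ : ∀ g x, φ g (e x) = e (g • x) := by
    intro g x
    simp [φ, Equiv.permCongrHom, Equiv.permCongr_apply, MulAction.toPermHom]
  have hprimP : MulAction.IsPreprimitive φ.range (Fin n) := by
    let f : (G ⧸ M) →ₑ[φ.rangeRestrict] Fin n := { toFun := e, map_smul' := fun g x => (hφ g x).symm }
    exact @MulAction.IsPreprimitive.of_surjective _ _ _ _ _ _ _ _ φ.rangeRestrict f hprimG e.surjective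
  have heven : ∀ σ : Equiv.Perm (G ⧸ M), Equiv.Perm.sign σ = 1 → ∃ g : G, ∀ x, g • x = σ x := by
    intro σ hσ
    have hmemA : e.permCongr σ ∈ alternatingGroup (Fin n) := by
      rw [Equiv.Perm.mem_alternatingGroup, Equiv.Perm.sign_permCongr, hσ]
    obtain ⟨g, hg⟩ := hA φ.range hprimP hmemA
    refine ⟨g, fun x => e.injective ?_⟩
    rw [← hφ, hg]
    simp [Equiv.permCongr_apply]
  have h3cycle : ∀ {x y z : G ⧸ M}, x ≠ y → y ≠ z → x ≠ z → ∃ g : G, g • x = y ∧ g • y = z ∧ g • z = x ∧
      ∀ w, w ≠ x → w ≠ y → w ≠ z → g • w = w := by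
    intro x y z hxy hyz hxz
    obtain ⟨g, hg⟩ := heven (Equiv.swap x y * Equiv.swap y z) (by simp [Equiv.Perm.sign_swap hxy, Equiv.Perm.sign_swap hyz])
    refine ⟨g, ?_, ?_, ?_, ?_⟩
    · rw [hg, Equiv.Perm.mul_apply, Equiv.swap_apply_of_ne_of_ne hxy hxz, Equiv.swap_apply_left]
    · rw [hg, Equiv.Perm.mul_apply, Equiv.swap_apply_left, Equiv.swap_apply_of_ne_of_ne hxz.symm hyz.symm]
    · rw [hg, Equiv.Perm.mul_apply, Equiv.swap_apply_right, Equiv.swap_apply_right]
    · intro w h1 h2 h3
      rw [hg, Equiv.Perm.mul_apply, Equiv.swap_apply_of_ne_of_ne h2 h3, Equiv.swap_apply_of_ne_of_ne h1 h2]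
  -- trivial case
  by_cases hKM : K = M
  · subst hKM; exact hmax
  have hKM' : ¬ K ≤ M := by
    intro hle
    rcases lt_or_eq_of_le hle with h | h
    · exact hM.1 (hK.2 _ h)
    · exact hKM h
  have hmax' : ∀ X : Subgroup G, H ≤ X → X ≤ M → X ≠ M → X = H := by
    intro X h1 h2 h3
    by_contra h4
    have hlt : H.subgroupOf M < X.subgroupOf M := by
      refine lt_of_le_of_ne (fun y hy => h1 hy) (fun heq => h4 ?_)
      ext y
      constructor
      · intro hy
        have : (⟨y, h2 hy⟩ : M) ∈ X.subgroupOf M := hy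
        rw [← heq] at this
        exact this
      · exact fun hy => h1 hy
    exact h3 (le_antisymm h2 (Subgroup.subgroupOf_eq_top.1 (hmax.2 _ hlt)))
  have hKH : K ⊓ M = H := by
    refine hmax' _ (le_inf hHK hHM) inf_le_right (fun h => ?_)
    have hMK : M ≤ K := h ▸ inf_le_left
    rcases lt_or_eq_of_le hMK with h' | h'
    · exact hK.1 (hM.2 _ h')
    · exact hKM h'.symm
  refine ⟨fun h => hKM' ((Subgroup.subgroupOf_eq_top.1 h).trans hHM), fun L' hL' => ?_⟩
  obtain ⟨L, hLK, rfl⟩ : ∃ L : Subgroup G, L ≤ K ∧ L.subgroupOf K = L' :=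
    ⟨L'.map K.subtype, Subgroup.map_subtype_le L', Subgroup.comap_map_eq_self_of_injective (Subgroup.subtype_injective K) _⟩
  have hHL : H ≤ L := fun y hy => hL'.le (show (⟨y, hHK hy⟩ : K) ∈ H.subgroupOf K from hy)
  have hHne : ¬ L ≤ H := fun h => hL'.not_ge (fun y hy => h hy)
  have hLM : ∀ y ∈ K, y ∈ M → y ∈ L := fun y hy hyM => hHL (hKH ▸ Subgroup.mem_inf.2 ⟨hy, hyM⟩)
  rw [Subgroup.subgroupOf_eq_top]
  by_cases hN : M.normalCore ≤ H
  swap
  · -- the core is not inside `H`
    set N := M.normalCore with hNdef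
    have hNM : N ≤ M := Subgroup.normalCore_le M
    have hHN : H ⊔ N = M := by
      by_contra h
      exact hN (le_sup_right.trans (hmax' _ le_sup_left (sup_le hHM hNM) h).le)
    have hLN : L ⊔ N = ⊤ := by
      refine hM.2 _ (lt_of_le_of_ne (hHN ▸ sup_le_sup_right hHL N) fun h => hHne ?_)
      intro y hy
      exact hKH ▸ Subgroup.mem_inf.2 ⟨hLK hy, h ▸ Subgroup.mem_sup_left hy⟩
    intro k hk
    obtain ⟨l, hl, x, hx, rfl⟩ := Subgroup.mem_sup_of_normal_right.1 (show k ∈ L ⊔ N by rw [hLN]; trivial)
    exact mul_mem hl (hLM x (by simpa using mul_mem (inv_mem (hLK hl)) hk) (hNM hx))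
  -- the core is inside `H`: work with the action
  have hcoreK : ∀ g : G, (∀ x : G ⧸ M, g • x = x) → g ∈ K := by
    intro g hg
    refine hHK (hN ?_)
    intro b
    rw [hmem, mul_smul, mul_smul, hg, smul_inv_smul]
  obtain ⟨l0, hl0, hl0H⟩ := Set.not_subset.1 hHne
  have hb0 : l0 • a ≠ a := fun h => hl0H (hKH ▸ Subgroup.mem_inf.2 ⟨hLK hl0, (hmem _).2 h⟩)
  -- blocks
  have hblk : ∀ k ∈ K, ∀ k' ∈ K, ∀ l ∈ L, ∀ l' ∈ L, k • l • a = k' • l' • a → k⁻¹ * k' ∈ L := by
    intro k hk k' hk' l hl l' hl' h
    have h1 : (k * l)⁻¹ * (k' * l') ∈ M := by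
      rw [hmem, mul_smul, mul_smul, ← h, ← mul_smul k l, inv_smul_smul]
    have h2 := hLM _ (mul_mem (inv_mem (mul_mem hk (hLK hl))) (mul_mem hk' (hLK hl'))) h1
    have : k⁻¹ * k' = l * ((k * l)⁻¹ * (k' * l')) * l'⁻¹ := by group
    rw [this]
    exact mul_mem (mul_mem hl h2) (inv_mem hl')
  intro k hk
  -- it is enough that `k • a` lies in the block
  suffices ∃ l ∈ L, l • a = k • a by
    obtain ⟨l, hl, hla⟩ := this
    have := hblk 1 (one_mem _) k hk l hl 1 (one_mem _) (by simpa using hla)
    simpa using this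
  by_contra hout
  push Not at hout
  set O : Set (G ⧸ M) := {x | ∃ k ∈ K, k • a = x} with hO
  have haO : a ∈ O := ⟨1, one_mem _, one_smul _ _⟩
  by_cases htr : O = Set.univ
  · -- transitive but imprimitive
    have hX : ∀ g : G, g • a = a → (∀ l ∈ L, ∃ l' ∈ L, g • l • a = l' • a) → g ∈ H := by
      intro g hga hgB
      let X : Subgroup G := M ⊓ MulAction.stabilizer G ({x | ∃ l ∈ L, l • a = x} : Set (G ⧸ M))
      have hXmem : ∀ g : G, g • a = a → (∀ l ∈ L, ∃ l' ∈ L, g • l • a = l' • a) → g ∈ X := by
        intro g hga hgB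
        refine Subgroup.mem_inf.2 ⟨(hmem g).2 hga, ?_⟩
        refine MulAction.mem_stabilizer_set_iff_smul_set_subset (Set.toFinite _) |>.2 ?_
        rintro _ ⟨_, ⟨l, hl, rfl⟩, rfl⟩
        obtain ⟨l', hl', h⟩ := hgB l hl
        exact ⟨l', hl', h.symm⟩
      have hHX : H ≤ X := fun h hh => hXmem h ((hmem h).1 (hHM hh))
        (fun l hl => ⟨h * l, mul_mem (hHL hh) hl, (mul_smul _ _ _).symm⟩)
      have hXne : X ≠ M := by
        intro h
        obtain ⟨c, hc⟩ : ∃ c : G ⧸ M, c ≠ a ∧ c ≠ l0 • a ∧ c ≠ k • a := by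
          by_contra hc
          push Not at hc
          have huniv : (Finset.univ : Finset (Fin n)) ⊆ {e a, e (l0 • a), e (k • a)} := by
            intro w _
            obtain ⟨v, rfl⟩ := e.surjective w
            simp only [Finset.mem_insert, Finset.mem_singleton, EmbeddingLike.apply_eq_iff_eq]
            by_cases h1 : v = a
            · exact Or.inl h1
            · by_cases h2 : v = l0 • a
              · exact Or.inr (Or.inl h2)
              · exact Or.inr (Or.inr (hc v h1 h2))
          have h3 := Finset.card_le_card huniv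
          have h3' : ({e a, e (l0 • a), e (k • a)} : Finset (Fin n)).card ≤ 3 := Finset.card_le_three
          rw [Finset.card_univ, Fintype.card_fin] at h3
          -- block size divides `n`
          have h4 : (H.subgroupOf K).index = n := by
            have : MulAction.stabilizer K a = H.subgroupOf K := by
              ext y
              rw [MulAction.mem_stabilizer_iff, Subgroup.mem_subgroupOf]
              exact ⟨fun h => hKH ▸ Subgroup.mem_inf.2 ⟨y.2, (hmem _).2 h⟩, fun h => (hmem _).1 (hHM h)⟩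
            rw [← this, MulAction.index_stabilizer, ← hcard, ← Set.ncard_univ]
            congr 1
            refine Set.eq_univ_of_forall fun x => ?_
            obtain ⟨k', hk', h⟩ := (htr ▸ Set.mem_univ x : x ∈ O)
            exact ⟨⟨k', hk'⟩, h⟩
          have h5 := Subgroup.relIndex_mul_relIndex H L K hHL hLK
          have h6 : H.relIndex L ≠ 1 := fun h => hHne (Subgroup.relIndex_eq_one.1 h)
          have h7 : L.relIndex K ≠ 1 := by
            intro h
            exact hout k (Subgroup.relIndex_eq_one.1 h hk) rfl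
          change H.relIndex K = n at h4
          rw [h4] at h5
          have hn3 : n = 1 ∨ n = 3 := by obtain ⟨m, hm⟩ := hodd; omega
          rcases hn3 with h8 | h8
          · rw [h8] at h5; exact h6 (Nat.eq_one_of_mul_eq_one_right h5)
          · rw [h8] at h5
            rcases (Nat.dvd_prime Nat.prime_three).1 (Dvd.intro _ h5) with h9 | h9
            · exact h6 h9
            · rw [h9] at h5; exact h7 (by omega)
        obtain ⟨g, hg1, -, -, hgfix⟩ := h3cycle (x := l0 • a) (y := k • a) (z := c)
          (fun e => hout l0 hl0 e) hc.2.2.symm hc.2.1.symm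
        have hgM : g ∈ M := (hmem g).2 (hgfix a hb0.symm (fun e => hout 1 (one_mem _) (by rw [one_smul]; exact e)) hc.1.symm)
        rw [← h] at hgM
        have := MulAction.mem_stabilizer_iff.1 (Subgroup.mem_inf.1 hgM).2
        have hmem2 : g • l0 • a ∈ g • ({x | ∃ l ∈ L, l • a = x} : Set (G ⧸ M)) := Set.smul_mem_smul_set ⟨l0, hl0, rfl⟩
        rw [this] at hmem2
        obtain ⟨l', hl', h'⟩ := hmem2
        exact hout l' hl' (h'.trans hg1)
      rw [← hmax' X hHX inf_le_left hXne]
      exact hXmem g hga hgB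
    -- a third block
    obtain ⟨k3, hk3, hk31, hk32⟩ : ∃ k3 ∈ K, k3 ∉ L ∧ k⁻¹ * k3 ∉ L := by
      by_contra hc
      push Not at hc
      have hkL : k ∉ L := fun h => hout k h rfl
      have hidx : (L.subgroupOf K).index = 2 := by
        rw [Subgroup.index_eq_two_iff']
        refine ⟨⟨k⁻¹, inv_mem hk⟩, fun y => ?_⟩
        simp only [Subgroup.mem_subgroupOf, Subgroup.coe_mul]
        by_cases h : (y : G) ∈ L
        · refine Or.inr ⟨h, fun h2 => hkL ?_⟩
          simpa using inv_mem (mul_mem h2 (inv_mem h))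
        · exact Or.inl ⟨hc y y.2 h, h⟩
      have h4 : (H.subgroupOf K).index = n := by
        have : MulAction.stabilizer K a = H.subgroupOf K := by
          ext y
          rw [MulAction.mem_stabilizer_iff, Subgroup.mem_subgroupOf]
          exact ⟨fun h => hKH ▸ Subgroup.mem_inf.2 ⟨y.2, (hmem _).2 h⟩, fun h => (hmem _).1 (hHM h)⟩
        rw [← this, MulAction.index_stabilizer, ← hcard, ← Set.ncard_univ]
        congr 1
        refine Set.eq_univ_of_forall fun x => ?_
        obtain ⟨k', hk', h⟩ := (htr ▸ Set.mem_univ x : x ∈ O)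
        exact ⟨⟨k', hk'⟩, h⟩
      have h5 := Subgroup.relIndex_mul_relIndex H L K hHL hLK
      change H.relIndex K = n at h4
      change L.relIndex K = 2 at hidx
      rw [h4, hidx] at h5
      obtain ⟨m, hm⟩ := hodd
      omega
    have hkL : k ∉ L := fun h => hout k h rfl
    have hx : k • a ≠ k3 • a := fun h => hk32 (hblk k hk k3 hk3 1 (one_mem _) 1 (one_mem _) (by rw [one_smul]; exact h))
    have hy : k3 • a ≠ k • l0 • a := fun h => hk32 (hblk k hk k3 hk3 l0 hl0 1 (one_mem _) (by rw [one_smul]; exact h.symm))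
    have hz : k • a ≠ k • l0 • a := fun h => hb0 (smul_left_cancel k h).symm
    obtain ⟨g, hg1, -, hg3, hgfix⟩ := h3cycle hx hy hz
    have hfixB : ∀ l ∈ L, g • l • a = l • a := by
      intro l hl
      refine hgfix _ ?_ ?_ ?_
      · intro h
        exact hkL (by simpa using hblk 1 (one_mem _) k hk l hl 1 (one_mem _) (by simpa using h))
      · intro h
        exact hk31 (by simpa using hblk 1 (one_mem _) k3 hk3 l hl 1 (one_mem _) (by simpa using h))
      · intro h
        exact hkL (by simpa using hblk 1 (one_mem _) k hk l hl l0 hl0 (by simpa using h))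
    have hgH : g ∈ H := hX g (by simpa using hfixB 1 (one_mem _)) (fun l hl => ⟨l, hl, hfixB l hl⟩)
    have hgK := hHK hgH
    have h1 := hblk (g * k) (mul_mem hgK hk) k hk l0 hl0 1 (one_mem _) (by rw [mul_smul, hg3, one_smul])
    have h2 := hblk (g * k) (mul_mem hgK hk) k3 hk3 1 (one_mem _) 1 (one_mem _) (by rw [mul_smul, one_smul]; exact hg1)
    have := mul_mem (inv_mem h1) h2
    exact hk32 (by simpa [mul_assoc] using this)
  · -- intransitive: `K` is the stabiliser of `O`
    have hKO : K ≤ MulAction.stabilizer G O := by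
      intro y hy
      refine MulAction.mem_stabilizer_set_iff_smul_set_subset (Set.toFinite _) |>.2 ?_
      rintro _ ⟨_, ⟨k', hk', rfl⟩, rfl⟩
      exact ⟨y * k', mul_mem hy hk', mul_smul _ _ _⟩
    have hKO' : K = MulAction.stabilizer G O := by
      rcases lt_or_eq_of_le hKO with h | h
      · exfalso
        apply htr
        refine Set.eq_univ_of_forall fun x => ?_
        obtain ⟨g, rfl⟩ := MulAction.exists_smul_eq G a x
        have hg : g ∈ MulAction.stabilizer G O := by rw [hK.2 _ h]; trivial
        have h' : g • O = O := MulAction.mem_stabilizer_iff.1 hg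
        rw [← h']
        exact Set.smul_mem_smul_set haO
      · exact h
    have hstab : ∀ g : G, (∀ x ∈ O, g • x ∈ O) → g ∈ K := by
      intro g hg
      rw [hKO']
      refine MulAction.mem_stabilizer_set_iff_smul_set_subset (Set.toFinite _) |>.2 ?_
      rintro _ ⟨x, hx, rfl⟩
      exact hg x hx
    have hbO : l0 • a ∈ O := ⟨l0, hLK hl0, rfl⟩
    have hcO : k • a ∈ O := ⟨k, hk, rfl⟩
    have hbc : l0 • a ≠ k • a := hout l0 hl0
    have hca : k • a ≠ a := fun h => hout 1 (one_mem _) (by rw [one_smul]; exact h.symm)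
    suffices ∃ g : G, g • a = a ∧ g • l0 • a = k • a ∧ ∀ x ∈ O, g • x ∈ O by
      obtain ⟨g, hga, hgb, hgO⟩ := this
      exact hout (g * l0) (mul_mem (hLM g (hstab g hgO) ((hmem g).2 hga)) hl0) (by rw [mul_smul, hgb])
    by_cases he : ∃ d ∈ O, d ≠ a ∧ d ≠ l0 • a ∧ d ≠ k • a
    · obtain ⟨d, hd, hda, hdb, hdc⟩ := he
      obtain ⟨g, hg1, hg2, hg3, hgfix⟩ := h3cycle hbc hdc.symm hdb.symm
      refine ⟨g, hgfix a hb0.symm hca.symm hda.symm, hg1, fun x hx => ?_⟩
      by_cases h1 : x = l0 • a
      · rw [h1, hg1]; exact hcO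
      by_cases h2 : x = k • a
      · rw [h2, hg2]; exact hd
      by_cases h3 : x = d
      · rw [h3, hg3]; exact hbO
      rw [hgfix x h1 h2 h3]; exact hx
    · push Not at he
      obtain ⟨d, f, hdf, hd, hf⟩ : ∃ d f, d ≠ f ∧ d ∉ O ∧ f ∉ O := by
        by_contra hc
        push Not at hc
        obtain ⟨d, hd⟩ := (Set.ne_univ_iff_exists_notMem O).1 htr
        have hOc : Oᶜ = {d} := by
          ext x
          constructor
          · intro hx
            by_contra hne
            exact hx (hc d x (fun e => hne e.symm) hd)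
          · rintro rfl; exact hd
        have hO3 : O = {a, l0 • a, k • a} := by
          ext x
          constructor
          · intro hx
            by_cases h1 : x = a
            · exact Or.inl h1
            · by_cases h2 : x = l0 • a
              · exact Or.inr (Or.inl h2)
              · exact Or.inr (Or.inr (he x hx h1 h2))
          · rintro (rfl | rfl | rfl) <;> assumption
        have := Set.ncard_add_ncard_compl O
        rw [hOc, hcard, Set.ncard_singleton, hO3, Set.ncard_eq_three.2 ⟨_, _, _, hb0.symm, hca.symm, hbc, rfl⟩] at this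
        obtain ⟨m, hm⟩ := hodd
        omega
      obtain ⟨g, hg⟩ := heven (Equiv.swap (l0 • a) (k • a) * Equiv.swap d f) (by simp [Equiv.Perm.sign_swap hbc, Equiv.Perm.sign_swap hdf])
      have hne : ∀ x ∈ O, Equiv.swap d f x = x := fun x hx =>
        Equiv.swap_apply_of_ne_of_ne (fun e => hd (e ▸ hx)) (fun e => hf (e ▸ hx))
      refine ⟨g, ?_, ?_, fun x hx => ?_⟩
      · rw [hg, Equiv.Perm.mul_apply, hne a haO, Equiv.swap_apply_of_ne_of_ne hb0.symm hca.symm]
      · rw [hg, Equiv.Perm.mul_apply, hne _ hbO, Equiv.swap_apply_left]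
      · rw [hg, Equiv.Perm.mul_apply, hne x hx, Equiv.swap_apply_def]
        split_ifs <;> assumption

end Cfsg.Agent.S5885
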