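import Cfsg.Statements.S5902
import Mathlib

set_option autoImplicit false
open Cfsg

namespace Cfsg.Agent.S5902

/-- Let G be a finite group, X a subgroup whose own subgroup lattice is complemented, and suppose X lies in exactly one maximal subgroup M of G. Then every subgroup H of G not contained in the normal core of M has a complement in the subgroup lattice of G (some C with H ⊔ C = G and H ⊓ C = 1); in particular the subgroup lattice of G modulo the normal core of M is complemented. -/
theorem result {G : Type*} [Group G] [Finite G] (X M : Subgroup G)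
    (hK : ComplementedLattice (Subgroup X))
    (hM : IsCoatom M) (hXM : X ≤ M) (huniq : ∀ M' : Subgroup G, IsCoatom M' → X ≤ M' → M' = M) :
    (∀ H : Subgroup G, ¬ H ≤ M.normalCore → ∃ C : Subgroup G, H ⊔ C = ⊤ ∧ H ⊓ C = ⊥) ∧
    ComplementedLattice (Subgroup (G ⧸ M.normalCore)) := by
  have main : ∀ H : Subgroup G, ¬ H ≤ M.normalCore → ∃ C : Subgroup G, H ⊔ C = ⊤ ∧ H ⊓ C = ⊥ := by
    intro H hH
    obtain ⟨h, hh, g, hg⟩ : ∃ h ∈ H, ∃ g : G, g * h * g⁻¹ ∉ M := by
      by_contra hc
      push Not at hc
      exact hH (fun h hh g => hc h hh g)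
    set f := (MulAut.conj g).toMonoidHom with hf
    have hinj : Function.Injective f := (MulAut.conj g).injective
    have hsurj : Function.Surjective f := (MulAut.conj g).surjective
    set H' := H.map f with hH'
    obtain ⟨C₀, hC⟩ := exists_isCompl ((H'.subgroupOf X) : Subgroup X)
    set C := C₀.map X.subtype with hCdef
    have hnot : ¬ H' ≤ M := fun hle => hg (hle ⟨h, hh, rfl⟩)
    have hsup : H' ⊔ C = ⊤ := by
      rcases eq_top_or_exists_le_coatom (H' ⊔ C) with h | ⟨M', hM', hle⟩
      · exact h
      · exfalso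
        have hX' : X ≤ M' := by
          calc X = (⊤ : Subgroup X).map X.subtype := by rw [← MonoidHom.range_eq_map, Subgroup.range_subtype]
            _ = (H'.subgroupOf X).map X.subtype ⊔ C := by rw [← hC.sup_eq_top, Subgroup.map_sup]
            _ ≤ H' ⊔ C := sup_le_sup_right (Subgroup.map_comap_le _ _) _
            _ ≤ M' := hle
        exact hnot ((le_sup_left.trans hle).trans (huniq M' hM' hX').le)
    have hinf : H' ⊓ C = ⊥ := by
      rw [eq_bot_iff]
      rintro z ⟨hz1, hz2⟩
      obtain ⟨w, hw, rfl⟩ := hz2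
      have : w ∈ H'.subgroupOf X ⊓ C₀ := ⟨hz1, hw⟩
      rw [hC.inf_eq_bot, Subgroup.mem_bot] at this
      simp [this]
    refine ⟨C.comap f, ?_, ?_⟩
    · have h1 := congrArg (Subgroup.comap f) hsup
      rw [← Subgroup.comap_sup_eq f H' C hsurj, hH', Subgroup.comap_map_eq_self_of_injective hinj, Subgroup.comap_top] at h1
      exact h1
    · have h1 := congrArg (Subgroup.comap f) hinf
      rw [Subgroup.comap_inf, hH', Subgroup.comap_map_eq_self_of_injective hinj] at h1
      rw [h1, MonoidHom.comap_bot, MonoidHom.ker_eq_bot f hinj]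
  refine ⟨main, ⟨fun Hb => ?_⟩⟩
  set π := QuotientGroup.mk' M.normalCore with hπ
  have hπs : Function.Surjective π := QuotientGroup.mk'_surjective _
  by_cases hb : Hb.comap π ≤ M.normalCore
  · refine ⟨⊤, IsCompl.of_eq ?_ (by simp)⟩
    rw [inf_top_eq, eq_bot_iff]
    intro x hx
    obtain ⟨y, rfl⟩ := hπs x
    exact (QuotientGroup.eq_one_iff y).2 (hb hx)
  obtain ⟨C, hsup, hinf⟩ := main _ hb
  refine ⟨C.map π, IsCompl.of_eq ?_ ?_⟩
  · rw [eq_bot_iff]
    rintro _ ⟨h1, c, hc, rfl⟩
    have : c ∈ Hb.comap π ⊓ C := ⟨h1, hc⟩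
    rw [hinf, Subgroup.mem_bot] at this
    simp [this]
  · have h1 := congrArg (Subgroup.map π) hsup
    rwa [Subgroup.map_sup, Subgroup.map_comap_eq_self_of_surjective hπs, Subgroup.map_top_of_surjective π hπs] at h1

end Cfsg.Agent.S5902
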