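import Cfsg.Statements.S5903
import Mathlib

set_option autoImplicit false
open Cfsg

namespace Cfsg.Agent.S5903

/-- Let G be a finite simple group, X a subgroup lying in exactly one maximal subgroup M of G, and N a subgroup of prime order with N ≤ X that is central in M. If the subgroup lattice of X/N is complemented, then the subgroup lattice of G is complemented. -/
theorem result {G : Type*} [Group G] [Finite G] [IsSimpleGroup G] (X M N : Subgroup G)
    (hM : IsCoatom M) (hXM : X ≤ M) (huniq : ∀ M' : Subgroup G, IsCoatom M' → X ≤ M' → M' = M)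
    (hNX : N ≤ X) (hN : (Nat.card N).Prime) (hcen : ∀ n ∈ N, ∀ m ∈ M, m * n = n * m)
    [(N.subgroupOf X).Normal] (hK : ComplementedLattice (Subgroup (X ⧸ N.subgroupOf X))) :
    ComplementedLattice (Subgroup G) := by
  refine ⟨fun H => ?_⟩
  by_cases hb : H = ⊥
  · exact ⟨⊤, hb ▸ isCompl_bot_top⟩
  by_cases ht : H = ⊤
  · exact ⟨⊥, ht ▸ isCompl_top_bot⟩
  obtain ⟨g, hg1, hg2⟩ : ∃ g : G, ¬ H.map (MulAut.conj g).toMonoidHom ≤ M ∧ ¬ N ≤ H.map (MulAut.conj g).toMonoidHom := by
    by_contra hc
    push Not at hc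
    have hN1 : N ≠ ⊥ := fun h => hN.ne_one (by rw [h, Subgroup.card_bot])
    have hall : ∀ g : G, ∀ n ∈ N, g⁻¹ * n * g ∈ Subgroup.normalizer (H : Set G) := by
      intro g n hn
      by_cases h : H.map (MulAut.conj g).toMonoidHom ≤ M
      · have hcomm : ∀ x ∈ H, (g⁻¹ * n * g) * x = x * (g⁻¹ * n * g) := by
          intro x hx
          have := hcen n hn (g * x * g⁻¹) (h ⟨x, hx, rfl⟩)
          calc (g⁻¹ * n * g) * x = g⁻¹ * (n * (g * x * g⁻¹)) * g := by group
            _ = g⁻¹ * ((g * x * g⁻¹) * n) * g := by rw [this]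
            _ = x * (g⁻¹ * n * g) := by group
        exact Subgroup.centralizer_le_normalizer _ (Subgroup.mem_centralizer_iff.2 fun x hx => (hcomm x hx).symm)
      · obtain ⟨x, hx, e⟩ := hc g h hn
        refine Subgroup.le_normalizer ?_
        change g * x * g⁻¹ = n at e
        rw [← e]
        simpa [mul_assoc] using hx
    have htop : Subgroup.normalClosure (N : Set G) = ⊤ :=
      Subgroup.normalClosure_normal.eq_bot_or_eq_top.resolve_left (fun h => hN1 (eq_bot_iff.2 (h ▸ Subgroup.subset_normalClosure)))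
    have h2 : Subgroup.normalClosure (N : Set G) ≤ Subgroup.normalizer (H : Set G) := by
      rw [Subgroup.normalClosure, Subgroup.closure_le]
      intro x hx
      obtain ⟨n, hn, hc'⟩ := Group.mem_conjugatesOfSet_iff.1 hx
      obtain ⟨c, rfl⟩ := isConj_iff.1 hc'
      simpa using hall c⁻¹ n hn
    rw [htop, top_le_iff, Subgroup.normalizer_eq_top_iff] at h2
    rcases h2.eq_bot_or_eq_top with h | h
    · exact hb h
    · exact ht h
  set f := (MulAut.conj g).toMonoidHom with hf
  have hinj : Function.Injective f := (MulAut.conj g).injective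
  have hsurj : Function.Surjective f := (MulAut.conj g).surjective
  set H' := H.map f with hH'
  have hHN : H' ⊓ N = ⊥ := by
    haveI := hN
    haveI : Fact (Nat.card N).Prime := ⟨hN⟩
    rcases Subgroup.eq_bot_or_eq_top_of_prime_card ((H' ⊓ N).subgroupOf N) with h | h
    · rw [Subgroup.subgroupOf_eq_bot] at h
      exact eq_bot_iff.2 (fun x hx => Subgroup.disjoint_def.1 h hx hx.2)
    · exact absurd ((Subgroup.subgroupOf_eq_top.1 h).trans inf_le_left) hg2
  set π := QuotientGroup.mk' (N.subgroupOf X)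
  have hπs : Function.Surjective π := QuotientGroup.mk'_surjective _
  set Y := (H' ⊓ X) ⊔ N with hY
  obtain ⟨Cb, hC⟩ := exists_isCompl ((Y.subgroupOf X).map π)
  set C := (Cb.comap π).map X.subtype with hCdef
  have hNC : N ≤ C := by
    intro n hn
    refine ⟨⟨n, hNX hn⟩, ?_, rfl⟩
    change π ⟨n, hNX hn⟩ ∈ Cb
    have h0 : π ⟨n, hNX hn⟩ = 1 := (QuotientGroup.eq_one_iff _).2 (show (⟨n, hNX hn⟩ : X) ∈ N.subgroupOf X from hn)
    rw [h0]
    exact one_mem _
  have hker : π.ker ≤ Y.subgroupOf X := by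
    rw [QuotientGroup.ker_mk']
    exact fun x hx => Subgroup.mem_sup_right (S := H' ⊓ X) hx
  have hsup : H' ⊔ C = ⊤ := by
    rcases eq_top_or_exists_le_coatom (H' ⊔ C) with h | ⟨M', hM', hle⟩
    · exact h
    · exfalso
      have h1 := congrArg (Subgroup.comap π) hC.sup_eq_top
      rw [← Subgroup.comap_sup_eq π _ _ hπs, Subgroup.comap_map_eq_self hker, Subgroup.comap_top] at h1
      have hX' : X ≤ M' := by
        calc X = (⊤ : Subgroup X).map X.subtype := by rw [← MonoidHom.range_eq_map, Subgroup.range_subtype]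
          _ = (Y.subgroupOf X).map X.subtype ⊔ C := by rw [← h1, Subgroup.map_sup]
          _ ≤ Y ⊔ C := sup_le_sup_right (Subgroup.map_comap_le _ _) _
          _ ≤ H' ⊔ C := sup_le (sup_le (inf_le_left.trans le_sup_left) (hNC.trans le_sup_right)) le_sup_right
          _ ≤ M' := hle
      exact hg1 ((le_sup_left.trans hle).trans (huniq M' hM' hX').le)
  have hinf : H' ⊓ C = ⊥ := by
    rw [eq_bot_iff]
    rintro z ⟨hz1, hz2⟩
    obtain ⟨w, hw, rfl⟩ := hz2
    have hwY : w ∈ Y.subgroupOf X := Subgroup.mem_sup_left (T := N) ⟨hz1, w.2⟩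
    have : π w ∈ (Y.subgroupOf X).map π ⊓ Cb := ⟨⟨w, hwY, rfl⟩, hw⟩
    rw [hC.inf_eq_bot, Subgroup.mem_bot, QuotientGroup.mk'_apply, QuotientGroup.eq_one_iff] at this
    exact hHN.le ⟨hz1, this⟩
  refine ⟨C.comap f, IsCompl.of_eq ?_ ?_⟩
  · have h1 := congrArg (Subgroup.comap f) hinf
    rw [Subgroup.comap_inf, hH', Subgroup.comap_map_eq_self_of_injective hinj] at h1
    rw [h1, MonoidHom.comap_bot, MonoidHom.ker_eq_bot f hinj]
  · have h1 := congrArg (Subgroup.comap f) hsup
    rw [← Subgroup.comap_sup_eq f H' C hsurj, hH', Subgroup.comap_map_eq_self_of_injective hinj, Subgroup.comap_top] at h1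
    exact h1

end Cfsg.Agent.S5903
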