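import Cfsg.Statements.S5904
import Mathlib

set_option autoImplicit false
open scoped Pointwise
open Cfsg

namespace Cfsg.Agent.S5904

/-- Let Ω be a finite set with more than two elements and O ⊆ Ω a subset with exactly as many elements as its complement. Then the setwise stabilizer of O in the symmetric group on Ω is not a maximal subgroup (it is properly contained in the stabilizer of the partition {O, Ω ∖ O}, which is proper). -/
theorem result {Ω : Type*} [Fintype Ω] [DecidableEq Ω] (hΩ : 2 < Fintype.card Ω)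
    (O : Set Ω) (hO : Nat.card O = Nat.card ↥Oᶜ) :
    ¬ IsCoatom (MulAction.stabilizer (Equiv.Perm Ω) O) := by
  classical
  have hO' : O ≠ ∅ ∧ Oᶜ ≠ (∅ : Set Ω) := by
    have h := Set.ncard_add_ncard_compl O
    rw [Nat.card_eq_fintype_card (α := Ω)] at h
    change O.ncard = Oᶜ.ncard at hO
    constructor <;> intro h0 <;> have h1 := congrArg Set.ncard h0 <;> rw [Set.ncard_empty] at h1 <;> omega
  obtain ⟨x, hx⟩ := Set.nonempty_iff_ne_empty.2 hO'.1
  obtain ⟨y, hy⟩ := Set.nonempty_iff_ne_empty.2 hO'.2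
  intro hco
  let P : Set (Set Ω) := {O, Oᶜ}
  let f : Ω → Prop := fun z => z ∈ O
  let K : Subgroup (Equiv.Perm Ω) := {
    carrier := {g | ∀ a b : Ω, (a ∈ O ↔ b ∈ O) ↔ (g a ∈ O ↔ g b ∈ O)}
    mul_mem' := fun {g h} hg hh a b => (hh a b).trans (hg (h a) (h b))
    one_mem' := fun a b => Iff.rfl
    inv_mem' := fun {g} hg a b => by simpa using (hg (g⁻¹ a) (g⁻¹ b)).symm }
  have hsmul : ∀ g : Equiv.Perm Ω, g ∈ MulAction.stabilizer (Equiv.Perm Ω) O ↔ ∀ a, (g a ∈ O ↔ a ∈ O) := by
    intro g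
    rw [MulAction.mem_stabilizer_set]
    rfl
  obtain ⟨e⟩ : Nonempty (↥O ≃ ↥Oᶜ) := Finite.card_eq.1 hO |>.map id
  let sigma : Equiv.Perm Ω := (Equiv.Set.sumCompl O).symm.trans ((Equiv.sumCongr e e.symm).trans ((Equiv.sumComm _ _).trans (Equiv.Set.sumCompl O)))
  have hsig : ∀ a, (sigma a ∈ O ↔ a ∉ O) := by
    intro a
    by_cases ha : a ∈ O
    · simp only [sigma, Equiv.trans_apply, Equiv.Set.sumCompl_symm_apply_of_mem ha, Equiv.sumCongr_apply, Sum.map_inl,
        Equiv.sumComm_apply, Sum.swap_inl, Equiv.Set.sumCompl_apply_inr]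
      exact ⟨fun h => absurd h (e ⟨a, ha⟩).2, fun h => absurd ha h⟩
    · simp only [sigma, Equiv.trans_apply, Equiv.Set.sumCompl_symm_apply_of_notMem ha, Equiv.sumCongr_apply, Sum.map_inr,
        Equiv.sumComm_apply, Sum.swap_inr, Equiv.Set.sumCompl_apply_inl]
      exact ⟨fun _ => ha, fun _ => (e.symm ⟨a, ha⟩).2⟩
  have hlt : MulAction.stabilizer (Equiv.Perm Ω) O < K := by
    refine lt_of_le_of_ne (fun g hg a b => ?_) (fun h => ?_)
    · rw [(hsmul g).1 hg a, (hsmul g).1 hg b]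
    · have hs : sigma ∈ K := fun a b => by rw [hsig, hsig]; tauto
      rw [← h] at hs
      exact absurd (((hsmul sigma).1 hs x).trans Iff.rfl) (by rw [hsig]; tauto)
  have htop := hco.2 K hlt
  have hK : Equiv.swap x y ∈ K := by rw [htop]; trivial
  obtain ⟨z, hzx, hzy⟩ : ∃ z : Ω, z ≠ x ∧ z ≠ y := by
    have h2 : ({x, y} : Finset Ω).card < (Finset.univ : Finset Ω).card := lt_of_le_of_lt Finset.card_le_two (by rw [Finset.card_univ]; omega)
    obtain ⟨z, -, hz⟩ := Finset.exists_mem_notMem_of_card_lt_card h2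
    simp only [Finset.mem_insert, Finset.mem_singleton, not_or] at hz
    exact ⟨z, hz.1, hz.2⟩
  have hy' : y ∉ O := hy
  have hk := hK x z
  rw [Equiv.swap_apply_left, Equiv.swap_apply_of_ne_of_ne hzx hzy] at hk
  tauto

end Cfsg.Agent.S5904
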