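import Cfsg.Statements.S5913
import Mathlib

set_option autoImplicit false
open Cfsg

namespace Cfsg.Agent.S5913

/-- Let S be a non-abelian simple group and n a natural number. Every normal subgroup N of the direct power S^n (functions Fin n → S) is a subproduct: there is a set T of coordinates such that N consists exactly of the elements whose coordinates outside T are trivial. In particular the minimal normal subgroups of S^n are its n factors. -/
theorem result {S : Type*} [Group S] [IsSimpleGroup S] (hS : ¬ IsMulCommutative S) (n : ℕ)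
    (N : Subgroup (Fin n → S)) [N.Normal] :
    ∃ T : Finset (Fin n), ∀ x : Fin n → S, x ∈ N ↔ ∀ i, i ∉ T → x i = 1 := by
  classical
  refine ⟨Finset.univ.filter (fun i => ∃ x ∈ N, x i ≠ 1), fun x => ⟨fun hx i hi => ?_, fun hx => ?_⟩⟩
  · by_contra h
    exact hi (Finset.mem_filter.2 ⟨Finset.mem_univ _, x, hx, h⟩)
  refine Subgroup.pi_mem_of_mulSingle_mem x (fun i => ?_)
  by_cases hi : ∃ y ∈ N, y i ≠ 1
  swap
  · rw [hx i (fun h => hi (Finset.mem_filter.1 h).2), Pi.mulSingle_one]
    exact one_mem _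
  obtain ⟨y, hy, hyi⟩ := hi
  haveI hnormal : (N.comap (MonoidHom.mulSingle (fun _ : Fin n => S) i)).Normal := ⟨by
    intro z hz g
    change Pi.mulSingle i (g * z * g⁻¹) ∈ N
    rw [Pi.mulSingle_mul, Pi.mulSingle_mul, Pi.mulSingle_inv]
    exact Subgroup.Normal.conj_mem ‹N.Normal› _ hz _⟩
  have hcen : Subgroup.center S = ⊥ := by
    refine ((inferInstance : (Subgroup.center S).Normal).eq_bot_or_eq_top).resolve_right (fun h => hS ⟨⟨fun a b => ?_⟩⟩)
    exact (Subgroup.mem_center_iff.1 (h ▸ Subgroup.mem_top a) b).symm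
  obtain ⟨s, hs⟩ : ∃ s, s * y i ≠ y i * s := by
    by_contra hc
    push Not at hc
    exact hyi (Subgroup.mem_bot.1 (hcen.le (Subgroup.mem_center_iff.2 hc)))
  have hmem : Pi.mulSingle i (s * y i * s⁻¹ * (y i)⁻¹) ∈ N := by
    have h1 : Pi.mulSingle i s * y * (Pi.mulSingle i s)⁻¹ * y⁻¹ ∈ N :=
      mul_mem (Subgroup.Normal.conj_mem ‹N.Normal› _ hy _) (inv_mem hy)
    convert h1 using 1
    funext j
    by_cases hj : j = i
    · subst hj; simp
    · simp [hj]
  rcases hnormal.eq_bot_or_eq_top with h | h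
  · have h2 : s * y i * s⁻¹ * (y i)⁻¹ ∈ (⊥ : Subgroup S) := h ▸ hmem
    rw [Subgroup.mem_bot, mul_inv_eq_one, mul_inv_eq_iff_eq_mul] at h2
    exact absurd h2 hs
  · exact Subgroup.mem_comap.1 (h ▸ Subgroup.mem_top (x i))

end Cfsg.Agent.S5913
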